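import Mathlib
import Cfsg.Prelude.Def_SolvableStructure
import Cfsg.Agent.Hall.Hall
import Cfsg.Agent.H10.Prim

set_option autoImplicit false
open Pointwise

/-!
Hall complement systems: simultaneous conjugation.
-/

namespace Cfsg.Agent.H95

/-- Two subgroups of coprime index multiply to the whole group. -/
theorem exists_mul_of_coprime_index {Γ : Type*} [Group Γ] [Finite Γ] (A B : Subgroup Γ)
    (h : A.index.Coprime B.index) (y : Γ) : ∃ a ∈ A, ∃ b ∈ B, y = a * b := by
  have hst : MulAction.stabilizer A ((1 : Γ) : Γ ⧸ B) = B.subgroupOf A := by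
    ext a
    rw [MulAction.mem_stabilizer_iff, Subgroup.mem_subgroupOf]
    show ((((a : Γ) * 1 : Γ) : Γ ⧸ B) = ((1 : Γ) : Γ ⧸ B)) ↔ _
    rw [mul_one, eq_comm, QuotientGroup.eq]
    simp
  have h1 : (MulAction.orbit A ((1 : Γ) : Γ ⧸ B)).ncard = B.relIndex A := by
    rw [← MulAction.index_stabilizer, hst]; rfl
  have h2 : B.relIndex A * A.index = (A ⊓ B).index := by
    rw [← Subgroup.inf_relIndex_left]
    exact Subgroup.relIndex_mul_index inf_le_left
  have h3 : A.relIndex B * B.index = (A ⊓ B).index := by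
    rw [← Subgroup.inf_relIndex_right]
    exact Subgroup.relIndex_mul_index inf_le_right
  have h4 : B.index ∣ B.relIndex A := by
    have : B.index ∣ B.relIndex A * A.index := by rw [h2, ← h3]; exact dvd_mul_left _ _
    exact h.symm.dvd_of_dvd_mul_right this
  have hne : B.relIndex A ≠ 0 := Subgroup.index_ne_zero_of_finite (H := B.subgroupOf A)
  have h5 : MulAction.orbit A ((1 : Γ) : Γ ⧸ B) = Set.univ := by
    apply Set.eq_of_subset_of_ncard_le (Set.subset_univ _)
    rw [Set.ncard_univ, h1, ← Subgroup.index_eq_card]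
    exact Nat.le_of_dvd (Nat.pos_of_ne_zero hne) h4
  have h6 : ((y : Γ) : Γ ⧸ B) ∈ MulAction.orbit A ((1 : Γ) : Γ ⧸ B) := by rw [h5]; trivial
  obtain ⟨a, ha⟩ := h6
  have ha' : (((a : Γ) * 1 : Γ) : Γ ⧸ B) = (y : Γ ⧸ B) := ha
  rw [mul_one, QuotientGroup.eq] at ha'
  exact ⟨a, a.2, _, ha', by group⟩

/-- Relative form. -/
theorem exists_mul_of_coprime_relIndex {G : Type*} [Group G] [Finite G] (M A B : Subgroup G)
    (h : (A.relIndex M).Coprime (B.relIndex M)) (y : G) (hy : y ∈ M) :
    ∃ a ∈ A ⊓ M, ∃ b ∈ B ⊓ M, y = a * b := by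
  obtain ⟨a, ha, b, hb, hab⟩ := exists_mul_of_coprime_index (A.subgroupOf M) (B.subgroupOf M) h ⟨y, hy⟩
  exact ⟨a, ⟨ha, a.2⟩, b, ⟨hb, b.2⟩, congrArg Subtype.val hab⟩

theorem relIndex_inf_of_coprime {G : Type*} [Group G] [Finite G] (M A B : Subgroup G)
    (h : (A.relIndex M).Coprime (B.relIndex M)) :
    (A ⊓ B).relIndex M = A.relIndex M * B.relIndex M := by
  have hne : ∀ X : Subgroup G, X.relIndex M ≠ 0 := fun X => Subgroup.index_ne_zero_of_finite (H := X.subgroupOf M)
  apply le_antisymm Subgroup.relIndex_inf_le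
  apply Nat.le_of_dvd (Nat.pos_of_ne_zero (hne _))
  exact h.mul_dvd_of_dvd_of_dvd (Subgroup.relIndex_dvd_of_le_left _ inf_le_left)
    (Subgroup.relIndex_dvd_of_le_left _ inf_le_right)

theorem mem_normalizer_iff_smul {G : Type*} [Group G] {A : Subgroup G} {g : G} :
    g ∈ Subgroup.normalizer (A : Set G) ↔ MulAut.conj g • A = A :=
  Subgroup.mem_normalizer_iff_map_conj_eq

theorem coprime_of_pow {p q : Nat.Primes} (h : p ≠ q) {a b : ℕ} (ha : ∃ k, a = (p : ℕ) ^ k)
    (hb : ∃ k, b = (q : ℕ) ^ k) : a.Coprime b := by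
  obtain ⟨k, rfl⟩ := ha
  obtain ⟨l, rfl⟩ := hb
  apply Nat.Coprime.pow
  rw [Nat.coprime_primes p.2 q.2]
  exact fun h' => h (Subtype.ext h')

/-- The relative index of a finite intersection of subgroups whose relative indices are powers of
distinct primes. -/
theorem relIndex_finset_inf {G : Type*} [Group G] [Finite G] (M : Subgroup G) (A : Nat.Primes → Subgroup G)
    (S : Finset Nat.Primes) (h : ∀ p ∈ S, ∃ k, (A p).relIndex M = (p : ℕ) ^ k) :
    (S.inf A).relIndex M = ∏ p ∈ S, (A p).relIndex M := by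
  classical
  induction S using Finset.induction_on with
  | empty => simp
  | insert p S hp ih =>
    have ih' := ih (fun q hq => h q (Finset.mem_insert_of_mem hq))
    rw [Finset.inf_insert, Finset.prod_insert hp, relIndex_inf_of_coprime, ih']
    rw [ih']
    apply Nat.Coprime.prod_right
    intro q hq
    exact coprime_of_pow (p := p) (q := q) (fun h' => hp (h' ▸ hq)) (h p (Finset.mem_insert_self _ _))
      (h q (Finset.mem_insert_of_mem hq))

/-- Simultaneous conjugation. -/
theorem exists_simul_conj {G : Type*} [Group G] [Finite G] (M : Subgroup G) (K L : Nat.Primes → Subgroup G)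
    (S : Finset Nat.Primes)
    (hc : ∀ p ∈ S, ∃ m ∈ M, MulAut.conj m • K p = L p)
    (hi : ∀ p ∈ S, ∃ k, (Subgroup.normalizer (K p : Set G)).relIndex M = (p : ℕ) ^ k) :
    ∃ m ∈ M, ∀ p ∈ S, MulAut.conj m • K p = L p := by
  classical
  induction S using Finset.induction_on with
  | empty => exact ⟨1, M.one_mem, by simp⟩
  | insert q S hq ih =>
    obtain ⟨x, hx, hxS⟩ := ih (fun p hp => hc p (Finset.mem_insert_of_mem hp))
      (fun p hp => hi p (Finset.mem_insert_of_mem hp))
    obtain ⟨y, hy, hyq⟩ := hc q (Finset.mem_insert_self _ _)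
    have hcop : ((Subgroup.normalizer (K q : Set G)).relIndex M).Coprime
        ((S.inf fun p => Subgroup.normalizer (K p : Set G)).relIndex M) := by
      rw [relIndex_finset_inf M _ S (fun p hp => hi p (Finset.mem_insert_of_mem hp))]
      apply Nat.Coprime.prod_right
      intro p hp
      exact coprime_of_pow (p := q) (q := p) (fun h' => hq (h' ▸ hp)) (hi q (Finset.mem_insert_self _ _))
        (hi p (Finset.mem_insert_of_mem hp))
    obtain ⟨a, ha, b, hb, hab⟩ := exists_mul_of_coprime_relIndex M _ _ hcop (y⁻¹ * x)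
      (M.mul_mem (M.inv_mem hy) hx)
    have hxb : x * b⁻¹ = y * a := by
      rw [mul_inv_eq_iff_eq_mul, mul_assoc, ← hab]; group
    refine ⟨x * b⁻¹, M.mul_mem hx (M.inv_mem hb.2), fun p hp => ?_⟩
    rcases Finset.mem_insert.mp hp with rfl | hp
    · rw [hxb, map_mul, mul_smul, ← hyq]
      congr 1
      exact mem_normalizer_iff_smul.mp ha.1
    · rw [map_mul, mul_smul, ← hxS p hp]
      congr 1
      apply mem_normalizer_iff_smul.mp
      apply Subgroup.inv_mem
      have hle : (S.inf fun p => Subgroup.normalizer (K p : Set G)) ≤ Subgroup.normalizer (K p : Set G) :=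
        Finset.inf_le hp
      exact hle hb.1

/-- The index condition in a complement system. -/
theorem index_eq_iff {G : Type*} [Group G] [Finite G] (p : ℕ) (hp : p.Prime) (H : Subgroup G) :
    H.index = p ^ (Nat.card G).factorization p ↔ (∃ k, H.index = p ^ k) ∧ ¬ p ∣ Nat.card H := by
  have hH0 : Nat.card H ≠ 0 := Nat.card_pos.ne'
  have hi0 : H.index ≠ 0 := Subgroup.index_ne_zero_of_finite
  have hmul := H.card_mul_index
  have hfac : (Nat.card G).factorization p = (Nat.card H).factorization p + H.index.factorization p := by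
    rw [← hmul, Nat.factorization_mul hH0 hi0]; rfl
  constructor
  · intro h
    refine ⟨⟨_, h⟩, fun hd => ?_⟩
    have h1 : H.index.factorization p = (Nat.card G).factorization p := by
      rw [h, hp.factorization_pow]; simp
    have h2 : 0 < (Nat.card H).factorization p := hp.factorization_pos_of_dvd hH0 hd
    omega
  · rintro ⟨⟨k, hk⟩, hd⟩
    have h1 : H.index.factorization p = k := by rw [hk, hp.factorization_pow]; simp
    have h2 : (Nat.card H).factorization p = 0 := Nat.factorization_eq_zero_of_not_dvd hd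
    rw [hfac, h1, h2, zero_add, hk]

/-- The set of primes dividing the order. -/
noncomputable def primesOf (G : Type*) [Group G] [Finite G] : Finset Nat.Primes :=
  (Nat.card G).primeFactors.subtype Nat.Prime

theorem mem_primesOf {G : Type*} [Group G] [Finite G] {p : Nat.Primes} :
    p ∈ primesOf G ↔ (p : ℕ) ∣ Nat.card G := by
  have h1 : p ∈ primesOf G ↔ (p : ℕ) ∈ (Nat.card G).primeFactors := Finset.mem_subtype
  rw [h1, Nat.mem_primeFactors]
  exact ⟨fun h => h.2.1, fun h => ⟨p.2, h, Nat.card_pos.ne'⟩⟩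

theorem eq_top_of_notMem {G : Type*} [Group G] [Finite G] {K : Nat.Primes → Subgroup G}
    (hK : Cfsg.IsComplementSystem K) {p : Nat.Primes} (hp : p ∉ primesOf G) : K p = ⊤ := by
  rw [mem_primesOf] at hp
  have := hK p
  rw [Nat.factorization_eq_zero_of_not_dvd hp, pow_zero] at this
  exact Subgroup.index_eq_one.mp this

theorem exists_conj {G : Type*} [Group G] [Finite G] [Group.IsSolvable G] {p : ℕ} (hp : p.Prime)
    {A B : Subgroup G} (hA : A.index = p ^ (Nat.card G).factorization p)
    (hB : B.index = p ^ (Nat.card G).factorization p) : ∃ g : G, MulAut.conj g • A = B := by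
  have hcard : ∀ X : Subgroup G, X.index = p ^ (Nat.card G).factorization p →
      Nat.card X = Nat.card G / p ^ (Nat.card G).factorization p := by
    intro X hX
    rw [← hX, ← X.card_mul_index]
    exact (Nat.mul_div_cancel _ (Nat.pos_of_ne_zero Subgroup.index_ne_zero_of_finite)).symm
  have hmul := A.card_mul_index
  rw [hA, hcard A hA] at hmul
  refine Hall.hall_conj _ _ hmul.symm ?_ A B (hcard A hA) (hcard B hB)
  rw [← hcard A hA]
  apply Nat.Coprime.pow_right
  rw [Nat.coprime_comm, hp.coprime_iff_not_dvd]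
  exact ((index_eq_iff p hp A).mp hA).2

/-- S0543. -/
theorem systems_conj {G : Type*} [Group G] [Finite G] [Group.IsSolvable G] (K L : Nat.Primes → Subgroup G)
    (hK : Cfsg.IsComplementSystem K) (hL : Cfsg.IsComplementSystem L) :
    ∃ g : G, ∀ p : Nat.Primes, MulAut.conj g • K p = L p := by
  obtain ⟨m, -, hm⟩ := exists_simul_conj ⊤ K L (primesOf G) (fun p _ => by
    obtain ⟨g, hg⟩ := exists_conj p.2 (hK p) (hL p)
    exact ⟨g, trivial, hg⟩) (fun p _ => by
    rw [Subgroup.relIndex_top_right]
    have h1 : (Subgroup.normalizer (K p : Set G)).index ∣ (p : ℕ) ^ (Nat.card G).factorization p := by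
      rw [← hK p]
      exact Subgroup.index_dvd_of_le Subgroup.le_normalizer
    obtain ⟨k, -, hk⟩ := (Nat.dvd_prime_pow p.2).mp h1
    exact ⟨k, hk⟩)
  refine ⟨m, fun p => ?_⟩
  by_cases hp : p ∈ primesOf G
  · exact hm p hp
  · rw [eq_top_of_notMem hK hp, eq_top_of_notMem hL hp]
    ext x
    rw [Hall.mem_conj_smul]; simp

theorem relIndex_dvd_of_le_normalizer {G : Type*} [Group G] {A D : Subgroup G}
    (h : D ≤ Subgroup.normalizer (A : Set G)) : A.relIndex D ∣ A.index := by
  have h1 : (A.subgroupOf (Subgroup.normalizer (A : Set G))).relIndex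
      (D.subgroupOf (Subgroup.normalizer (A : Set G))) = A.relIndex D :=
    Subgroup.relIndex_subgroupOf h
  rw [← h1]
  refine dvd_trans (Subgroup.relIndex_dvd_index_of_normal _ _) ?_
  exact Subgroup.relIndex_dvd_index_of_le Subgroup.le_normalizer

/-- S0544. -/
theorem systemNormalizer_nilpotent {G : Type*} [Group G] [Finite G] [Group.IsSolvable G]
    (K : Nat.Primes → Subgroup G) (hK : Cfsg.IsComplementSystem K) :
    Group.IsNilpotent (Cfsg.systemNormalizer K) := by
  set D := Cfsg.systemNormalizer K with hD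
  have hDn : ∀ p, D ≤ Subgroup.normalizer (K p : Set G) := fun p => iInf_le _ p
  have hN : ∀ p, ((K p).subgroupOf D).Normal := by
    intro p
    constructor
    intro x hx d
    rw [Subgroup.mem_subgroupOf] at hx ⊢
    exact ((Subgroup.mem_normalizer_iff.mp (hDn p d.2)) x).mp hx
  have hP : ∀ p : Nat.Primes, IsPGroup (p : ℕ) (D ⧸ (K p).subgroupOf D) := by
    intro p
    have h1 : (K p).relIndex D ∣ (K p).index := relIndex_dvd_of_le_normalizer (hDn p)
    rw [hK p] at h1
    obtain ⟨k, -, hk⟩ := (Nat.dvd_prime_pow p.2).mp h1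
    apply IsPGroup.of_card (n := k)
    rw [← Subgroup.index_eq_card]
    exact hk
  let f : D →* ∀ p : primesOf G, (D ⧸ (K (p : Nat.Primes)).subgroupOf D) :=
    MonoidHom.pi fun p => QuotientGroup.mk' _
  have hf : Function.Injective f := by
    rw [injective_iff_map_eq_one]
    intro x hx
    have hmem : ∀ p ∈ primesOf G, (x : G) ∈ K p := by
      intro p hp
      have h1 := congrFun hx ⟨p, hp⟩
      have h2 : ((x : D) : D ⧸ (K p).subgroupOf D) = 1 := h1
      rw [QuotientGroup.eq_one_iff] at h2
      exact h2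
    rw [← orderOf_eq_one_iff]
    by_contra hne
    obtain ⟨q, hq, hqd⟩ := Nat.exists_prime_and_dvd hne
    rw [← Subgroup.orderOf_coe] at hqd
    have hqG : (⟨q, hq⟩ : Nat.Primes) ∈ primesOf G := mem_primesOf.mpr (hqd.trans (orderOf_dvd_natCard _))
    have h1 := ((index_eq_iff q hq (K ⟨q, hq⟩)).mp (hK ⟨q, hq⟩)).2
    apply h1
    refine hqd.trans ?_
    rw [← Subgroup.orderOf_mk (x : G) (hmem _ hqG)]
    exact orderOf_dvd_natCard _
  have hnil : ∀ p : primesOf G, Group.IsNilpotent (D ⧸ (K (p : Nat.Primes)).subgroupOf D) := by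
    intro p
    have : Fact ((p : Nat.Primes) : ℕ).Prime := ⟨(p : Nat.Primes).2⟩
    exact (hP p).isNilpotent
  have h1 : Group.IsNilpotent (∀ p : primesOf G, (D ⧸ (K (p : Nat.Primes)).subgroupOf D)) := inferInstance
  exact Subgroup.isNilpotent_of_ker_le_center f (by rw [(MonoidHom.ker_eq_bot_iff f).mpr hf]; exact bot_le)

theorem relIndex_sup_of_normal {G : Type*} [Group G] [Finite G] (A N : Subgroup G) [N.Normal] :
    A.relIndex (A ⊔ N) = A.relIndex N := by
  have hrel : ∀ X Y : Subgroup G, X ≤ Y → X.relIndex Y * Nat.card X = Nat.card Y := by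
    intro X Y h
    have h4 := (X.subgroupOf Y).index_mul_card
    rw [Nat.card_congr (Subgroup.subgroupOfEquivOfLe h).toEquiv] at h4
    exact h4
  have h1 := hrel A (A ⊔ N) le_sup_left
  have h2 := hrel N (A ⊔ N) le_sup_right
  rw [Subgroup.relIndex_sup_right] at h2
  have h3 := hrel (A ⊓ N) A inf_le_left
  have h4 := hrel (A ⊓ N) N inf_le_right
  rw [Subgroup.inf_relIndex_left] at h3
  rw [Subgroup.inf_relIndex_right] at h4
  have h5 : 0 < Nat.card A := Nat.card_pos
  apply Nat.eq_of_mul_eq_mul_right h5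
  rw [h1, ← h2, ← h4, ← h3]
  ring

theorem isComplementSystem_map {G : Type*} [Group G] [Finite G] (K : Nat.Primes → Subgroup G)
    (hK : Cfsg.IsComplementSystem K) (N : Subgroup G) [N.Normal] :
    Cfsg.IsComplementSystem (fun p => (K p).map (QuotientGroup.mk' N)) := by
  intro p
  refine (index_eq_iff p p.2 _).mpr ⟨?_, fun hd => ?_⟩
  · have h1 : ((K p).map (QuotientGroup.mk' N)).index ∣ (p : ℕ) ^ (Nat.card G).factorization p := by
      rw [← hK p]
      exact Subgroup.index_map_dvd _ (QuotientGroup.mk'_surjective N)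
    obtain ⟨k, -, hk⟩ := (Nat.dvd_prime_pow p.2).mp h1
    exact ⟨k, hk⟩
  · exact ((index_eq_iff p p.2 _).mp (hK p)).2 (hd.trans (Subgroup.card_map_dvd _ _))

theorem index_conj_smul {G : Type*} [Group G] (g : G) (A : Subgroup G) :
    (MulAut.conj g • A : Subgroup G).index = A.index := by
  exact Subgroup.index_map_equiv A (MulAut.conj g)

/-- S0545. -/
theorem systemNormalizer_map {G : Type*} [Group G] [Finite G] [Group.IsSolvable G]
    (K : Nat.Primes → Subgroup G) (hK : Cfsg.IsComplementSystem K) (N : Subgroup G) [hNn : N.Normal] :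
    Cfsg.systemNormalizer (fun p => (K p).map (QuotientGroup.mk' N)) =
      (Cfsg.systemNormalizer K).map (QuotientGroup.mk' N) := by
  apply le_antisymm
  · intro xq hxq
    obtain ⟨x, rfl⟩ := QuotientGroup.mk'_surjective N xq
    have hx : ∀ p, MulAut.conj x • K p ≤ K p ⊔ N := by
      intro p
      have h1 := Subgroup.mem_iInf.mp hxq p
      rw [mem_normalizer_iff_smul] at h1
      have h2 : MulAut.conj x • K p ≤ ((K p).map (QuotientGroup.mk' N)).comap (QuotientGroup.mk' N) := by
        rw [← Subgroup.map_le_iff_le_comap, Hall.map_conj_smul, h1]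
      rw [Subgroup.comap_map_eq, QuotientGroup.ker_mk'] at h2
      exact h2
    have hc : ∀ p ∈ primesOf G, ∃ m ∈ N, MulAut.conj m • (MulAut.conj x • K p) = K p := by
      intro p _
      -- conjugate inside `K p ⊔ N`
      set U := K p ⊔ N with hU
      have hKU : K p ≤ U := le_sup_left
      have hi : ∀ A : Subgroup G, A.index = (p : ℕ) ^ (Nat.card G).factorization p → A ≤ U →
          (A.subgroupOf U).index = (p : ℕ) ^ (Nat.card U).factorization p := by
        intro A hA hAU
        refine (index_eq_iff p p.2 _).mpr ⟨?_, fun hd => ?_⟩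
        · have h1 : A.relIndex U ∣ (p : ℕ) ^ (Nat.card G).factorization p := by
            rw [← hA]
            exact Subgroup.relIndex_dvd_index_of_le hAU
          obtain ⟨k, -, hk⟩ := (Nat.dvd_prime_pow p.2).mp h1
          exact ⟨k, hk⟩
        · rw [Nat.card_congr (Subgroup.subgroupOfEquivOfLe hAU).toEquiv] at hd
          exact ((index_eq_iff p p.2 _).mp hA).2 hd
      have hx2 : (MulAut.conj x • K p : Subgroup G).index = (p : ℕ) ^ (Nat.card G).factorization p := by
        rw [index_conj_smul]; exact hK p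
      obtain ⟨u, hu⟩ := exists_conj p.2 (hi _ hx2 (hx p)) (hi _ (hK p) hKU)
      have hu' := Hall.conj_of_subgroupOf (hx p) hKU u hu
      obtain ⟨k, hk, n, hn, hkn⟩ := Subgroup.mem_sup_of_normal_right.mp u.2
      refine ⟨n, hn, ?_⟩
      rw [← hkn, map_mul, mul_smul] at hu'
      have h3 : MulAut.conj k • K p = K p := mem_normalizer_iff_smul.mp (Subgroup.le_normalizer hk)
      have h4 : MulAut.conj k • (MulAut.conj n • (MulAut.conj x • K p)) = MulAut.conj k • K p := by
        rw [hu', h3]
      exact smul_left_cancel _ h4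
    have hi : ∀ p ∈ primesOf G, ∃ k, (Subgroup.normalizer ((MulAut.conj x • K p : Subgroup G) : Set G)).relIndex N
        = (p : ℕ) ^ k := by
      intro p _
      have h1 : (Subgroup.normalizer ((MulAut.conj x • K p : Subgroup G) : Set G)).relIndex N ∣
          (p : ℕ) ^ (Nat.card G).factorization p := by
        refine dvd_trans (Subgroup.relIndex_dvd_of_le_left _ Subgroup.le_normalizer) ?_
        rw [← hK p, ← index_conj_smul x (K p)]
        have h2 : (MulAut.conj x • K p : Subgroup G).relIndex N = (MulAut.conj x • K p : Subgroup G).relIndex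
            ((MulAut.conj x • K p : Subgroup G) ⊔ N) := by
          exact (relIndex_sup_of_normal _ _).symm
        rw [h2]
        exact Subgroup.relIndex_dvd_index_of_le le_sup_left
      obtain ⟨k, -, hk⟩ := (Nat.dvd_prime_pow p.2).mp h1
      exact ⟨k, hk⟩
    obtain ⟨m, hm, hmK⟩ := exists_simul_conj N (fun p => MulAut.conj x • K p) K (primesOf G) hc hi
    refine ⟨m * x, ?_, ?_⟩
    · refine Subgroup.mem_iInf.mpr fun p => ?_
      by_cases hp : p ∈ primesOf G
      · rw [mem_normalizer_iff_smul, map_mul, mul_smul]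
        exact hmK p hp
      · rw [eq_top_of_notMem hK hp, Subgroup.normalizer_eq_top]; trivial
    · rw [map_mul]
      have : (QuotientGroup.mk' N) m = 1 := by
        rw [← MonoidHom.mem_ker, QuotientGroup.ker_mk']; exact hm
      rw [this, one_mul]
  · rintro _ ⟨x, hx, rfl⟩
    refine Subgroup.mem_iInf.mpr fun p => ?_
    rw [mem_normalizer_iff_smul, ← Hall.map_conj_smul]
    rw [mem_normalizer_iff_smul.mp (Subgroup.mem_iInf.mp hx p)]

/-- S0546. -/
theorem normalClosure_systemNormalizer {G : Type*} [Group G] [Finite G] [Group.IsSolvable G]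
    (K : Nat.Primes → Subgroup G) (hK : Cfsg.IsComplementSystem K) :
    Subgroup.normalClosure ((Cfsg.systemNormalizer K : Subgroup G) : Set G) = ⊤ := by
  by_contra hne
  obtain ⟨M, hM, hle, hidx⟩ := Hall.exists_normal_prime_index
    (Subgroup.normalClosure ((Cfsg.systemNormalizer K : Subgroup G) : Set G)) hne inferInstance
  have hDM : Cfsg.systemNormalizer K ≤ M := (Subgroup.subset_normalClosure).trans hle
  have h1 := systemNormalizer_map K hK M
  have h2 : (Cfsg.systemNormalizer K).map (QuotientGroup.mk' M) = ⊥ := by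
    rw [Subgroup.map_eq_bot_iff, QuotientGroup.ker_mk']; exact hDM
  have : Fact M.index.Prime := ⟨hidx⟩
  have hcyc : IsCyclic (G ⧸ M) := isCyclic_of_prime_card (p := M.index) (Subgroup.index_eq_card M).symm
  have hcomm : ∀ a b : G ⧸ M, a * b = b * a := fun a b => hcyc.isMulCommutative.is_comm.comm a b
  have h3 : Cfsg.systemNormalizer (fun p => (K p).map (QuotientGroup.mk' M)) = ⊤ := by
    rw [eq_top_iff]
    intro x _
    refine Subgroup.mem_iInf.mpr fun p => ?_
    rw [Subgroup.mem_normalizer_iff]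
    intro y
    rw [hcomm x y, mul_inv_cancel_right]
  rw [h2, h3] at h1
  have h4 := congrArg (fun H : Subgroup (G ⧸ M) => Nat.card H) h1
  simp only [Subgroup.card_top, Subgroup.card_bot] at h4
  rw [← Subgroup.index_eq_card] at h4
  rw [h4] at hidx
  exact Nat.not_prime_one hidx

end Cfsg.Agent.H95
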