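import Mathlib
import Cfsg.Prelude.Def_SolvableStructure
import Cfsg.Agent.H95.HallSys
import Cfsg.Agent.H30.Carter
import Cfsg.Agent.Solv.Core

set_option autoImplicit false
open Pointwise

/-!
Carter subgroups and system normalizers.
-/

namespace Cfsg.Agent.H95

universe u

/-- A complement system reduces into a subgroup. -/
def Reduces {G : Type u} [Group G] (K : Nat.Primes → Subgroup G) (C : Subgroup G) : Prop :=
  ∀ p : Nat.Primes, ∃ k, (K p).relIndex C = (p : ℕ) ^ k

theorem pPrimeCore_index_of_nilpotent {N : Type u} [Group N] [Finite N] [Group.IsNilpotent N] {p : ℕ}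
    (hp : p.Prime) : ∃ k, (Cfsg.pPrimeCore p N).index = p ^ k := by
  have : Fact p.Prime := ⟨hp⟩
  obtain ⟨H, hH⟩ := Hall.hall_exists (G := N) (Nat.card N / p ^ (Nat.card N).factorization p)
    (p ^ (Nat.card N).factorization p) (Nat.div_mul_cancel (Nat.ordProj_dvd _ _)).symm
    (Nat.Coprime.pow_right _ (Nat.coprime_ordCompl hp Nat.card_pos.ne').symm)
  have hidx : H.index = p ^ (Nat.card N).factorization p := by
    have h1 := H.card_mul_index
    have h2 := Nat.div_mul_cancel (Nat.ordProj_dvd (Nat.card N) p)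
    rw [hH] at h1
    have h3 : 0 < Nat.card N / p ^ (Nat.card N).factorization p := by
      rw [← hH]; exact Nat.card_pos
    exact Nat.eq_of_mul_eq_mul_left h3 (h1.trans h2.symm)
  have hcop : (Nat.card H).Coprime p := by
    rw [hH]; exact (Nat.coprime_ordCompl hp Nat.card_pos.ne').symm
  have hn : H.Normal := H30.normal_of_isNilpotent_of_coprime (by
    rw [hidx]; exact Nat.Coprime.pow_right _ hcop)
  have hle : H ≤ Cfsg.pPrimeCore p N := Solv.le_pPrimeCore hn hcop
  have h4 : (Cfsg.pPrimeCore p N).index ∣ p ^ (Nat.card N).factorization p := by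
    rw [← hidx]; exact Subgroup.index_dvd_of_le hle
  obtain ⟨k, -, hk⟩ := (Nat.dvd_prime_pow hp).mp h4
  exact ⟨k, hk⟩

/-- Every nilpotent subgroup has a complement system reducing into it. -/
theorem exists_reduces {G : Type u} [Group G] [Finite G] [Group.IsSolvable G] (C : Subgroup G)
    (hC : Group.IsNilpotent C) : ∃ K : Nat.Primes → Subgroup G, Cfsg.IsComplementSystem K ∧ Reduces K C ∧
      ∀ p : Nat.Primes, (Cfsg.pPrimeCore p C).map C.subtype ≤ K p := by
  have key : ∀ p : Nat.Primes, ∃ K : Subgroup G, K.index = (p : ℕ) ^ (Nat.card G).factorization p ∧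
      (∃ k, K.relIndex C = (p : ℕ) ^ k) ∧ (Cfsg.pPrimeCore p C).map C.subtype ≤ K := by
    intro p
    have hp := p.2
    have : Fact (p : ℕ).Prime := ⟨hp⟩
    have hcop : (Nat.card ((Cfsg.pPrimeCore p C).map C.subtype)).Coprime
        ((p : ℕ) ^ (Nat.card G).factorization p) := by
      rw [Subgroup.card_map_of_injective C.subtype_injective]
      exact Nat.Coprime.pow_right _ (Solv.pPrimeCore_card_coprime (p : ℕ))
    obtain ⟨K, hK, hle⟩ := Hall.hall_exists_ge (G := G) (Nat.card G / (p : ℕ) ^ (Nat.card G).factorization p)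
      ((p : ℕ) ^ (Nat.card G).factorization p) (Nat.div_mul_cancel (Nat.ordProj_dvd _ _)).symm
      (Nat.Coprime.pow_right _ (Nat.coprime_ordCompl hp Nat.card_pos.ne').symm) _ hcop
    refine ⟨K, ?_, ?_, hle⟩
    · have h1 := K.card_mul_index
      have h2 := Nat.div_mul_cancel (Nat.ordProj_dvd (Nat.card G) p)
      rw [hK] at h1
      have h3 : 0 < Nat.card G / (p : ℕ) ^ (Nat.card G).factorization p := by
        rw [← hK]; exact Nat.card_pos
      exact Nat.eq_of_mul_eq_mul_left h3 (h1.trans h2.symm)
    · obtain ⟨k, hk⟩ := pPrimeCore_index_of_nilpotent (N := C) hp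
      have h4 : K.relIndex C ∣ (p : ℕ) ^ k := by
        have h5 : K.relIndex C ∣ ((Cfsg.pPrimeCore p C).map C.subtype).relIndex C :=
          Subgroup.relIndex_dvd_of_le_left _ hle
        have h6 : ((Cfsg.pPrimeCore p C).map C.subtype).relIndex C = (Cfsg.pPrimeCore p C).index := by
          unfold Subgroup.relIndex
          rw [Subgroup.subgroupOf, Subgroup.comap_map_eq_self_of_injective C.subtype_injective]
        rwa [h6, hk] at h5
      obtain ⟨l, -, hl⟩ := (Nat.dvd_prime_pow hp).mp h4
      exact ⟨l, hl⟩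
  choose K hK using key
  exact ⟨K, fun p => (hK p).1, fun p => (hK p).2.1, fun p => (hK p).2.2⟩

theorem relIndex_sup_right_of_le {G : Type u} [Group G] (X C N : Subgroup G) [N.Normal] (h : N ≤ X) :
    X.relIndex (C ⊔ N) = X.relIndex C := by
  have hX : (X.map (QuotientGroup.mk' N)).comap (QuotientGroup.mk' N) = X := by
    rw [Subgroup.comap_map_eq, QuotientGroup.ker_mk', sup_eq_left.mpr h]
  have hmap : (C ⊔ N).map (QuotientGroup.mk' N) = C.map (QuotientGroup.mk' N) := by
    rw [Subgroup.map_sup, sup_eq_left]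
    have : N.map (QuotientGroup.mk' N) = ⊥ := by
      rw [Subgroup.map_eq_bot_iff, QuotientGroup.ker_mk']
    rw [this]; exact bot_le
  rw [← hX, Subgroup.relIndex_comap, Subgroup.relIndex_comap, hmap]

theorem le_of_coprime_index {G : Type u} [Group G] [Finite G] (N X : Subgroup G) [N.Normal]
    (h : (Nat.card N).Coprime X.index) : N ≤ X := by
  rw [← Subgroup.relIndex_eq_one]
  have h1 : X.relIndex N ∣ X.index := by
    rw [← relIndex_sup_of_normal]; exact Subgroup.relIndex_dvd_index_of_le le_sup_left
  exact Nat.eq_one_of_dvd_coprimes h (Subgroup.relIndex_dvd_card X N) h1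

theorem systemNormalizer_le_carter (n : ℕ) : ∀ (G : Type u) [Group G] [Finite G] [Group.IsSolvable G],
    Nat.card G = n → ∀ (C : Subgroup G) (K : Nat.Primes → Subgroup G), H30.IsCarterIn ⊤ C →
    Cfsg.IsComplementSystem K → Reduces K C → Cfsg.systemNormalizer K ≤ C := by
  induction n using Nat.strong_induction_on with
  | _ n ih =>
  intro G _ _ _ hn C K hC hK hred
  by_cases htriv : Subsingleton G
  · intro x _
    rw [Subsingleton.elim x 1]; exact C.one_mem
  have : Nontrivial G := not_subsingleton_iff_nontrivial.mp htriv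
  obtain ⟨q, N, hq, hNn, hNb, hNE, hmin⟩ := H30.exists_minimal_normal G
  have : Fact q.Prime := ⟨hq⟩
  have hNq : IsPGroup q N := H30.isPGroup_of_isElementaryAbelian hNE
  obtain ⟨d, hd⟩ := IsPGroup.iff_card.mp hNq
  have hNcomm : ∀ a ∈ N, ∀ b ∈ N, a * b = b * a := (H30.isElementaryAbelian_iff.1 hNE).1
  have hcarter : ∀ X : Subgroup G, H30.CarterHolds X := fun X =>
    H30.carterHolds_of_subtype (H30.carter X)
  -- the quotient
  have hquot : Cfsg.systemNormalizer K ≤ C ⊔ N := by
    have hlt : Nat.card (G ⧸ N) < n := by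
      rw [← hn, ← N.card_mul_index, Subgroup.index_eq_card]
      have h1 : 1 < Nat.card N := by
        rw [Finite.one_lt_card_iff_nontrivial]; exact (Subgroup.nontrivial_iff_ne_bot N).mpr hNb
      exact (Nat.lt_mul_iff_one_lt_left Nat.card_pos).mpr h1
    have hcomapmap : ∀ X : Subgroup G, (X.map (QuotientGroup.mk' N)).comap (QuotientGroup.mk' N) = X ⊔ N := by
      intro X; rw [Subgroup.comap_map_eq, QuotientGroup.ker_mk']
    have h1 : Cfsg.systemNormalizer (fun p => (K p).map (QuotientGroup.mk' N)) ≤ C.map (QuotientGroup.mk' N) := by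
      refine ih _ hlt (G ⧸ N) rfl _ _ ⟨le_top, ?_, ?_⟩ (isComplementSystem_map K hK N) ?_
      · have := hC.2.1
        exact Group.nilpotent_of_surjective ((QuotientGroup.mk' N).subgroupMap C)
          ((QuotientGroup.mk' N).subgroupMap_surjective C)
      · intro gq _ hgq
        obtain ⟨g, rfl⟩ := QuotientGroup.mk'_surjective N gq
        have h2 : g ∈ C ⊔ N := by
          refine H30.carter_sup_selfNormalizing (K := ⊤) le_top hC (fun _ => hcarter _) g trivial ?_
          rw [H30.mem_normalizer_iff_conj_smul] at hgq ⊢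
          rw [← Hall.map_conj_smul] at hgq
          have h3 := congrArg (Subgroup.comap (QuotientGroup.mk' N)) hgq
          rw [hcomapmap, hcomapmap] at h3
          rw [Hall.conj_smul_sup, Hall.conj_smul_normal g N]
          exact h3
        rw [← hcomapmap] at h2
        exact h2
      · intro p
        obtain ⟨k, hk⟩ := hred p
        have h2 : ((K p).map (QuotientGroup.mk' N)).relIndex (C.map (QuotientGroup.mk' N)) ∣ (p : ℕ) ^ k := by
          rw [← Subgroup.relIndex_comap, hcomapmap, ← hk]
          exact Subgroup.relIndex_dvd_of_le_left _ le_sup_left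
        obtain ⟨l, -, hl⟩ := (Nat.dvd_prime_pow p.2).mp h2
        exact ⟨l, hl⟩
    rw [systemNormalizer_map K hK N] at h1
    have h2 := Subgroup.comap_mono (f := QuotientGroup.mk' N) h1
    rw [hcomapmap, hcomapmap] at h2
    exact le_sup_left.trans h2
  by_cases htop : C ⊔ N = ⊤
  · by_cases hNC : N ≤ C
    · rw [sup_eq_left.mpr hNC] at htop
      rw [htop]; exact le_top
    · have hsup' : N ⊔ C = ⊤ := by rw [sup_comm]; exact htop
      have hinfn := H30.inf_normal_of_sup_eq_top hNcomm hsup'
      have hinf : C ⊓ N = ⊥ := by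
        rcases hmin (C ⊓ N) hinfn inf_le_right with h | h
        · exact h
        · exact absurd (inf_eq_right.mp h) hNC
      have hCi : C.index = Nat.card N := by
        have h1 : Subgroup.IsComplement' N C := by
          apply Subgroup.isComplement'_of_disjoint_and_mul_eq_univ
          · rw [disjoint_iff, inf_comm]; exact hinf
          · rw [← Subgroup.normal_mul, hsup']; rfl
        exact h1.index_eq_card
      have hKq1 := hK ⟨q, hq⟩
      have hKq2 := ((index_eq_iff q hq _).mp hKq1).2
      have hKC : K ⟨q, hq⟩ ≤ C := by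
        have h1 : (K ⟨q, hq⟩ ⊓ C).relIndex (K ⟨q, hq⟩) = 1 := by
          obtain ⟨k, hk⟩ := hred ⟨q, hq⟩
          have h2 : (K ⟨q, hq⟩ ⊓ C).index = q ^ (k + d) := by
            rw [← Subgroup.relIndex_mul_index (inf_le_right : K ⟨q, hq⟩ ⊓ C ≤ C), Subgroup.inf_relIndex_right,
              hk, hCi, hd, pow_add]
          have h3 : (K ⟨q, hq⟩ ⊓ C).relIndex (K ⟨q, hq⟩) ∣ q ^ (k + d) := by
            rw [← h2]; exact Subgroup.relIndex_dvd_index_of_le inf_le_left
          have h4 : (Nat.card (K ⟨q, hq⟩)).Coprime (q ^ (k + d)) :=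
            Nat.Coprime.pow_right _ (Nat.Coprime.symm ((Nat.Prime.coprime_iff_not_dvd hq).mpr hKq2))
          exact Nat.eq_one_of_dvd_coprimes h4 (Subgroup.relIndex_dvd_card _ _) h3
        exact (Subgroup.relIndex_eq_one.mp h1).trans inf_le_right
      have hCN : C ≤ Subgroup.normalizer (K ⟨q, hq⟩ : Set G) := by
        have hnil := hC.2.1
        have h1 : ((K ⟨q, hq⟩).subgroupOf C).Normal := by
          apply H30.normal_of_isNilpotent_of_coprime
          obtain ⟨k, hk⟩ := hred ⟨q, hq⟩
          have h2 : ((K ⟨q, hq⟩).subgroupOf C).index = q ^ k := hk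
          rw [h2, Nat.card_congr (Subgroup.subgroupOfEquivOfLe hKC).toEquiv]
          exact Nat.Coprime.pow_right _ (Nat.Coprime.symm ((Nat.Prime.coprime_iff_not_dvd hq).mpr hKq2))
        exact (Subgroup.normal_subgroupOf_iff_le_normalizer hKC).mp h1
      set X := Subgroup.normalizer (K ⟨q, hq⟩ : Set G) with hX
      have hDX : Cfsg.systemNormalizer K ≤ X := iInf_le _ (⟨q, hq⟩ : Nat.Primes)
      have hXsup : N ⊔ X = ⊤ := by
        rw [eq_top_iff, ← hsup']; exact sup_le_sup_left hCN N
      have hXn := H30.inf_normal_of_sup_eq_top hNcomm hXsup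
      rcases hmin (X ⊓ N) hXn inf_le_right with h | h
      · have h1 := H30.card_of_sup_inf hXsup h
        have h2 := H30.card_of_sup_inf hsup' hinf
        have h3 : C = X := Subgroup.eq_of_le_of_card_ge hCN (by rw [h1, h2])
        rw [h3]; exact hDX
      · have hNX : N ≤ X := inf_eq_right.mp h
        have hXtop : X = ⊤ := by rw [← hXsup, sup_eq_right.mpr hNX]
        have hKn : (K ⟨q, hq⟩).Normal := Subgroup.normalizer_eq_top_iff.mp hXtop
        have hpq : IsPGroup q (G ⧸ K ⟨q, hq⟩) := by
          apply IsPGroup.of_card (n := (Nat.card G).factorization q)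
          rw [← Subgroup.index_eq_card]; exact hKq1
        have hnilq : Group.IsNilpotent (G ⧸ K ⟨q, hq⟩) := hpq.isNilpotent
        have hCtop : C = ⊤ := by
          refine H30.eq_of_quotient_nilpotent (N := K ⟨q, hq⟩) hKC le_top ?_ hC.2.2
          infer_instance
        rw [hCtop]; exact le_top
  · -- restrict to `C ⊔ N`
    set H := C ⊔ N with hH
    have hlt : Nat.card H < n := by
      rw [← hn]
      refine lt_of_le_of_ne (Nat.card_le_card_of_injective _ H.subtype_injective) ?_
      intro h
      exact htop (Subgroup.eq_top_of_card_eq H h)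
    have hCH : C ≤ H := le_sup_left
    have hrel : ∀ p : Nat.Primes, ∃ k, (K p).relIndex H = (p : ℕ) ^ k := by
      intro p
      obtain ⟨k, hk⟩ := hred p
      by_cases hpq : (p : ℕ) = q
      · have h1 : (K p).relIndex H ∣ q ^ (k + d) := by
          have h2 : (K p ⊓ C).relIndex H = (K p ⊓ C).relIndex C * C.relIndex H :=
            (Subgroup.relIndex_mul_relIndex _ _ _ inf_le_right hCH).symm
          have h3 : C.relIndex H ∣ q ^ d := by
            rw [hH, relIndex_sup_of_normal, ← hd]; exact Subgroup.relIndex_dvd_card _ _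
          have h4 : (K p).relIndex H ∣ (K p ⊓ C).relIndex H := Subgroup.relIndex_dvd_of_le_left _ inf_le_left
          refine h4.trans ?_
          rw [h2, Subgroup.inf_relIndex_right, hk, hpq, pow_add]
          exact Nat.mul_dvd_mul_left _ h3
        obtain ⟨l, -, hl⟩ := (Nat.dvd_prime_pow hq).mp h1
        exact ⟨l, by rw [hl, hpq]⟩
      · have hNK : N ≤ K p := by
          apply le_of_coprime_index
          rw [hd, hK p]
          exact Nat.Coprime.pow _ _ ((Nat.coprime_primes hq p.2).mpr (Ne.symm hpq))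
        exact ⟨k, by rw [hH, relIndex_sup_right_of_le _ _ _ hNK, hk]⟩
    have hCH2 : H30.IsCarterIn ⊤ (C.subgroupOf H) := H30.isCarterIn_subtype (hC.mono hCH le_top)
    have hKH : Cfsg.IsComplementSystem (fun p => (K p).subgroupOf H) := by
      intro p
      refine (index_eq_iff p p.2 _).mpr ⟨hrel p, fun hd => ?_⟩
      apply ((index_eq_iff p p.2 _).mp (hK p)).2
      refine hd.trans ?_
      exact Subgroup.card_comap_dvd_of_injective (K p) H.subtype H.subtype_injective
    have hres := ih _ hlt H rfl (C.subgroupOf H) (fun p => (K p).subgroupOf H) hCH2 hKH (by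
      intro p
      obtain ⟨k, hk⟩ := hred p
      exact ⟨k, by rw [Subgroup.relIndex_subgroupOf hCH, hk]⟩)
    intro x hx
    have hxH : x ∈ H := hquot hx
    have h1 : (⟨x, hxH⟩ : H) ∈ Cfsg.systemNormalizer (fun p => (K p).subgroupOf H) := by
      refine Subgroup.mem_iInf.mpr fun p => ?_
      have h2 := Subgroup.mem_iInf.mp hx p
      rw [Subgroup.mem_normalizer_iff] at h2 ⊢
      intro y
      exact h2 y
    exact hres h1

theorem isCarter_iff {G : Type u} [Group G] {C : Subgroup G} :
    Cfsg.IsCarterSubgroup C ↔ H30.IsCarterIn ⊤ C := by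
  constructor
  · rintro ⟨h1, h2⟩
    exact ⟨le_top, h1, fun g _ hg => h2 ▸ hg⟩
  · rintro ⟨-, h1, h2⟩
    exact ⟨h1, le_antisymm (fun g hg => h2 g trivial hg) Subgroup.le_normalizer⟩

theorem systemNormalizer_conj {G : Type u} [Group G] (K L : Nat.Primes → Subgroup G) (g : G)
    (h : ∀ p, MulAut.conj g • K p = L p) : Cfsg.systemNormalizer L = MulAut.conj g • Cfsg.systemNormalizer K := by
  ext x
  rw [Hall.mem_conj_smul]
  have h1 : ∀ p, x ∈ Subgroup.normalizer (L p : Set G) ↔ g⁻¹ * x * g ∈ Subgroup.normalizer (K p : Set G) := by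
    intro p
    rw [mem_normalizer_iff_smul, mem_normalizer_iff_smul, ← h p, map_mul, map_mul, mul_smul, mul_smul, map_inv,
      inv_smul_eq_iff]
  constructor
  · intro hx
    exact Subgroup.mem_iInf.mpr fun p => (h1 p).mp (Subgroup.mem_iInf.mp hx p)
  · intro hx
    exact Subgroup.mem_iInf.mpr fun p => (h1 p).mpr (Subgroup.mem_iInf.mp hx p)

/-- S0569, first half. -/
theorem carter_contains {G : Type u} [Group G] [Finite G] [Group.IsSolvable G] (C : Subgroup G)
    (hC : Cfsg.IsCarterSubgroup C) :
    ∃ K : Nat.Primes → Subgroup G, Cfsg.IsComplementSystem K ∧ Cfsg.systemNormalizer K ≤ C := by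
  obtain ⟨K, hK, hred, -⟩ := exists_reduces C hC.1
  exact ⟨K, hK, systemNormalizer_le_carter _ G rfl C K (isCarter_iff.mp hC) hK hred⟩

/-- S0569, second half. -/
theorem contained_in_carter {G : Type u} [Group G] [Finite G] [Group.IsSolvable G]
    (K : Nat.Primes → Subgroup G) (hK : Cfsg.IsComplementSystem K) :
    ∃ C : Subgroup G, Cfsg.IsCarterSubgroup C ∧ Cfsg.systemNormalizer K ≤ C := by
  obtain ⟨C, hC⟩ := (H30.carter G).1
  obtain ⟨L, hL, hLC⟩ := carter_contains C (isCarter_iff.mpr hC)
  obtain ⟨g, hg⟩ := systems_conj L K hL hK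
  refine ⟨MulAut.conj g • C, isCarter_iff.mpr (hC.conj trivial), ?_⟩
  rw [systemNormalizer_conj L K g hg]
  exact Hall.conj_smul_mono hLC

theorem normalizer_pPrimeCore {G : Type u} [Group G] (X : Subgroup G) (g : G) (p : ℕ)
    (hg : g ∈ Subgroup.normalizer (X : Set G)) :
    MulAut.conj g • ((Cfsg.pPrimeCore p X).map X.subtype) = (Cfsg.pPrimeCore p X).map X.subtype := by
  have h1 : ∀ Y : Subgroup G, MulAut.conj g • X = Y →
      MulAut.conj g • ((Cfsg.pPrimeCore p X).map X.subtype) = (Cfsg.pPrimeCore p Y).map Y.subtype := by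
    rintro Y rfl
    rw [← Solv.map_pPrimeCore p (Subgroup.equivSMul (MulAut.conj g) X), Subgroup.map_map]
    exact Subgroup.map_map _ _ _
  exact h1 X (mem_normalizer_iff_smul.mp hg)

/-- S0570. -/
theorem carter_iff {G : Type u} [Group G] [Finite G] (F : Subgroup G) [F.Normal]
    (hF : Group.IsNilpotent F) (hGF : Group.IsNilpotent (G ⧸ F)) (C : Subgroup G) :
    Cfsg.IsCarterSubgroup C ↔ ∃ K : Nat.Primes → Subgroup G, Cfsg.IsComplementSystem K ∧
      C = Cfsg.systemNormalizer K := by
  have hsol : Group.IsSolvable G := by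
    have h1 : Group.IsSolvable F := inferInstance
    have h2 : Group.IsSolvable (G ⧸ F) := inferInstance
    exact Group.isSolvable_of_ker_le_range F.subtype (QuotientGroup.mk' F)
      (by rw [QuotientGroup.ker_mk', Subgroup.range_subtype])
  have hforw : ∀ C : Subgroup G, Cfsg.IsCarterSubgroup C → ∃ K : Nat.Primes → Subgroup G,
      Cfsg.IsComplementSystem K ∧ C = Cfsg.systemNormalizer K := by
    intro C hC
    have hC' := isCarter_iff.mp hC
    -- `C F = G`
    have hcarter : ∀ X : Subgroup G, H30.CarterHolds X := fun X =>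
      H30.carterHolds_of_subtype (H30.carter X)
    have hCF : C ⊔ F = ⊤ := by
      refine H30.eq_of_quotient_nilpotent (N := F) le_sup_right le_top inferInstance ?_
      intro g _ hg
      exact H30.carter_sup_selfNormalizing (K := ⊤) le_top hC' (fun _ => hcarter _) g trivial hg
    -- the complement system
    let F' : Nat.Primes → Subgroup G := fun p => (Cfsg.pPrimeCore p F).map F.subtype
    let C' : Nat.Primes → Subgroup G := fun p => (Cfsg.pPrimeCore p C).map C.subtype
    have hF1 : ∀ p : Nat.Primes, (F' p).relIndex F = (Cfsg.pPrimeCore p F).index := by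
      intro p
      unfold Subgroup.relIndex
      rw [Subgroup.subgroupOf, Subgroup.comap_map_eq_self_of_injective F.subtype_injective]
    have hF'n : ∀ p : Nat.Primes, (F' p).Normal := by
      intro p
      rw [← Subgroup.normalizer_eq_top_iff, eq_top_iff]
      intro g _
      rw [mem_normalizer_iff_smul]
      exact normalizer_pPrimeCore F g p (by rw [Subgroup.normalizer_eq_top]; trivial)
    have hsys : Cfsg.IsComplementSystem (fun p => C' p ⊔ F' p) := by
      intro p
      have hp := p.2
      have : Fact (p : ℕ).Prime := ⟨hp⟩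
      have := hF'n p
      have hCnil := hC.1
      refine (index_eq_iff p hp _).mpr ⟨?_, fun hd => ?_⟩
      · obtain ⟨a, ha⟩ := pPrimeCore_index_of_nilpotent (N := F) hp
        obtain ⟨c, hc⟩ := pPrimeCore_index_of_nilpotent (N := C) hp
        have h1 : (C' p ⊔ F' p).relIndex (C' p ⊔ F' p ⊔ F) ∣ (p : ℕ) ^ a := by
          rw [relIndex_sup_of_normal, ← ha, ← hF1]
          exact Subgroup.relIndex_dvd_of_le_left _ le_sup_right
        have h2 : (C' p ⊔ F' p ⊔ F).index ∣ (p : ℕ) ^ c := by
          have h3 : C' p ⊔ F' p ⊔ F =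
              ((Cfsg.pPrimeCore p C).map ((QuotientGroup.mk' F).comp C.subtype)).comap (QuotientGroup.mk' F) := by
            rw [← Subgroup.map_map, Subgroup.comap_map_eq, QuotientGroup.ker_mk', sup_assoc]
            congr 1
            exact sup_eq_right.mpr (Subgroup.map_subtype_le _)
          have hsurj : Function.Surjective ((QuotientGroup.mk' F).comp C.subtype) := by
            intro y
            obtain ⟨g, rfl⟩ := QuotientGroup.mk'_surjective F y
            have hg : g ∈ C ⊔ F := by rw [hCF]; trivial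
            obtain ⟨c, hc, f, hf, rfl⟩ := Subgroup.mem_sup_of_normal_right.mp hg
            refine ⟨⟨c, hc⟩, ?_⟩
            rw [map_mul]
            have : (QuotientGroup.mk' F) f = 1 := by
              rw [← MonoidHom.mem_ker, QuotientGroup.ker_mk']; exact hf
            rw [this, mul_one]; rfl
          rw [h3, Subgroup.index_comap_of_surjective _ (QuotientGroup.mk'_surjective F), ← hc]
          exact Subgroup.index_map_dvd _ hsurj
        have h4 : (C' p ⊔ F' p).index ∣ (p : ℕ) ^ (a + c) := by
          rw [← Subgroup.relIndex_mul_index (le_sup_left : C' p ⊔ F' p ≤ C' p ⊔ F' p ⊔ F), pow_add]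
          exact Nat.mul_dvd_mul h1 h2
        obtain ⟨k, -, hk⟩ := (Nat.dvd_prime_pow hp).mp h4
        exact ⟨k, hk⟩
      · have h1 := Solv.card_sup_dvd_of_normal (C' p) (F' p)
        have h2 : (Nat.card (C' p) * Nat.card (F' p)).Coprime p := by
          have e1 : Nat.card (C' p) = Nat.card (Cfsg.pPrimeCore p C) :=
            Subgroup.card_map_of_injective C.subtype_injective
          have e2 : Nat.card (F' p) = Nat.card (Cfsg.pPrimeCore p F) :=
            Subgroup.card_map_of_injective F.subtype_injective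
          rw [e1, e2]
          exact Nat.Coprime.mul_left (Solv.pPrimeCore_card_coprime _) (Solv.pPrimeCore_card_coprime _)
        exact ((Nat.Prime.coprime_iff_not_dvd hp).mp h2.symm) (hd.trans h1)
    refine ⟨_, hsys, ?_⟩
    have hnil := systemNormalizer_nilpotent _ hsys
    refine H30.eq_of_isNilpotent_of_selfNormalizing hnil ?_ (fun g _ hg => hC'.2.2 g trivial hg)
    intro g hg
    refine Subgroup.mem_iInf.mpr fun p => ?_
    rw [mem_normalizer_iff_smul, Hall.conj_smul_sup]
    have := hF'n p
    rw [Hall.conj_smul_normal g (F' p)]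
    congr 1
    exact normalizer_pPrimeCore C g p (Subgroup.le_normalizer hg)
  constructor
  · exact hforw C
  · rintro ⟨K, hK, rfl⟩
    obtain ⟨C, hC⟩ := (H30.carter G).1
    obtain ⟨L, hL, hLC⟩ := hforw C (isCarter_iff.mpr hC)
    obtain ⟨g, hg⟩ := systems_conj L K hL hK
    rw [systemNormalizer_conj L K g hg, ← hLC]
    exact isCarter_iff.mpr (hC.conj trivial)

end Cfsg.Agent.H95
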