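import Cfsg.Agent.H71.MtRel

/-! # S4351, piece P2: quadratic action -/

set_option autoImplicit false
set_option linter.unusedSectionVars false

namespace Cfsg.Agent.H95.MtP2

open Cfsg.Agent.H71.Mt
open scoped commutatorElement

universe v

variable {X : Type*} [Group X] [Finite X] {F : Type} [Field F] [Fintype F] {θ : F ≃+* F} {S E K : Subgroup X}
  {w s0 : X} {a b κ : X → F}

section base
variable {V : Type v} [AddCommGroup V] [Module F V]

/-- `ρ g + 1` -/
def N (ρ : Representation F X V) (g : X) : V →ₗ[F] V := ρ g + LinearMap.id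

theorem N_apply (ρ : Representation F X V) (g : X) (v : V) : N ρ g v = ρ g v + v := rfl

theorem mul_ap (ρ : Representation F X V) (g h : X) (v : V) : ρ (g * h) v = ρ g (ρ h v) := by
  rw [map_mul]; rfl

theorem one_ap (ρ : Representation F X V) (v : V) : ρ 1 v = v := by
  rw [map_one]; rfl

theorem inj_ap (ρ : Representation F X V) (g : X) : Function.Injective (ρ g) := by
  intro x y h
  have h1 : ρ g⁻¹ (ρ g x) = ρ g⁻¹ (ρ g y) := by rw [h]
  rwa [← mul_ap, ← mul_ap, inv_mul_cancel, one_ap, one_ap] at h1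

theorem N_comm (ρ : Representation F X V) {g h : X} (hc : g * h = h * g) (v : V) :
    N ρ g (N ρ h v) = N ρ h (N ρ g v) := by
  simp only [N_apply, map_add, ← mul_ap, hc]; abel

/-- span of `e z + z` -/
def J (ρ : Representation F X V) (E : Subgroup X) (Z : Submodule F V) : Submodule F V :=
  ⨆ e : E, Z.map (N ρ (e : X))

theorem mem_J {ρ : Representation F X V} {E : Subgroup X} {Z : Submodule F V} {e : X} (he : e ∈ E) {z : V}
    (hz : z ∈ Z) : N ρ e z ∈ J ρ E Z :=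
  Submodule.mem_iSup_of_mem (⟨e, he⟩ : E) (Submodule.mem_map_of_mem hz)

theorem J_le {ρ : Representation F X V} {E : Subgroup X} {Z W : Submodule F V}
    (h : ∀ e ∈ E, ∀ z ∈ Z, N ρ e z ∈ W) : J ρ E Z ≤ W := by
  refine iSup_le fun e => ?_
  rintro _ ⟨z, hz, rfl⟩
  exact h e e.2 z hz

theorem nil [Finite V] {ρ : Representation F X V} (h2 : ∀ v : V, v + v = 0) {E : Subgroup X}
    (hsq : ∀ e ∈ E, e * e = 1) (hc : ∀ e ∈ E, ∀ f ∈ E, e * f = f * e) :
    ∀ B : Submodule F V, (∀ e ∈ E, B.map (N ρ e) ≤ B) → B ≤ J ρ E B → B = ⊥ := by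
  intro B
  induction' hn : Nat.card B using Nat.strong_induction_on with n ih generalizing B
  intro hinv hle
  have hN2 : ∀ e ∈ E, ∀ v : V, N ρ e (N ρ e v) = 0 := by
    intro e he v
    simp only [N_apply, map_add, ← mul_ap, hsq e he, one_ap]
    have : v + ρ e v + (ρ e v + v) = (v + v) + (ρ e v + ρ e v) := by abel
    rw [this, h2, h2, add_zero]
  have key : ∀ e ∈ E, B.map (N ρ e) = ⊥ := by
    intro e he
    by_cases hlt : B.map (N ρ e) = B
    · rw [eq_bot_iff]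
      intro x hx
      rw [← hlt] at hx
      obtain ⟨y, hy, rfl⟩ := hx
      obtain ⟨z, hz, rfl⟩ := hy
      rw [hN2 e he z]
      exact Submodule.zero_mem _
    · have hl : B.map (N ρ e) < B := lt_of_le_of_ne (hinv e he) hlt
      have hcard : Nat.card (B.map (N ρ e)) < n := by
        rw [← hn]
        exact Set.Finite.card_lt_card (Set.toFinite _) hl
      refine ih _ hcard _ rfl ?_ ?_
      · intro f hf
        rintro _ ⟨_, ⟨z, hz, rfl⟩, rfl⟩
        rw [N_comm ρ (hc f hf e he)]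
        exact Submodule.mem_map_of_mem (hinv f hf (Submodule.mem_map_of_mem hz))
      · rintro _ ⟨z, hz, rfl⟩
        have h1 := hle hz
        have h3 : (J ρ E B).map (N ρ e) ≤ J ρ E (B.map (N ρ e)) := by
          rw [Submodule.map_le_iff_le_comap]
          refine J_le fun f hf z' hz' => ?_
          show N ρ e (N ρ f z') ∈ J ρ E (B.map (N ρ e))
          rw [N_comm ρ (hc e he f hf)]
          exact mem_J hf (Submodule.mem_map_of_mem hz')
        exact h3 (Submodule.mem_map_of_mem h1)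
  rw [eq_bot_iff]
  refine hle.trans (iSup_le fun e => ?_)
  rw [key e e.2]

end base

theorem two_of (D : SzD θ S E K w s0 a b κ) {V : Type v} [AddCommGroup V] [Module F V] (v : V) : v + v = 0 := by
  haveI := D.char
  exact two_zero (F := F) v

theorem cent0 (D : SzD θ S E K w s0 a b κ) {V : Type v} [AddCommGroup V] [Module F V] [Finite V]
    (ρ : Representation F X V) (hf : FpfF ρ) (v : V) (hv : ρ (s0 * s0) v = v) :
    ∃ v' : V, v = ρ (s0 * s0) v' + v' := by
  have h2 : ∀ v : V, v + v = 0 := two_of D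
  have hadd0 : ∀ p q : V, p + q = 0 → p = q := by
    intro p q h
    have : p + q + q = q := by rw [h, zero_add]
    rwa [add_assoc, h2, add_zero] at this
  obtain ⟨t, ht⟩ : ∃ t, t = s0 * s0 := ⟨_, rfl⟩
  have htE : t ∈ E := by rw [ht]; exact D.Ssq s0 D.s0S
  have htt : t * t = 1 := D.Esq t htE
  have hti : t⁻¹ = t := inv_eq_of_mul_eq_one_left htt
  have hwi : w⁻¹ = w := inv_eq_of_mul_eq_one_left D.ww
  obtain ⟨x, hx⟩ : ∃ x, x = t * w := ⟨_, rfl⟩
  have hxe : x = s0 * s0 * w := by rw [hx, ht]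
  have h5 : x ^ 5 = 1 := by rw [hxe]; exact D.x0five
  have hne : x ≠ 1 := by rw [hxe]; exact D.x0ne
  have hodd : Odd (orderOf x) := by rw [hxe]; exact D.odd_x0
  have hxi : x⁻¹ = w * t := by rw [hx, mul_inv_rev, hwi, hti]
  have hxt : x * t = t * x⁻¹ := by rw [hxi, hx]; group
  have hx2t : x ^ 2 * t = t * (x⁻¹ * x⁻¹) := by
    rw [pow_two, mul_assoc, hxt, ← mul_assoc, hxt, mul_assoc]
  have hx3 : x⁻¹ * x⁻¹ = x ^ 3 := by
    have h6 : x ^ 3 * (x * x) = 1 := by rw [← h5]; group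
    have h7 := eq_inv_of_mul_eq_one_left h6
    rw [h7, mul_inv_rev]
  have hwx : w * x ^ 2 = x ^ 2 * t := by
    rw [hx2t, hx3]
    have : w = t * x := by rw [hx, ← mul_assoc, htt, one_mul]
    calc w * x ^ 2 = (t * x) * x ^ 2 := by rw [← this]
      _ = t * x ^ 3 := by group
  rw [← ht] at hv ⊢
  -- dimension count
  haveI : Module.Finite F V := Module.Finite.of_finite
  obtain ⟨C, hC⟩ : ∃ C : Submodule F V, C = LinearMap.ker (N ρ t) := ⟨_, rfl⟩
  have memC : ∀ y, y ∈ C ↔ ρ t y = y := by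
    intro y
    rw [hC, LinearMap.mem_ker, N_apply]
    exact ⟨hadd0 _ _, fun h => by rw [h, h2]⟩
  have hdis : C ⊓ C.map (ρ (x ^ 2)) = ⊥ := by
    rw [eq_bot_iff]
    rintro y ⟨hy1, z, hz, rfl⟩
    have e1 : ρ t (ρ (x ^ 2) z) = ρ (x ^ 2) z := (memC _).1 hy1
    have e2 : ρ w (ρ (x ^ 2) z) = ρ (x ^ 2) z := by
      rw [← mul_ap, hwx, mul_ap, (memC z).1 hz]
    have e3 : ρ x (ρ (x ^ 2) z) = ρ (x ^ 2) z := by
      rw [hx, mul_ap, ← hx, e2, e1]
    have := hf x hodd hne _ e3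
    rw [this]; exact Submodule.zero_mem _
  have hfr : Module.finrank F (C.map (ρ (x ^ 2))) = Module.finrank F C :=
    (Submodule.equivMapOfInjective (ρ (x ^ 2)) (inj_ap ρ _) C).finrank_eq.symm
  have h8 := Submodule.finrank_sup_add_finrank_inf_eq C (C.map (ρ (x ^ 2)))
  rw [hdis, finrank_bot, hfr, add_zero] at h8
  have h9 : Module.finrank F ↥(C ⊔ C.map (ρ (x ^ 2))) ≤ Module.finrank F V := Submodule.finrank_le _
  have h10 := LinearMap.finrank_range_add_finrank_ker (N ρ t)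
  rw [← hC] at h10
  have hle : LinearMap.range (N ρ t) ≤ C := by
    rintro _ ⟨y, rfl⟩
    rw [memC, N_apply, map_add, ← mul_ap, htt, one_ap, add_comm]
  have heq : LinearMap.range (N ρ t) = C := Submodule.eq_of_le_of_finrank_le hle (by omega)
  have hvm : v ∈ C := (memC v).2 hv
  rw [← heq] at hvm
  obtain ⟨y, hy⟩ := hvm
  exact ⟨y, hy.symm⟩

theorem cent (D : SzD θ S E K w s0 a b κ) {V : Type v} [AddCommGroup V] [Module F V] [Finite V]
    (ρ : Representation F X V) (hf : FpfF ρ) :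
    ∀ t ∈ E, t ≠ 1 → ∀ v : V, ρ t v = v → ∃ v' : V, v = ρ t v' + v' := by
  intro t ht ht1 v hv
  obtain ⟨k, hk, hkt⟩ := D.exists_conj_t0 ht ht1
  have h1 : ρ (s0 * s0) (ρ k⁻¹ v) = ρ k⁻¹ v := by
    have : s0 * s0 * k⁻¹ = k⁻¹ * t := by rw [hkt]; group
    rw [← mul_ap, this, mul_ap, hv]
  obtain ⟨y, hy⟩ := cent0 D ρ hf _ h1
  refine ⟨ρ k y, ?_⟩
  have h3 : ρ k (ρ k⁻¹ v) = v := by rw [← mul_ap, mul_inv_cancel, one_ap]
  have h4 : t * k = k * (s0 * s0) := by rw [hkt]; group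
  rw [← mul_ap, h4, mul_ap, ← map_add, ← hy, h3]

theorem t0_ne (D : SzD θ S E K w s0 a b κ) : s0 * s0 ≠ 1 := by
  intro h
  have h1 := D.b_sq s0 D.s0S
  rw [h, (D.b_zero 1 E.one_mem).2 rfl] at h1
  rcases mul_eq_zero.1 h1.symm with h2 | h2
  · exact D.s0a h2
  · exact D.s0a ((map_eq_zero θ).1 h2)

/-- a nonzero `S`-invariant subspace contains a nonzero `S`-fixed vector -/
theorem exists_fixed (D : SzD θ S E K w s0 a b κ) {V : Type v} [AddCommGroup V] [Module F V] [Finite V]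
    (ρ : Representation F X V) (Z : Submodule F V) (hZ : ∀ s ∈ S, ∀ z ∈ Z, ρ s z ∈ Z) (hne : Z ≠ ⊥) :
    ∃ z ∈ Z, z ≠ 0 ∧ ∀ s ∈ S, ρ s z = z := by
  have h2 : ∀ v : V, v + v = 0 := two_of D
  letI : MulAction S Z :=
    { smul := fun s z => ⟨ρ (s : X) z, hZ s s.2 z z.2⟩
      one_smul := fun z => Subtype.ext (one_ap ρ _)
      mul_smul := fun s r z => Subtype.ext (mul_ap ρ _ _ _) }
  have hS : IsPGroup 2 S := by
    intro s
    refine ⟨2, Subtype.ext ?_⟩
    have h1 : (s : X) * s ∈ E := D.Ssq s s.2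
    have h3 := D.Esq _ h1
    show ((s ^ (2 ^ 2) : S) : X) = 1
    rw [SubmonoidClass.coe_pow]
    calc (s : X) ^ (2 ^ 2) = (s * s : X) * (s * s : X) := by
          rw [show (2 : ℕ) ^ 2 = 4 from rfl]
          simp only [pow_succ, pow_zero, one_mul, mul_assoc]
      _ = 1 := h3
  haveI : Fact (Nat.Prime 2) := ⟨Nat.prime_two⟩
  obtain ⟨y, hy, hy0⟩ := Submodule.exists_mem_ne_zero_of_ne_bot hne
  have hdvd : 2 ∣ Nat.card Z := by
    have h1 : addOrderOf (⟨y, hy⟩ : Z) = 2 := by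
      refine addOrderOf_eq_prime ?_ ?_
      · rw [two_nsmul]; exact Subtype.ext (h2 y)
      · intro h; exact hy0 (congrArg Subtype.val h)
    rw [← h1]; exact addOrderOf_dvd_natCard _
  have h0 : (0 : Z) ∈ MulAction.fixedPoints S Z := by
    intro s
    exact Subtype.ext (map_zero (ρ (s : X)))
  obtain ⟨z, hz, hz0⟩ := hS.exists_fixed_point_of_prime_dvd_card_of_fixed_point Z hdvd h0
  refine ⟨z, z.2, fun h => hz0 (Subtype.ext h.symm), fun s hs => ?_⟩
  exact congrArg Subtype.val (hz ⟨s, hs⟩)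


theorem J_inv (D : SzD θ S E K w s0 a b κ) {V : Type v} [AddCommGroup V] [Module F V]
    {ρ : Representation F X V} {Z : Submodule F V} (hZ : ∀ s ∈ S, ∀ z ∈ Z, ρ s z ∈ Z) :
    ∀ s ∈ S, ∀ z ∈ J ρ E Z, ρ s z ∈ J ρ E Z := by
  intro s hs
  have h : J ρ E Z ≤ (J ρ E Z).comap (ρ s) := by
    refine J_le fun e he z hz => ?_
    have h1 : ρ s (N ρ e z) = N ρ e (ρ s z) := by
      simp only [N_apply, map_add, ← mul_ap, D.Ecen e he s hs]
    show ρ s (N ρ e z) ∈ J ρ E Z
    rw [h1]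
    exact mem_J he (hZ s hs z hz)
  exact fun z hz => h hz

theorem conj_A (D : SzD θ S E K w s0 a b κ) {V : Type v} [AddCommGroup V] [Module F V]
    {ρ : Representation F X V} {k : X} (hk : k ∈ K) {t : X} (h : ∀ e ∈ E, ∀ v : V, N ρ e (N ρ t v) = 0) :
    ∀ e ∈ E, ∀ v : V, N ρ e (N ρ (k * t * k⁻¹) v) = 0 := by
  intro e he v
  have he' : k⁻¹ * e * k ∈ E := by
    have := D.KE k⁻¹ (K.inv_mem hk) e he
    rwa [inv_inv] at this
  have h1 : N ρ (k * t * k⁻¹) v = ρ k (N ρ t (ρ k⁻¹ v)) := by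
    rw [N_apply, N_apply, map_add, ← mul_ap, ← mul_ap, ← mul_ap, mul_inv_cancel, one_ap, mul_assoc]
  have h3 : ∀ y : V, N ρ e (ρ k y) = ρ k (N ρ (k⁻¹ * e * k) y) := by
    intro y
    have h4 : k * (k⁻¹ * e * k) = e * k := by group
    rw [N_apply, N_apply, map_add, ← mul_ap, ← mul_ap, h4]
  rw [h1, h3, h _ he', map_zero]

theorem span_top (D : SzD θ S E K w s0 a b κ) {V : Type v} [AddCommGroup V] [Module F V] [Finite V]
    (ρ : Representation F X V) (hi : IrrF ρ) {u : V} (hu : u ≠ 0) (hus : ∀ s ∈ S, ρ s u = u)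
    (hKu : ∀ k ∈ K, ∃ c : F, ρ k u = c • u) :
    ∀ W : Submodule F V, u ∈ W → (∀ s ∈ S, ρ s (ρ w u) ∈ W) → W = ⊤ := by
  intro W hW1 hW2
  have hall : ∀ g : X, ρ g u ∈ W := by
    intro g
    rcases D.bruhat g with ⟨s, hs, k, hk, rfl⟩ | ⟨s, hs, k, hk, r, hr, rfl⟩
    · obtain ⟨c, hc⟩ := hKu k hk
      rw [mul_ap, hc, map_smul, hus s hs]
      exact W.smul_mem c hW1
    · obtain ⟨c, hc⟩ := hKu k⁻¹ (K.inv_mem hk)
      have h3 : k * w = w * k⁻¹ := by
        have h4 := D.wK k⁻¹ (K.inv_mem hk)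
        rw [inv_inv] at h4
        calc k * w = (w * k⁻¹ * w) * w := by rw [h4]
          _ = w * k⁻¹ := by rw [mul_assoc, D.ww, mul_one]
      rw [mul_ap, hus r hr, mul_assoc, h3, ← mul_assoc, mul_ap, mul_ap, hc, map_smul, map_smul]
      exact W.smul_mem c (hW2 s hs)
  have hT : Submodule.span F (Set.range fun g : X => ρ g u) = ⊤ := by
    rcases hi.2 (Submodule.span F (Set.range fun g : X => ρ g u)) (by
      intro g v hv
      have h5 : (Submodule.span F (Set.range fun g : X => ρ g u)).map (ρ g) ≤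
          Submodule.span F (Set.range fun g : X => ρ g u) := by
        rw [Submodule.map_span, Submodule.span_le]
        rintro _ ⟨_, ⟨h, rfl⟩, rfl⟩
        exact Submodule.subset_span ⟨g * h, mul_ap ρ g h u⟩
      exact h5 (Submodule.mem_map_of_mem hv)) with h | h
    · exfalso
      have h6 : u ∈ Submodule.span F (Set.range fun g : X => ρ g u) :=
        Submodule.subset_span ⟨1, one_ap ρ u⟩
      rw [h] at h6
      exact hu ((Submodule.mem_bot F).1 h6)
    · exact h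
  rw [eq_top_iff, ← hT, Submodule.span_le]
  rintro _ ⟨g, rfl⟩
  exact hall g

theorem claim (D : SzD θ S E K w s0 a b κ) {V : Type v} [AddCommGroup V] [Module F V] [Finite V]
    (ρ : Representation F X V) (hf : FpfF ρ) (hi : IrrF ρ) {u : V} (hu : u ≠ 0) (hus : ∀ s ∈ S, ρ s u = u)
    (hKu : ∀ k ∈ K, ∃ c : F, ρ k u = c • u) {k : X} (hk : k ∈ K) {s : X} (hs : s = k * s0 * k⁻¹) (v : V) :
    N ρ s (N ρ (s * s) v) ∈ Submodule.span F {u} ⊔ J ρ E (LinearMap.range (N ρ (s * s))) := by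
  have h2 : ∀ v : V, v + v = 0 := two_of D
  have hsS : s ∈ S := by rw [hs]; exact D.KS k hk s0 D.s0S
  have htE : s * s ∈ E := D.Ssq s hsS
  have hW : (Submodule.span F {u} ⊔ J ρ E (LinearMap.range (N ρ (s * s)))).comap
      ((N ρ s).comp (N ρ (s * s))) = ⊤ := by
    refine span_top D ρ hi hu hus hKu _ ?_ ?_
    · show N ρ s (N ρ (s * s) u) ∈ Submodule.span F {u} ⊔ J ρ E (LinearMap.range (N ρ (s * s)))
      rw [N_apply ρ (s * s), hus _ (D.ES htE), h2, map_zero]
      exact Submodule.zero_mem _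
    · intro r hr
      show N ρ s (N ρ (s * s) (ρ r (ρ w u))) ∈ Submodule.span F {u} ⊔ J ρ E (LinearMap.range (N ρ (s * s)))
      have hNr : ∀ r ∈ S, ∀ y : V, N ρ (s * s) (ρ r y) = ρ r (N ρ (s * s) y) := by
        intro r hr y
        simp only [N_apply, map_add, ← mul_ap, D.Ecen _ htE r hr]
      rw [hNr r hr]
      obtain ⟨z, hz⟩ : ∃ z, z = N ρ (s * s) (ρ w u) := ⟨_, rfl⟩
      rw [← hz]
      have he : (r * s)⁻¹ * (s * r) ∈ E := by
        have hrs := S.mul_mem hr hsS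
        refine (D.a_zero _ (S.mul_mem (S.inv_mem hrs) (S.mul_mem hsS hr))).1 ?_
        have h4 := D.a_mul _ (S.inv_mem hrs) _ (S.mul_mem hsS hr)
        have h5 := D.a_mul _ (S.inv_mem hrs) _ hrs
        rw [inv_mul_cancel, (D.a_zero 1 S.one_mem).2 E.one_mem, D.a_mul r hr s hsS] at h5
        rw [h4, D.a_mul s hsS r hr, add_comm (a s), ← h5]
      obtain ⟨e, hee⟩ : ∃ e, e = (r * s)⁻¹ * (s * r) := ⟨_, rfl⟩
      rw [← hee] at he
      have hsr : s * r = r * s * e := by rw [hee]; group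
      have hrsS : r * s ∈ S := S.mul_mem hr hsS
      have hrel := D.relF_conj ρ hf u hus hk hs
      obtain ⟨c, hc⟩ := hKu (k * k) (K.mul_mem hk hk)
      have e1 : ρ s z + z = c • u := by
        rw [← hc, ← hrel, hz, N_apply, map_add, ← mul_ap]
        have : s * (s * s) = s * s * s := by group
        rw [this]; abel
      have e2 : N ρ s (ρ r z) = N ρ e (ρ (r * s) z) + c • u := by
        have h6 : N ρ e (ρ (r * s) z) = ρ (r * s) (N ρ e z) := by
          simp only [N_apply, map_add, ← mul_ap, D.Ecen e he _ hrsS]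
        have h7 : ρ r (ρ s z + z) = c • u := by rw [e1, map_smul, hus r hr]
        rw [h6, ← h7, N_apply, N_apply, ← mul_ap, hsr, mul_ap ρ (r * s) e, map_add, map_add, ← mul_ap ρ r s]
        have h8 := h2 (ρ (r * s) z)
        calc ρ (r * s) (ρ e z) + ρ r z = ρ (r * s) (ρ e z) + ρ r z + 0 := by rw [add_zero]
          _ = ρ (r * s) (ρ e z) + ρ r z + (ρ (r * s) z + ρ (r * s) z) := by rw [h8]
          _ = _ := by abel
      rw [e2, add_comm]
      refine Submodule.add_mem_sup (Submodule.smul_mem _ c (Submodule.mem_span_singleton_self u)) ?_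
      refine mem_J he ?_
      rw [hz, ← hNr _ hrsS]
      exact ⟨_, rfl⟩
  have : v ∈ (⊤ : Submodule F V) := Submodule.mem_top
  rw [← hW] at this
  exact this

theorem quad (D : SzD θ S E K w s0 a b κ) {V : Type v} [AddCommGroup V] [Module F V] [Finite V]
    (ρ : Representation F X V) (hf : FpfF ρ) (hi : IrrF ρ) {u : V} (hu : u ≠ 0) (hus : ∀ s ∈ S, ρ s u = u)
    (hu1 : ∀ v : V, (∀ s ∈ S, ρ s v = v) → ∃ c : F, v = c • u) :
    (∀ t ∈ E, t ≠ 1 → ∀ v : V, ρ t v = v → ∃ v' : V, v = ρ t v' + v') ∧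
    (∀ t ∈ E, ∀ e ∈ E, ∀ v : V, ρ e (ρ t v + v) = ρ t v + v) := by
  have h2 : ∀ v : V, v + v = 0 := two_of D
  have hadd0 : ∀ p q : V, p + q = 0 → p = q := by
    intro p q h
    have : p + q + q = q := by rw [h, zero_add]
    rwa [add_assoc, h2, add_zero] at this
  have hcen := cent D ρ hf
  refine ⟨hcen, ?_⟩
  have hKu : ∀ k ∈ K, ∃ c : F, ρ k u = c • u := by
    intro k hk
    refine hu1 _ fun r hr => ?_
    have h1 : k⁻¹ * r * k ∈ S := by
      have := D.KS k⁻¹ (K.inv_mem hk) r hr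
      rwa [inv_inv] at this
    have h3 : r * k = k * (k⁻¹ * r * k) := by group
    rw [← mul_ap, h3, mul_ap, hus _ h1]
  by_cases hA : ∀ e ∈ E, ∀ v : V, N ρ e (N ρ (s0 * s0) v) = 0
  · intro t ht e he v
    by_cases ht1 : t = 1
    · rw [ht1, one_ap, h2, map_zero]
    · obtain ⟨k, hk, hkt⟩ := D.exists_conj_t0 ht ht1
      have h := conj_A D hk hA e he v
      rw [← hkt] at h
      exact hadd0 _ _ h
  exfalso
  have hall : ∀ k ∈ K, ∀ s : X, s = k * s0 * k⁻¹ → ∀ v : V,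
      N ρ s (N ρ (s * s) v) ∈ J ρ E (LinearMap.range (N ρ (s * s))) := by
    intro k hk s hs v
    have hsS : s ∈ S := by rw [hs]; exact D.KS k hk s0 D.s0S
    have htE : s * s ∈ E := D.Ssq s hsS
    have hnA : ¬ ∀ e ∈ E, ∀ v : V, N ρ e (N ρ (s * s) v) = 0 := by
      intro h
      refine hA ?_
      have h3 := conj_A D (K.inv_mem hk) h
      have h4 : k⁻¹ * (s * s) * k⁻¹⁻¹ = s0 * s0 := by rw [hs]; group
      rwa [h4] at h3
    push Not at hnA
    obtain ⟨e, he, y, hy⟩ := hnA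
    have hinv : ∀ r ∈ S, ∀ z ∈ LinearMap.range (N ρ (s * s)), ρ r z ∈ LinearMap.range (N ρ (s * s)) := by
      rintro r hr _ ⟨x, rfl⟩
      refine ⟨ρ r x, ?_⟩
      simp only [N_apply, map_add, ← mul_ap, D.Ecen _ htE r hr]
    obtain ⟨z, hz, hz0, hzS⟩ := exists_fixed D ρ _ (J_inv D hinv)
      (fun h => hy ((Submodule.mem_bot F).1 (h ▸ mem_J he ⟨y, rfl⟩)))
    obtain ⟨c, hc⟩ := hu1 z hzS
    have hc0 : c ≠ 0 := by rintro rfl; exact hz0 (by rw [hc, zero_smul])
    have huJ : u ∈ J ρ E (LinearMap.range (N ρ (s * s))) := by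
      have h5 : u = c⁻¹ • z := by rw [hc, smul_smul, inv_mul_cancel₀ hc0, one_smul]
      rw [h5]; exact Submodule.smul_mem _ _ hz
    have h6 := claim D ρ hf hi hu hus hKu hk hs v
    rwa [sup_eq_right.2 ((Submodule.span_singleton_le_iff_mem _ _).2 huJ)] at h6
  -- `A1 = J V`
  obtain ⟨A1, hA1⟩ : ∃ A1, A1 = J ρ E (⊤ : Submodule F V) := ⟨_, rfl⟩
  have hEA : ∀ e ∈ E, ∀ v : V, N ρ e v ∈ A1 := by
    intro e he v; rw [hA1]; exact mem_J he Submodule.mem_top
  have hsA : ∀ k ∈ K, ∀ s : X, s = k * s0 * k⁻¹ → ∀ v : V, N ρ s v ∈ A1 := by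
    intro k hk s hs v
    have hsS : s ∈ S := by rw [hs]; exact D.KS k hk s0 D.s0S
    have htE : s * s ∈ E := D.Ssq s hsS
    have ht1 : s * s ≠ 1 := by
      intro h
      refine t0_ne D ?_
      have h4 : s0 * s0 = k⁻¹ * (s * s) * k := by rw [hs]; group
      rw [h4, h]; group
    have h1 := hall k hk s hs v
    have h3 : J ρ E (LinearMap.range (N ρ (s * s))) ≤ A1.map (N ρ (s * s)) := by
      refine J_le ?_
      rintro e he _ ⟨y, rfl⟩
      rw [N_comm ρ (D.Ecen e he _ (D.ES htE))]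
      exact Submodule.mem_map_of_mem (hEA e he y)
    obtain ⟨j, hj, hjv⟩ := h3 h1
    rw [N_comm ρ (show s * (s * s) = s * s * s by group)] at hjv
    have h5 : N ρ (s * s) (N ρ s v + j) = 0 := by rw [map_add, hjv, h2]
    have h6 : ρ (s * s) (N ρ s v + j) = N ρ s v + j := hadd0 _ _ h5
    obtain ⟨y, hy⟩ := hcen _ htE ht1 _ h6
    have h7 : N ρ s v + j ∈ A1 := by rw [hy]; exact hEA _ htE y
    have h8 := A1.sub_mem h7 hj
    rwa [add_sub_cancel_right] at h8
  have hSA : ∀ x ∈ S, ∀ v : V, N ρ x v ∈ A1 := by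
    intro x hx v
    by_cases hxE : x ∈ E
    · exact hEA x hxE v
    · obtain ⟨k, hk, e, he, rfl⟩ := D.exists_conj_s0 hx hxE
      have h1 : N ρ (k * s0 * k⁻¹ * e) v = N ρ (k * s0 * k⁻¹) (ρ e v) + N ρ e v := by
        rw [N_apply, N_apply, N_apply, mul_ap ρ _ e]
        have h3 := h2 (ρ e v)
        calc ρ (k * s0 * k⁻¹) (ρ e v) + v = ρ (k * s0 * k⁻¹) (ρ e v) + v + 0 := by rw [add_zero]
          _ = ρ (k * s0 * k⁻¹) (ρ e v) + v + (ρ e v + ρ e v) := by rw [h3]
          _ = _ := by abel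
      rw [h1]
      exact A1.add_mem (hsA k hk _ rfl _) (hEA e he v)
  have hSA2 : ∀ x ∈ S, ∀ j ∈ A1, N ρ x j ∈ J ρ E A1 := by
    intro x hx
    have h1 : A1 ≤ (J ρ E A1).comap (N ρ x) := by
      intro j hj
      rw [hA1] at hj
      have h3 : J ρ E (⊤ : Submodule F V) ≤ (J ρ E A1).comap (N ρ x) := by
        refine J_le fun e he z _ => ?_
        show N ρ x (N ρ e z) ∈ J ρ E A1
        rw [N_comm ρ (D.Ecen e he x hx).symm]
        exact mem_J he (hSA x hx z)
      exact h3 hj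
    exact fun j hj => h1 hj
  let H : Subgroup X :=
    { carrier := {g | ∀ v : V, N ρ g v ∈ J ρ E A1}
      mul_mem' := by
        intro g h hg hh v
        have h1 : N ρ (g * h) v = N ρ g (ρ h v) + N ρ h v := by
          rw [N_apply, N_apply, N_apply, mul_ap]
          have h3 := h2 (ρ h v)
          calc ρ g (ρ h v) + v = ρ g (ρ h v) + v + 0 := by rw [add_zero]
            _ = ρ g (ρ h v) + v + (ρ h v + ρ h v) := by rw [h3]
            _ = _ := by abel
        rw [h1]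
        exact Submodule.add_mem _ (hg _) (hh v)
      one_mem' := by
        intro v
        rw [N_apply, one_ap, h2]; exact Submodule.zero_mem _
      inv_mem' := by
        intro g hg v
        have h1 : N ρ g⁻¹ v = N ρ g (ρ g⁻¹ v) := by
          rw [N_apply, N_apply, ← mul_ap, mul_inv_cancel, one_ap, add_comm]
        rw [h1]; exact hg _ }
  have hcH : ⁅S, S⁆ ≤ H := by
    rw [Subgroup.commutator_le]
    intro x hx y hy v
    obtain ⟨v', hv'⟩ : ∃ v', v = ρ (y * x) v' := ⟨ρ (y * x)⁻¹ v, by rw [← mul_ap, mul_inv_cancel, one_ap]⟩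
    have h1 : ⁅x, y⁆ * (y * x) = x * y := by rw [commutatorElement_def]; group
    have h3 : N ρ ⁅x, y⁆ v = N ρ x (N ρ y v') + N ρ y (N ρ x v') := by
      rw [N_apply, hv', ← mul_ap, h1]
      simp only [N_apply, map_add, ← mul_ap]
      have e1 := h2 (ρ x v')
      have e2 := h2 (ρ y v')
      have e3 := h2 v'
      calc ρ (x * y) v' + ρ (y * x) v' = ρ (x * y) v' + ρ (y * x) v' + 0 + 0 + 0 := by simp
        _ = ρ (x * y) v' + ρ (y * x) v' + (ρ x v' + ρ x v') + (ρ y v' + ρ y v') + (v' + v') := by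
            rw [e1, e2, e3]
        _ = _ := by abel
    rw [h3]
    exact Submodule.add_mem _ (hSA2 x hx _ (hSA y hy v')) (hSA2 y hy _ (hSA x hx v'))
  have hbot : A1 = ⊥ := by
    refine nil (ρ := ρ) h2 D.Esq (fun e he f hf' => D.Ecen e he f (D.ES hf')) A1 ?_ ?_
    · rintro e he _ ⟨z, _, rfl⟩
      exact hEA e he z
    · conv_lhs => rw [hA1]
      exact J_le fun e he z _ => hcH (D.comm he) z
  have ht0E : s0 * s0 ∈ E := D.Ssq s0 D.s0S
  obtain ⟨v', hv'⟩ := hcen _ ht0E (t0_ne D) u (hus _ (D.ES ht0E))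
  have h9 : u ∈ A1 := by rw [hv']; exact hEA _ ht0E v'
  rw [hbot] at h9
  exact hu ((Submodule.mem_bot F).1 h9)

end Cfsg.Agent.H95.MtP2
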