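import Mathlib
import Cfsg.Agent.H21.Simple360

set_option autoImplicit false
set_option linter.all false

/-! Simple primitive groups of degree 15 and order `360 d ^ 4` (helper95, lemma (I) of S3254). -/

namespace Cfsg.Agent.H95.Deg15

open MulAction Equiv

universe u v

theorem arith15 (d : ℕ) (hd : Odd d) (h : 360 * d ^ 4 ∣ Nat.factorial 15) : d = 1 ∨ d = 3 := by
  have h1 : Nat.factorial 15 = 360 * 3632428800 := by decide
  rw [h1] at h
  have h2 : d ^ 4 ∣ 3632428800 := Nat.dvd_of_mul_dvd_mul_left (by norm_num) h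
  have h3 : d < 246 := by
    by_contra hlt
    rw [not_lt] at hlt
    have h4 : 246 ^ 4 ≤ d ^ 4 := Nat.pow_le_pow_left hlt 4
    have h5 := Nat.le_of_dvd (by norm_num) h2
    have h6 : (246 : ℕ) ^ 4 ≤ 3632428800 := h4.trans h5
    norm_num at h6
  have h6 : d % 2 = 1 := Nat.odd_iff.1 hd
  have h7 := Nat.mod_eq_zero_of_dvd h2
  interval_cases d <;> first | (exact Or.inl rfl) | (exact Or.inr rfl) | (exfalso; omega)

theorem exists_threeCycle {Om : Type v} [Fintype Om] [DecidableEq Om] (hOm : Fintype.card Om = 15)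
    (H : Subgroup (Perm Om)) (hH : Nat.card H = 29160) : ∃ g ∈ H, g.IsThreeCycle := by
  haveI : Fact (Nat.Prime 3) := ⟨by norm_num⟩
  obtain ⟨P⟩ := (inferInstance : Nonempty (Sylow 3 H))
  have hP : Nat.card P = 3 ^ 6 := by
    rw [P.card_eq_multiplicity, hH]
    congr 1
    have : (29160 : ℕ) = 3 ^ 6 * 40 := by norm_num
    rw [this, Nat.factorization_mul (by norm_num) (by norm_num)]
    simp only [Finsupp.coe_add, Pi.add_apply]
    rw [Nat.Prime.factorization_pow (by norm_num), Finsupp.single_eq_same,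
      Nat.factorization_eq_zero_of_not_dvd (by norm_num)]
  have hPerm : Nat.card (Perm Om) = Nat.factorial 15 := by
    rw [Nat.card_eq_fintype_card, Fintype.card_perm, hOm]
  have hfac : (Nat.factorial 15).factorization 3 = 6 := by
    have : Nat.factorial 15 = 3 ^ 6 * 1793792000 := by decide
    rw [this, Nat.factorization_mul (by norm_num) (by norm_num)]
    simp only [Finsupp.coe_add, Pi.add_apply]
    rw [Nat.Prime.factorization_pow (by norm_num), Finsupp.single_eq_same,
      Nat.factorization_eq_zero_of_not_dvd (by norm_num)]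
  let Q : Subgroup (Perm Om) := (P : Subgroup H).map H.subtype
  have hQ : Nat.card Q = 3 ^ ((Nat.card (Perm Om)).factorization 3) := by
    rw [hPerm, hfac, ← hP]
    exact Nat.card_congr ((P : Subgroup H).equivMapOfInjective _ H.subtype_injective).toEquiv.symm
  let S : Sylow 3 (Perm Om) := Sylow.ofCard Q hQ
  -- a three-cycle
  have h3 : ∃ c : Perm Om, c.IsThreeCycle := by
    have h1 : 3 ≤ Fintype.card Om := by omega
    obtain ⟨a, b, c, hab, hac, hbc⟩ := Fintype.two_lt_card_iff.1 (by omega : 2 < Fintype.card Om)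
    exact ⟨swap a b * swap a c, Perm.isThreeCycle_swap_mul_swap_same hab hac hbc⟩
  obtain ⟨c, hc⟩ := h3
  have hpg : IsPGroup 3 (Subgroup.zpowers c) := by
    apply IsPGroup.of_card (n := 1)
    rw [Nat.card_zpowers, hc.orderOf, pow_one]
  obtain ⟨T, hT⟩ := hpg.exists_le_sylow
  obtain ⟨g, hg⟩ := MulAction.exists_smul_eq (Perm Om) T S
  refine ⟨g * c * g⁻¹, ?_, ?_⟩
  · have h1 : g * c * g⁻¹ ∈ (S : Subgroup (Perm Om)) := by
      rw [← hg, Sylow.coe_subgroup_smul]
      exact Subgroup.smul_mem_pointwise_smul c (MulAut.conj g) _ (hT (Subgroup.mem_zpowers c))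
    have h2 : g * c * g⁻¹ ∈ Q := h1
    obtain ⟨x, hx, hxe⟩ := h2
    rw [← hxe]; exact x.2
  · rwa [Perm.IsThreeCycle, Perm.cycleType_conj]

theorem deg15 {Om : Type v} [Fintype Om] (hOm : Fintype.card Om = 15) {G : Type u} [Group G]
    [Finite G] [IsSimpleGroup G] [MulAction G Om] [FaithfulSMul G Om] [MulAction.IsPreprimitive G Om]
    (d : ℕ) (hd : Odd d) (h : Nat.card G = 360 * d ^ 4) :
    Nonempty (G ≃* alternatingGroup (Fin 6)) := by
  classical
  let f : G →* Perm Om := MulAction.toPermHom G Om
  have hf : Function.Injective f := MulAction.toPerm_injective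
  let H : Subgroup (Perm Om) := f.range
  have hH : Nat.card H = 360 * d ^ 4 := by
    rw [← h]
    exact Nat.card_congr (MonoidHom.ofInjective hf).toEquiv.symm
  have hdvd : 360 * d ^ 4 ∣ Nat.factorial 15 := by
    rw [← hH]
    have := Subgroup.card_subgroup_dvd_card H
    rwa [Nat.card_eq_fintype_card (α := Perm Om), Fintype.card_perm, hOm] at this
  rcases arith15 d hd hdvd with rfl | rfl
  · exact Cfsg.Agent.H21.O360.main (by rw [h]; norm_num)
  · exfalso
    have hH' : Nat.card H = 29160 := by rw [hH]; norm_num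
    obtain ⟨g, hg, h3⟩ := exists_threeCycle hOm H hH'
    have hprim : MulAction.IsPreprimitive H Om := by
      let φ : G → H := fun g => ⟨f g, ⟨g, rfl⟩⟩
      let F : Om →ₑ[φ] Om := { toFun := id, map_smul' := fun g x => rfl }
      exact MulAction.IsPreprimitive.of_surjective (f := F) Function.surjective_id
    have hle := Perm.alternatingGroup_le_of_isPreprimitive_of_isThreeCycle_mem hprim h3 hg
    have h5 := Nat.le_of_dvd Nat.card_pos (Subgroup.card_dvd_of_le hle)
    rw [hH'] at h5
    haveI : Nontrivial Om := Fintype.one_lt_card_iff_nontrivial.1 (by omega)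
    have h6 : 2 * Nat.card (alternatingGroup Om) = Nat.factorial 15 := by
      rw [Nat.card_eq_fintype_card, two_mul_card_alternatingGroup, Fintype.card_perm, hOm]
    have h7 : Nat.factorial 15 = 1307674368000 := by decide
    omega

end Cfsg.Agent.H95.Deg15
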