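import Cfsg.Agent.H95.SylC
import Cfsg.Agent.H12.JordanCycle

/-!
Permutation lemmas for derangements of prime order.
-/

set_option autoImplicit false

namespace Cfsg.Agent.H95.DerA

open Equiv Equiv.Perm MulAction
open scoped Pointwise

variable {α : Type*} [Fintype α] [DecidableEq α]

theorem index_powerset (G : Subgroup (Perm α)) (hA : alternatingGroup α ≤ G) (h3 : 3 ≤ Fintype.card α)
    (k : ℕ) (s : Set.powersetCard α k) :
    (MulAction.stabilizer G s).index = (Fintype.card α).choose k := by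
  have h3' : 3 ≤ Nat.card α := by rwa [Nat.card_eq_fintype_card]
  have hp := Set.powersetCard.isPretransitive_alternatingGroup (α := α) (n := k) h3'
  have : MulAction.IsPretransitive G (Set.powersetCard α k) := by
    constructor
    intro x y
    obtain ⟨g, hg⟩ := hp.exists_smul_eq x y
    exact ⟨⟨g, hA g.2⟩, hg⟩
  rw [MulAction.index_stabilizer_of_transitive, Set.powersetCard.card, Nat.card_eq_fintype_card]

omit [Fintype α] [DecidableEq α] in
theorem mod_lt_of_dvd {m k r : ℕ} (hr : r.Prime) (hk : k < r) (hkm : k ≤ m) (h : r ∣ m.choose k) :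
    m % r < k ∧ r ≤ m := by
  have h1 : r ∣ m.descFactorial k := by
    rw [Nat.descFactorial_eq_factorial_mul_choose]
    exact h.mul_left _
  rw [Nat.descFactorial_eq_prod_range, hr.prime.dvd_finsetProd_iff] at h1
  obtain ⟨i, hi, h2⟩ := h1
  rw [Finset.mem_range] at hi
  obtain ⟨c, hc⟩ := h2
  have hm : m = i + r * c := by omega
  constructor
  · rw [hm, Nat.add_mul_mod_self_left, Nat.mod_eq_of_lt (by omega)]
    exact hi
  · rcases Nat.eq_zero_or_pos c with rfl | hc0
    · simp at hc; omega
    · have := Nat.le_mul_of_pos_right r hc0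
      omega

theorem fix_of_small {h : Perm α} {r : ℕ} (hr : r.Prime) (ho : h ^ r = 1) (Δ : Finset α)
    (hΔ : ∀ a ∈ Δ, h a ∈ Δ) (hc : Δ.card < r) : ∀ a ∈ Δ, h a = a := by
  intro a ha
  by_contra hne
  have : Fact r.Prime := ⟨hr⟩
  have h1 := (pow_prime_eq_one_iff (σ := h) (p := r)).1 ho
  have hcyc : (h.cycleOf a).IsCycle := isCycle_cycleOf h hne
  have h2 : (h.cycleOf a).support.card ∈ h.cycleType := by
    have h3 : h.cycleOf a ∈ h.cycleFactorsFinset := by
      rw [cycleOf_mem_cycleFactorsFinset_iff]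
      simpa using hne
    rw [cycleType_def]
    exact Multiset.mem_map_of_mem (Finset.card ∘ support) h3
  have h3 := h1 _ h2
  have hnat : ∀ n : ℕ, (h ^ n) a ∈ Δ := by
    intro n
    induction n with
    | zero => simpa using ha
    | succ n ih => rw [pow_succ', Perm.mul_apply]; exact hΔ _ ih
  have h4 : (h.cycleOf a).support ⊆ Δ := by
    intro y hy
    rw [mem_support_cycleOf_iff] at hy
    obtain ⟨n, -, hn⟩ := hy.1.exists_pow_eq'
    rw [← hn]
    exact hnat n
  have := Finset.card_le_card h4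
  omega

theorem exists_inv_finset (H : Subgroup (Perm α))
    (ht : ¬ MulAction.IsPretransitive H α) :
    ∃ Δ : Finset α, 1 ≤ Δ.card ∧ 2 * Δ.card ≤ Fintype.card α ∧ ∀ h ∈ H, ∀ a ∈ Δ, h a ∈ Δ := by
  classical
  have : ∃ a b : α, ∀ h : H, h • a ≠ b := by
    by_contra hc
    push Not at hc
    exact ht ⟨hc⟩
  obtain ⟨a, b, hab⟩ := this
  let Δ : Finset α := Finset.univ.filter (fun x => ∃ h : H, h • a = x)
  have hinv : ∀ h ∈ H, ∀ x ∈ Δ, h x ∈ Δ := by
    intro h hh x hx
    simp only [Δ, Finset.mem_filter, Finset.mem_univ, true_and] at hx ⊢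
    obtain ⟨k, rfl⟩ := hx
    exact ⟨⟨h, hh⟩ * k, by rw [mul_smul]; rfl⟩
  have hinv' : ∀ h ∈ H, ∀ x ∈ Δᶜ, h x ∈ Δᶜ := by
    intro h hh x hx
    rw [Finset.mem_compl] at hx ⊢
    intro hc
    apply hx
    have := hinv h⁻¹ (H.inv_mem hh) _ hc
    simpa using this
  have ha : a ∈ Δ := by
    simp only [Δ, Finset.mem_filter, Finset.mem_univ, true_and]
    exact ⟨1, one_smul _ _⟩
  have hb : b ∈ Δᶜ := by
    rw [Finset.mem_compl]
    simp only [Δ, Finset.mem_filter, Finset.mem_univ, true_and, not_exists]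
    exact hab
  have hcard := Finset.card_add_card_compl Δ
  by_cases hle : 2 * Δ.card ≤ Fintype.card α
  · exact ⟨Δ, Finset.card_pos.2 ⟨a, ha⟩, hle, hinv⟩
  · exact ⟨Δᶜ, Finset.card_pos.2 ⟨b, hb⟩, by omega, hinv'⟩

theorem primitive_of_cycle (H : Subgroup (Perm α)) (ht : MulAction.IsPretransitive H α)
    {h : Perm α} (hh : h ∈ H) (ho : (orderOf h).Prime) (hc : Fintype.card α < 2 * orderOf h) :
    MulAction.IsPreprimitive H α := by
  classical
  have hcyc : h.IsCycle := isCycle_of_prime_order' ho hc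
  have hsupp : orderOf h = h.support.card := hcyc.orderOf
  refine { ht with isTrivialBlock_of_isBlock := ?_ }
  intro B hB
  by_contra hnt
  rw [MulAction.IsTrivialBlock, not_or] at hnt
  obtain ⟨hns, hnu⟩ := hnt
  have hcardB : 2 * B.ncard ≤ Fintype.card α := by
    by_contra hlt
    apply hnu
    apply hB.eq_univ_of_card_lt
    rw [Nat.card_eq_fintype_card]; omega
  rw [Set.not_subsingleton_iff] at hns
  obtain ⟨b, hb, b', hb', hbb⟩ := hns
  obtain ⟨x, hx⟩ : ∃ x, x ∈ h.support := by
    have : 0 < h.support.card := by rw [← hsupp]; exact ho.pos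
    exact Finset.card_pos.1 this
  obtain ⟨k, hk⟩ := ht.exists_smul_eq b x
  set B' : Set α := k • B with hB'
  have hBl : MulAction.IsBlock H B' := hB.translate k
  have hxB : x ∈ B' := ⟨b, hb, hk⟩
  obtain ⟨y, hyB, hyx⟩ : ∃ y ∈ B', y ≠ x :=
    ⟨k • b', ⟨b', hb', rfl⟩, fun e => hbb ((smul_left_cancel k (e.trans hk.symm)).symm)⟩
  have hcardB' : B'.ncard = B.ncard := Set.ncard_smul_set k B
  set h' : H := ⟨h, hh⟩ with hh'
  have key : h' • B' ≠ B' := by
    intro he
    have hn : ∀ n : ℕ, (h ^ n) x ∈ B' := by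
      intro n
      induction n with
      | zero => simpa using hxB
      | succ n ih =>
        rw [pow_succ', Perm.mul_apply]
        rw [← he]
        exact ⟨_, ih, rfl⟩
    have hsub : (h.support : Set α) ⊆ B' := by
      intro z hz
      obtain ⟨n, -, hn'⟩ := (hcyc.sameCycle (mem_support.1 hx) (mem_support.1 hz)).exists_pow_eq'
      rw [← hn']
      exact hn n
    have := Set.ncard_le_ncard hsub (Set.toFinite _)
    rw [Set.ncard_coe_finset] at this
    omega
  have hdis : Disjoint (h' • B') B' := by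
    rcases hBl.smul_eq_or_disjoint h' with e | e
    · exact absurd e key
    · exact e
  have hys : y ∈ h.support := by
    rw [mem_support]
    intro e
    exact (Set.disjoint_left.1 hdis) ⟨y, hyB, e⟩ hyB
  obtain ⟨n, hn, hn'⟩ := (hcyc.sameCycle (mem_support.1 hx) (mem_support.1 hys)).exists_pow_eq'
  have hn0 : n ≠ 0 := by
    rintro rfl
    exact hyx (by simpa using hn'.symm)
  have hcop : Nat.Coprime n (orderOf h') := by
    have e : orderOf h' = orderOf h := by rw [hh', Subgroup.orderOf_mk]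
    rw [e]
    have hlt : n < orderOf h := by
      have e2 : (h.cycleOf x).support.card = orderOf h := by
        rw [hcyc.cycleOf_eq (mem_support.1 hx), hsupp]
      omega
    exact (Nat.coprime_of_lt_prime hn0 hlt ho).symm
  obtain ⟨j, hj⟩ := exists_pow_eq_self_of_coprime hcop
  have hBn : (h' ^ n) • B' = B' := by
    rcases hBl.smul_eq_or_disjoint (h' ^ n) with e | e
    · exact e
    · exfalso
      apply (Set.disjoint_left.1 e) (a := y) ?_ hyB
      refine ⟨x, hxB, ?_⟩
      rw [← hn']; rfl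
  apply key
  rw [← hj]
  clear hj
  induction j with
  | zero => simp
  | succ j ih => rw [pow_succ, mul_smul, hBn, ih]

end Cfsg.Agent.H95.DerA
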