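import Cfsg.Agent.H95.DerA

/-!
Derangements whose order is the largest prime dividing the degree.
-/

set_option autoImplicit false

namespace Cfsg.Agent.H95.DerB

open Equiv Equiv.Perm MulAction DerA
open scoped Pointwise

section gen

variable {G : Type*} [Group G]

theorem orderOf_conj_eq (x g : G) : orderOf (x * g * x⁻¹) = orderOf g := by
  have := MulEquiv.orderOf_eq (MulAut.conj x) g
  simpa [MulAut.conj_apply] using this

variable [Finite G]

/-- if `r` does not divide the order of `H` but divides the index, Cauchy does it -/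
theorem cauchy_der (H : Subgroup G) {r : ℕ} (hr : r.Prime) (hrd : r ∣ H.index)
    (h : ¬ r ∣ Nat.card H) : ∃ g : G, orderOf g = r ∧ ∀ x : G, x * g * x⁻¹ ∉ H := by
  have : Fact r.Prime := ⟨hr⟩
  have h1 : r ∣ Nat.card G := hrd.trans H.index_dvd_card
  obtain ⟨g, hg⟩ := exists_prime_orderOf_dvd_card' r h1
  refine ⟨g, hg, fun x hx => h ?_⟩
  have h2 := orderOf_conj_eq x g
  have h3 : orderOf (⟨x * g * x⁻¹, hx⟩ : H) = r := by
    rw [Subgroup.orderOf_mk, h2, hg]
  rw [← h3]
  exact orderOf_dvd_natCard _

/-- an element of prime-power order is conjugate into a subgroup of index prime to `p` -/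
theorem conj_mem_of_index (H : Subgroup G) {p : ℕ} (hp : p.Prime) (hi : ¬ p ∣ H.index) (g : G)
    {n : ℕ} (hg : orderOf g = p ^ n) : ∃ x : G, x * g * x⁻¹ ∈ H := by
  have : Fact p.Prime := ⟨hp⟩
  have hz : IsPGroup p (Subgroup.zpowers g) := by
    rw [IsPGroup.iff_card]
    exact ⟨n, by rw [Nat.card_zpowers, hg]⟩
  obtain ⟨q, hq⟩ := hz.nonempty_fixed_point_of_prime_not_dvd_card (G ⧸ H)
    (by rwa [← Subgroup.index_eq_card])
  obtain ⟨x, rfl⟩ := QuotientGroup.mk_surjective q
  have h1 := hq ⟨g, Subgroup.mem_zpowers g⟩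
  have h2 : ((g * x : G) : G ⧸ H) = (x : G ⧸ H) := h1
  rw [QuotientGroup.eq] at h2
  refine ⟨x⁻¹, ?_⟩
  have h3 := H.inv_mem h2
  have e : ((g * x)⁻¹ * x)⁻¹ = x⁻¹ * g * x⁻¹⁻¹ := by group
  rwa [e] at h3

end gen

section core

variable {α : Type*} [Fintype α] [DecidableEq α]

theorem exists_cyc (m r : ℕ) (hr : r.Prime) (hm : m * r ≤ Fintype.card α) (h1 : 1 ≤ m)
    (hev : Even (m * (r + 1))) :
    ∃ σ : Perm α, σ.cycleType = Multiset.replicate m r ∧ orderOf σ = r ∧ σ ∈ alternatingGroup α := by
  have : Fact r.Prime := ⟨hr⟩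
  obtain ⟨σ, hσ⟩ := (exists_with_cycleType_iff α (m := Multiset.replicate m r)).2 ⟨by
    simpa using hm, fun a ha => by rw [Multiset.eq_of_mem_replicate ha]; exact hr.two_le⟩
  refine ⟨σ, hσ, ?_, ?_⟩
  · apply orderOf_eq_prime
    · rw [pow_prime_eq_one_iff, hσ]
      intro c hc
      exact Multiset.eq_of_mem_replicate hc
    · rintro rfl
      rw [cycleType_one] at hσ
      have := congrArg Multiset.card hσ
      simp at this
      omega
  · rw [mem_alternatingGroup, sign_of_cycleType, hσ]
    have e : (Multiset.replicate m r).sum + Multiset.card (Multiset.replicate m r) = m * (r + 1) := by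
      simp; ring
    rw [e]
    exact hev.neg_one_pow

theorem card_alt (h2 : 2 ≤ Fintype.card α) :
    2 * Nat.card (alternatingGroup α) = (Fintype.card α).factorial := by
  have : Nontrivial α := Fintype.one_lt_card_iff_nontrivial.1 (by omega)
  rw [Nat.card_eq_fintype_card, two_mul_card_alternatingGroup, Fintype.card_perm]

variable {G : Type*} [Group G] [Finite G]

/-- the transitive case -/
theorem core_trans (h5 : 5 ≤ Fintype.card α) (φ : G →* Perm α) (hφ : Function.Injective φ)
    (hA : alternatingGroup α ≤ φ.range) (H : Subgroup G)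
    (hAH : ¬ alternatingGroup α ≤ H.map φ) (ht : IsPretransitive (H.map φ) α)
    {r : ℕ} (hr : r.Prime) (hrd : r ∣ H.index) (hmax : ∀ s : ℕ, s.Prime → s ∣ H.index → s ≤ r) :
    ∃ g : G, orderOf g = r ∧ ∀ x : G, x * g * x⁻¹ ∉ H := by
  set m := Fintype.card α with hm
  have hHG := H.card_mul_index
  have hGm : Nat.card G ∣ m.factorial := by
    have h1 : Nat.card G = Nat.card φ.range := Nat.card_congr (MonoidHom.ofInjective hφ).toEquiv
    have h2 := φ.range.card_subgroup_dvd_card
    rw [Nat.card_perm, Nat.card_eq_fintype_card (α := α)] at h2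
    rw [h1]; exact h2
  by_cases hq : ∃ q : ℕ, q.Prime ∧ m < 2 * q ∧ q ∣ Nat.card H
  · -- `H` is primitive
    obtain ⟨q, hqp, hmq, hqH⟩ := hq
    have : Fact q.Prime := ⟨hqp⟩
    obtain ⟨h, hh⟩ := exists_prime_orderOf_dvd_card' q hqH
    have hho : orderOf (φ h) = q := by
      rw [orderOf_injective φ hφ, Subgroup.orderOf_coe, hh]
    have hprim : IsPreprimitive (H.map φ) α :=
      primitive_of_cycle (H.map φ) ht (h := φ h) ⟨h, h.2, rfl⟩ (by rwa [hho]) (by rw [hho]; exact hmq)
    have h3 : 3 ∣ H.index := by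
      by_contra h3
      obtain ⟨σ, hσ, hσo, hσA⟩ := exists_cyc (α := α) 1 3 Nat.prime_three (by omega) le_rfl (by decide)
      obtain ⟨g, hg⟩ := hA hσA
      have hgo : orderOf g = 3 ^ 1 := by rw [← orderOf_injective φ hφ, hg, hσo]; norm_num
      obtain ⟨x, hx⟩ := conj_mem_of_index H Nat.prime_three h3 g hgo
      apply hAH
      apply alternatingGroup_le_of_isPreprimitive_of_isThreeCycle_mem hprim (g := φ (x * g * x⁻¹)) ?_
        ⟨_, hx, rfl⟩
      rw [map_mul, map_mul, map_inv, hg]
      rw [IsThreeCycle, cycleType_conj, hσ]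
      rfl
    have hr3 : 3 ≤ r := hmax 3 Nat.prime_three h3
    by_cases hrH : r ∣ Nat.card H
    · have hrr : r * r ∣ m.factorial := by
        refine dvd_trans ?_ hGm
        rw [← hHG]
        exact mul_dvd_mul hrH hrd
      have hrm : r + 3 ≤ m := by
        by_contra hlt
        have h6 : r ^ 2 ∣ m.factorial := by rw [pow_two]; exact hrr
        rw [hr.pow_dvd_factorial_iff (b := 2) (by
          apply Nat.log_lt_of_lt_pow (by omega)
          nlinarith)] at h6
        have h7 : Finset.Ico 1 2 = {1} := by rfl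
        rw [h7, Finset.sum_singleton, pow_one] at h6
        have h8 : m / r < 2 := by
          rw [Nat.div_lt_iff_lt_mul hr.pos]; omega
        omega
      have hodd : Odd r := hr.odd_of_ne_two (by omega)
      obtain ⟨σ, hσ, hσo, hσA⟩ := exists_cyc (α := α) 1 r hr (by omega) le_rfl
        (by rw [one_mul]; exact hodd.add_one)
      obtain ⟨g, hg⟩ := hA hσA
      have hgo : orderOf g = r := by rw [← orderOf_injective φ hφ, hg, hσo]
      refine ⟨g, hgo, fun x hx => hAH ?_⟩
      have hct : (φ (x * g * x⁻¹)).cycleType = {r} := by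
        rw [map_mul, map_mul, map_inv, hg, cycleType_conj, hσ]; rfl
      have hcy : (φ (x * g * x⁻¹)).IsCycle := by
        rw [← card_cycleType_eq_one, hct]; rfl
      have hsc : (φ (x * g * x⁻¹)).support.card = r := by
        rw [← sum_cycleType, hct]; simp
      exact H12.jordan_prime_cycle (H.map φ) hprim hr hrm hcy hsc ⟨_, hx, rfl⟩
    · exact cauchy_der H hr hrd hrH
  · push Not at hq
    obtain ⟨p, hp, hp1, hp2⟩ := Nat.exists_prime_lt_and_le_two_mul (m / 2) (by omega)
    have hpH : ¬ p ∣ Nat.card H := hq p hp (by omega)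
    have hpG : p ∣ Nat.card G := by
      have h1 : p ∣ m.factorial := (hp.dvd_factorial).2 (by omega)
      rw [hm, ← card_alt (by omega)] at h1
      have h2 : p ∣ Nat.card (alternatingGroup α) := by
        rcases hp.dvd_mul.1 h1 with h | h
        · have := Nat.le_of_dvd (by norm_num) h
          omega
        · exact h
      have h3 := Subgroup.card_dvd_of_le hA
      rw [Nat.card_congr (MonoidHom.ofInjective hφ).toEquiv]
      exact h2.trans h3
    have hpi : p ∣ H.index := by
      rw [← hHG] at hpG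
      rcases hp.dvd_mul.1 hpG with h | h
      · exact absurd h hpH
      · exact h
    have hpr := hmax p hp hpi
    exact cauchy_der H hr hrd (hq r hr (by omega))

omit [Finite G] in
/-- index of the stabilizer of a subset -/
theorem index_comap (h5 : 5 ≤ Fintype.card α) (φ : G →* Perm α)
    (hA : alternatingGroup α ≤ φ.range) (Δ : Finset α) :
    ∃ K : Subgroup G, K.index = (Fintype.card α).choose Δ.card ∧
      (∀ g : G, g ∈ K ↔ ∀ a ∈ Δ, φ g a ∈ Δ) := by
  let s : Set.powersetCard α Δ.card := ⟨Δ, rfl⟩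
  refine ⟨(MulAction.stabilizer φ.range s).comap φ.rangeRestrict, ?_, ?_⟩
  · rw [Subgroup.index_comap_of_surjective _ φ.rangeRestrict_surjective]
    exact index_powerset φ.range hA (by omega) _ s
  · intro g
    rw [Subgroup.mem_comap, MulAction.mem_stabilizer_iff]
    rw [Subtype.ext_iff]
    have e : ((φ.rangeRestrict g • s : Set.powersetCard α Δ.card) : Finset α) = Δ.image (φ g) := by
      rfl
    rw [e]
    show Δ.image (φ g) = Δ ↔ _
    constructor
    · intro h a ha
      rw [← h]
      exact Finset.mem_image_of_mem _ ha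
    · intro h
      apply Finset.eq_of_subset_of_card_le
      · intro y hy
        obtain ⟨a, ha, rfl⟩ := Finset.mem_image.1 hy
        exact h a ha
      · rw [Finset.card_image_of_injective _ (φ g).injective]

/-- the case of a maximal subgroup -/
theorem core (h5 : 5 ≤ Fintype.card α) (φ : G →* Perm α) (hφ : Function.Injective φ)
    (hA : alternatingGroup α ≤ φ.range) (H : Subgroup G) (hH : IsCoatom H)
    (hAH : ¬ alternatingGroup α ≤ H.map φ)
    {r : ℕ} (hr : r.Prime) (hrd : r ∣ H.index) (hmax : ∀ s : ℕ, s.Prime → s ∣ H.index → s ≤ r) :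
    ∃ g : G, orderOf g = r ∧ ∀ x : G, x * g * x⁻¹ ∉ H := by
  by_cases ht : IsPretransitive (H.map φ) α
  · exact core_trans h5 φ hφ hA H hAH ht hr hrd hmax
  · obtain ⟨Δ, hΔ1, hΔ2, hΔ3⟩ := exists_inv_finset (H.map φ) ht
    obtain ⟨K, hKi, hKm⟩ := index_comap h5 φ hA Δ
    set m := Fintype.card α with hm
    have hHK : H ≤ K := by
      intro h hh
      rw [hKm]
      exact hΔ3 (φ h) ⟨h, hh, rfl⟩
    have hKtop : K ≠ ⊤ := by
      intro e
      rw [e, Subgroup.index_top] at hKi
      have := Nat.choose_eq_one_iff.1 hKi.symm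
      omega
    have hHK' : H = K := by
      rcases hH.le_iff.1 hHK with e | e
      · exact absurd e hKtop
      · exact e.symm
    rw [hHK', hKi] at hrd
    obtain ⟨p, hp, hkp, hpd⟩ := SylC.sylvester_schur hΔ1 hΔ2
    have hpr : p ≤ r := hmax p hp (by rw [hHK', hKi]; exact hpd)
    obtain ⟨hmod, hrm⟩ := mod_lt_of_dvd hr (by omega) (by omega) hrd
    have hdiv : 1 ≤ m / r := (Nat.one_le_div_iff hr.pos).2 hrm
    have hev : Even (m / r * (r + 1)) := by
      rcases hr.eq_two_or_odd' with h2 | ho
      · have hk1 : Δ.card = 1 := by omega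
        subst h2
        rw [hk1, Nat.choose_one_right] at hrd
        -- `m` is a power of two
        have hpow : ∀ s : ℕ, s.Prime → s ∣ m → s = 2 := by
          intro s hs hsm
          have := hmax s hs (by rw [hHK', hKi, hk1, Nat.choose_one_right]; exact hsm)
          have := hs.two_le
          omega
        have h4 : 4 ∣ m := by
          obtain ⟨c, hc⟩ := hrd
          by_contra h4
          have hc1 : c ≠ 1 := by omega
          obtain ⟨s, hs, hsc⟩ := Nat.exists_prime_and_dvd hc1
          have hs2 := hpow s hs (by rw [hc]; exact hsc.mul_left 2)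
          subst hs2
          obtain ⟨d, rfl⟩ := hsc
          exact h4 ⟨d, by rw [hc]; ring⟩
        obtain ⟨d, hd⟩ := h4
        rw [hd]
        have : 4 * d / 2 = 2 * d := by omega
        rw [this]
        exact ⟨d * 3, by ring⟩
      · exact (ho.add_one).mul_left _
    obtain ⟨σ, hσ, hσo, hσA⟩ := exists_cyc (α := α) (m / r) r hr (Nat.div_mul_le_self m r) hdiv hev
    obtain ⟨g, hg⟩ := hA hσA
    have hgo : orderOf g = r := by rw [← orderOf_injective φ hφ, hg, hσo]
    refine ⟨g, hgo, fun x hx => ?_⟩
    rw [hHK', hKm] at hx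
    set τ := φ (x * g * x⁻¹) with hτ
    have hτo : orderOf τ = r := by
      rw [hτ, orderOf_injective φ hφ, orderOf_conj_eq, hgo]
    have hfix := fix_of_small hr (by rw [← hτo]; exact pow_orderOf_eq_one τ) Δ hx (by omega)
    have hct : τ.cycleType = Multiset.replicate (m / r) r := by
      rw [hτ, map_mul, map_mul, map_inv, hg, cycleType_conj, hσ]
    have hsub : Δ ⊆ τ.supportᶜ := by
      intro a ha
      rw [Finset.mem_compl, notMem_support]
      exact hfix a ha
    have h1 := Finset.card_le_card hsub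
    rw [Finset.card_compl, ← sum_cycleType, hct, Multiset.sum_replicate, smul_eq_mul] at h1
    have h2 := Nat.div_add_mod m r
    have h3 : m / r * r = r * (m / r) := mul_comm _ _
    rw [← hm] at h1
    omega

end core

end Cfsg.Agent.H95.DerB
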