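import Cfsg.Agent.H95.DerB
import Cfsg.Agent.AutAlt.Basic

/-!
Degree 6, and embedding an almost simple group with alternating socle into the symmetric group.
-/

set_option autoImplicit false

namespace Cfsg.Agent.H95.DerC

open Equiv Equiv.Perm MulAction DerA DerB
open scoped Pointwise

theorem card6 : Nat.card (alternatingGroup (Fin 6)) = 360 := by
  have h := card_alt (α := Fin 6) (by simp)
  have e : (Fintype.card (Fin 6)).factorial = 720 := by decide
  omega

theorem core6 (H : Subgroup (alternatingGroup (Fin 6))) (hH : H ≠ ⊤) {r : ℕ} (hr : r.Prime)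
    (hrd : r ∣ H.index) (hmax : ∀ s : ℕ, s.Prime → s ∣ H.index → s ≤ r) :
    ∃ g : alternatingGroup (Fin 6), orderOf g = r ∧ ∀ x, x * g * x⁻¹ ∉ H := by
  set φ := (alternatingGroup (Fin 6)).subtype with hφd
  have hφ : Function.Injective φ := Subgroup.subtype_injective _
  have hrange : φ.range = alternatingGroup (Fin 6) := Subgroup.range_subtype _
  have hA : alternatingGroup (Fin 6) ≤ φ.range := hrange.ge
  have h5 : 5 ≤ Fintype.card (Fin 6) := by simp
  have hAH : ¬ alternatingGroup (Fin 6) ≤ H.map φ := by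
    intro h
    apply hH
    rw [eq_top_iff]
    intro x _
    obtain ⟨y, hy, hyx⟩ := h x.2
    have : y = x := hφ hyx
    rwa [← this]
  by_cases ht : IsPretransitive (H.map φ) (Fin 6)
  · exact core_trans h5 φ hφ hA H hAH ht hr hrd hmax
  · obtain ⟨Δ, hΔ1, hΔ2, hΔ3⟩ := exists_inv_finset (H.map φ) ht
    obtain ⟨K, hKi, hKm⟩ := index_comap h5 φ hA Δ
    have hHK : H ≤ K := by
      intro h hh
      rw [hKm]
      exact hΔ3 (φ h) ⟨h, hh, rfl⟩
    have hdvd : (Fintype.card (Fin 6)).choose Δ.card ∣ H.index := by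
      rw [← hKi]
      exact Subgroup.index_dvd_of_le hHK
    have hcard := H.card_mul_index
    rw [card6] at hcard
    have hr3 : 3 ≤ r := by
      rw [Fintype.card_fin] at hdvd hΔ2
      have : Δ.card = 1 ∨ Δ.card = 2 ∨ Δ.card = 3 := by omega
      rcases this with e | e | e <;> rw [e] at hdvd
      · exact hmax 3 Nat.prime_three ((by decide : 3 ∣ Nat.choose 6 1).trans hdvd)
      · exact hmax 3 Nat.prime_three ((by decide : 3 ∣ Nat.choose 6 2).trans hdvd)
      · exact (by norm_num : 3 ≤ 5).trans
          (hmax 5 Nat.prime_five ((by decide : 5 ∣ Nat.choose 6 3).trans hdvd))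
    by_cases hrH : r ∣ Nat.card H
    · -- then `r = 3`
      have hrr : r * r ∣ 360 := by
        rw [← hcard]; exact mul_dvd_mul hrH hrd
      have hr3' : r = 3 := by
        have h1 : r ≤ 18 := by
          have := Nat.le_of_dvd (by norm_num) hrr
          nlinarith
        interval_cases r <;> first | rfl | (exfalso; revert hrr; decide) | (exfalso; revert hr; decide)
      subst hr3'
      obtain ⟨a, ha⟩ := hrH
      have ha3 : ¬ 3 ∣ a := by
        rintro ⟨c, rfl⟩
        have : 3 * 3 * 3 ∣ 360 := by
          rw [← hcard, ha]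
          exact mul_dvd_mul ⟨c, by ring⟩ hrd
        revert this; decide
      by_contra hcon
      push Not at hcon
      obtain ⟨σ, hσ, hσo, hσA⟩ := exists_cyc (α := Fin 6) 1 3 Nat.prime_three (by simp) le_rfl (by decide)
      obtain ⟨τ, hτ, hτo, hτA⟩ := exists_cyc (α := Fin 6) 2 3 Nat.prime_three (by simp) (by norm_num) (by decide)
      obtain ⟨g, hg⟩ := hA hσA
      obtain ⟨h, hh⟩ := hA hτA
      have hgo : orderOf g = 3 := by rw [← orderOf_injective φ hφ, hg, hσo]
      have hho : orderOf h = 3 := by rw [← orderOf_injective φ hφ, hh, hτo]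
      obtain ⟨x, hx⟩ := hcon g hgo
      obtain ⟨y, hy⟩ := hcon h hho
      let k1 : H := ⟨_, hx⟩
      let k2 : H := ⟨_, hy⟩
      have hk1 : orderOf k1 = 3 := by
        rw [Subgroup.orderOf_mk, orderOf_conj_eq, hgo]
      have hk2 : orderOf k2 = 3 := by
        rw [Subgroup.orderOf_mk, orderOf_conj_eq, hho]
      have hind : ¬ 3 ∣ (Subgroup.zpowers k2).index := by
        have e := (Subgroup.zpowers k2).card_mul_index
        rw [Nat.card_zpowers, hk2, ha] at e
        have : (Subgroup.zpowers k2).index = a := Nat.eq_of_mul_eq_mul_left (by norm_num) e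
        rwa [this]
      obtain ⟨z, hz⟩ := conj_mem_of_index (Subgroup.zpowers k2) Nat.prime_three hind k1 (n := 1)
        (by rw [hk1]; norm_num)
      obtain ⟨i, hi⟩ := Subgroup.mem_zpowers_iff.1 hz
      -- compare cycle types
      have c1 : (φ ((z * k1 * z⁻¹ : H) : alternatingGroup (Fin 6))).cycleType = {3} := by
        have : φ ((z * k1 * z⁻¹ : H) : alternatingGroup (Fin 6)) =
            (φ z * φ x) * σ * (φ z * φ x)⁻¹ := by
          rw [← hg]
          simp only [k1, Subgroup.coe_mul, Subgroup.coe_inv, map_mul, map_inv]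
          group
        rw [this, cycleType_conj, hσ]; rfl
      have c2 : (φ ((k2 : H) : alternatingGroup (Fin 6))).cycleType = Multiset.replicate 2 3 := by
        have : φ ((k2 : H) : alternatingGroup (Fin 6)) = φ y * τ * (φ y)⁻¹ := by
          rw [← hh]
          simp only [k2, map_mul, map_inv]
        rw [this, cycleType_conj, hτ]
      have c3 : k2 ^ i = 1 ∨ k2 ^ i = k2 ∨ k2 ^ i = k2⁻¹ := by
        have e3 : k2 ^ 3 = 1 := by rw [← hk2]; exact pow_orderOf_eq_one k2
        have e4 : k2 ^ (3 : ℤ) = 1 := by exact_mod_cast e3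
        obtain ⟨q, hq⟩ : ∃ q : ℤ, i = 3 * q + i % 3 := ⟨i / 3, (Int.mul_ediv_add_emod i 3).symm⟩
        have e5 : k2 ^ i = k2 ^ (i % 3) := by
          conv_lhs => rw [hq]
          rw [zpow_add, zpow_mul, e4, one_zpow, one_mul]
        have h0 := Int.emod_nonneg i (by norm_num : (3 : ℤ) ≠ 0)
        have h1 := Int.emod_lt_of_pos i (by norm_num : (0 : ℤ) < 3)
        rw [e5]
        have : i % 3 = 0 ∨ i % 3 = 1 ∨ i % 3 = 2 := by omega
        rcases this with e | e | e <;> rw [e]
        · left; simp
        · right; left; simp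
        · right; right
          rw [eq_inv_iff_mul_eq_one, ← zpow_add_one]
          exact e4
      rcases c3 with e | e | e
      · rw [← hi, e] at c1
        simp at c1
      · rw [← hi, e, c2] at c1
        exact absurd c1 (by decide)
      · rw [← hi, e] at c1
        have : (φ ((k2⁻¹ : H) : alternatingGroup (Fin 6))) = (φ ((k2 : H) : alternatingGroup (Fin 6)))⁻¹ := by
          simp
        rw [this, cycleType_inv, c2] at c1
        exact absurd c1 (by decide)
    · exact cauchy_der H hr hrd hrH

/-- embedding into the symmetric group -/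
theorem exists_embed {G : Type*} [Group G] (T : Subgroup G) (hT : T.Normal)
    (hTc : Subgroup.centralizer (T : Set G) = ⊥) (m : ℕ) (hm : 5 ≤ m) (h6 : m ≠ 6)
    (eT : ↥T ≃* ↥(alternatingGroup (Fin m))) :
    ∃ φ : G →* Perm (Fin m), Function.Injective φ ∧ ∀ t : T, φ t = (eT t : Perm (Fin m)) := by
  have hbij := Cfsg.Agent.AutAlt.conjNormal_bijective (α := Fin m) (by simpa using (by omega : 4 ≤ m))
    (by simpa using h6)
  let c : Perm (Fin m) ≃* MulAut (alternatingGroup (Fin m)) := MulEquiv.ofBijective _ hbij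
  let ψ : G →* MulAut T := MulAut.conjNormal
  let φ : G →* Perm (Fin m) := (c.symm.toMonoidHom.comp (MulAut.congr eT).toMonoidHom).comp ψ
  have key : ∀ (g : G) (t : T), (eT (ψ g t) : Perm (Fin m)) = φ g * eT t * (φ g)⁻¹ := by
    intro g t
    have h1 : c (φ g) = MulAut.congr eT (ψ g) := by
      simp [φ]
    have h2 : c (φ g) (eT t) = eT (ψ g t) := by
      rw [h1]
      simp [MulAut.congr]
    rw [← h2]
    exact MulAut.conjNormal_apply _ _
  refine ⟨φ, ?_, ?_⟩
  · rw [injective_iff_map_eq_one]
    intro g hg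
    have : g ∈ Subgroup.centralizer (T : Set G) := by
      rw [Subgroup.mem_centralizer_iff]
      intro t ht
      have h1 := key g ⟨t, ht⟩
      rw [hg, one_mul, inv_one, mul_one] at h1
      have h2 : ψ g ⟨t, ht⟩ = ⟨t, ht⟩ := eT.injective (Subtype.ext h1)
      have h3 : g * t * g⁻¹ = t := by
        have := congrArg Subtype.val h2
        simpa [ψ, MulAut.conjNormal_apply] using this
      rw [mul_inv_eq_iff_eq_mul] at h3
      exact h3.symm
    rw [hTc] at this
    exact Subgroup.mem_bot.1 this
  · intro t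
    apply hbij.1
    ext x : 2
    rw [MulAut.conjNormal_apply, MulAut.conjNormal_apply]
    obtain ⟨s, rfl⟩ := eT.surjective x
    rw [← key]
    have : ψ (t : G) s = t * s * t⁻¹ := by
      apply Subtype.ext
      simp [ψ, MulAut.conjNormal_apply]
    rw [this]
    simp

end Cfsg.Agent.H95.DerC
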