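import Cfsg.Agent.H95.ProdPro
import Cfsg.Agent.H95.SylowOrbit

set_option autoImplicit false
set_option linter.unusedSectionVars false

/-!
Sylow `2`-subgroups of symmetric groups of degree `2 ^ k` are self-normalising and transitive.
-/

namespace Cfsg.Agent.H95

universe u

open Equiv

/-- Sylow `2`-subgroups are self-normalising -/
def SN (X : Type u) [Group X] : Prop :=
  ∀ T : Sylow 2 X, ∀ n : X, (∀ t ∈ (T : Subgroup X), n * t * n⁻¹ ∈ (T : Subgroup X)) → n ∈ (T : Subgroup X)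

lemma SN.of_one {X : Type u} [Group X] [Finite X] (T0 : Sylow 2 X)
    (h : ∀ n : X, (∀ t ∈ (T0 : Subgroup X), n * t * n⁻¹ ∈ (T0 : Subgroup X)) → n ∈ (T0 : Subgroup X)) : SN X := by
  intro T n hn
  obtain ⟨g, rfl⟩ := MulAction.exists_smul_eq X T0 T
  have key : ∀ y, y ∈ ((g • T0 : Sylow 2 X) : Subgroup X) ↔ g⁻¹ * y * g ∈ (T0 : Subgroup X) := by
    intro y
    rw [Sylow.coe_subgroup_smul, Subgroup.mem_pointwise_smul_iff_inv_smul_mem, ← map_inv, MulAut.smul_def,
      MulAut.conj_apply, inv_inv]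
  rw [key]
  apply h
  intro t ht
  have h1 := hn (g * t * g⁻¹) (by rw [key]; have : g⁻¹ * (g * t * g⁻¹) * g = t := by group
                                  rw [this]; exact ht)
  rw [key] at h1
  have e : g⁻¹ * (n * (g * t * g⁻¹) * n⁻¹) * g = (g⁻¹ * n * g) * t * (g⁻¹ * n * g)⁻¹ := by group
  rwa [e] at h1

lemma SN.of_equiv {X Y : Type u} [Group X] [Group Y] [Finite X] [Finite Y] (φ : X ≃* Y) (h : SN X) : SN Y := by
  intro T n hn
  have h1 : IsPGroup 2 ((T : Subgroup Y).comap φ.toMonoidHom) := by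
    apply T.isPGroup'.comap_of_injective
    exact φ.injective
  have h2 : ¬ 2 ∣ ((T : Subgroup Y).comap φ.toMonoidHom).index := by
    rw [Subgroup.index_comap_of_surjective _ φ.surjective]
    exact T.not_dvd_index
  have h3 := h (h1.toSylow h2) (φ.symm n) (by
    intro t ht
    have ht' : φ t ∈ (T : Subgroup Y) := ht
    show φ (φ.symm n * t * (φ.symm n)⁻¹) ∈ (T : Subgroup Y)
    rw [map_mul, map_mul, map_inv, MulEquiv.apply_symm_apply]
    exact hn _ ht')
  have h4 : φ (φ.symm n) ∈ (T : Subgroup Y) := h3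
  rwa [MulEquiv.apply_symm_apply] at h4

/-- `g` permutes the blocks and induces `σ` -/
def Ind {β : Type} (g : Perm (β × Bool)) (σ : Perm β) : Prop := ∀ b x, (g (b, x)).1 = σ b

lemma Ind.one {β : Type} : Ind (1 : Perm (β × Bool)) 1 := fun _ _ => rfl

lemma Ind.mul {β : Type} {g h : Perm (β × Bool)} {σ τ : Perm β} (hg : Ind g σ) (hh : Ind h τ) : Ind (g * h) (σ * τ) := by
  intro b x
  have : h (b, x) = (τ b, (h (b, x)).2) := by rw [← hh b x]
  rw [Perm.mul_apply, this, hg, Perm.mul_apply]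

lemma Ind.inv {β : Type} {g : Perm (β × Bool)} {σ : Perm β} (hg : Ind g σ) : Ind g⁻¹ σ⁻¹ := by
  intro b x
  have h1 : σ (g⁻¹ (b, x)).1 = b := by
    have h2 := hg (g⁻¹ (b, x)).1 (g⁻¹ (b, x)).2
    rw [← h2]
    simp
  rw [Equiv.Perm.eq_inv_iff_eq]; exact h1

lemma Ind.pow {β : Type} {g : Perm (β × Bool)} {σ : Perm β} (hg : Ind g σ) (k : ℕ) : Ind (g ^ k) (σ ^ k) := by
  induction k with
  | zero => exact Ind.one
  | succ k ih => rw [pow_succ, pow_succ]; exact ih.mul hg

lemma Ind.unique {β : Type} {g : Perm (β × Bool)} {σ τ : Perm β} (hg : Ind g σ) (hg' : Ind g τ) : σ = τ := by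
  ext b
  rw [← hg b true, hg' b true]

/-- existence of the induced permutation -/
lemma exists_ind {β : Type} [Finite β] {T : Subgroup (Perm (β × Bool))} (hT : IsPGroup 2 T)
    (hsw : ∀ g : Perm (β × Bool), (∀ b x, (g (b, x)).1 = b) → g ∈ T) {g : Perm (β × Bool)}
    (hg : ∀ t ∈ T, g * t * g⁻¹ ∈ T) : ∃ σ : Perm β, Ind g σ := by
  classical
  haveI := Fintype.ofFinite β
  have key : ∀ b, (g (b, true)).1 = (g (b, false)).1 := by
    intro b
    by_contra hne
    obtain ⟨⟨p1, p2⟩, hp⟩ : ∃ p, p = g (b, true) := ⟨_, rfl⟩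
    obtain ⟨q, hq⟩ : ∃ q, q = g (b, false) := ⟨_, rfl⟩
    rw [← hp, ← hq] at hne
    have sw1 : ∀ (c : β) (y z : Bool), swap (c, y) (c, z) ∈ T := by
      intro c y z
      apply hsw
      intro b' x
      by_cases h1 : (b', x) = (c, y)
      · rw [h1, swap_apply_left]; exact (congrArg Prod.fst h1).symm
      by_cases h2 : (b', x) = (c, z)
      · rw [h2, swap_apply_right]; exact (congrArg Prod.fst h2).symm
      rw [swap_apply_of_ne_of_ne h1 h2]
    have h1 : swap (p1, p2) q ∈ T := by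
      have h2 := hg _ (sw1 b true false)
      have h3 : g * swap (b, true) (b, false) * g⁻¹ = swap (p1, p2) q := by
        rw [hp, hq, mul_inv_eq_iff_eq_mul]
        exact Equiv.mul_swap_eq_swap_mul g (b, true) (b, false)
      rwa [h3] at h2
    have h2 : swap (p1, p2) (p1, !p2) ∈ T := sw1 p1 p2 _
    have h3 : orderOf (swap (p1, p2) q * swap (p1, p2) (p1, !p2)) = 3 := by
      apply Equiv.Perm.IsThreeCycle.orderOf
      apply Equiv.Perm.isThreeCycle_swap_mul_swap_same
      · intro h; apply hne; rw [← h]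
      · intro h
        have := congrArg Prod.snd h
        revert this
        cases p2 <;> simp
      · intro h; apply hne; rw [h]
    have h4 := eq_one_of_odd_of_two (by rw [h3]; decide) hT (mul_mem h1 h2)
    rw [h4, orderOf_one] at h3
    exact absurd h3 (by decide)
  have hs : Function.Surjective (fun b => (g (b, true)).1) := by
    intro c
    refine ⟨(g⁻¹ (c, true)).1, ?_⟩
    show (g ((g⁻¹ (c, true)).1, true)).1 = c
    have h1 : ∀ x, (g ((g⁻¹ (c, true)).1, x)).1 = (g ((g⁻¹ (c, true)).1, true)).1 := by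
      intro x
      cases x
      · exact (key _).symm
      · rfl
    rw [← h1 (g⁻¹ (c, true)).2]
    show (g (g⁻¹ (c, true))).1 = c
    simp
  refine ⟨Equiv.ofBijective _ ⟨Finite.injective_iff_surjective.2 hs, hs⟩, ?_⟩
  intro b x
  show (g (b, x)).1 = (g (b, true)).1
  cases x
  · exact (key b).symm
  · rfl

theorem sn_perm (k : ℕ) : SN (Perm (Fin (2 ^ k))) := by
  induction k with
  | zero =>
    intro T n _
    have h : n = 1 := by
      ext i
      have h1 : ∀ j : Fin (2 ^ 0), (j : ℕ) = 0 := by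
        intro j
        have := j.2
        simp only [pow_zero] at this
        omega
      rw [h1, h1]
    rw [h]; exact one_mem _
  | succ k ih =>
    set β := Fin (2 ^ k) with hβ
    have e : Perm (β × Bool) ≃* Perm (Fin (2 ^ (k + 1))) := by
      apply Equiv.permCongrHom
      apply Fintype.equivOfCardEq
      rw [Fintype.card_prod, Fintype.card_fin, Fintype.card_fin, Fintype.card_bool, pow_succ]
    refine SN.of_equiv e ?_
    obtain ⟨P⟩ : Nonempty (Sylow 2 (Perm β)) := inferInstance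
    -- the wreath product
    let T' : Subgroup (Perm (β × Bool)) :=
      { carrier := {g | ∃ σ ∈ (P : Subgroup (Perm β)), Ind g σ}
        mul_mem' := by
          rintro g h ⟨σ, hσ, hg⟩ ⟨τ, hτ, hh⟩
          exact ⟨σ * τ, mul_mem hσ hτ, hg.mul hh⟩
        one_mem' := ⟨1, one_mem _, Ind.one⟩
        inv_mem' := by
          rintro g ⟨σ, hσ, hg⟩
          exact ⟨σ⁻¹, inv_mem hσ, hg.inv⟩ }
    have mT' : ∀ g, g ∈ T' ↔ ∃ σ ∈ (P : Subgroup (Perm β)), Ind g σ := fun g => Iff.rfl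
    have hT' : IsPGroup 2 T' := by
      rintro ⟨g, hg⟩
      obtain ⟨σ, hσ, hgσ⟩ := hg
      obtain ⟨m, hm⟩ := P.isPGroup' ⟨σ, hσ⟩
      have hm' : σ ^ 2 ^ m = 1 := congrArg Subtype.val hm
      refine ⟨m + 1, Subtype.ext ?_⟩
      show g ^ 2 ^ (m + 1) = 1
      rw [pow_succ, pow_mul]
      have h1 := hgσ.pow (2 ^ m)
      rw [hm'] at h1
      set f := g ^ 2 ^ m with hf
      ext ⟨b, x⟩ : 1
      rw [pow_two, Perm.mul_apply, Perm.one_apply]
      have h2 : ∀ y, f (b, y) = (b, (f (b, y)).2) := fun y => Prod.ext (h1 b y) rfl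
      rw [h2 x, h2 (f (b, x)).2]
      have hinj : ∀ y z, (f (b, y)).2 = (f (b, z)).2 → y = z := by
        intro y z h
        have : f (b, y) = f (b, z) := by rw [h2 y, h2 z, h]
        exact congrArg Prod.snd (f.injective this)
      have key : ∀ (q : Bool → Bool), (∀ y z, q y = q z → y = z) → ∀ x, q (q x) = x := by decide
      rw [key (fun y => (f (b, y)).2) hinj x]
    obtain ⟨T, hT⟩ := hT'.exists_le_sylow
    have hsw : ∀ g : Perm (β × Bool), (∀ b x, (g (b, x)).1 = b) → g ∈ (T : Subgroup (Perm (β × Bool))) := by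
      intro g hg
      exact hT ⟨1, one_mem _, fun b x => hg b x⟩
    -- the induced group
    let P' : Subgroup (Perm β) :=
      { carrier := {σ | ∃ g ∈ (T : Subgroup (Perm (β × Bool))), Ind g σ}
        mul_mem' := by
          rintro σ τ ⟨g, hg, h1⟩ ⟨h, hh, h2⟩
          exact ⟨g * h, mul_mem hg hh, h1.mul h2⟩
        one_mem' := ⟨1, one_mem _, Ind.one⟩
        inv_mem' := by
          rintro σ ⟨g, hg, h1⟩
          exact ⟨g⁻¹, inv_mem hg, h1.inv⟩ }
    have hPP' : (P : Subgroup (Perm β)) ≤ P' := by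
      intro σ hσ
      have h1 : Ind (Equiv.prodCongr σ (Equiv.refl Bool)) σ := fun b x => rfl
      exact ⟨Equiv.prodCongr σ (Equiv.refl Bool), hT ⟨σ, hσ, h1⟩, h1⟩
    have hP' : IsPGroup 2 P' := by
      rintro ⟨σ, g, hg, h1⟩
      obtain ⟨m, hm⟩ := T.isPGroup' ⟨g, hg⟩
      have hm' : g ^ 2 ^ m = 1 := congrArg Subtype.val hm
      refine ⟨m, Subtype.ext ?_⟩
      have h2 := h1.pow (2 ^ m)
      rw [hm'] at h2
      exact h2.unique Ind.one
    have hPeq : P' = (P : Subgroup (Perm β)) := P.is_maximal' hP' hPP'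
    refine SN.of_one T ?_
    intro n hn
    obtain ⟨σ, hσ⟩ := exists_ind T.isPGroup' hsw hn
    apply hT
    refine ⟨σ, ?_, hσ⟩
    apply ih P
    intro τ hτ
    rw [← hPeq] at hτ ⊢
    obtain ⟨g, hg, hgτ⟩ := hτ
    exact ⟨n * g * n⁻¹, hn g hg, (hσ.mul hgτ).mul hσ.inv⟩

theorem perm_trans (k : ℕ) (T : Sylow 2 (Perm (Fin (2 ^ k)))) (a b : Fin (2 ^ k)) :
    ∃ τ ∈ (T : Subgroup (Perm (Fin (2 ^ k)))), τ a = b := by
  have h1 := pow_dvd_ncard_sylow_orbit (G := Perm (Fin (2 ^ k))) (Ω := Fin (2 ^ k)) 2 T a k (by simp)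
  have h2 : (MulAction.orbit (T : Subgroup (Perm (Fin (2 ^ k)))) a).ncard ≠ 0 := by
    intro h0
    rw [Set.ncard_eq_zero] at h0
    exact (MulAction.nonempty_orbit a).ne_empty h0
  have h3 := Nat.le_of_dvd (Nat.pos_of_ne_zero h2) h1
  have h4 : MulAction.orbit (T : Subgroup (Perm (Fin (2 ^ k)))) a = Set.univ := by
    apply Set.eq_of_subset_of_ncard_le (Set.subset_univ _)
    rw [Set.ncard_univ]
    simpa using h3
  have h5 : b ∈ MulAction.orbit (T : Subgroup (Perm (Fin (2 ^ k)))) a := by rw [h4]; trivial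
  obtain ⟨⟨τ, hτ⟩, h⟩ := h5
  exact ⟨τ, hτ, h⟩

end Cfsg.Agent.H95
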