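import Cfsg.Agent.H95.ProBN
import Cfsg.Agent.H95.Tower

set_option autoImplicit false
set_option linter.unusedSectionVars false

/-!
Pronormality of overgroups of a Sylow `2`-subgroup in a direct product.
-/

namespace Cfsg.Agent.H95

universe u

/-- the strong property: an element `n` of the normaliser of `S` either normalises `H` or is contained in `⟨H, nHn⁻¹⟩` -/
def Strong {G : Type u} [Group G] (S : Subgroup G) : Prop :=
  ∀ H : Subgroup G, S ≤ H → ∀ n : G, (∀ s ∈ S, n * s * n⁻¹ ∈ S) →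
    (∀ h ∈ H, n * h * n⁻¹ ∈ H) ∨ ∀ K : Subgroup G, H ≤ K → (∀ h ∈ H, n * h * n⁻¹ ∈ K) → n ∈ K

section single

variable {G : Type u} [Group G] [Finite G]

lemma norm_iff {S : Subgroup G} {n : G} : n ∈ Subgroup.normalizer (S : Set G) ↔ ∀ s ∈ S, n * s * n⁻¹ ∈ S := by
  constructor
  · intro h s hs
    exact (Subgroup.mem_normalizer_iff.1 h s).1 hs
  · intro h
    rw [Subgroup.mem_normalizer_iff]
    intro s
    refine ⟨h s, fun h' => ?_⟩
    have := norm_inv h _ h'
    have e1 : n⁻¹ * (n * s * n⁻¹) * n = s := by group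
    rwa [e1] at this

/-- reduction to elements normalising a Sylow subgroup -/
theorem isPronormal_of_norm' {p : ℕ} [Fact p.Prime] (S : Sylow p G) (H : Subgroup G) (hSH : (S : Subgroup G) ≤ H)
    (hS : ∀ n : G, (∀ s ∈ (S : Subgroup G), n * s * n⁻¹ ∈ (S : Subgroup G)) →
      ∃ k, (∀ K : Subgroup G, H ≤ K → (∀ h ∈ H, n * h * n⁻¹ ∈ K) → k ∈ K) ∧
        ∀ h, (n * h * n⁻¹ ∈ H.map (MulAut.conj k).toMonoidHom ↔ h ∈ H)) : Cfsg.IsPronormal H := by
  intro g
  set K := H ⊔ H.map (MulAut.conj g).toMonoidHom with hK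
  have h1 : (S : Subgroup G) ≤ K := hSH.trans le_sup_left
  have h2 : ((g • S : Sylow p G) : Subgroup G) ≤ K := by
    rw [Sylow.coe_subgroup_smul, hK, H37.map_conj_eq_smul]
    exact le_trans (Subgroup.pointwise_smul_le_pointwise_smul_iff.2 hSH) le_sup_right
  obtain ⟨k, hkK, hk'⟩ := H37.exists_conj_mem_of_le S (g • S) h1 h2
  have hn : k⁻¹ * g ∈ Subgroup.normalizer ((S : Subgroup G) : Set G) := by
    have : (k⁻¹ * g) • S = S := by rw [mul_smul, ← hk', inv_smul_smul]
    exact Sylow.smul_eq_iff_mem_normalizer.1 this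
  obtain ⟨m, hm1, hm2⟩ := hS _ (norm_iff.1 hn)
  have hmK : m ∈ K := by
    apply hm1 K le_sup_left
    intro h hh
    have h3 : g * h * g⁻¹ ∈ K := (le_sup_right : H.map (MulAut.conj g).toMonoidHom ≤ K) ⟨h, hh, rfl⟩
    have e : (k⁻¹ * g) * h * (k⁻¹ * g)⁻¹ = k⁻¹ * (g * h * g⁻¹) * k := by group
    rw [e]
    exact mul_mem (mul_mem (inv_mem hkK) h3) hkK
  refine ⟨k * m, mul_mem hkK hmK, ?_⟩
  ext y
  constructor
  · rintro ⟨h, hh, rfl⟩
    obtain ⟨h', hh', e⟩ := (hm2 h).2 hh
    refine ⟨h', hh', ?_⟩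
    have e' : m * h' * m⁻¹ = (k⁻¹ * g) * h * (k⁻¹ * g)⁻¹ := e
    show (k * m) * h' * (k * m)⁻¹ = g * h * g⁻¹
    have : (k * m) * h' * (k * m)⁻¹ = k * (m * h' * m⁻¹) * k⁻¹ := by group
    rw [this, e']; group
  · rintro ⟨h', hh', rfl⟩
    set h := (k⁻¹ * g)⁻¹ * (m * h' * m⁻¹) * (k⁻¹ * g) with hh
    have h3 : (k⁻¹ * g) * h * (k⁻¹ * g)⁻¹ = m * h' * m⁻¹ := by rw [hh]; group
    have h4 : h ∈ H := (hm2 h).1 (by rw [h3]; exact ⟨h', hh', rfl⟩)
    refine ⟨h, h4, ?_⟩
    show g * h * g⁻¹ = (k * m) * h' * (k * m)⁻¹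
    rw [hh]; group

end single

variable {ι : Type} [Fintype ι] [DecidableEq ι] {G : ι → Type u} [∀ i, Group (G i)] [∀ i, Finite (G i)]

/-- the product of Sylow subgroups -/
noncomputable def piSyl (S : ∀ i, Sylow 2 (G i)) : Subgroup (∀ i, G i) := Subgroup.pi Set.univ fun i => (S i : Subgroup (G i))

lemma mem_piSyl (S : ∀ i, Sylow 2 (G i)) (x : ∀ i, G i) : x ∈ piSyl S ↔ ∀ i, x i ∈ (S i : Subgroup (G i)) := by
  simp [piSyl, Subgroup.mem_pi]

lemma isPGroup_piSyl (S : ∀ i, Sylow 2 (G i)) : IsPGroup 2 (piSyl S) := by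
  rintro ⟨x, hx⟩
  rw [mem_piSyl] at hx
  have h1 : ∀ i, ∃ k : ℕ, x i ^ 2 ^ k = 1 := fun i => by
    obtain ⟨k, hk⟩ := (S i).isPGroup' ⟨x i, hx i⟩
    exact ⟨k, congrArg Subtype.val hk⟩
  choose k hk using h1
  refine ⟨∑ i, k i, Subtype.ext ?_⟩
  funext i
  show x i ^ 2 ^ (∑ i, k i) = 1
  rw [← Finset.add_sum_erase _ _ (Finset.mem_univ i), pow_add, pow_mul, hk, one_pow]

lemma not_dvd_piSyl (S : ∀ i, Sylow 2 (G i)) : ¬ 2 ∣ (piSyl S).index := by
  have h1 : (piSyl S).index = ∏ i, (S i : Subgroup (G i)).index := by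
    have hc : Nat.card (piSyl S) = ∏ i, Nat.card (S i : Subgroup (G i)) := by
      have e : (piSyl S) ≃ (∀ i, (S i : Subgroup (G i))) :=
        { toFun := fun v i => ⟨v.1 i, (mem_piSyl S v.1).1 v.2 i⟩
          invFun := fun v => ⟨fun i => (v i : G i), (mem_piSyl S _).2 fun i => (v i).2⟩
          left_inv := fun v => rfl
          right_inv := fun v => rfl }
      rw [Nat.card_congr e, Nat.card_pi]
    apply Nat.eq_of_mul_eq_mul_left (show 0 < Nat.card (piSyl S) from Nat.card_pos)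
    rw [Subgroup.card_mul_index, hc, Nat.card_pi, ← Finset.prod_mul_distrib]
    exact Finset.prod_congr rfl fun i _ => (Subgroup.card_mul_index _).symm
  rw [h1, Nat.prime_two.prime.dvd_finsetProd_iff]
  rintro ⟨i, -, hi⟩
  exact (S i).not_dvd_index hi

theorem isPronormal_pi (S : ∀ i, Sylow 2 (G i))
    (hab : ∀ i, ∀ n n' : G i, (∀ s ∈ (S i : Subgroup (G i)), n * s * n⁻¹ ∈ (S i : Subgroup (G i))) →
      (∀ s ∈ (S i : Subgroup (G i)), n' * s * n'⁻¹ ∈ (S i : Subgroup (G i))) → n * n' * n⁻¹ * n'⁻¹ ∈ (S i : Subgroup (G i)))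
    (hstr : ∀ i, Strong (S i : Subgroup (G i))) {H : Subgroup (∀ i, G i)} (hH : ¬ 2 ∣ H.index) :
    Cfsg.IsPronormal H := by
  classical
  set P : Sylow 2 (∀ i, G i) := (isPGroup_piSyl S).toSylow (not_dvd_piSyl S) with hP
  have mP : ∀ x, x ∈ (P : Subgroup (∀ i, G i)) ↔ ∀ i, x i ∈ (S i : Subgroup (G i)) := fun x => mem_piSyl S x
  apply isPronormal_of_sylow P hH
  intro K hPK
  apply isPronormal_of_norm' P K hPK
  intro n hn
  -- the components
  set L : ∀ i, Subgroup (G i) := fun i => K.comap (MonoidHom.mulSingle G i) with hL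
  have mL : ∀ i (x : G i), x ∈ L i ↔ Pi.mulSingle i x ∈ K := fun i x => Iff.rfl
  have single_mem : ∀ i (s : G i), s ∈ (S i : Subgroup (G i)) → Pi.mulSingle i s ∈ (P : Subgroup (∀ i, G i)) := by
    intro i s hs
    rw [mP]
    intro j
    by_cases h : j = i
    · subst h; rw [Pi.mulSingle_eq_same]; exact hs
    · rw [Pi.mulSingle_eq_of_ne h]; exact one_mem _
  have hSL : ∀ i, (S i : Subgroup (G i)) ≤ L i := fun i s hs => hPK (single_mem i s hs)
  have conj_single : ∀ (a : ∀ i, G i) i (x : G i), a * Pi.mulSingle i x * a⁻¹ = Pi.mulSingle i (a i * x * (a i)⁻¹) := by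
    intro a i x
    funext j
    by_cases h : j = i
    · subst h; simp
    · simp [Pi.mulSingle_eq_of_ne h]
  have norm_comp : ∀ a : ∀ i, G i, (∀ s ∈ (P : Subgroup (∀ i, G i)), a * s * a⁻¹ ∈ (P : Subgroup (∀ i, G i))) →
      ∀ i, ∀ s ∈ (S i : Subgroup (G i)), a i * s * (a i)⁻¹ ∈ (S i : Subgroup (G i)) := by
    intro a ha i s hs
    have h1 := ha _ (single_mem i s hs)
    rw [conj_single, mP] at h1
    have := h1 i
    rwa [Pi.mulSingle_eq_same] at this
  -- elements of the product of the components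
  have prodL : ∀ x : ∀ i, G i, (∀ i, x i ∈ L i) → x ∈ K := by
    intro x hx
    have h1 : ∀ s : Finset ι, (fun i => if i ∈ s then x i else 1 : ∀ i, G i) ∈ K := by
      intro s
      induction s using Finset.induction_on with
      | empty =>
        have : (fun i => if i ∈ (∅ : Finset ι) then x i else 1 : ∀ i, G i) = 1 := by funext i; simp
        rw [this]; exact one_mem _
      | insert a s ha ih =>
        have : (fun i => if i ∈ insert a s then x i else 1 : ∀ i, G i) =
            Pi.mulSingle a (x a) * (fun i => if i ∈ s then x i else 1 : ∀ i, G i) := by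
          funext i
          rw [Pi.mul_apply]
          by_cases h : i = a
          · subst h; simp [ha]
          · simp [Finset.mem_insert, h]
        rw [this]
        exact mul_mem (hx a) ih
    have := h1 Finset.univ
    simpa using this
  -- Frattini
  have frat : ∀ h ∈ K, ∃ a, (∀ i, a i ∈ L i) ∧ ∃ b ∈ K, (∀ s ∈ (P : Subgroup (∀ i, G i)), b * s * b⁻¹ ∈ (P : Subgroup (∀ i, G i))) ∧ h = a * b := by
    intro h hh
    set M : Subgroup (∀ i, G i) := Subgroup.pi Set.univ L with hM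
    have mM : ∀ x, x ∈ M ↔ ∀ i, x i ∈ L i := fun x => by simp [hM, Subgroup.mem_pi]
    have h1 : (P : Subgroup (∀ i, G i)) ≤ M := fun x hx => (mM x).2 fun i => hSL i ((mP x).1 hx i)
    have h2 : ((h • P : Sylow 2 (∀ i, G i)) : Subgroup (∀ i, G i)) ≤ M := by
      rw [Sylow.coe_subgroup_smul]
      intro x hx
      rw [Subgroup.mem_pointwise_smul_iff_inv_smul_mem, ← map_inv, MulAut.smul_def, MulAut.conj_apply, inv_inv] at hx
      rw [mM]
      intro i
      have h3 := hSL i ((mP _).1 hx i)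
      rw [mL] at h3 ⊢
      have h4 := mul_mem (mul_mem hh h3) (inv_mem hh)
      rw [conj_single] at h4
      have e : h i * (h⁻¹ * x * h) i * (h i)⁻¹ = x i := by
        simp only [Pi.mul_apply, Pi.inv_apply]; group
      rwa [e] at h4
    obtain ⟨a, haM, ha⟩ := H37.exists_conj_mem_of_le P (h • P) h1 h2
    have hb : a⁻¹ * h ∈ Subgroup.normalizer ((P : Subgroup (∀ i, G i)) : Set (∀ i, G i)) := by
      have : (a⁻¹ * h) • P = P := by rw [mul_smul, ← ha, inv_smul_smul]
      exact Sylow.smul_eq_iff_mem_normalizer.1 this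
    refine ⟨a, (mM a).1 haM, a⁻¹ * h, mul_mem (inv_mem (prodL a ((mM a).1 haM))) hh, norm_iff.1 hb, by group⟩
  have hn' := norm_comp n hn
  -- the two kinds of indices
  set k : ∀ i, G i := fun i => if (∀ h ∈ L i, n i * h * (n i)⁻¹ ∈ L i) then 1 else n i with hk
  set c : ∀ i, G i := fun i => if (∀ h ∈ L i, n i * h * (n i)⁻¹ ∈ L i) then n i else 1 with hc
  have hkc : n = k * c := by
    funext i
    rw [Pi.mul_apply, hk, hc]
    by_cases h : ∀ h ∈ L i, n i * h * (n i)⁻¹ ∈ L i
    · simp only [if_pos h, one_mul]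
    · simp only [if_neg h, mul_one]
  have hcL : ∀ i, ∀ h ∈ L i, c i * h * (c i)⁻¹ ∈ L i := by
    intro i x hx
    rw [hc]
    by_cases h : ∀ h ∈ L i, n i * h * (n i)⁻¹ ∈ L i
    · simp only [if_pos h]; exact h x hx
    · simp only [if_neg h]; simpa using hx
  have hcS : ∀ i, ∀ s ∈ (S i : Subgroup (G i)), c i * s * (c i)⁻¹ ∈ (S i : Subgroup (G i)) := by
    intro i x hx
    rw [hc]
    by_cases h : ∀ h ∈ L i, n i * h * (n i)⁻¹ ∈ L i
    · simp only [if_pos h]; exact hn' i x hx
    · simp only [if_neg h]; simpa using hx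
  have hcK : ∀ h ∈ K, c * h * c⁻¹ ∈ K := by
    intro h hh
    obtain ⟨a, ha, b, hbK, hb, rfl⟩ := frat h hh
    have e : c * (a * b) * c⁻¹ = (c * a * c⁻¹) * ((c * b * c⁻¹ * b⁻¹) * b) := by group
    rw [e]
    refine mul_mem (prodL _ fun i => ?_) (mul_mem (hPK ((mP _).2 fun i => ?_)) hbK)
    · exact hcL i _ (ha i)
    · exact hab i (c i) (b i) (hcS i) (norm_comp b hb i)
  refine ⟨k, ?_, ?_⟩
  · intro K' hKK' hnK'
    have h1 : ∀ i, Pi.mulSingle i (k i) ∈ K' := by
      intro i
      by_cases h : ∀ h ∈ L i, n i * h * (n i)⁻¹ ∈ L i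
      · have : k i = 1 := by rw [hk]; simp only [if_pos h]
        rw [this, Pi.mulSingle_one]; exact one_mem _
      · have : k i = n i := by rw [hk]; simp only [if_neg h]
        rw [this]
        refine ((hstr i (L i) (hSL i) (n i) (hn' i)).resolve_left h) (K'.comap (MonoidHom.mulSingle G i)) ?_ ?_
        · intro x hx; exact hKK' hx
        · intro x hx
          have h2 := hnK' _ hx
          show Pi.mulSingle i (n i * x * (n i)⁻¹) ∈ K'
          rw [← conj_single]
          exact h2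
    have h2 : ∀ s : Finset ι, (fun i => if i ∈ s then k i else 1 : ∀ i, G i) ∈ K' := by
      intro s
      induction s using Finset.induction_on with
      | empty =>
        have : (fun i => if i ∈ (∅ : Finset ι) then k i else 1 : ∀ i, G i) = 1 := by funext i; simp
        rw [this]; exact one_mem _
      | insert a s ha ih =>
        have : (fun i => if i ∈ insert a s then k i else 1 : ∀ i, G i) =
            Pi.mulSingle a (k a) * (fun i => if i ∈ s then k i else 1 : ∀ i, G i) := by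
          funext i
          rw [Pi.mul_apply]
          by_cases h : i = a
          · subst h; simp [ha]
          · simp [Finset.mem_insert, h]
        rw [this]
        exact mul_mem (h1 a) ih
    have := h2 Finset.univ
    simpa using this
  · intro h
    have e : n * h * n⁻¹ = k * (c * h * c⁻¹) * k⁻¹ := by rw [hkc]; group
    rw [e]
    constructor
    · rintro ⟨h', hh', e'⟩
      have e2 : k * h' * k⁻¹ = k * (c * h * c⁻¹) * k⁻¹ := e'
      have e3 : h' = c * h * c⁻¹ := mul_left_cancel (mul_right_cancel e2)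
      have h4 := norm_inv hcK _ hh'
      rw [e3] at h4
      have : c⁻¹ * (c * h * c⁻¹) * c = h := by group
      rwa [this] at h4
    · intro hh
      exact ⟨_, hcK h hh, rfl⟩

end Cfsg.Agent.H95
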