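import Cfsg.Agent.H95.SpMain

set_option autoImplicit false
set_option linter.unusedSectionVars false

/-!
Strong pronormality for the symplectic groups, abstract form.
-/

namespace Cfsg.Agent.H95.SpT

universe u v w

open Matrix

variable {F : Type u} [Field F] [Finite F] {V : Type v} [AddCommGroup V] [Module F V] {B : LinearMap.BilinForm F V}
  {G : Type w} [Group G] [DistribMulAction G V] [SMulCommClass G F V] {n : ℕ}
  [FaithfulSMul G V] (I : Isom B G) (X : Frm B G n) {q1 q2 : SpecialLinearGroup (Fin 2) F} (hq : QP q1 q2)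
  {Q : Sylow 2 (SpecialLinearGroup (Fin 2) F)} {T : Subgroup (Equiv.Perm (Fin n))}

lemma qs_of_e8 (e8 : Nonempty ((Q : Subgroup (SpecialLinearGroup (Fin 2) F)) ≃* QuaternionGroup 2)) :
    QS (Q : Subgroup (SpecialLinearGroup (Fin 2) F)) := by
  obtain ⟨e'⟩ := e8
  refine ⟨?_, ?_, ?_⟩
  · rw [Nat.card_congr e'.toEquiv, Nat.card_eq_fintype_card]; rfl
  · intro s hs
    have h3 : ∀ q : QuaternionGroup 2, q ^ 4 = 1 := by decide
    have h4 := h3 (e' ⟨s, hs⟩)
    rw [← map_pow] at h4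
    have h5 : (⟨s, hs⟩ : (Q : Subgroup (SpecialLinearGroup (Fin 2) F))) ^ 4 = 1 :=
      e'.injective (by rw [h4, map_one])
    exact congrArg Subtype.val h5
  · set i := e'.symm (QuaternionGroup.a 1) with hi
    set j := e'.symm (QuaternionGroup.xa 0) with hj
    refine ⟨i, i.2, j, j.2, fun h => ?_⟩
    have h4 : i * j = j * i := Subtype.ext h
    rw [hi, hj, ← map_mul, ← map_mul] at h4
    have h5 := e'.symm.injective h4
    revert h5
    decide

/-- the diagonal embedding -/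
def cst : SpecialLinearGroup (Fin 2) F →* G where
  toFun y := X.e (fun _ => y)
  map_one' := by
    have : (fun _ => (1 : SpecialLinearGroup (Fin 2) F)) = (1 : Fin n → SpecialLinearGroup (Fin 2) F) := rfl
    rw [this, map_one]
  map_mul' a b := by rw [← map_mul]; rfl

lemma cst_apply (y : SpecialLinearGroup (Fin 2) F) : cst X y = X.e (fun _ => y) := rfl

/-- the embedding of a factor -/
def sgl (i : Fin n) : SpecialLinearGroup (Fin 2) F →* G where
  toFun y := X.e (Pi.mulSingle i y)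
  map_one' := by rw [Pi.mulSingle_one, map_one]
  map_mul' a b := by rw [← map_mul, ← Pi.mulSingle_mul]

lemma cst_conj (c : SpecialLinearGroup (Fin 2) F) (v : Fin n → SpecialLinearGroup (Fin 2) F) (τ : Equiv.Perm (Fin n)) :
    cst X c * (X.e v * X.s τ) * (cst X c)⁻¹ = X.e (fun l => c * v l * c⁻¹) * X.s τ := by
  have h1 : X.s τ * (cst X c)⁻¹ = (cst X c)⁻¹ * X.s τ := by
    rw [cst_apply, ← map_inv, X.s_e]; rfl
  calc cst X c * (X.e v * X.s τ) * (cst X c)⁻¹ = cst X c * X.e v * (X.s τ * (cst X c)⁻¹) := by group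
    _ = (cst X c * X.e v * (cst X c)⁻¹) * X.s τ := by rw [h1]; group
    _ = _ := by
      rw [cst_apply, ← map_inv, ← map_mul, ← map_mul]; rfl

lemma cst_norm {c : SpecialLinearGroup (Fin 2) F} (hc : ∀ q ∈ (Q : Subgroup _), c * q * c⁻¹ ∈ (Q : Subgroup _)) :
    ∀ σ ∈ SS X (Q : Subgroup _) T, cst X c * σ * (cst X c)⁻¹ ∈ SS X (Q : Subgroup _) T := by
  rintro _ ⟨v, τ, hv, hτ, rfl⟩
  rw [cst_conj]
  exact ⟨_, τ, fun l => hc _ (hv l), hτ, rfl⟩

lemma cst_mem_SS {c : SpecialLinearGroup (Fin 2) F} (hc : c ∈ (Q : Subgroup _)) : cst X c ∈ SS X (Q : Subgroup _) T :=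
  e_mem_SS X fun _ => hc

lemma single_conj_s (σ : Equiv.Perm (Fin n)) (i : Fin n) (y : SpecialLinearGroup (Fin 2) F) :
    X.s σ * X.e (Pi.mulSingle i y) * (X.s σ)⁻¹ = X.e (Pi.mulSingle (σ i) y) := by
  have := X.conj_single 1 σ i y
  simpa using this

lemma cst_of_single {K : Subgroup G} {i : Fin n} (hTt : ∀ i j : Fin n, ∃ τ ∈ T, τ i = j) (hTK : ∀ τ ∈ T, X.s τ ∈ K)
    {y : SpecialLinearGroup (Fin 2) F} (hy : X.e (Pi.mulSingle i y) ∈ K) : cst X y ∈ K := by
  classical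
  have h1 : ∀ j, X.e (Pi.mulSingle j y) ∈ K := by
    intro j
    obtain ⟨τ, hτ, hτi⟩ := hTt i j
    rw [← hτi, ← single_conj_s]
    exact mul_mem (mul_mem (hTK τ hτ) hy) (inv_mem (hTK τ hτ))
  have h2 : ∀ s : Finset (Fin n), X.e (fun l => if l ∈ s then y else 1) ∈ K := by
    intro s
    induction s using Finset.induction_on with
    | empty =>
      have : (fun l : Fin n => if l ∈ (∅ : Finset (Fin n)) then y else 1) = 1 := by funext l; simp
      rw [this, map_one]; exact one_mem _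
    | insert j s hj ih =>
      have : (fun l : Fin n => if l ∈ insert j s then y else 1) = Pi.mulSingle j y * fun l => if l ∈ s then y else 1 := by
        funext l
        by_cases hl : l = j
        · subst hl
          simp [hj]
        · rw [Pi.mul_apply, Pi.mulSingle_eq_of_ne hl, one_mul]
          simp [hl]
      rw [this, map_mul]
      exact mul_mem (h1 j) ih
  have h3 := h2 Finset.univ
  simpa [cst_apply] using h3

/-- a prime power argument -/
lemma two_group_of_odd {Γ : Type w} [Group Γ] [Finite Γ] {P : Subgroup Γ} (h : ∀ x ∈ P, Odd (orderOf x) → x = 1) :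
    IsPGroup 2 P := by
  intro x
  obtain ⟨a, m, hm, ham⟩ := Nat.exists_eq_two_pow_mul_odd (orderOf_pos x).ne'
  refine ⟨a, ?_⟩
  apply Subtype.ext
  show (x : Γ) ^ 2 ^ a = 1
  apply h _ (pow_mem x.2 _)
  refine odd_of_pow hm ?_
  rw [← pow_mul, ← ham, ← Subgroup.coe_pow, pow_orderOf_eq_one]; rfl

include I hq in
open scoped Pointwise in
/-- **the core theorem** -/
theorem core [Finite G] [Finite V] (hnd : B.Nondegenerate) {A : Type*} [CommGroup A] (χ : NQ Q →* A)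
    (hχ : ∀ x : NQ Q, χ x = 1 ↔ (x : SpecialLinearGroup (Fin 2) F) ∈ (Q : Subgroup (SpecialLinearGroup (Fin 2) F)))
    (e8 : Nonempty ((Q : Subgroup (SpecialLinearGroup (Fin 2) F)) ≃* QuaternionGroup 2))
    (S0 : Sylow 2 G) (hS0 : (S0 : Subgroup G) = SS X (Q : Subgroup _) T)
    (hT : ∀ ν : Equiv.Perm (Fin n), (∀ τ ∈ T, ν * τ * ν⁻¹ ∈ T) → ν ∈ T)
    (hTt : ∀ i j : Fin n, ∃ τ ∈ T, τ i = j)
    (h1Q : q1 ∈ (Q : Subgroup _)) (h2Q : q2 ∈ (Q : Subgroup _)) (i0 : Fin n) {H K : Subgroup G}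
    (hSH : SS X (Q : Subgroup _) T ≤ H) (hHK : H ≤ K) {a : SpecialLinearGroup (Fin 2) F} (ha : Odd (orderOf a))
    (haQ : ∀ q ∈ (Q : Subgroup _), a * q * a⁻¹ ∈ (Q : Subgroup _)) (haH : ∀ h ∈ H, cst X a * h * (cst X a)⁻¹ ∈ K)
    (haK : cst X a ∉ K) : ∀ h ∈ H, cst X a * h * (cst X a)⁻¹ ∈ H := by
  have C := ca_sl I.two
  have qs := qs_of_e8 e8
  have ha1 : a ≠ 1 := by rintro rfl; rw [map_one] at haK; exact haK (one_mem _)
  have hTK : ∀ τ ∈ T, X.s τ ∈ K := fun τ hτ => hHK (hSH (s_mem_SS X hτ))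
  -- no odd elements of the normaliser on the diagonal
  have NY : ∀ y : SpecialLinearGroup (Fin 2) F, cst X y ∈ K → Odd (orderOf y) →
      (∀ q ∈ (Q : Subgroup _), y * q * y⁻¹ ∈ (Q : Subgroup _)) → y = 1 := by
    intro y hyK hy hyQ
    by_contra hy1
    have h1 := normalizer_le C Q qs e8 (K := K.comap (cst X)) (fun q hqQ => hHK (hSH (cst_mem_SS X hqQ))) hyK hy hyQ hy1
    exact haK (h1 (norm_iff.2 haQ))
  have hQK : ∀ i, (Q : Subgroup _) ≤ K.comap (sgl X i) := fun i q hqQ => hHK (hSH (single_mem_SS X hqQ i))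
  -- the intersections with the fundamental subgroups
  have hHQ : ∀ i (y : SpecialLinearGroup (Fin 2) F), X.e (Pi.mulSingle i y) ∈ H → y ∈ (Q : Subgroup _) := by
    intro i
    obtain ⟨N, hNK, hN1, hN2, hN3⟩ := exists_compl C Q qs (hQK i)
      (fun y hy hodd hyQ => NY y (cst_of_single X hTt hTK hy) hodd hyQ)
    have hNS : NS N (Q : Subgroup _) := ⟨fun s hs n hn => hN1 s (hQK i hs) n hn, hN2⟩
    have h1 : IsPGroup 2 (H.comap (sgl X i)) := by
      apply two_group_of_odd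
      intro x hx hodd
      refine trivial_of_conj C qs hNS Q.isPGroup' ha haQ ha1 (hN3 _ (hHK hx) hodd) (hN3 _ ?_ ?_)
      · have h2 := haH _ hx
        have h3 : cst X a * sgl X i x * (cst X a)⁻¹ = sgl X i (a * x * a⁻¹) := X.conj_single_e (fun _ => a) i x
        rw [h3] at h2
        exact h2
      · have h6 : orderOf (a * x * a⁻¹) = orderOf x := by
          have := orderOf_injective (MulAut.conj a).toMonoidHom (MulAut.conj a).injective x
          simpa using this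
        rwa [h6]
    have h2 : (Q : Subgroup _) ≤ H.comap (sgl X i) := fun q hqQ => hSH (single_mem_SS X hqQ i)
    have h3 := Q.is_maximal' h1 h2
    intro y hy
    rw [← h3]; exact hy
  have hQH : ∀ i, ∀ q ∈ (Q : Subgroup _), X.e (Pi.mulSingle i q) ∈ H := fun i q hqQ => hSH (single_mem_SS X hqQ i)
  -- the normaliser in `H`
  have hNH : ∀ m ∈ H, (∀ σ ∈ SS X (Q : Subgroup _) T, m * σ * m⁻¹ ∈ SS X (Q : Subgroup _) T) →
      m ∈ SS X (Q : Subgroup _) T := by
    intro m hm hmS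
    obtain ⟨c, hcN, σ, hσ, hmc⟩ := norm_SS I X hq h1Q hT hTt i0 hmS
    obtain ⟨x, s, hs, hcx, hx, hxQ⟩ := exists_decomp Q (norm_iff.2 hcN)
    have h1 : cst X x ∈ K := by
      have h2 : cst X x = m * σ⁻¹ * (cst X s)⁻¹ := by
        rw [hmc, mul_inv_cancel_right, ← cst_apply, hcx, map_mul, mul_inv_cancel_right]
      rw [h2]
      exact hHK (mul_mem (mul_mem hm (inv_mem (hSH hσ))) (inv_mem (hSH (cst_mem_SS X hs))))
    have h2 := NY x h1 hx hxQ
    rw [h2, one_mul] at hcx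
    rw [hmc, ← cst_apply, hcx]
    exact mul_mem (cst_mem_SS X hs) hσ
  have hrefl : ∀ {h z : G}, h ∈ H → z = h * X.t i0 * h⁻¹ → z ∈ SS X (Q : Subgroup _) T → ∃ i, z = X.t i :=
    fun hh hz hzS => refl_mem I X hq χ hχ e8 S0 hS0 hSH hNH hHQ hTt h1Q h2Q hh hz hzS
  -- the class of reflections
  have htt : ∀ i j, X.t i * X.t j = X.t j * X.t i := by
    intro i j
    by_cases hij : i = j
    · rw [hij]
    · exact X.single_comm hij _ _
  have IH : Isom B H := ⟨I.two, I.alt, fun h u v => I.inv h u v⟩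
  have hS0H : (S0 : Subgroup G) ≤ H := by rw [hS0]; exact hSH
  have hZ : Cl B (fun x : H => ∃ h ∈ H, (x : G) = h * X.t i0 * h⁻¹) := by
    refine ⟨?_, ?_, ?_⟩
    · rintro x ⟨h, hh, hx⟩
      have R := (X.fr I hq.h1 hq.h2 hq.h12 i0).conj I h
      rw [← hx] at R
      exact ⟨⟨_, mul_mem (mul_mem hh (hQH i0 q1 h1Q)) (inv_mem hh)⟩, ⟨_, mul_mem (mul_mem hh (hQH i0 q2 h2Q)) (inv_mem hh)⟩,
        _, _, ⟨R.e12, R.xf, Subtype.ext R.xx, Subtype.ext R.ii, Subtype.ext R.jj, Subtype.ext R.ij, R.fi, R.fj⟩⟩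
    · rintro x ⟨h, hh, hx⟩ g
      refine ⟨g * h, mul_mem g.2 hh, ?_⟩
      show (g : G) * x * (g : G)⁻¹ = _
      rw [hx]; group
    · rintro x y ⟨h, hh, hx⟩ ⟨h', hh', hy⟩ k hk
      have hxx : x * x = 1 := by
        apply Subtype.ext
        have R := (X.fr I hq.h1 hq.h2 hq.h12 i0).conj I h
        rw [← hx] at R
        exact R.xx
      have hyy : y * y = 1 := by
        apply Subtype.ext
        have R := (X.fr I hq.h1 hq.h2 hq.h12 i0).conj I h'
        rw [← hy] at R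
        exact R.xx
      have hxi : x⁻¹ = x := inv_eq_of_mul_eq_one_left hxx
      have hyi : y⁻¹ = y := inv_eq_of_mul_eq_one_left hyy
      have p1 : IsPGroup 2 (Subgroup.zpowers x) := by
        rintro ⟨z, t, rfl⟩
        refine ⟨1, Subtype.ext ?_⟩
        show (x ^ t) ^ 2 ^ 1 = 1
        rw [← zpow_natCast, ← _root_.zpow_mul, mul_comm, _root_.zpow_mul, zpow_natCast, pow_one, pow_two, hxx, _root_.one_zpow]
      have p2 : IsPGroup 2 (Subgroup.zpowers (x * y)) := by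
        rintro ⟨z, t, rfl⟩
        refine ⟨k, Subtype.ext ?_⟩
        show ((x * y) ^ t) ^ 2 ^ k = 1
        rw [← zpow_natCast, ← _root_.zpow_mul, mul_comm, _root_.zpow_mul, zpow_natCast, hk, _root_.one_zpow]
      have hnor : Subgroup.zpowers x ≤ Subgroup.normalizer ((Subgroup.zpowers (x * y) : Subgroup H) : Set H) := by
        rw [Subgroup.zpowers_le, norm_iff]
        rintro _ ⟨t, rfl⟩
        refine ⟨-t, ?_⟩
        show (x * y) ^ (-t) = x * (x * y) ^ t * x⁻¹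
        rw [← conj_zpow]
        have : x * (x * y) * x⁻¹ = (x * y)⁻¹ := by
          rw [_root_.mul_inv_rev, ← mul_assoc, hxx, one_mul, hyi]
        rw [this, _root_.inv_zpow, _root_.zpow_neg]
      have hP := IsPGroup.to_sup_of_normal_right' p1 p2 hnor
      obtain ⟨P, hPP⟩ := hP.exists_le_sylow
      obtain ⟨g, hg⟩ := MulAction.exists_smul_eq H P (S0.subtype hS0H)
      have hmem : ∀ u : H, u ∈ Subgroup.zpowers x ⊔ Subgroup.zpowers (x * y) → (g : G) * u * (g : G)⁻¹ ∈ SS X (Q : Subgroup _) T := by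
        intro u hu
        have h1 : g * u * g⁻¹ ∈ ((g • P : Sylow 2 H) : Subgroup H) := by
          rw [Sylow.coe_subgroup_smul]
          exact ⟨u, hPP hu, rfl⟩
        rw [hg, Sylow.coe_subtype] at h1
        rw [← hS0]
        exact h1
      have hxm : x ∈ Subgroup.zpowers x ⊔ Subgroup.zpowers (x * y) := Subgroup.mem_sup_left (Subgroup.mem_zpowers x)
      have hym : y ∈ Subgroup.zpowers x ⊔ Subgroup.zpowers (x * y) := by
        have h8 : x⁻¹ * (x * y) ∈ Subgroup.zpowers x ⊔ Subgroup.zpowers (x * y) :=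
          mul_mem (inv_mem hxm) (Subgroup.mem_sup_right (Subgroup.mem_zpowers _))
        rwa [inv_mul_cancel_left] at h8
      obtain ⟨i, hi⟩ := hrefl (h := g * h) (mul_mem g.2 hh) (by rw [hx]; group) (hmem x hxm)
      obtain ⟨j, hj⟩ := hrefl (h := g * h') (mul_mem g.2 hh') (by rw [hy]; group) (hmem y hym)
      apply Subtype.ext
      show (x : G) * y = y * x
      have e1 : (x : G) = (g : G)⁻¹ * X.t i * g := by rw [← hi]; group
      have e2 : (y : G) = (g : G)⁻¹ * X.t j * g := by rw [← hj]; group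
      rw [e1, e2]
      calc (g : G)⁻¹ * X.t i * g * ((g : G)⁻¹ * X.t j * g) = (g : G)⁻¹ * (X.t i * X.t j) * g := by group
        _ = (g : G)⁻¹ * (X.t j * X.t i) * g := by rw [htt]
        _ = _ := by group
  have hno : ¬ ∃ (r : H) (v : V) (c : F), v ≠ 0 ∧ c ≠ 0 ∧ ∀ u, r • u = u + (c * B u v) • v := by
    rintro ⟨r, v, c, hv, hc, hru⟩
    exact no_tv I X hq Q.isPGroup' h1Q h2Q hQH hHQ _ r v c r.2 hv hc hru le_rfl
  have hcomm : ∀ {x y : H}, (∃ h ∈ H, (x : G) = h * X.t i0 * h⁻¹) → (∃ h ∈ H, (y : G) = h * X.t i0 * h⁻¹) →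
      (x : G) * y = y * x := by
    intro x y hx hy
    exact congrArg Subtype.val (Cl.main IH hZ hnd hno hx hy)
  have hti : ∀ i, ∃ h ∈ H, X.t i = h * X.t i0 * h⁻¹ := by
    intro i
    obtain ⟨τ, hτ, hτi⟩ := hTt i0 i
    refine ⟨X.s τ, hSH (s_mem_SS X hτ), ?_⟩
    rw [Frm.t, Frm.t, single_conj_s, hτi]
  have htH : ∀ i, X.t i ∈ H := by
    intro i
    have h1 := hQH i (-1) (by rw [← hq.h1]; exact mul_mem h1Q h1Q)
    exact h1
  intro h hh
  have hπ : ∀ i, ∃ j, h * X.t i * h⁻¹ = X.t j := by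
    intro i
    obtain ⟨g, hg, hgi⟩ := hti i
    have hz : h * X.t i * h⁻¹ = (h * g) * X.t i0 * (h * g)⁻¹ := by rw [hgi]; group
    have hzH : h * X.t i * h⁻¹ ∈ H := mul_mem (mul_mem hh (htH i)) (inv_mem hh)
    have hc : ∀ l, (h * X.t i * h⁻¹) * X.t l * (h * X.t i * h⁻¹)⁻¹ = X.t (id l) := by
      intro l
      rw [mul_inv_eq_iff_eq_mul]
      exact hcomm (x := ⟨_, hzH⟩) (y := ⟨_, htH l⟩) ⟨_, mul_mem hh hg, hz⟩ (hti l)
    obtain ⟨v, σ, hσ, hzv⟩ := of_perm I X hc hq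
    have hσ1 : σ = 1 := Equiv.ext hσ
    rw [hσ1, map_one, mul_one] at hzv
    have R := (X.fr I hq.h1 hq.h2 hq.h12 i).conj I h
    have hzz := R.xx
    rw [hzv, ← map_mul, ← map_one X.e] at hzz
    have hvv := X.e_inj I hzz
    have hvQ : ∀ l, v l ∈ (Q : Subgroup _) := by
      intro l
      rcases C.inv (v l) (congrFun hvv l) with h1 | h1
      · rw [h1]; exact one_mem _
      · rw [h1, ← hq.h1]; exact mul_mem h1Q h1Q
    exact hrefl (mul_mem hh hg) hz (by rw [hzv]; exact e_mem_SS X hvQ)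
  choose π hπ using hπ
  obtain ⟨y, σ, hσ, hhy⟩ := of_perm I X hπ hq
  have hyN : ∀ l, ∀ q ∈ (Q : Subgroup _), y l * q * (y l)⁻¹ ∈ (Q : Subgroup _) := by
    intro l q hqQ
    have h1 := X.conj_single y σ (σ⁻¹ l) q
    rw [← hhy] at h1
    rw [← Equiv.Perm.mul_apply, mul_inv_cancel, Equiv.Perm.one_apply] at h1
    apply hHQ l
    rw [← h1]
    exact mul_mem (mul_mem hh (hQH _ q hqQ)) (inv_mem hh)
  have hcQ : ∀ l, a * y l * a⁻¹ * (y l)⁻¹ ∈ (Q : Subgroup _) := by
    intro l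
    have h1 := hχ (⟨a, norm_iff.2 haQ⟩ * ⟨y l, norm_iff.2 (hyN l)⟩ * ⟨a, norm_iff.2 haQ⟩⁻¹ * ⟨y l, norm_iff.2 (hyN l)⟩⁻¹)
    exact h1.1 (by
      rw [map_mul, map_mul, map_mul, map_inv, map_inv, mul_comm (χ _) (χ _)]
      group)
  have h1 : cst X a * h * (cst X a)⁻¹ = X.e (fun l => a * y l * a⁻¹ * (y l)⁻¹) * h := by
    nth_rewrite 1 [hhy]
    rw [cst_conj]
    have h2 : X.e (fun l => a * y l * a⁻¹ * (y l)⁻¹) * h = X.e (fun l => a * y l * a⁻¹ * (y l)⁻¹) * (X.e y * X.s σ) :=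
      congrArg _ hhy
    rw [h2, ← mul_assoc, ← map_mul]
    congr 2
    funext l
    simp
  rw [h1]
  exact mul_mem (hSH (e_mem_SS X hcQ)) hh

end Cfsg.Agent.H95.SpT
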