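import Cfsg.Agent.H95.SpT

set_option autoImplicit false
set_option linter.unusedSectionVars false

/-!
A symplectic space which is an orthogonal sum of planes, with the group `SL₂ ≀ S_n` acting.
-/

namespace Cfsg.Agent.H95.SpT

universe u v w

open Matrix

/-- an orthogonal decomposition -/
structure Frm {F : Type u} [Field F] {V : Type v} [AddCommGroup V] [Module F V] (B : LinearMap.BilinForm F V)
    (G : Type w) [Group G] [DistribMulAction G V] (n : ℕ) where
  e : (Fin n → SpecialLinearGroup (Fin 2) F) →* G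
  s : Equiv.Perm (Fin n) →* G
  a : Fin n → V
  b : Fin n → V
  aa : ∀ i j, B (a i) (a j) = 0
  bb : ∀ i j, B (b i) (b j) = 0
  ab : ∀ i j, B (a i) (b j) = if i = j then 1 else 0
  span : ∀ w, w = ∑ i, (B w (b i) • a i - B w (a i) • b i)
  ea : ∀ v i, e v • a i = (v i : Matrix (Fin 2) (Fin 2) F) 0 0 • a i + (v i : Matrix (Fin 2) (Fin 2) F) 1 0 • b i
  eb : ∀ v i, e v • b i = (v i : Matrix (Fin 2) (Fin 2) F) 0 1 • a i + (v i : Matrix (Fin 2) (Fin 2) F) 1 1 • b i
  sa : ∀ τ i, s τ • a i = a (τ i)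
  sb : ∀ τ i, s τ • b i = b (τ i)

variable {F : Type u} [Field F] {V : Type v} [AddCommGroup V] [Module F V] {B : LinearMap.BilinForm F V}
  {G : Type w} [Group G] [DistribMulAction G V] [SMulCommClass G F V] {n : ℕ}

namespace Frm

variable (I : Isom B G) (X : Frm B G n)

include I

lemma ba (i j : Fin n) : B (X.b i) (X.a j) = if i = j then -1 else 0 := by
  rw [I.neg, X.ab]
  by_cases h : i = j
  · rw [if_pos h, if_pos h.symm]
  · rw [if_neg h, if_neg (Ne.symm h), neg_zero]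

lemma ca (i j : Fin n) (p q : F) : B (p • X.a i + q • X.b i) (X.b j) = if i = j then p else 0 := by
  rw [map_add, map_smul, map_smul, LinearMap.add_apply, LinearMap.smul_apply, LinearMap.smul_apply, X.ab, X.bb]
  by_cases h : i = j
  · simp [h]
  · simp [h]

lemma cb (i j : Fin n) (p q : F) : B (p • X.a i + q • X.b i) (X.a j) = if i = j then -q else 0 := by
  rw [map_add, map_smul, map_smul, LinearMap.add_apply, LinearMap.smul_apply, LinearMap.smul_apply, X.aa, X.ba I]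
  by_cases h : i = j
  · simp [h]
  · simp [h]

lemma comb_inj {i j : Fin n} {p q p' q' : F} (h0 : p ≠ 0 ∨ q ≠ 0) (h : p • X.a i + q • X.b i = p' • X.a j + q' • X.b j) :
    i = j ∧ p = p' ∧ q = q' := by
  have h1 := congrArg (fun w => B w (X.b i)) h
  have h2 := congrArg (fun w => B w (X.a i)) h
  simp only [X.ca I, X.cb I, if_true] at h1 h2
  by_cases hij : i = j
  · rw [if_pos hij.symm] at h1 h2
    exact ⟨hij, h1, neg_injective h2⟩
  · rw [if_neg (Ne.symm hij)] at h1 h2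
    rcases h0 with h0 | h0
    · exact absurd h1 h0
    · exact absurd h2 (neg_ne_zero.2 h0)

omit I in
lemma lin_ext {f g : V →+ V} (hf : ∀ (c : F) w, f (c • w) = c • f w) (hg : ∀ (c : F) w, g (c • w) = c • g w)
    (h : ∀ i, f (X.a i) = g (X.a i) ∧ f (X.b i) = g (X.b i)) (w : V) : f w = g w := by
  rw [X.span w, map_sum, map_sum]
  apply Finset.sum_congr rfl
  intro i _
  rw [map_sub, map_sub, hf, hf, hg, hg, (h i).1, (h i).2]

omit I in
lemma ext [FaithfulSMul G V] {g h : G} (hgh : ∀ i, g • X.a i = h • X.a i ∧ g • X.b i = h • X.b i) : g = h := by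
  apply FaithfulSMul.eq_of_smul_eq_smul (α := V)
  intro w
  exact X.lin_ext (f := DistribSMul.toAddMonoidHom V g) (g := DistribSMul.toAddMonoidHom V h)
    (fun c w => smul_comm g c w) (fun c w => smul_comm h c w) hgh w

lemma s_eq_e {τ : Equiv.Perm (Fin n)} {v : Fin n → SpecialLinearGroup (Fin 2) F} (h : X.s τ = X.e v) :
    τ = 1 ∧ v = 1 := by
  have h1 : ∀ i, τ i = i ∧ v i = 1 := by
    intro i
    have ha := congrArg (· • X.a i) h
    have hb := congrArg (· • X.b i) h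
    simp only [X.sa, X.sb, X.ea, X.eb] at ha hb
    have ha' : (1 : F) • X.a (τ i) + (0 : F) • X.b (τ i) = (v i : Matrix (Fin 2) (Fin 2) F) 0 0 • X.a i +
        (v i : Matrix (Fin 2) (Fin 2) F) 1 0 • X.b i := by rw [← ha]; simp
    have hb' : (0 : F) • X.a (τ i) + (1 : F) • X.b (τ i) = (v i : Matrix (Fin 2) (Fin 2) F) 0 1 • X.a i +
        (v i : Matrix (Fin 2) (Fin 2) F) 1 1 • X.b i := by rw [← hb]; simp
    obtain ⟨h1, h2, h3⟩ := X.comb_inj I (Or.inl one_ne_zero) ha'
    obtain ⟨-, h4, h5⟩ := X.comb_inj I (Or.inr one_ne_zero) hb'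
    refine ⟨h1, ?_⟩
    apply Subtype.ext
    ext p q
    fin_cases p <;> fin_cases q
    · exact h2.symm
    · exact h4.symm
    · exact h3.symm
    · exact h5.symm
  exact ⟨Equiv.ext fun i => (h1 i).1, funext fun i => (h1 i).2⟩

lemma es_inj {τ τ' : Equiv.Perm (Fin n)} {v v' : Fin n → SpecialLinearGroup (Fin 2) F}
    (h : X.e v * X.s τ = X.e v' * X.s τ') : v = v' ∧ τ = τ' := by
  have h1 : X.s (τ * τ'⁻¹) = X.e (v⁻¹ * v') := by
    rw [map_mul, map_mul, map_inv, map_inv]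
    have : (X.e v)⁻¹ * (X.e v * X.s τ) * (X.s τ')⁻¹ = (X.e v)⁻¹ * (X.e v' * X.s τ') * (X.s τ')⁻¹ := by rw [h]
    have e1 : (X.e v)⁻¹ * (X.e v * X.s τ) * (X.s τ')⁻¹ = X.s τ * (X.s τ')⁻¹ := by group
    have e2 : (X.e v)⁻¹ * (X.e v' * X.s τ') * (X.s τ')⁻¹ = (X.e v)⁻¹ * X.e v' := by group
    rw [← e1, this, e2]
  obtain ⟨h2, h3⟩ := X.s_eq_e I h1
  exact ⟨(inv_mul_eq_one.1 h3), mul_inv_eq_one.1 h2⟩

lemma e_inj {v v' : Fin n → SpecialLinearGroup (Fin 2) F} (h : X.e v = X.e v') : v = v' :=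
  (X.es_inj I (τ := 1) (τ' := 1) (by rw [h])).1

omit I in
lemma conj_s [FaithfulSMul G V] (τ : Equiv.Perm (Fin n)) (v : Fin n → SpecialLinearGroup (Fin 2) F) :
    X.s τ * X.e v * (X.s τ)⁻¹ = X.e (fun i => v (τ⁻¹ i)) := by
  rw [mul_inv_eq_iff_eq_mul]
  apply X.ext
  intro i
  rw [mul_smul, mul_smul, mul_smul, mul_smul, X.sa, X.sb, X.ea, X.eb, X.ea, X.eb, smul_add, smul_add,
    smul_comm (X.s τ), smul_comm (X.s τ), smul_comm (X.s τ), smul_comm (X.s τ), X.sa, X.sb]
  simp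

omit I in
lemma s_e [FaithfulSMul G V] (τ : Equiv.Perm (Fin n)) (v : Fin n → SpecialLinearGroup (Fin 2) F) :
    X.s τ * X.e v = X.e (fun i => v (τ⁻¹ i)) * X.s τ := by
  rw [← X.conj_s, inv_mul_cancel_right]

omit I in
lemma es_mul [FaithfulSMul G V] (τ τ' : Equiv.Perm (Fin n)) (v v' : Fin n → SpecialLinearGroup (Fin 2) F) :
    (X.e v * X.s τ) * (X.e v' * X.s τ') = X.e (v * fun i => v' (τ⁻¹ i)) * X.s (τ * τ') := by
  rw [map_mul, map_mul, mul_assoc, ← mul_assoc (X.s τ), X.s_e]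
  group

omit I in
lemma es_inv [FaithfulSMul G V] (τ : Equiv.Perm (Fin n)) (v : Fin n → SpecialLinearGroup (Fin 2) F) :
    (X.e v * X.s τ)⁻¹ = X.e (fun i => (v (τ i))⁻¹) * X.s τ⁻¹ := by
  rw [_root_.mul_inv_rev, ← map_inv, ← map_inv, X.s_e]
  simp

/-- an element permuting the planes -/
lemma full [FaithfulSMul G V] {g : G} {π : Fin n → Fin n} (hπ : Function.Injective π)
    (hg : ∀ i, ∃ p q r t : F, g • X.a i = p • X.a (π i) + q • X.b (π i) ∧ g • X.b i = r • X.a (π i) + t • X.b (π i)) :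
    ∃ (v : Fin n → SpecialLinearGroup (Fin 2) F) (σ : Equiv.Perm (Fin n)), (∀ i, σ i = π i) ∧ g = X.e v * X.s σ := by
  choose p q r t hga hgb using hg
  have hdet : ∀ i, p i * t i - r i * q i = 1 := by
    intro i
    have h1 := I.inv g (X.a i) (X.b i)
    rw [X.ab, if_pos rfl, hga, hgb, map_add, map_smul, map_smul, X.ca I, X.cb I, if_pos rfl, if_pos rfl] at h1
    simp only [smul_eq_mul] at h1
    linear_combination h1
  set σ : Equiv.Perm (Fin n) := Equiv.ofBijective π (Finite.injective_iff_bijective.1 hπ) with hσ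
  have hσπ : ∀ i, σ i = π i := fun i => rfl
  have hσ' : ∀ i, π (σ⁻¹ i) = i := fun i => by rw [← hσπ]; simp
  obtain ⟨vv, hvv⟩ : ∃ vv : Fin n → SpecialLinearGroup (Fin 2) F, ∀ i,
      (vv i : Matrix (Fin 2) (Fin 2) F) = !![p (σ⁻¹ i), r (σ⁻¹ i); q (σ⁻¹ i), t (σ⁻¹ i)] :=
    ⟨fun i => ⟨!![p (σ⁻¹ i), r (σ⁻¹ i); q (σ⁻¹ i), t (σ⁻¹ i)], by
      rw [Matrix.det_fin_two_of]; exact hdet _⟩, fun i => rfl⟩
  refine ⟨vv, σ, hσπ, ?_⟩
  apply X.ext
  intro i
  have hi : σ⁻¹ (π i) = i := by rw [← hσπ]; simp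
  rw [mul_smul, mul_smul, X.sa, X.sb, X.ea, X.eb, hga, hgb, hσπ, hvv, hi]
  simp

omit I in
/-- reflections -/
def t (i : Fin n) : G := X.e (Pi.mulSingle i (-1))

omit I in
lemma ta (i j : Fin n) : X.t i • X.a j = if i = j then -X.a j else X.a j := by
  rw [t, X.ea]
  by_cases h : i = j
  · subst h; simp
  · rw [if_neg h, Pi.mulSingle_eq_of_ne (Ne.symm h)]; simp

omit I in
lemma tb (i j : Fin n) : X.t i • X.b j = if i = j then -X.b j else X.b j := by
  rw [t, X.eb]
  by_cases h : i = j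
  · subst h; simp
  · rw [if_neg h, Pi.mulSingle_eq_of_ne (Ne.symm h)]; simp

omit I in
lemma fix_of_plane {i : Fin n} (q : SpecialLinearGroup (Fin 2) F) {w : V} (h1 : B w (X.a i) = 0)
    (h2 : B w (X.b i) = 0) : X.e (Pi.mulSingle i q) • w = w := by
  have h3 : w = ∑ j ∈ Finset.univ.erase i, (B w (X.b j) • X.a j - B w (X.a j) • X.b j) := by
    nth_rewrite 1 [X.span w]
    rw [← Finset.add_sum_erase _ _ (Finset.mem_univ i), h1, h2]
    simp
  have h4 : X.e (Pi.mulSingle i q) • (∑ j ∈ Finset.univ.erase i, (B w (X.b j) • X.a j - B w (X.a j) • X.b j)) =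
      ∑ j ∈ Finset.univ.erase i, (B w (X.b j) • X.a j - B w (X.a j) • X.b j) := ?_
  · rwa [← h3] at h4
  rw [Finset.smul_sum]
  apply Finset.sum_congr rfl
  intro j hj
  have hji : j ≠ i := (Finset.mem_erase.1 hj).1
  rw [smul_sub, smul_comm _ (B w (X.b j)), smul_comm _ (B w (X.a j)), X.ea, X.eb, Pi.mulSingle_eq_of_ne hji]
  simp

/-- the reflection as a frame -/
lemma fr {q1 q2 : SpecialLinearGroup (Fin 2) F} (h1 : q1 * q1 = -1) (h2 : q2 * q2 = -1)
    (h12 : q1 * q2 = -1 * (q2 * q1)) (i : Fin n) :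
    Fr B (X.t i) (X.e (Pi.mulSingle i q1)) (X.e (Pi.mulSingle i q2)) (X.a i) (X.b i) := by
  have hs : ∀ p q : SpecialLinearGroup (Fin 2) F, X.e (Pi.mulSingle i p) * X.e (Pi.mulSingle i q) =
      X.e (Pi.mulSingle i (p * q)) := by
    intro p q
    rw [← map_mul, ← Pi.mulSingle_mul]
  refine ⟨by rw [X.ab, if_pos rfl], ?_, ?_, ?_, ?_, ?_, ?_, ?_⟩
  · have key : ∀ w, X.t i • w = w - (2 : F) • (B w (X.b i) • X.a i - B w (X.a i) • X.b i) := by
      intro w
      let g : V →+ V :=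
        { toFun := fun w => w - (2 : F) • (B w (X.b i) • X.a i - B w (X.a i) • X.b i)
          map_zero' := by simp
          map_add' := by
            intro x y
            simp only [map_add, LinearMap.add_apply, add_smul, smul_add, smul_sub]; abel }
      refine X.lin_ext (f := DistribSMul.toAddMonoidHom V (X.t i)) (g := g) (fun c w => smul_comm _ c w) ?_ ?_ w
      · intro c w
        show c • w - (2 : F) • (B (c • w) (X.b i) • X.a i - B (c • w) (X.a i) • X.b i) =
          c • (w - (2 : F) • (B w (X.b i) • X.a i - B w (X.a i) • X.b i))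
        simp only [map_smul, LinearMap.smul_apply, smul_eq_mul, mul_smul, smul_sub]
        rw [smul_comm (2 : F) c, smul_comm (2 : F) c]
      · intro j
        constructor
        · show X.t i • X.a j = X.a j - (2 : F) • (B (X.a j) (X.b i) • X.a i - B (X.a j) (X.a i) • X.b i)
          rw [X.ta, X.ab, X.aa]
          by_cases h : i = j
          · subst h; simp [two_smul]
          · simp [h, Ne.symm h]
        · show X.t i • X.b j = X.b j - (2 : F) • (B (X.b j) (X.b i) • X.a i - B (X.b j) (X.a i) • X.b i)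
          rw [X.tb, X.bb, X.ba I]
          by_cases h : i = j
          · subst h; simp [two_smul]
          · simp [h, Ne.symm h]
    exact key
  · rw [t, hs]
    have : (-1 : SpecialLinearGroup (Fin 2) F) * -1 = 1 := by rw [neg_mul_neg, one_mul]
    rw [this, Pi.mulSingle_one, map_one]
  · rw [hs, h1]; rfl
  · rw [hs, h2]; rfl
  · rw [t, hs, hs, hs, h12]
  · intro w h1 h2; exact X.fix_of_plane q1 h1 h2
  · intro w h1 h2; exact X.fix_of_plane q2 h1 h2

end Frm

end Cfsg.Agent.H95.SpT
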