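import Mathlib

set_option autoImplicit false
set_option linter.unusedSectionVars false

/-!
Linear algebra for groups of isometries of a symplectic space containing "quaternion reflections".
-/

namespace Cfsg.Agent.H95.SpT

universe u v w

/-- a group of isometries of a symplectic space -/
structure Isom {F : Type u} [Field F] {V : Type v} [AddCommGroup V] [Module F V] (B : LinearMap.BilinForm F V)
    (H : Type w) [Group H] [DistribMulAction H V] : Prop where
  two : (2 : F) ≠ 0
  alt : ∀ v, B v v = 0
  inv : ∀ (h : H) (a b : V), B (h • a) (h • b) = B a b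

variable {F : Type u} [Field F] {V : Type v} [AddCommGroup V] [Module F V] {B : LinearMap.BilinForm F V}
  {H : Type w} [Group H] [DistribMulAction H V] [SMulCommClass H F V]

namespace Isom

variable (I : Isom B H)

include I

lemma neg (a b : V) : B a b = - B b a := by
  have h := I.alt (a + b)
  simp only [map_add, LinearMap.add_apply] at h
  rw [I.alt, I.alt] at h
  linear_combination h

lemma adj (h : H) (a b : V) : B (h • a) b = B a (h⁻¹ • b) := by
  rw [← I.inv h a (h⁻¹ • b), smul_inv_smul]

/-- commutators of elements with a rank one part are transvections -/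
theorem comm_tv {d s : H} {v n : V} {π : V → V} (hd : ∀ w, d • w = w + B w v • n + π w) (hnv : B n v = 0)
    (hBπ : ∀ w, B (π w) v = 0) (hππ : ∀ w, π (π w) = 0) (hsπ : ∀ w, s • π w = π w)
    (hsv : s • v = v) (hn : s⁻¹ • n = -(s • n)) (hπn : π (s • n) = B (s • n) n • v) (u : V) :
    (d * (s * d * s⁻¹) * d⁻¹ * (s * d * s⁻¹)⁻¹) • u = u + (2 * B (s • n) n * B u v) • v := by
  have πadd : ∀ a b, π (a + b) = π a + π b := by
    intro a b
    have h := hd (a + b)
    rw [smul_add, hd a, hd b, map_add, LinearMap.add_apply, add_smul] at h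
    have e : π (a + b) = (a + B a v • n + π a + (b + B b v • n + π b)) - (a + b + (B a v • n + B b v • n)) := by
      rw [h]; abel
    rw [e]; abel
  have πsmul : ∀ (c : F) a, π (c • a) = c • π a := by
    intro c a
    have h := hd (c • a)
    rw [smul_comm d c a, hd a, map_smul, LinearMap.smul_apply, smul_eq_mul, smul_add, smul_add, mul_smul] at h
    have e : π (c • a) = (c • a + c • B a v • n + c • π a) - (c • a + c • B a v • n) := by rw [h]; abel
    rw [e]; abel
  have hsv' : s⁻¹ • v = v := by rw [inv_smul_eq_iff, hsv]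
  have hsπ' : ∀ w, s⁻¹ • π w = π w := fun w => by rw [inv_smul_eq_iff, hsπ]
  have hsB : ∀ w, B (s⁻¹ • w) v = B w v := fun w => by
    rw [I.adj, inv_inv, hsv]
  set d' := s * d * s⁻¹ with hd'
  have hd2 : ∀ w, d' • w = w + B w v • (s • n) + π (s⁻¹ • w) := by
    intro w
    rw [hd', mul_smul, mul_smul, hd, smul_add, smul_add, smul_inv_smul, hsB, smul_comm s (B w v) n, hsπ]
  have hsnv : B (s • n) v = 0 := by rw [I.adj, hsv', hnv]
  have dB : ∀ w, B (d • w) v = B w v := by
    intro w
    rw [hd, map_add, map_add, LinearMap.add_apply, LinearMap.add_apply, map_smul, LinearMap.smul_apply, hnv, hBπ,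
      smul_zero, add_zero, add_zero]
  have dB' : ∀ w, B (d' • w) v = B w v := by
    intro w
    rw [hd2, map_add, map_add, LinearMap.add_apply, LinearMap.add_apply, map_smul, LinearMap.smul_apply, hsnv, hBπ,
      smul_zero, add_zero, add_zero]
  have hπn' : π (s⁻¹ • n) = -(B (s • n) n • v) := by
    rw [hn, ← hπn]
    have := πsmul (-1) (s • n)
    rwa [neg_one_smul, neg_one_smul] at this
  have e1 : ∀ w, d • d' • w = w + B w v • (s • n) + π (s⁻¹ • w) + B w v • n + (π w + B w v • B (s • n) n • v) := by
    intro w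
    rw [hd (d' • w), dB', hd2 w, πadd, πadd, πsmul, hπn, hππ, add_zero]
  have e2 : ∀ w, d' • d • w = w + B w v • n + π w + B w v • (s • n) + (π (s⁻¹ • w) + B w v • -(B (s • n) n • v)) := by
    intro w
    rw [hd2 (d • w), dB, hd w, smul_add, smul_add, hsπ', πadd, πadd, hππ, add_zero, smul_comm s⁻¹ (B w v) n, πsmul,
      hπn']
  have e3 : ∀ w, d • d' • w = d' • d • w + (2 * B (s • n) n * B w v) • v := by
    intro w
    rw [e1, e2]
    have : (2 * B (s • n) n * B w v) • v = B w v • B (s • n) n • v + B w v • B (s • n) n • v := by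
      rw [smul_smul, ← add_smul]; congr 1; ring
    rw [this, smul_neg]
    abel
  set w := (d' * d)⁻¹ • u with hw
  have hu : u = d' • d • w := by rw [← mul_smul, hw, smul_inv_smul]
  have h4 : (d * d' * d⁻¹ * d'⁻¹) • u = d • d' • w := by
    rw [hw]
    simp only [← mul_smul]
    congr 1
    group
  have h5 : B u v = B w v := by rw [hu, dB', dB]
  rw [h4, e3, ← hu, h5]

end Isom

/-- `x` is a reflection in the plane spanned by `e1`, `e2` which is the square of two anticommuting elements -/
structure Fr (B : LinearMap.BilinForm F V) (x i j : H) (e1 e2 : V) : Prop where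
  e12 : B e1 e2 = 1
  xf : ∀ w, x • w = w - (2 : F) • (B w e2 • e1 - B w e1 • e2)
  xx : x * x = 1
  ii : i * i = x
  jj : j * j = x
  ij : i * j = x * (j * i)
  fi : ∀ w, B w e1 = 0 → B w e2 = 0 → i • w = w
  fj : ∀ w, B w e1 = 0 → B w e2 = 0 → j • w = w

/-- projection to the plane -/
def pr (B : LinearMap.BilinForm F V) (e1 e2 w : V) : V := B w e2 • e1 - B w e1 • e2

lemma pr_add (e1 e2 a b : V) : pr B e1 e2 (a + b) = pr B e1 e2 a + pr B e1 e2 b := by
  simp only [pr, map_add, LinearMap.add_apply, add_smul]; abel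

lemma pr_smul (e1 e2 : V) (c : F) (a : V) : pr B e1 e2 (c • a) = c • pr B e1 e2 a := by
  simp only [pr, map_smul, LinearMap.smul_apply, smul_eq_mul, mul_smul, smul_sub]

lemma pr_neg (e1 e2 a : V) : pr B e1 e2 (-a) = - pr B e1 e2 a := by
  simp only [pr, map_neg, LinearMap.neg_apply, neg_smul]; abel

lemma pr_sub (e1 e2 a b : V) : pr B e1 e2 (a - b) = pr B e1 e2 a - pr B e1 e2 b := by
  rw [sub_eq_add_neg, pr_add, pr_neg, sub_eq_add_neg]

namespace Fr

variable (I : Isom B H) {x i j : H} {e1 e2 : V} (R : Fr B x i j e1 e2)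

include I R

lemma e21 : B e2 e1 = -1 := by rw [I.neg, R.e12]

omit [SMulCommClass H F V] in
lemma xf' (w : V) : x • w = w - (2 : F) • pr B e1 e2 w := R.xf w

lemma pr1 : pr B e1 e2 e1 = e1 := by rw [pr, R.e12, I.alt, one_smul, zero_smul, sub_zero]

lemma pr2 : pr B e1 e2 e2 = e2 := by rw [pr, I.alt, R.e21 I, zero_smul, neg_smul, one_smul, zero_sub, neg_neg]

lemma Bpr1 (w : V) : B (pr B e1 e2 w) e1 = B w e1 := by
  rw [pr, map_sub, LinearMap.sub_apply, map_smul, map_smul, LinearMap.smul_apply, LinearMap.smul_apply, I.alt,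
    R.e21 I]
  simp

lemma Bpr2 (w : V) : B (pr B e1 e2 w) e2 = B w e2 := by
  rw [pr, map_sub, LinearMap.sub_apply, map_smul, map_smul, LinearMap.smul_apply, LinearMap.smul_apply, I.alt,
    R.e12]
  simp

lemma xe1 : x • e1 = -e1 := by
  rw [xf' I R, pr1 I R, two_smul]; abel

lemma xe2 : x • e2 = -e2 := by
  rw [xf' I R, pr2 I R, two_smul]; abel

omit I in
lemma xfix {w : V} (h1 : B w e1 = 0) (h2 : B w e2 = 0) : x • w = w := by
  rw [R.xf, h1, h2]; simp

lemma of_xfix {w : V} (h : x • w = w) : B w e1 = 0 ∧ B w e2 = 0 := by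
  have h1 := I.inv x w e1
  have h2 := I.inv x w e2
  rw [h, R.xe1 I, map_neg] at h1
  rw [h, R.xe2 I, map_neg] at h2
  constructor
  · have : (2 : F) * B w e1 = 0 := by linear_combination -h1
    exact (mul_eq_zero.1 this).resolve_left I.two
  · have : (2 : F) * B w e2 = 0 := by linear_combination -h2
    exact (mul_eq_zero.1 this).resolve_left I.two

lemma of_xneg {w : V} (h : x • w = -w) : w = pr B e1 e2 w := by
  have h1 := xf' I R w
  rw [h] at h1
  have h2 : (2 : F) • (w - pr B e1 e2 w) = 0 := by
    rw [smul_sub]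
    have : (2 : F) • pr B e1 e2 w = w + w := by
      have h3 := h1
      have : (2 : F) • pr B e1 e2 w = w - (w - (2 : F) • pr B e1 e2 w) := by abel
      rw [this, ← h3]; abel
    rw [this, two_smul]; abel
  exact sub_eq_zero.1 ((smul_eq_zero.1 h2).resolve_left I.two)

lemma pr_idem (w : V) : pr B e1 e2 (pr B e1 e2 w) = pr B e1 e2 w := by
  have h : pr B e1 e2 (pr B e1 e2 w) = B (pr B e1 e2 w) e2 • e1 - B (pr B e1 e2 w) e1 • e2 := rfl
  rw [h, R.Bpr1 I, R.Bpr2 I]; rfl

lemma B_fix_pr {w u : V} (h : x • w = w) : B w (pr B e1 e2 u) = 0 := by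
  obtain ⟨h1, h2⟩ := R.of_xfix I h
  rw [pr, map_sub, map_smul, map_smul, h1, h2]; simp

lemma B_pr_fix {w u : V} (h : x • w = w) : B (pr B e1 e2 u) w = 0 := by
  rw [I.neg, R.B_fix_pr I h, neg_zero]

/-- the complementary part is fixed -/
lemma xsub (w : V) : x • (w - pr B e1 e2 w) = w - pr B e1 e2 w := by
  apply R.xfix
  · rw [map_sub, LinearMap.sub_apply, R.Bpr1 I, sub_self]
  · rw [map_sub, LinearMap.sub_apply, R.Bpr2 I, sub_self]

lemma pr_of_fix {w : V} (h : x • w = w) : pr B e1 e2 w = 0 := by
  obtain ⟨h1, h2⟩ := R.of_xfix I h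
  rw [pr, h1, h2]; simp

lemma commute_of_fix {d : H} [FaithfulSMul H V] (h1 : d • e1 = e1) (h2 : d • e2 = e2) : x * d = d * x := by
  apply FaithfulSMul.eq_of_smul_eq_smul (α := V)
  intro w
  have b1 : B (d • w) e1 = B w e1 := by rw [← I.inv d w e1, h1]
  have b2 : B (d • w) e2 = B w e2 := by rw [← I.inv d w e2, h2]
  rw [mul_smul, mul_smul, R.xf (d • w), R.xf w, b1, b2, smul_sub d w, smul_comm d (2 : F), smul_sub d,
    smul_comm d (B w e2) e1, smul_comm d (B w e1) e2, h1, h2]

/-- `d` inverted by `x`, of odd order prime to the characteristic -/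
theorem inv_scalar [FaithfulSMul H V] {p1 p2 : V} {d : H}
    (hU' : ∀ w : V, x • (d • w - d⁻¹ • w) = d • w - d⁻¹ • w → ∃ a b : F, d • w - d⁻¹ • w = a • p1 + b • p2)
    (hxd : x * d * x⁻¹ = d⁻¹) {n : ℕ} (hn : Odd n) (hnF : (n : F) ≠ 0) (hdn : d ^ n = 1) (hd1 : d ≠ 1) :
    ∃ τ : F, τ ^ 2 ≠ 4 ∧ B p1 p2 ≠ 0 ∧ ∀ u : V, u = e1 ∨ u = e2 ∨ u = p1 ∨ u = p2 → d • u + d⁻¹ • u = τ • u := by
  have xd : x * d = d⁻¹ * x := by rw [← hxd]; group
  have xd' : x * d⁻¹ = d * x := by
    have h : d * (x * d) * d⁻¹ = d * (d⁻¹ * x) * d⁻¹ := by rw [xd]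
    have h1 : d * (x * d) * d⁻¹ = d * x := by group
    have h2 : d * (d⁻¹ * x) * d⁻¹ = x * d⁻¹ := by group
    rw [← h2, ← h, h1]
  have sxd : ∀ w : V, x • d • w = d⁻¹ • x • w := fun w => by rw [← mul_smul, xd, mul_smul]
  have sxd' : ∀ w : V, x • d⁻¹ • w = d • x • w := fun w => by rw [← mul_smul, xd', mul_smul]
  set t : V → V := fun w => d • w + d⁻¹ • w with ht
  set jj : V → V := fun w => d • w - d⁻¹ • w with hj
  have tadj : ∀ a b, B (t a) b = B a (t b) := by
    intro a b
    simp only [ht, map_add, LinearMap.add_apply, I.adj, inv_inv]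
    ring
  have jadj : ∀ a b, B (jj a) b = - B a (jj b) := by
    intro a b
    simp only [hj, map_sub, LinearMap.sub_apply, I.adj, inv_inv]
    ring
  have xt : ∀ w, x • t w = t (x • w) := by
    intro w; simp only [ht]; rw [smul_add, sxd, sxd']; abel
  have xj : ∀ w, x • jj w = - jj (x • w) := by
    intro w; simp only [hj]; rw [smul_sub, sxd, sxd']; abel
  have tsmul : ∀ (c : F) a, t (c • a) = c • t a := by
    intro c a; simp only [ht]; rw [smul_comm d c a, smul_comm d⁻¹ c a, smul_add]
  have tadd : ∀ a b, t (a + b) = t a + t b := by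
    intro a b; simp only [ht]; rw [smul_add, smul_add]; abel
  have jsmul : ∀ (c : F) a, jj (c • a) = c • jj a := by
    intro c a; simp only [hj]; rw [smul_comm d c a, smul_comm d⁻¹ c a, smul_sub]
  have tj : ∀ w, t (jj w) = jj (t w) := by
    intro w
    simp only [ht, hj, smul_add, smul_sub, ← mul_smul, mul_inv_cancel, inv_mul_cancel]
    abel
  have jjw : ∀ w, jj (jj w) = t (t w) - (4 : F) • w := by
    intro w
    simp only [ht, hj, smul_add, smul_sub, ← mul_smul, mul_inv_cancel, inv_mul_cancel, one_smul]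
    have : (4 : F) • w = w + w + (w + w) := by
      have : (4 : F) = 1 + 1 + (1 + 1) := by norm_num
      rw [this]; simp only [add_smul, one_smul]
    rw [this]; abel
  -- `t` is a scalar on the plane
  have neg0 : ∀ a, B (t a) a = 0 := by
    intro a
    have h1 := tadj a a
    rw [I.neg a (t a)] at h1
    have : (2 : F) * B (t a) a = 0 := by linear_combination h1
    exact (mul_eq_zero.1 this).resolve_left I.two
  have tneg : ∀ a, t (-a) = - t a := by
    intro a; simp only [ht, smul_neg]; abel
  have jneg : ∀ a, jj (-a) = - jj a := by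
    intro a; simp only [hj, smul_neg]; abel
  obtain ⟨τ, hτ⟩ : ∃ τ : F, τ = B (t e1) e2 := ⟨_, rfl⟩
  have te1 : t e1 = τ • e1 := by
    have h1 : x • t e1 = - t e1 := by rw [xt, R.xe1 I, tneg]
    have h2 := R.of_xneg I h1
    rw [h2, pr, neg0, hτ, zero_smul, sub_zero]
  have te2 : t e2 = τ • e2 := by
    have h1 : x • t e2 = - t e2 := by rw [xt, R.xe2 I, tneg]
    have h2 := R.of_xneg I h1
    rw [h2, pr, neg0, zero_smul, zero_sub, I.neg, ← tadj, ← hτ, neg_smul, neg_neg]
  have je : ∀ e, t e = τ • e → jj (jj e) = (τ ^ 2 - 4) • e := by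
    intro e he
    rw [jjw, he, tsmul, he, smul_smul, ← sub_smul, pow_two]
  -- odd order and `d = ±` unipotent on the plane is impossible
  have hτ4 : τ ^ 2 ≠ 4 := by
    intro h4
    have h5 : (τ - 2) * (τ + 2) = 0 := by linear_combination h4
    rcases mul_eq_zero.1 h5 with h | h
    · have hτ2 : τ = 2 := by linear_combination h
      have key : ∀ e, t e = τ • e → d • e = e := by
        intro e he
        set e' := d • e - e with he'
        have h6 : d • e' = e' := by
          have h7 : d • (d • e + d⁻¹ • e) = d • ((2 : F) • e) := by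
            have := he
            simp only [ht] at this
            rw [this, hτ2]
          rw [smul_add, smul_inv_smul, smul_comm d (2 : F) e, two_smul] at h7
          rw [he', smul_sub]
          have : d • d • e = d • e + d • e - e := by rw [← h7]; abel
          rw [this]; abel
        have h7 : ∀ k : ℕ, d ^ k • e = e + (k : F) • e' := by
          intro k
          induction k with
          | zero => simp
          | succ k ih =>
            rw [pow_succ', mul_smul, ih, smul_add, smul_comm d (k : F) e', h6]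
            have : d • e = e + e' := by rw [he']; abel
            rw [this]
            push_cast
            rw [add_smul, one_smul]; abel
        have h8 := h7 n
        rw [hdn, one_smul] at h8
        have h9 : (n : F) • e' = 0 := by
          have : (n : F) • e' = (e + (n : F) • e') - e := by abel
          rw [this, ← h8, sub_self]
        have h10 := (smul_eq_zero.1 h9).resolve_left hnF
        rw [he'] at h10
        exact sub_eq_zero.1 h10
      have h6 := R.commute_of_fix I (key e1 te1) (key e2 te2)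
      have h7 : d = d⁻¹ := by
        rw [xd] at h6
        exact (mul_right_cancel h6).symm
      have h8 : d * d = 1 := by nth_rewrite 2 [h7]; group
      obtain ⟨m, hm⟩ := hn
      apply hd1
      rw [hm, pow_add, pow_mul, pow_two, h8, one_pow, one_mul, pow_one] at hdn
      exact hdn
    · have hτ2 : τ = -2 := by linear_combination h
      set e' := d • e1 + e1 with he'
      have h6 : d • e' = -e' := by
        have h7 : d • (d • e1 + d⁻¹ • e1) = d • ((-2 : F) • e1) := by
          have := te1
          simp only [ht] at this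
          rw [this, hτ2]
        rw [smul_add, smul_inv_smul, smul_comm d (-2 : F) e1, neg_smul, two_smul] at h7
        rw [he', smul_add]
        have : d • d • e1 = -(d • e1 + d • e1) - e1 := by rw [← h7]; abel
        rw [this]; abel
      have h7 : ∀ k : ℕ, d ^ k • e1 = (-1 : F) ^ k • (e1 - (k : F) • e') := by
        intro k
        induction k with
        | zero => simp
        | succ k ih =>
          rw [pow_succ', mul_smul, ih, smul_comm d ((-1 : F) ^ k), smul_sub, smul_comm d (k : F) e', h6, pow_succ,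
            mul_smul]
          congr 1
          have : d • e1 = -e1 + e' := by rw [he']; abel
          rw [this]
          push_cast
          rw [add_smul, one_smul, smul_neg, neg_one_smul]; abel
      have h8 := h7 n
      rw [hdn, one_smul, hn.neg_one_pow, neg_one_smul] at h8
      have h9 : (n : F) • e' = (2 : F) • e1 := by
        have : (n : F) • e' = e1 - (e1 - (n : F) • e') := by abel
        rw [this, two_smul]
        nth_rewrite 1 [h8]
        rw [neg_sub]
        have h10 : e1 - (n : F) • e' = -e1 := by rw [← neg_neg (e1 - (n : F) • e'), ← h8]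
        have h11 : (n : F) • e' - e1 = e1 := by rw [← neg_sub, h10, neg_neg]
        rw [h11, h10]; abel
      have h10 : d • e1 = -e1 := by
        have h11 : d • ((n : F) • e') = d • ((2 : F) • e1) := by rw [h9]
        rw [smul_comm d (n : F), h6, smul_neg, h9, smul_comm d (2 : F)] at h11
        have h12 : (2 : F) • (d • e1 + e1) = 0 := by rw [smul_add, ← h11]; abel
        have h13 := (smul_eq_zero.1 h12).resolve_left I.two
        exact eq_neg_of_add_eq_zero_left h13
      have h11 : e' = 0 := by rw [he', h10]; abel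
      rw [h11, smul_zero] at h9
      have h12 := (smul_eq_zero.1 h9.symm).resolve_left I.two
      have h13 := R.e12
      rw [h12] at h13
      simp at h13
  have h4' : τ ^ 2 - 4 ≠ 0 := sub_ne_zero.2 hτ4
  have xj1 : x • jj e1 = jj e1 := by rw [xj, R.xe1 I, jneg, neg_neg]
  have xj2 : x • jj e2 = jj e2 := by rw [xj, R.xe2 I, jneg, neg_neg]
  obtain ⟨a, b, hab⟩ := hU' e1 xj1
  obtain ⟨c, k, hck⟩ := hU' e2 xj2
  have hab' : jj e1 = a • p1 + b • p2 := hab
  have hck' : jj e2 = c • p1 + k • p2 := hck
  have hB : B (jj e1) (jj e2) = -(τ ^ 2 - 4) := by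
    rw [jadj, je e2 te2, map_smul, R.e12, smul_eq_mul, mul_one]
  have hB' : B (jj e1) (jj e2) = (a * k - b * c) * B p1 p2 := by
    rw [hab', hck']
    simp only [map_add, map_smul, LinearMap.add_apply, LinearMap.smul_apply, smul_eq_mul, I.alt]
    rw [I.neg p2 p1]
    ring
  rw [hB] at hB'
  have hne : (a * k - b * c) * B p1 p2 ≠ 0 := by rw [← hB']; exact neg_ne_zero.2 h4'
  have hdet : a * k - b * c ≠ 0 := left_ne_zero_of_mul hne
  have hp12 : B p1 p2 ≠ 0 := right_ne_zero_of_mul hne
  refine ⟨τ, hτ4, hp12, ?_⟩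
  have tj1 : t (jj e1) = τ • jj e1 := by rw [tj, te1, jsmul]
  have tj2 : t (jj e2) = τ • jj e2 := by rw [tj, te2, jsmul]
  have hp1 : (a * k - b * c) • p1 = k • jj e1 - b • jj e2 := by
    rw [hab', hck']
    simp only [smul_add, smul_smul, sub_smul]
    rw [mul_comm k a, mul_comm k b]
    abel
  have hp2 : (a * k - b * c) • p2 = a • jj e2 - c • jj e1 := by
    rw [hab', hck']
    simp only [smul_add, smul_smul, sub_smul]
    rw [mul_comm c a, mul_comm c b]
    abel
  have tsub : ∀ a b, t (a - b) = t a - t b := by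
    intro a b; rw [sub_eq_add_neg, tadd, tneg, sub_eq_add_neg]
  have tp1 : t p1 = τ • p1 := by
    have h6 : (a * k - b * c) • t p1 = (a * k - b * c) • (τ • p1) := by
      rw [← tsmul, hp1, tsub, tsmul, tsmul, tj1, tj2, smul_comm _ τ p1, hp1, smul_sub τ (k • jj e1) (b • jj e2), smul_comm τ k, smul_comm τ b]
    exact smul_right_injective V hdet h6
  have tp2 : t p2 = τ • p2 := by
    have h6 : (a * k - b * c) • t p2 = (a * k - b * c) • (τ • p2) := by
      rw [← tsmul, hp2, tsub, tsmul, tsmul, tj1, tj2, smul_comm _ τ p2, hp2, smul_sub τ (a • jj e2) (c • jj e1), smul_comm τ a, smul_comm τ c]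
    exact smul_right_injective V hdet h6
  rintro u (rfl | rfl | rfl | rfl)
  · exact te1
  · exact te2
  · exact tp1
  · exact tp2

end Fr

end Cfsg.Agent.H95.SpT
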