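import Cfsg.Agent.H95.SpSwapB

set_option autoImplicit false
set_option linter.unusedSectionVars false

/-!
Strong pronormality for the symplectic groups, abstract form.
-/

namespace Cfsg.Agent.H95.SpT

universe u v w

open Matrix

variable {F : Type u} [Field F] [Finite F] {V : Type v} [AddCommGroup V] [Module F V] {B : LinearMap.BilinForm F V}
  {G : Type w} [Group G] [DistribMulAction G V] [SMulCommClass G F V] {n : ℕ}
  [FaithfulSMul G V] (I : Isom B G) (X : Frm B G n) {q1 q2 : SpecialLinearGroup (Fin 2) F} (hq : QP q1 q2)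
  {Q : Sylow 2 (SpecialLinearGroup (Fin 2) F)} {T : Subgroup (Equiv.Perm (Fin n))} {H : Subgroup G}

/-- the normaliser -/
abbrev NQ (Q : Sylow 2 (SpecialLinearGroup (Fin 2) F)) : Subgroup (SpecialLinearGroup (Fin 2) F) :=
  Subgroup.normalizer ((Q : Subgroup (SpecialLinearGroup (Fin 2) F)) : Set (SpecialLinearGroup (Fin 2) F))

/-- the kernel of the product of the determinants -/
def LL {A : Type*} [CommGroup A] (χ : NQ Q →* A)
    (T : Subgroup (Equiv.Perm (Fin n))) : Subgroup G where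
  carrier := {g | ∃ (v : Fin n → NQ Q)
    (τ : Equiv.Perm (Fin n)), τ ∈ T ∧ g = X.e (fun l => (v l : SpecialLinearGroup (Fin 2) F)) * X.s τ ∧ ∏ l, χ (v l) = 1}
  mul_mem' := by
    rintro g h ⟨v, τ, hτ, rfl, hv⟩ ⟨v', τ', hτ', rfl, hv'⟩
    rw [X.es_mul]
    refine ⟨v * fun i => v' (τ⁻¹ i), τ * τ', mul_mem hτ hτ', rfl, ?_⟩
    simp only [Pi.mul_apply, map_mul]
    rw [Finset.prod_mul_distrib, hv, one_mul, Equiv.prod_comp τ⁻¹ (fun i => χ (v' i)), hv']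
  one_mem' := ⟨1, 1, one_mem _, by
    rw [map_one, mul_one]
    have : (fun l => (((1 : Fin n → NQ Q) l :
      NQ Q) : SpecialLinearGroup (Fin 2) F)) = 1 := rfl
    rw [this, map_one], by simp⟩
  inv_mem' := by
    rintro g ⟨v, τ, hτ, rfl, hv⟩
    rw [X.es_inv]
    refine ⟨fun i => (v (τ i))⁻¹, τ⁻¹, inv_mem hτ, rfl, ?_⟩
    simp only [map_inv]
    rw [Finset.prod_inv_distrib, Equiv.prod_comp τ (fun i => χ (v i)), hv, inv_one]

open scoped Pointwise in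
include I in
/-- the Frattini argument -/
theorem prod_chi [Finite G] {A : Type*} [CommGroup A]
    (χ : NQ Q →* A)
    (hχ : ∀ x : NQ Q,
      χ x = 1 ↔ (x : SpecialLinearGroup (Fin 2) F) ∈ (Q : Subgroup (SpecialLinearGroup (Fin 2) F)))
    (S0 : Sylow 2 G) (hS0 : (S0 : Subgroup G) = SS X (Q : Subgroup _) T) (hSH : SS X (Q : Subgroup _) T ≤ H)
    (hNH : ∀ m ∈ H, (∀ σ ∈ SS X (Q : Subgroup _) T, m * σ * m⁻¹ ∈ SS X (Q : Subgroup _) T) → m ∈ SS X (Q : Subgroup _) T)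
    {μ : Fin n → NQ Q}
    (hμ : X.e (fun l => (μ l : SpecialLinearGroup (Fin 2) F)) ∈ H) : ∏ l, χ (μ l) = 1 := by
  have hle : SS X (Q : Subgroup _) T ≤ LL X χ T := by
    rintro _ ⟨v, τ, hv, hτ, rfl⟩
    refine ⟨fun l => ⟨v l, Subgroup.le_normalizer (hv l)⟩, τ, hτ, rfl, ?_⟩
    apply Finset.prod_eq_one
    intro l _
    rw [hχ]; exact hv l
  set m := X.e (fun l => (μ l : SpecialLinearGroup (Fin 2) F)) with hm
  have hm2 : ∀ σ ∈ SS X (Q : Subgroup _) T, m * σ * m⁻¹ ∈ LL X χ T := by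
    rintro _ ⟨v, τ, hv, hτ, rfl⟩
    have h1 : m * (X.e v * X.s τ) * m⁻¹ = (X.e (fun l => (μ l : SpecialLinearGroup (Fin 2) F)) * X.s 1) * (X.e v * X.s τ) *
        (X.e (fun l => (μ l : SpecialLinearGroup (Fin 2) F)) * X.s 1)⁻¹ := by rw [map_one, mul_one]
    rw [h1, X.es_mul, X.es_inv, X.es_mul]
    refine ⟨fun l => μ l * ⟨v l, Subgroup.le_normalizer (hv l)⟩ * (μ (τ⁻¹ l))⁻¹, τ, hτ, ?_, ?_⟩
    · congr 2
    · simp only [map_mul, map_inv]
      have h2 : ∀ l, χ ⟨v l, Subgroup.le_normalizer (hv l)⟩ = 1 := fun l => (hχ _).2 (hv l)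
      simp only [h2, mul_one]
      rw [Finset.prod_mul_distrib, Finset.prod_inv_distrib, Equiv.prod_comp τ⁻¹ (fun i => χ (μ i)), mul_inv_cancel]
  have h1 : (S0 : Subgroup G) ≤ LL X χ T ⊓ H := by rw [hS0]; exact le_inf hle hSH
  have h2 : ((m • S0 : Sylow 2 G) : Subgroup G) ≤ LL X χ T ⊓ H := by
    rw [Sylow.coe_subgroup_smul, hS0]
    rintro _ ⟨σ, hσ, rfl⟩
    show m * σ * m⁻¹ ∈ LL X χ T ⊓ H
    exact Subgroup.mem_inf.2 ⟨hm2 σ hσ, mul_mem (mul_mem hμ (hSH hσ)) (inv_mem hμ)⟩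
  obtain ⟨k, hk, hk'⟩ := H37.exists_conj_mem_of_le S0 (m • S0) h1 h2
  have hn : k⁻¹ * m ∈ Subgroup.normalizer ((S0 : Subgroup G) : Set G) := by
    have : (k⁻¹ * m) • S0 = S0 := by rw [mul_smul, ← hk', inv_smul_smul]
    exact Sylow.smul_eq_iff_mem_normalizer.1 this
  have hn2 : k⁻¹ * m ∈ SS X (Q : Subgroup _) T := by
    apply hNH _ (mul_mem (inv_mem hk.2) hμ)
    have h3 := norm_iff.1 hn
    rw [hS0] at h3
    exact h3
  have hmL : m ∈ LL X χ T := by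
    have : m = k * (k⁻¹ * m) := by group
    rw [this]; exact mul_mem hk.1 (hle hn2)
  obtain ⟨v, τ, hτ, hmv, hv⟩ := hmL
  have h4 : X.e (fun l => (μ l : SpecialLinearGroup (Fin 2) F)) * X.s 1 =
      X.e (fun l => (v l : SpecialLinearGroup (Fin 2) F)) * X.s τ := by rw [map_one, mul_one, ← hmv]
  obtain ⟨h5, -⟩ := X.es_inj I h4
  have h6 : μ = v := by
    funext l
    exact Subtype.ext (congrFun h5 l)
  rw [h6]; exact hv

/-- commutators in a quaternion group of order eight -/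
lemma comm_Q8 (e : Nonempty ((Q : Subgroup (SpecialLinearGroup (Fin 2) F)) ≃* QuaternionGroup 2))
    (h2 : (2 : F) ≠ 0) {p q : SpecialLinearGroup (Fin 2) F} (hp : p ∈ (Q : Subgroup _)) (hq : q ∈ (Q : Subgroup _)) :
    p * q * p⁻¹ = q ∨ p * q * p⁻¹ = -q := by
  obtain ⟨e⟩ := e
  have h3 : ∀ x y : QuaternionGroup 2, (x * y * x⁻¹ * y⁻¹) * (x * y * x⁻¹ * y⁻¹) = 1 := by decide
  have h4 := h3 (e ⟨p, hp⟩) (e ⟨q, hq⟩)
  rw [← map_inv, ← map_inv, ← map_mul, ← map_mul, ← map_mul, ← map_mul] at h4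
  have h5 := (map_eq_one_iff e e.injective).1 h4
  have h6 : (p * q * p⁻¹ * q⁻¹) * (p * q * p⁻¹ * q⁻¹) = 1 := congrArg Subtype.val h5
  rcases (ca_sl h2).inv _ h6 with h | h
  · left; exact mul_inv_eq_one.1 h
  · right
    rw [mul_inv_eq_iff_eq_mul] at h
    rw [h, neg_mul, one_mul]

include I hq

/-- **reflections in the Sylow subgroup** -/
theorem refl_mem [Finite G] {A : Type*} [CommGroup A]
    (χ : NQ Q →* A)
    (hχ : ∀ x : NQ Q,
      χ x = 1 ↔ (x : SpecialLinearGroup (Fin 2) F) ∈ (Q : Subgroup (SpecialLinearGroup (Fin 2) F)))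
    (e8 : Nonempty ((Q : Subgroup (SpecialLinearGroup (Fin 2) F)) ≃* QuaternionGroup 2))
    (S0 : Sylow 2 G) (hS0 : (S0 : Subgroup G) = SS X (Q : Subgroup _) T) (hSH : SS X (Q : Subgroup _) T ≤ H)
    (hNH : ∀ m ∈ H, (∀ σ ∈ SS X (Q : Subgroup _) T, m * σ * m⁻¹ ∈ SS X (Q : Subgroup _) T) → m ∈ SS X (Q : Subgroup _) T)
    (hHQ : ∀ i (y : SpecialLinearGroup (Fin 2) F), X.e (Pi.mulSingle i y) ∈ H → y ∈ (Q : Subgroup _))
    (hTt : ∀ i j : Fin n, ∃ τ ∈ T, τ i = j)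
    (h1Q : q1 ∈ (Q : Subgroup _)) (h2Q : q2 ∈ (Q : Subgroup _)) {i0 : Fin n} {h z : G} (hh : h ∈ H)
    (hz : z = h * X.t i0 * h⁻¹) (hzS : z ∈ SS X (Q : Subgroup _) T) : ∃ i, z = X.t i := by
  have hQH : ∀ i, ∀ q ∈ (Q : Subgroup _), X.e (Pi.mulSingle i q) ∈ H := fun i q hqQ => hSH (single_mem_SS X hqQ i)
  have R' := (X.fr I hq.h1 hq.h2 hq.h12 i0).conj I h
  rw [← hz] at R'
  obtain ⟨x, τ, hx, hτ, hzx⟩ := hzS
  have R'' := R'
  rw [hzx] at R''
  rcases X.refl_es I hq R'' with h1 | ⟨i, j, hij, hτij, hxl⟩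
  · obtain ⟨i, hi⟩ := h1
    exact ⟨i, by rw [hzx, hi]⟩
  · exfalso
    rw [hτij] at hzx
    -- normalise
    obtain ⟨σ, hσ, hσi⟩ := hTt i0 i
    have hst : X.s σ * X.t i0 * (X.s σ)⁻¹ = X.t i := by
      rw [Frm.t, X.conj_s, Frm.t, ← hσi]
      congr 1
      funext l
      by_cases hl : l = σ i0
      · subst hl; simp
      · have h2 : σ⁻¹ l ≠ i0 := by intro h; apply hl; rw [← h]; simp
        rw [Pi.mulSingle_eq_of_ne h2, Pi.mulSingle_eq_of_ne hl]
    have hzh' : z = (h * (X.s σ)⁻¹) * X.t i * (h * (X.s σ)⁻¹)⁻¹ := by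
      rw [← hst, hz]; group
    have hh' : h * (X.s σ)⁻¹ ∈ H := mul_mem hh (inv_mem (hSH (s_mem_SS X hσ)))
    obtain ⟨μ, hμH, hμl, hμi, hμj⟩ := exists_mu I X hq hQH hHQ h1Q h2Q hij hzx R'.xx hx hxl hh' hzh'
    have hμN : ∀ l, ∀ q ∈ (Q : Subgroup _), μ l * q * (μ l)⁻¹ ∈ (Q : Subgroup _) := by
      intro l q hqQ
      apply hHQ l
      rw [← X.conj_single_e]
      exact mul_mem (mul_mem hμH (hQH l q hqQ)) (inv_mem hμH)
    have hprod := prod_chi I X χ hχ S0 hS0 hSH hNH (μ := fun l => ⟨μ l, norm_iff.2 (hμN l)⟩) hμH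
    have hji : ∀ l ∈ Finset.univ, l ∉ ({i, j} : Finset (Fin n)) →
        χ ⟨μ l, norm_iff.2 (hμN l)⟩ = 1 := by
      intro l _ hl
      simp only [Finset.mem_insert, Finset.mem_singleton, not_or] at hl
      rw [hχ]
      show μ l ∈ _
      rw [hμl l hl.1 hl.2]; exact one_mem _
    rw [← Finset.prod_subset (Finset.subset_univ ({i, j} : Finset (Fin n))) hji, Finset.prod_pair hij] at hprod
    have hNQ : ∀ {p : SpecialLinearGroup (Fin 2) F}, p ∈ (Q : Subgroup _) →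
        p ∈ NQ Q := fun hp => Subgroup.le_normalizer hp
    have hχj : χ ⟨μ j, norm_iff.2 (hμN j)⟩ = χ ⟨μ i, norm_iff.2 (hμN i)⟩ := by
      have h2 : (⟨μ j, norm_iff.2 (hμN j)⟩ : NQ Q) =
          (⟨x j, hNQ (hx j)⟩ : NQ Q) *
          ((⟨q1, hNQ h1Q⟩ : NQ Q) *
          ⟨μ i, norm_iff.2 (hμN i)⟩ * (⟨q1, hNQ h1Q⟩ : NQ Q)⁻¹) *
          (⟨x j, hNQ (hx j)⟩ : NQ Q)⁻¹ := Subtype.ext hμj
      rw [h2]
      simp only [map_mul, map_inv]
      rw [(hχ ⟨x j, hNQ (hx j)⟩).2 (hx j), (hχ ⟨q1, hNQ h1Q⟩).2 h1Q]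
      simp
    rw [hχj, ← map_mul, hχ] at hprod
    have hμμ : μ i * μ i ∈ (Q : Subgroup _) := hprod
    have hμQ : μ i ∈ (Q : Subgroup _) := by
      obtain ⟨m, hm⟩ := Q.isPGroup' ⟨μ i * μ i, hμμ⟩
      have hm' : (μ i * μ i) ^ 2 ^ m = 1 := congrArg Subtype.val hm
      refine mem_of_two Q (m := m + 1) ?_ (hμN i)
      rw [pow_succ, mul_comm, pow_mul, pow_two, hm']
    -- contradiction
    have hq11 : (q1 : Matrix (Fin 2) (Fin 2) F) * q1 = -1 := congrArg Subtype.val hq.h1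
    have hq12 : (q1 : Matrix (Fin 2) (Fin 2) F) * q2 = -((q2 : Matrix (Fin 2) (Fin 2) F) * q1) := by
      have := congrArg Subtype.val hq.h12
      rw [neg_one_mul] at this
      exact this
    have hM := congrArg (fun M => (q1 : Matrix (Fin 2) (Fin 2) F) * M) hμi
    simp only [mul_add, mul_one, hq11, Matrix.mul_smul] at hM
    have hM' := congrArg (fun M => M * (q1 : Matrix (Fin 2) (Fin 2) F)) hμi
    simp only [add_mul, one_mul, hq11, Matrix.smul_mul] at hM'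
    have h22 : (q1 : Matrix (Fin 2) (Fin 2) F) * (q1 * q2) = - (q2 : Matrix (Fin 2) (Fin 2) F) := by
      rw [← mul_assoc, hq11, neg_one_mul]
    have h23 : (q1 : Matrix (Fin 2) (Fin 2) F) * q2 * q1 = (q2 : Matrix (Fin 2) (Fin 2) F) := by
      rw [hq12, neg_mul, mul_assoc, hq11, mul_neg_one, neg_neg]
    have h21 : (q2 : Matrix (Fin 2) (Fin 2) F) * q1 = - ((q1 : Matrix (Fin 2) (Fin 2) F) * q2) := by
      rw [hq12, neg_neg]
    rw [h22] at hM
    rw [h23, h21] at hM'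
    have hcase := comm_Q8 e8 I.two h1Q hμQ
    have e00 : ∀ M : Matrix (Fin 2) (Fin 2) F, M * M = -1 → M ≠ -1 := by
      intro M hMM h
      rw [h] at hMM
      have h3 : (-1 : Matrix (Fin 2) (Fin 2) F) * -1 = 1 := by rw [neg_mul_neg, one_mul]
      rw [h3] at hMM
      have h4 := congrFun (congrFun hMM 0) 0
      simp at h4
      apply I.two
      linear_combination h4
    rcases hcase with hc | hc
    · rw [mul_inv_eq_iff_eq_mul] at hc
      have h3 : (q1 : Matrix (Fin 2) (Fin 2) F) * μ i = μ i * q1 := congrArg Subtype.val hc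
      rw [h3, hM'] at hM
      -- `q1 - 1 + q1 q2 - q2 ...`
      have h4 : (2 : F) • ((q1 : Matrix (Fin 2) (Fin 2) F) * q2 - q2) = 0 := by
        rw [two_smul]
        have h5 : (q1 : Matrix (Fin 2) (Fin 2) F) + -1 + (q1 : Matrix (Fin 2) (Fin 2) F) * q2 + -(q2 : Matrix (Fin 2) (Fin 2) F) -
          ((q1 : Matrix (Fin 2) (Fin 2) F) + -1 + -((q1 : Matrix (Fin 2) (Fin 2) F) * q2) + (q2 : Matrix (Fin 2) (Fin 2) F)) = 0 := by
          rw [← hM, sub_self]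
        rw [← h5]; abel
      have h5 := sub_eq_zero.1 ((smul_eq_zero.1 h4).resolve_left I.two)
      have h6 : q1 * q2 = q2 := Subtype.ext h5
      have h7 : q1 = 1 := mul_eq_right.1 h6
      have h8 := hq.h1
      rw [h7, one_mul] at h8
      exact (ca_sl I.two).z1 h8.symm
    · rw [mul_inv_eq_iff_eq_mul] at hc
      have h3 : (q1 : Matrix (Fin 2) (Fin 2) F) * μ i = -(μ i * q1) := by
        have := congrArg Subtype.val hc
        rw [neg_mul] at this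
        exact this
      rw [h3, smul_neg, hM'] at hM
      have h4 : (2 : F) • ((q1 : Matrix (Fin 2) (Fin 2) F) - 1) = 0 := by
        rw [two_smul]
        have h5 : (q1 : Matrix (Fin 2) (Fin 2) F) + -1 + (q1 : Matrix (Fin 2) (Fin 2) F) * q2 + -(q2 : Matrix (Fin 2) (Fin 2) F) -
          -((q1 : Matrix (Fin 2) (Fin 2) F) + -1 + -((q1 : Matrix (Fin 2) (Fin 2) F) * q2) + (q2 : Matrix (Fin 2) (Fin 2) F)) = 0 := by
          rw [hM, sub_self]
        rw [← h5]; abel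
      have h5 := sub_eq_zero.1 ((smul_eq_zero.1 h4).resolve_left I.two)
      have h7 : q1 = 1 := Subtype.ext h5
      have h8 := hq.h1
      rw [h7, one_mul] at h8
      exact (ca_sl I.two).z1 h8.symm

end Cfsg.Agent.H95.SpT
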