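import Cfsg.Agent.H95.SpLin
import Cfsg.Agent.H95.Tower

set_option autoImplicit false
set_option linter.unusedSectionVars false

/-!
A group of isometries acting on a space of dimension at most four: subgroups of order prime to the characteristic.
-/

namespace Cfsg.Agent.H95.SpT

universe u v w

variable {F : Type u} [Field F] {V : Type v} [AddCommGroup V] [Module F V] {B : LinearMap.BilinForm F V}
  {H : Type w} [Group H] [DistribMulAction H V] [SMulCommClass H F V]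

/-- a subgroup acting trivially on the orthogonal complement of `⟨e1, e2, p1, p2⟩` -/
structure Loc (B : LinearMap.BilinForm F V) (K : Subgroup H) (x i j : H) (e1 e2 p1 p2 : V) : Prop where
  fr : Fr B x i j e1 e2
  xp1 : x • p1 = p1
  xp2 : x • p2 = p2
  ki : i ∈ K
  kj : j ∈ K
  kfix : ∀ k ∈ K, ∀ w, B w e1 = 0 → B w e2 = 0 → B w p1 = 0 → B w p2 = 0 → k • w = w
  kU : ∀ k ∈ K, ∀ w, ∃ a b c d : F, k • w - w = a • e1 + b • e2 + (c • p1 + d • p2)

/-- the span -/
def InU (F : Type u) [Field F] [Module F V] (e1 e2 p1 p2 u : V) : Prop :=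
  ∃ a b c d : F, u = a • e1 + b • e2 + (c • p1 + d • p2)

namespace InU

variable {e1 e2 p1 p2 : V}

lemma add {u w : V} (hu : InU F e1 e2 p1 p2 u) (hw : InU F e1 e2 p1 p2 w) : InU F e1 e2 p1 p2 (u + w) := by
  obtain ⟨a, b, c, d, rfl⟩ := hu
  obtain ⟨a', b', c', d', rfl⟩ := hw
  exact ⟨a + a', b + b', c + c', d + d', by simp only [add_smul]; abel⟩

lemma neg {u : V} (hu : InU F e1 e2 p1 p2 u) : InU F e1 e2 p1 p2 (-u) := by
  obtain ⟨a, b, c, d, rfl⟩ := hu
  exact ⟨-a, -b, -c, -d, by simp only [neg_smul]; abel⟩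

lemma sub {u w : V} (hu : InU F e1 e2 p1 p2 u) (hw : InU F e1 e2 p1 p2 w) : InU F e1 e2 p1 p2 (u - w) := by
  rw [sub_eq_add_neg]; exact hu.add hw.neg

lemma smul {u : V} (hu : InU F e1 e2 p1 p2 u) (k : F) : InU F e1 e2 p1 p2 (k • u) := by
  obtain ⟨a, b, c, d, rfl⟩ := hu
  exact ⟨k * a, k * b, k * c, k * d, by simp only [smul_add, mul_smul]⟩

lemma h1 : InU F e1 e2 p1 p2 e1 := ⟨1, 0, 0, 0, by simp⟩
lemma h2 : InU F e1 e2 p1 p2 e2 := ⟨0, 1, 0, 0, by simp⟩
lemma h3 : InU F e1 e2 p1 p2 p1 := ⟨0, 0, 1, 0, by simp⟩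
lemma h4 : InU F e1 e2 p1 p2 p2 := ⟨0, 0, 0, 1, by simp⟩

end InU

namespace Loc

variable (I : Isom B H) {K : Subgroup H} {x i j : H} {e1 e2 p1 p2 : V} (L : Loc B K x i j e1 e2 p1 p2)

include I L

omit I in
lemma kx : x ∈ K := by rw [← L.fr.ii]; exact mul_mem L.ki L.ki

omit I in
lemma pres {k : H} (hk : k ∈ K) {u : V} (hu : InU F e1 e2 p1 p2 u) : InU F e1 e2 p1 p2 (k • u) := by
  have h := (show InU F e1 e2 p1 p2 (k • u - u) from L.kU k hk u).add hu
  rwa [sub_add_cancel] at h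

lemma inP {u : V} (hu : InU F e1 e2 p1 p2 u) (hx : x • u = u) : ∃ c d : F, u = c • p1 + d • p2 := by
  obtain ⟨a, b, c, d, rfl⟩ := hu
  refine ⟨c, d, ?_⟩
  rw [smul_add, smul_add, smul_add, smul_comm x a, smul_comm x b, smul_comm x c, smul_comm x d, L.fr.xe1 I, L.fr.xe2 I,
    L.xp1, L.xp2, smul_neg, smul_neg] at hx
  have h1 := add_right_cancel hx
  have h2 : (2 : F) • (a • e1 + b • e2) = 0 := by
    rw [two_smul]
    nth_rewrite 1 [← h1]
    abel
  have h3 := (smul_eq_zero.1 h2).resolve_left I.two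
  rw [h3, zero_add]

lemma Bep {p : V} (hp : x • p = p) : B e1 p = 0 ∧ B e2 p = 0 := by
  obtain ⟨h1, h2⟩ := L.fr.of_xfix I hp
  exact ⟨by rw [I.neg, h1, neg_zero], by rw [I.neg, h2, neg_zero]⟩

/-- decomposition when the space is nondegenerate -/
lemma decomp (hp : B p1 p2 ≠ 0) (w : V) : ∃ u r : V, w = u + r ∧ InU F e1 e2 p1 p2 u ∧
    B r e1 = 0 ∧ B r e2 = 0 ∧ B r p1 = 0 ∧ B r p2 = 0 := by
  obtain ⟨a1, a2⟩ := L.Bep I L.xp1
  obtain ⟨b1, b2⟩ := L.Bep I L.xp2
  obtain ⟨c1, c2⟩ := L.fr.of_xfix I L.xp1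
  obtain ⟨d1, d2⟩ := L.fr.of_xfix I L.xp2
  have hE := L.fr.e12
  have hE' := L.fr.e21 I
  have hP' : B p2 p1 = - B p1 p2 := I.neg _ _
  set u : V := B w e2 • e1 - B w e1 • e2 + ((B w p2 / B p1 p2) • p1 - (B w p1 / B p1 p2) • p2) with hu
  refine ⟨u, w - u, by abel, ⟨B w e2, -B w e1, B w p2 / B p1 p2, -(B w p1 / B p1 p2), ?_⟩, ?_, ?_, ?_, ?_⟩
  · rw [hu]; simp only [neg_smul, sub_eq_add_neg]
  all_goals
    rw [hu]
    simp only [map_sub, map_add, map_smul, LinearMap.sub_apply, LinearMap.add_apply, LinearMap.smul_apply, smul_eq_mul,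
      a1, a2, b1, b2, c1, c2, d1, d2, hE, hE', hP', I.alt]
    field_simp
    ring

lemma eq_of_U [FaithfulSMul H V] (hp : B p1 p2 ≠ 0) {d d' : H} (hd : d ∈ K) (hd' : d' ∈ K)
    (h : ∀ u, InU F e1 e2 p1 p2 u → d • u = d' • u) : d = d' := by
  apply FaithfulSMul.eq_of_smul_eq_smul (α := V)
  intro w
  obtain ⟨u, r, rfl, hu, h1, h2, h3, h4⟩ := L.decomp I hp w
  rw [smul_add, smul_add, h u hu, L.kfix d hd r h1 h2 h3 h4, L.kfix d' hd' r h1 h2 h3 h4]

/-- `d` inverted by `x`, of odd order prime to the characteristic -/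
theorem scal [FaithfulSMul H V] {d : H} (hdK : d ∈ K) (hxd : x * d * x⁻¹ = d⁻¹) {n : ℕ} (hn : Odd n)
    (hnF : (n : F) ≠ 0) (hdn : d ^ n = 1) (hd1 : d ≠ 1) :
    B p1 p2 ≠ 0 ∧ ∃ τ : F, τ ^ 2 ≠ 4 ∧ ∀ u : V, InU F e1 e2 p1 p2 u → d • u + d⁻¹ • u = τ • u := by
  obtain ⟨τ, h1, h2, h3⟩ := L.fr.inv_scalar I (p1 := p1) (p2 := p2) (d := d) (by
    intro w hw
    have h : InU F e1 e2 p1 p2 (d • w - d⁻¹ • w) := by
      have e : d • w - d⁻¹ • w = (d • w - w) - (d⁻¹ • w - w) := by abel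
      rw [e]
      exact InU.sub (L.kU d hdK w) (L.kU d⁻¹ (inv_mem hdK) w)
    exact L.inP I h hw) hxd hn hnF hdn hd1
  refine ⟨h2, τ, h1, ?_⟩
  rintro u ⟨a, b, c, k, rfl⟩
  have e : ∀ (g : H), g • (a • e1 + b • e2 + (c • p1 + k • p2)) = a • g • e1 + b • g • e2 + (c • g • p1 + k • g • p2) := by
    intro g
    rw [smul_add, smul_add, smul_add, smul_comm g a, smul_comm g b, smul_comm g c, smul_comm g k]
  have e1' := h3 e1 (Or.inl rfl)
  have e2' := h3 e2 (Or.inr (Or.inl rfl))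
  have e3' := h3 p1 (Or.inr (Or.inr (Or.inl rfl)))
  have e4' := h3 p2 (Or.inr (Or.inr (Or.inr rfl)))
  rw [e, e]
  calc _ = a • (d • e1 + d⁻¹ • e1) + b • (d • e2 + d⁻¹ • e2) + (c • (d • p1 + d⁻¹ • p1) + k • (d • p2 + d⁻¹ • p2)) := by
        simp only [smul_add]; abel
    _ = _ := by
        rw [e1', e2', e3', e4']
        simp only [smul_add]
        rw [smul_comm a τ, smul_comm b τ, smul_comm c τ, smul_comm k τ]

end Loc

/-- elements inverted by `x`, the situation -/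
structure PSub (K : Subgroup H) (x i : H) (p : ℕ) (D : Subgroup H) : Prop where
  le : D ≤ K
  pg : IsPGroup p D
  inv : ∀ d ∈ D, i * d * i⁻¹ ∈ D
  ex : ∃ d ∈ D, d ≠ 1 ∧ x * d * x⁻¹ = d⁻¹

variable [Finite H] [FaithfulSMul H V] (I : Isom B H) {K : Subgroup H} {x i j : H} {e1 e2 p1 p2 : V}
  (L : Loc B K x i j e1 e2 p1 p2)

include I L

/-- there are no such subgroups of order prime to the characteristic -/
theorem part1 {p : ℕ} [hp : Fact p.Prime] (hp2 : p ≠ 2) (hpF : (p : F) ≠ 0) {D0 : Subgroup H} (h0 : PSub K x i p D0) :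
    False := by
  -- minimal choice
  obtain ⟨D, hD, hmin⟩ : ∃ D : Subgroup H, PSub K x i p D ∧ ∀ D' : Subgroup H, PSub K x i p D' → D' ≤ D → D' = D := by
    obtain ⟨D, hD⟩ := (Set.toFinite {D : Subgroup H | PSub K x i p D}).exists_minimal ⟨D0, h0⟩
    exact ⟨D, hD.prop, fun D' h' hle => le_antisymm hle (hD.le_of_le h' hle)⟩
  have hxi : x * i = i * x := by rw [← L.fr.ii]; group
  have ii : i⁻¹ * i⁻¹ = x⁻¹ := by rw [← L.fr.ii]; group
  have hxinv : x⁻¹ = x := inv_eq_of_mul_eq_one_left L.fr.xx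
  have hpodd : Odd p := hp.out.odd_of_ne_two hp2
  have ordD : ∀ d ∈ D, ∃ n : ℕ, Odd n ∧ (n : F) ≠ 0 ∧ d ^ n = 1 := by
    intro d hd
    obtain ⟨k, hk⟩ := hD.pg ⟨d, hd⟩
    exact ⟨p ^ k, hpodd.pow, by push_cast; exact pow_ne_zero _ hpF, congrArg Subtype.val hk⟩
  have oddD : ∀ d ∈ D, Odd (orderOf d) := by
    intro d hd
    obtain ⟨n, hn, -, h⟩ := ordD d hd
    exact odd_of_pow hn h
  obtain ⟨a, haD, ha1, hxa⟩ := hD.ex
  -- the commutator subgroup is centralised by `x`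
  have hC : ∀ w ∈ ⁅D, D⁆, x * w = w * x := by
    have hlt : ⁅D, D⁆ ≠ D := by
      intro he
      have hne : Nontrivial D := ⟨⟨⟨a, haD⟩, 1, fun h => ha1 (congrArg Subtype.val h)⟩⟩
      have hnil : Group.IsNilpotent D := hD.pg.isNilpotent
      have hsol : Group.IsSolvable D := inferInstance
      have h1 := Group.IsSolvable.commutator_lt_top_of_nontrivial D
      apply h1.ne
      rw [commutator_def]
      apply Subgroup.map_injective D.subtype_injective
      rw [Subgroup.map_commutator, ← MonoidHom.range_eq_map, Subgroup.range_subtype, he]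
    intro w hw
    have hwx : ∀ v ∈ ⁅D, D⁆, i * v * i⁻¹ ∈ ⁅D, D⁆ := by
      intro v hv
      have h1 : (⁅D, D⁆ : Subgroup H).map (MulAut.conj i).toMonoidHom ≤ ⁅D, D⁆ := by
        rw [Subgroup.map_commutator]
        apply Subgroup.commutator_mono
        · rintro _ ⟨d, hd, rfl⟩; exact hD.inv d hd
        · rintro _ ⟨d, hd, rfl⟩; exact hD.inv d hd
      exact h1 ⟨v, hv, rfl⟩
    have hxw : x * w * x⁻¹ ∈ ⁅D, D⁆ := by
      have := hwx _ (hwx w hw)
      have e : i * (i * w * i⁻¹) * i⁻¹ = (i * i) * w * (i⁻¹ * i⁻¹) := by group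
      rw [e, L.fr.ii, ii] at this
      exact this
    by_contra hne
    apply hlt
    apply hmin
    · refine ⟨(Subgroup.commutator_le_self D).trans hD.le, hD.pg.to_le (Subgroup.commutator_le_self D), hwx,
        w⁻¹ * (x * w * x⁻¹), mul_mem (inv_mem hw) hxw, ?_, ?_⟩
      · intro h
        apply hne
        have h1 : x * w * x⁻¹ = w := by
          have := congrArg (w * ·) h
          simpa using this
        rw [mul_inv_eq_iff_eq_mul] at h1
        exact h1
      · have hxx := L.fr.xx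
        have : x * (w⁻¹ * (x * w * x⁻¹)) * x⁻¹ = x * w⁻¹ * (x * w) * (x⁻¹ * x⁻¹) := by group
        rw [this]
        have hxx' : x⁻¹ * x⁻¹ = 1 := by rw [hxinv, hxx]
        have e2 : (w⁻¹ * (x * w * x⁻¹))⁻¹ = x * w⁻¹ * (x⁻¹ * w) := by group
        rw [hxx', mul_one, e2, hxinv]
    · exact Subgroup.commutator_le_self D
  have hnorm : ∀ u ∈ D, ∀ w ∈ ⁅D, D⁆, u * w * u⁻¹ ∈ ⁅D, D⁆ := by
    intro u hu w hw
    have h1 : (⁅D, D⁆ : Subgroup H).map (MulAut.conj u).toMonoidHom ≤ ⁅D, D⁆ := by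
      rw [Subgroup.map_commutator]
      apply Subgroup.commutator_mono
      · rintro _ ⟨d, hd, rfl⟩; exact mul_mem (mul_mem hu hd) (inv_mem hu)
      · rintro _ ⟨d, hd, rfl⟩; exact mul_mem (mul_mem hu hd) (inv_mem hu)
    exact h1 ⟨w, hw, rfl⟩
  -- inverted elements commute with the commutator subgroup
  have hcc : ∀ u ∈ D, x * u * x⁻¹ = u⁻¹ → ∀ w ∈ ⁅D, D⁆, u * w = w * u := by
    intro u hu hxu w hw
    apply commute_of_sq (oddD u hu)
    have h1 := hC _ (hnorm u hu w hw)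
    have h2 := hC w hw
    have h3 : x * (u * w * u⁻¹) = (x * u * x⁻¹) * (x * w) * (x⁻¹ * (x * u * x⁻¹)⁻¹ * x) := by group
    rw [h3, hxu, h2, inv_inv] at h1
    have xu : x * u = u⁻¹ * x := by rw [← hxu]; group
    have hux : x⁻¹ * u * x = u⁻¹ := by
      rw [hxinv, xu, mul_assoc, L.fr.xx, mul_one]
    rw [hux] at h1
    -- `u⁻¹ w x u⁻¹ = u w u⁻¹ x`
    have hx2 : x * u⁻¹ = u * x := by
      have : u * (x * u) * u⁻¹ = u * (u⁻¹ * x) * u⁻¹ := by rw [xu]
      have e1 : u * (x * u) * u⁻¹ = u * x := by group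
      have e2 : u * (u⁻¹ * x) * u⁻¹ = x * u⁻¹ := by group
      rw [← e2, ← this, e1]
    have h4 : u⁻¹ * (w * x) * u⁻¹ = u⁻¹ * w * (x * u⁻¹) := by group
    rw [h4, hx2] at h1
    have h5 : u⁻¹ * w * (u * x) = (u⁻¹ * w * u) * x := by group
    rw [h5] at h1
    have h6 := mul_right_cancel h1
    have h7 : u * (u⁻¹ * w * u) * u = u * (u * w * u⁻¹) * u := by rw [h6]
    have e1 : u * (u⁻¹ * w * u) * u = w * (u * u) := by group
    have e2 : u * (u * w * u⁻¹) * u = u * u * w := by group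
    rw [← e1, h7, e2]
  set b := i * a * i⁻¹ with hb
  have hbD : b ∈ D := hD.inv a haD
  have hxb : x * b * x⁻¹ = b⁻¹ := by
    have : x * b * x⁻¹ = (x * i) * a * (i⁻¹ * x⁻¹) := by rw [hb]; group
    rw [this, hxi]
    have h1 : i⁻¹ * x⁻¹ = x⁻¹ * i⁻¹ := by rw [← mul_inv_rev, ← mul_inv_rev, hxi]
    have h2 : i * x * a * (i⁻¹ * x⁻¹) = i * (x * a * x⁻¹) * i⁻¹ := by rw [h1]; group
    rw [h2, hxa, hb]; group
  have hb1 : b ≠ 1 := by
    intro h
    apply ha1
    have h2 : a = i⁻¹ * b * i := by rw [hb]; group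
    rw [h2, h]; group
  obtain ⟨na, hna, hnaF, hana⟩ := ordD a haD
  obtain ⟨nb, hnb, hnbF, hbnb⟩ := ordD b hbD
  obtain ⟨hp12, τ, hτ4, hτ⟩ := L.scal I (hD.le haD) hxa hna hnaF hana ha1
  obtain ⟨-, β, hβ4, hβ⟩ := L.scal I (hD.le hbD) hxb hnb hnbF hbnb hb1
  -- `a` and `b` commute
  have hab : a * b = b * a := by
    set z := a * b * a⁻¹ * b⁻¹ with hz
    have hzD : z ∈ ⁅D, D⁆ := by
      have := Subgroup.commutator_mem_commutator haD hbD
      rwa [commutatorElement_def] at this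
    have hza := hcc a haD hxa z hzD
    have hzb := hcc b hbD hxb z hzD
    have hzK : z ∈ K := hD.le (Subgroup.commutator_le_self D hzD)
    have hz2 : z * z = 1 := by
      have h1 : z = z⁻¹ := by
        apply L.eq_of_U I hp12 hzK (inv_mem hzK)
        intro u hu
        -- first for `u = b v - b⁻¹ v`
        have key : ∀ v, InU F e1 e2 p1 p2 v → z • (b • v - b⁻¹ • v) = z⁻¹ • (b • v - b⁻¹ • v) := by
          intro v hv
          have c1 : a * b * a⁻¹ = z * b := by rw [hz]; group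
          have c2 : a⁻¹ * b * a = z⁻¹ * b := by
            have : a * (z⁻¹ * b) * a⁻¹ = b := by
              have h2 : a * z⁻¹ = z⁻¹ * a := by
                have h3 : z⁻¹ * (a * z) * z⁻¹ = z⁻¹ * (z * a) * z⁻¹ := by rw [hza]
                have e1 : z⁻¹ * (a * z) * z⁻¹ = z⁻¹ * a := by group
                have e2 : z⁻¹ * (z * a) * z⁻¹ = a * z⁻¹ := by group
                rw [← e1, h3, e2]
              have h4 : a * (z⁻¹ * b) * a⁻¹ = (a * z⁻¹) * b * a⁻¹ := by group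
              rw [h4, h2]
              have h5 : z⁻¹ * a * b * a⁻¹ = z⁻¹ * (a * b * a⁻¹) := by group
              rw [h5, c1]; group
            calc a⁻¹ * b * a = a⁻¹ * (a * (z⁻¹ * b) * a⁻¹) * a := by rw [this]
              _ = _ := by group
          have d1 : ∀ g : H, g ∈ K → (g * b * g⁻¹) • v + (g * b * g⁻¹)⁻¹ • v = β • v := by
            intro g hg
            have h2 := hβ (g⁻¹ • v) (L.pres (inv_mem hg) hv)
            have h3 := congrArg (g • ·) h2
            simp only [smul_add, smul_comm g β, smul_inv_smul] at h3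
            rw [← h3]
            simp only [← mul_smul]
            congr 2 <;> group
          have h2 := d1 a (hD.le haD)
          have h3 := d1 a⁻¹ (inv_mem (hD.le haD))
          rw [inv_inv] at h3
          rw [c1] at h2
          rw [c2] at h3
          have hzb' : z * b = b * z := hzb.symm
          have e1 : (z * b)⁻¹ = z⁻¹ * b⁻¹ := by rw [hzb', mul_inv_rev]
          have e2 : (z⁻¹ * b)⁻¹ = z * b⁻¹ := by
            rw [mul_inv_rev, inv_inv]
            have : b⁻¹ * (b * z) * b⁻¹ = b⁻¹ * (z * b) * b⁻¹ := by rw [hzb']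
            have f1 : b⁻¹ * (b * z) * b⁻¹ = z * b⁻¹ := by group
            have f2 : b⁻¹ * (z * b) * b⁻¹ = b⁻¹ * z := by group
            rw [← f1, this, f2]
          rw [e1] at h2
          rw [e2] at h3
          rw [smul_sub, smul_sub, ← mul_smul, ← mul_smul, ← mul_smul, ← mul_smul]
          have h4 : (z * b) • v + (z⁻¹ * b⁻¹) • v = (z⁻¹ * b) • v + (z * b⁻¹) • v := by rw [h2, h3]
          rw [sub_eq_sub_iff_add_eq_add, h4]
        -- apply twice
        have h2 := key (b • u - b⁻¹ • u) (InU.sub (L.pres (hD.le hbD) hu) (L.pres (inv_mem (hD.le hbD)) hu))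
        have h3 : b • (b • u - b⁻¹ • u) - b⁻¹ • (b • u - b⁻¹ • u) = (β ^ 2 - 4) • u := by
          have h4 := hβ (b • u) (L.pres (hD.le hbD) hu)
          have h5 := hβ (b⁻¹ • u) (L.pres (inv_mem (hD.le hbD)) hu)
          have h6 := hβ u hu
          rw [inv_smul_smul] at h4
          rw [smul_inv_smul] at h5
          have h7 : b • b • u + b⁻¹ • b⁻¹ • u = (β ^ 2 - 2) • u := by
            have : b • b • u + b⁻¹ • b⁻¹ • u = (b • b • u + u) + (u + b⁻¹ • b⁻¹ • u) - (2 : F) • u := by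
              rw [two_smul]; abel
            rw [this, h4, h5, ← smul_add, h6, smul_smul, ← sub_smul, pow_two]
          rw [smul_sub, smul_sub, smul_inv_smul, inv_smul_smul]
          have : b • b • u - u - (u - b⁻¹ • b⁻¹ • u) = (b • b • u + b⁻¹ • b⁻¹ • u) - (2 : F) • u := by
            rw [two_smul]; abel
          rw [this, h7, ← sub_smul]
          congr 1; ring
        rw [h3, smul_comm z, smul_comm z⁻¹] at h2
        exact smul_right_injective V (sub_ne_zero.2 hβ4) h2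
      nth_rewrite 2 [h1]
      rw [mul_inv_cancel]
    have hz1 : z = 1 := by
      have h1 := oddD z (Subgroup.commutator_le_self D hzD)
      have h2 : orderOf z ∣ 2 := orderOf_dvd_of_pow_eq_one (by rw [pow_two, hz2])
      rcases (Nat.dvd_prime Nat.prime_two).1 h2 with h | h
      · exact orderOf_eq_one_iff.1 h
      · rw [h] at h1; exact absurd h1 (by decide)
    rw [hz, mul_inv_eq_one, mul_inv_eq_iff_eq_mul] at hz1
    exact hz1
  -- conjugation by `i` preserves the scalar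
  have hβτ : ∀ u, InU F e1 e2 p1 p2 u → b • u + b⁻¹ • u = τ • u := by
    intro u hu
    have h2 := hτ (i⁻¹ • u) (L.pres (inv_mem L.ki) hu)
    have h3 := congrArg (i • ·) h2
    simp only [smul_add, smul_comm i τ, smul_inv_smul] at h3
    rw [← h3, hb]
    simp only [← mul_smul]
    congr 2
    group
  -- neither `a = b` nor `a = b⁻¹`
  have hsq : a * a ≠ 1 := by
    intro h
    have h2 : orderOf a ∣ 2 := orderOf_dvd_of_pow_eq_one (by rw [pow_two, h])
    have h1 := oddD a haD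
    rcases (Nat.dvd_prime Nat.prime_two).1 h2 with h | h
    · exact ha1 (orderOf_eq_one_iff.1 h)
    · rw [h] at h1; exact absurd h1 (by decide)
  have hxax : i * b * i⁻¹ = a⁻¹ := by
    have e : i * (i * a * i⁻¹) * i⁻¹ = (i * i) * a * (i⁻¹ * i⁻¹) := by group
    rw [hb, e, L.fr.ii, ii, hxa]
  have hne1 : a ≠ b := by
    intro h
    rw [← h] at hxax
    rw [← hb, ← h] at hxax
    apply hsq
    nth_rewrite 2 [hxax]
    rw [mul_inv_cancel]
  have hne2 : a ≠ b⁻¹ := by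
    intro h
    have h2 : b = a⁻¹ := by rw [h, inv_inv]
    rw [h2] at hxax
    have h3 : i * a⁻¹ * i⁻¹ = b⁻¹ := by rw [hb]; group
    rw [h3, ← h] at hxax
    apply hsq
    nth_rewrite 2 [hxax]
    rw [mul_inv_cancel]
  obtain ⟨u, hu, hw⟩ : ∃ u, InU F e1 e2 p1 p2 u ∧ a • u ≠ b⁻¹ • u := by
    by_contra hcon
    push Not at hcon
    exact hne2 (L.eq_of_U I hp12 (hD.le haD) (inv_mem (hD.le hbD)) hcon)
  set w := a • u - b⁻¹ • u with hwdef
  have hw0 : w ≠ 0 := sub_ne_zero.2 hw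
  have hwU : InU F e1 e2 p1 p2 w := InU.sub (L.pres (hD.le haD) hu) (L.pres (inv_mem (hD.le hbD)) hu)
  have haw : a • w = b • w := by
    rw [hwdef, smul_sub, smul_sub, smul_inv_smul]
    have h2 := hτ (a • u) (L.pres (hD.le haD) hu)
    have h3 := hβτ (a • u) (L.pres (hD.le haD) hu)
    rw [inv_smul_smul] at h2
    have hab' : a • b⁻¹ • u = b⁻¹ • a • u := by
      rw [← mul_smul, ← mul_smul]
      congr 1
      have : b⁻¹ * (b * a) * b⁻¹ = b⁻¹ * (a * b) * b⁻¹ := by rw [hab]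
      have f1 : b⁻¹ * (b * a) * b⁻¹ = a * b⁻¹ := by group
      have f2 : b⁻¹ * (a * b) * b⁻¹ = b⁻¹ * a := by group
      rw [← f1, this, f2]
    rw [hab', sub_eq_sub_iff_add_eq_add, h2, h3]
  set e := b⁻¹ * a with he
  have heD : e ∈ D := mul_mem (inv_mem hbD) haD
  have hew : e • w = w := by rw [he, mul_smul, haw, inv_smul_smul]
  have he1 : e ≠ 1 := by
    intro h
    apply hne1
    rw [he, inv_mul_eq_one] at h
    exact h.symm
  have hxe : x * e * x⁻¹ = e⁻¹ := by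
    have : x * e * x⁻¹ = (x * b * x⁻¹)⁻¹ * (x * a * x⁻¹) := by rw [he]; group
    rw [this, hxa, hxb, he, inv_inv, mul_inv_rev, inv_inv]
    have : a⁻¹ * (a * b) * a⁻¹ = a⁻¹ * (b * a) * a⁻¹ := by rw [hab]
    have f1 : a⁻¹ * (a * b) * a⁻¹ = b * a⁻¹ := by group
    have f2 : a⁻¹ * (b * a) * a⁻¹ = a⁻¹ * b := by group
    rw [← f1, this, f2]
  obtain ⟨ne, hne, hneF, hene⟩ := ordD e heD
  obtain ⟨-, σ, hσ4, hσ⟩ := L.scal I (hD.le heD) hxe hne hneF hene he1
  have h2 := hσ w hwU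
  have hew' : e⁻¹ • w = w := by rw [inv_smul_eq_iff, hew]
  rw [hew, hew'] at h2
  have h3 : (2 - σ) • w = 0 := by rw [sub_smul, ← h2, two_smul, sub_self]
  have h4 : 2 - σ = 0 := (smul_eq_zero.1 h3).resolve_right hw0
  apply hσ4
  have h5 : σ = 2 := by linear_combination -h4
  rw [h5]; norm_num

end Cfsg.Agent.H95.SpT
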