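import Cfsg.Agent.H95.SpP1

set_option autoImplicit false
set_option linter.unusedSectionVars false

/-!
A group of isometries acting on a space of dimension at most four: subgroups of characteristic order.
-/

namespace Cfsg.Agent.H95.SpT

universe u v w

variable {F : Type u} [Field F] {V : Type v} [AddCommGroup V] [Module F V] {B : LinearMap.BilinForm F V}
  {H : Type w} [Group H] [DistribMulAction H V] [SMulCommClass H F V]

/-- a `p`-group fixes a vector modulo a proper invariant subspace -/
theorem exists_fixed_mod [Finite V] {p : ℕ} [hp : Fact p.Prime] [CharP F p] {D : Subgroup H} (hD : IsPGroup p D)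
    (C : Submodule F V) (hC : ∀ d ∈ D, ∀ w ∈ C, d • w ∈ C) {v0 : V} (hv0 : v0 ∉ C) :
    ∃ w, w ∉ C ∧ ∀ d ∈ D, d • w - w ∈ C := by
  classical
  have hle : ∀ d : D, C ≤ C.comap (DistribSMul.toLinearMap F V (d : H)) := fun d w hw => hC d d.2 w hw
  letI act : MulAction D (V ⧸ C) :=
    { smul := fun d q => C.mapQ C (DistribSMul.toLinearMap F V (d : H)) (hle d) q
      one_smul := by
        intro q
        induction q using Submodule.Quotient.induction_on with
        | _ w =>
          show Submodule.Quotient.mk (((1 : D) : H) • w) = _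
          rw [Subgroup.coe_one, one_smul]
      mul_smul := by
        intro d d' q
        induction q using Submodule.Quotient.induction_on with
        | _ w =>
          show Submodule.Quotient.mk (((d * d' : D) : H) • w) = Submodule.Quotient.mk ((d : H) • (d' : H) • w)
          rw [Subgroup.coe_mul, mul_smul] }
  have hsm : ∀ (d : D) (w : V), d • (Submodule.Quotient.mk w : V ⧸ C) = Submodule.Quotient.mk ((d : H) • w) :=
    fun d w => rfl
  have hdvd : p ∣ Nat.card (V ⧸ C) := by
    have h1 : (Submodule.Quotient.mk v0 : V ⧸ C) ≠ 0 := fun h => hv0 ((Submodule.Quotient.mk_eq_zero C).1 h)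
    have h2 : addOrderOf (Submodule.Quotient.mk v0 : V ⧸ C) = p := by
      apply addOrderOf_eq_prime _ h1
      rw [← Submodule.Quotient.mk_smul, ← Nat.cast_smul_eq_nsmul F, CharP.cast_eq_zero, zero_smul,
        Submodule.Quotient.mk_zero]
    rw [← h2]
    exact addOrderOf_dvd_natCard _
  have h0 : (0 : V ⧸ C) ∈ MulAction.fixedPoints D (V ⧸ C) := by
    intro d
    have := hsm d 0
    rw [smul_zero, Submodule.Quotient.mk_zero] at this
    exact this
  haveI hfin : Finite (V ⧸ C) := Finite.of_surjective _ (Submodule.Quotient.mk_surjective C)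
  obtain ⟨b, hb, hb0⟩ := hD.exists_fixed_point_of_prime_dvd_card_of_fixed_point (V ⧸ C) hdvd h0
  obtain ⟨w, rfl⟩ := Submodule.Quotient.mk_surjective C b
  refine ⟨w, fun h => hb0 ((Submodule.Quotient.mk_eq_zero C).2 h).symm, fun d hd => ?_⟩
  have h1 := hb ⟨d, hd⟩
  rw [hsm] at h1
  exact (Submodule.Quotient.eq C).1 h1

namespace Fr

variable (I : Isom B H) {x i j : H} {e1 e2 : V} (R : Fr B x i j e1 e2)

include I R

/-- coordinates of elements of the plane -/
lemma coord {e : V} (he : x • e = -e) : ∃ a b : F, e = a • e1 + b • e2 :=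
  ⟨B e e2, -B e e1, by rw [neg_smul, ← sub_eq_add_neg]; exact R.of_xneg I he⟩

lemma plane {e e' w : V} (he : x • e = -e) (he' : x • e' = -e') (hw : x • w = -w) :
    B e e' • w = B w e' • e - B w e • e' := by
  obtain ⟨a, b, rfl⟩ := R.coord I he
  obtain ⟨c, d, rfl⟩ := R.coord I he'
  obtain ⟨k, l, rfl⟩ := R.coord I hw
  have h21 := R.e21 I
  have h12 := R.e12
  simp only [map_add, map_smul, LinearMap.add_apply, LinearMap.smul_apply, smul_eq_mul, I.alt, h21, h12, smul_add,
    smul_smul]
  have key : ∀ (x1 x2 y1 y2 z1 z2 : F), x1 = y1 - z1 → x2 = y2 - z2 →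
      x1 • e1 + x2 • e2 = y1 • e1 + y2 • e2 - (z1 • e1 + z2 • e2) := by
    intro x1 x2 y1 y2 z1 z2 h1 h2
    rw [h1, h2, sub_smul, sub_smul]; abel
  apply key <;> ring

lemma exists_pair {e : V} (he : x • e = -e) (h0 : e ≠ 0) : ∃ w, x • w = -w ∧ B w e ≠ 0 := by
  by_contra hcon
  push Not at hcon
  have h1 := hcon e1 (R.xe1 I)
  have h2 := hcon e2 (R.xe2 I)
  apply h0
  rw [R.of_xneg I he, pr, I.neg e e2, I.neg e e1, h1, h2]
  simp

lemma parallel {e e' : V} (he : x • e = -e) (he' : x • e' = -e') (h0 : e ≠ 0) (h : B e e' = 0) :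
    ∃ a : F, e' = a • e := by
  obtain ⟨w, hw, hwe⟩ := R.exists_pair I he h0
  have h1 := R.plane I he he' hw
  rw [h, zero_smul] at h1
  refine ⟨(B w e)⁻¹ * B w e', ?_⟩
  rw [mul_smul, sub_eq_zero.1 h1.symm, smul_smul, inv_mul_cancel₀ hwe, one_smul]

omit [SMulCommClass H F V] R in
lemma smul_fix {s : H} {e : V} (h : s • e = e) : s⁻¹ • e = e := by rw [inv_smul_eq_iff, h]

omit I in
lemma xi : x * i = i * x := by rw [← R.ii]; group

omit I in
lemma xj : x * j = j * x := by rw [← R.jj]; group

omit I in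
lemma xie {e : V} (he : x • e = -e) : x • (i • e) = -(i • e) := by
  rw [← mul_smul, R.xi, mul_smul, he, smul_neg]

omit I in
lemma xje {e : V} (he : x • e = -e) : x • (j • e) = -(j • e) := by
  rw [← mul_smul, R.xj, mul_smul, he, smul_neg]

omit I in
lemma iie {e : V} (he : x • e = -e) : i • i • e = -e := by rw [← mul_smul, R.ii, he]

omit I in
lemma jje {e : V} (he : x • e = -e) : j • j • e = -e := by rw [← mul_smul, R.jj, he]

omit I in
lemma ije {e : V} (he : x • e = -e) : i • j • e = -(j • i • e) := by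
  rw [← mul_smul, R.ij, mul_smul, mul_smul, R.xje (R.xie he)]

lemma quat {e : V} (he : x • e = -e) (h0 : e ≠ 0) : B e (i • e) ≠ 0 ∨ B e (j • e) ≠ 0 := by
  by_contra hcon
  push Not at hcon
  obtain ⟨a, ha⟩ := R.parallel I he (R.xie he) h0 hcon.1
  obtain ⟨b, hb⟩ := R.parallel I he (R.xje he) h0 hcon.2
  have h1 := R.iie he
  rw [ha, smul_comm i a, ha, smul_smul] at h1
  have h2 := R.jje he
  rw [hb, smul_comm j b, hb, smul_smul] at h2
  have h3 := R.ije he
  rw [ha, hb, smul_comm i b, smul_comm j a, ha, hb, smul_smul, smul_smul] at h3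
  have e1 : (a * a + 1) • e = 0 := by rw [add_smul, h1, one_smul]; abel
  have e2 : (b * b + 1) • e = 0 := by rw [add_smul, h2, one_smul]; abel
  have e3 : (2 * (a * b)) • e = 0 := by
    have : (2 * (a * b)) • e = (b * a) • e + (a * b) • e := by rw [← add_smul]; congr 1; ring
    rw [this, h3]; abel
  have e1' := (smul_eq_zero.1 e1).resolve_right h0
  have e2' := (smul_eq_zero.1 e2).resolve_right h0
  have e3' := (mul_eq_zero.1 ((smul_eq_zero.1 e3).resolve_right h0)).resolve_left I.two
  rcases mul_eq_zero.1 e3' with h | h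
  · rw [h] at e1'; simp at e1'
  · rw [h] at e2'; simp at e2'

/-- a nonzero element of the quaternion algebra acts nontrivially -/
lemma nz (a b : F) : ∃ e : V, x • e = -e ∧ e - a • i • e - b • j • e ≠ 0 := by
  by_contra hcon
  push Not at hcon
  have he1 := R.xe1 I
  have h10 : e1 ≠ 0 := by
    intro h
    have := R.e12
    rw [h] at this
    simp at this
  have key : ∀ e : V, x • e = -e → e = a • i • e + b • j • e := by
    intro e he
    have h1 := hcon e he
    have : e = (e - a • i • e - b • j • e) + (a • i • e + b • j • e) := by abel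
    rw [h1, zero_add] at this
    exact this
  have h1 := key e1 he1
  have h2 := key (i • e1) (R.xie he1)
  have h3 := key (j • e1) (R.xje he1)
  have hi1 : i • e1 = -(a • e1) + b • i • j • e1 := by
    have := congrArg (i • ·) h1
    simp only [smul_add, smul_comm i a, smul_comm i b, R.iie he1, smul_neg] at this
    exact this
  have hj1 : j • e1 = a • j • i • e1 - b • e1 := by
    have := congrArg (j • ·) h1
    simp only [smul_add, smul_comm j a, smul_comm j b, R.jje he1, smul_neg] at this
    rw [sub_eq_add_neg]; exact this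
  rw [R.iie he1, smul_neg] at h2
  rw [R.jje he1, smul_neg] at h3
  have hij := R.ije he1
  have hb : b = 0 := by
    have h4 : (2 * b) • (j • i • e1) = 0 := by
      have h5 : -(a • e1) + b • i • j • e1 = -(a • e1) + b • j • i • e1 := by rw [← hi1, ← h2]
      have h6 := add_left_cancel h5
      rw [hij, smul_neg] at h6
      have : (2 * b) • (j • i • e1) = b • j • i • e1 + b • j • i • e1 := by rw [two_mul, add_smul]
      rw [this]
      nth_rewrite 1 [← h6]
      abel
    have h5 : j • i • e1 ≠ 0 := by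
      intro h; apply h10
      have := congrArg (fun v => i⁻¹ • j⁻¹ • v) h
      simpa using this
    exact (mul_eq_zero.1 ((smul_eq_zero.1 h4).resolve_right h5)).resolve_left I.two
  have ha : a = 0 := by
    have h4 : (2 * a) • (j • i • e1) = 0 := by
      have h5 : a • j • i • e1 - b • e1 = a • i • j • e1 + -(b • e1) := by rw [← hj1, ← h3]
      rw [sub_eq_add_neg] at h5
      have h6 := add_right_cancel h5
      rw [hij, smul_neg] at h6
      have : (2 * a) • (j • i • e1) = a • j • i • e1 + a • j • i • e1 := by rw [two_mul, add_smul]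
      rw [this]
      nth_rewrite 1 [h6]
      abel
    have h5 : j • i • e1 ≠ 0 := by
      intro h; apply h10
      have := congrArg (fun v => i⁻¹ • j⁻¹ • v) h
      simpa using this
    exact (mul_eq_zero.1 ((smul_eq_zero.1 h4).resolve_right h5)).resolve_left I.two
  rw [ha, hb] at h1
  simp at h1
  exact h10 h1

end Fr

variable [Finite H] [Finite V] [FaithfulSMul H V] (I : Isom B H) {K : Subgroup H} {x i j : H} {e1 e2 p1 p2 : V}
  (L : Loc B K x i j e1 e2 p1 p2)

include I L

theorem part2 [Finite F] {p : ℕ} [hp : Fact p.Prime] [CharP F p] {D : Subgroup H} (hDK : D ≤ K) (hD : IsPGroup p D)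
    (hiD : ∀ d ∈ D, i * d * i⁻¹ ∈ D) (hjD : ∀ d ∈ D, j * d * j⁻¹ ∈ D) (hex : ∃ d ∈ D, x * d ≠ d * x) :
    ∃ (r : H) (v : V) (c : F), v ≠ 0 ∧ c ≠ 0 ∧ ∀ u, r • u = u + (c * B u v) • v := by
  have hi' : ∀ d ∈ D, i⁻¹ * d * i ∈ D := norm_inv hiD
  have hj' : ∀ d ∈ D, j⁻¹ * d * j ∈ D := norm_inv hjD
  have hxinv : x⁻¹ = x := inv_eq_of_mul_eq_one_left L.fr.xx
  have hx' : ∀ d ∈ D, x⁻¹ * d * x ∈ D := by
    intro d hd
    have := hi' _ (hi' d hd)
    have e : i⁻¹ * (i⁻¹ * d * i) * i = (i * i)⁻¹ * d * (i * i) := by group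
    rwa [e, L.fr.ii] at this
  have h10 : e1 ≠ 0 := by
    intro h
    have := L.fr.e12
    rw [h] at this
    simp at this
  have ifix : ∀ w : V, x • w = w → i • w = w := fun w h => by
    obtain ⟨h1, h2⟩ := L.fr.of_xfix I h
    exact L.fr.fi w h1 h2
  have jfix : ∀ w : V, x • w = w → j • w = w := fun w h => by
    obtain ⟨h1, h2⟩ := L.fr.of_xfix I h
    exact L.fr.fj w h1 h2
  -- the largest invariant subspace of the fixed space
  let C : Submodule F V :=
    { carrier := {w | ∀ d ∈ D, x • (d • w) = d • w}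
      add_mem' := by
        intro a b ha hb d hd
        rw [smul_add, smul_add, ha d hd, hb d hd]
      zero_mem' := by intro d _; simp
      smul_mem' := by
        intro c a ha d hd
        rw [smul_comm d c, smul_comm x c, ha d hd] }
  have mC : ∀ w, w ∈ C ↔ ∀ d ∈ D, x • (d • w) = d • w := fun w => Iff.rfl
  have Cx : ∀ w ∈ C, x • w = w := fun w hw => by simpa using hw 1 (one_mem _)
  have CD : ∀ d ∈ D, ∀ w ∈ C, d • w ∈ C := by
    intro d hd w hw d' hd'
    have h1 := hw _ (mul_mem hd' hd)
    rwa [mul_smul] at h1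
  have he1C : e1 ∉ C := by
    intro h
    have h1 := Cx _ h
    rw [L.fr.xe1 I] at h1
    have : (2 : F) • e1 = 0 := by
      rw [two_smul]; nth_rewrite 1 [← h1]; abel
    exact h10 ((smul_eq_zero.1 this).resolve_left I.two)
  obtain ⟨w0, hw0, hw0D⟩ := exists_fixed_mod hD C CD he1C
  -- conjugates
  have conjfix : ∀ s : H, (∀ w : V, x • w = w → s • w = w) → (∀ d ∈ D, s⁻¹ * d * s ∈ D) → ∀ w : V, (∀ d ∈ D, d • w - w ∈ C) →
      ∀ d ∈ D, d • (s • w) - s • w ∈ C := by
    intro s hs hsD w hw d hd
    have h1 := hw _ (hsD d hd)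
    have h2 : s • ((s⁻¹ * d * s) • w - w) = d • (s • w) - s • w := by
      rw [smul_sub, ← mul_smul, ← mul_smul]
      congr 2
      group
    rw [← h2, hs _ (Cx _ h1)]
    exact h1
  have hprC : ∀ d ∈ D, d • (pr B e1 e2 w0) - pr B e1 e2 w0 ∈ C := by
    intro d hd
    have h1 := conjfix x (fun w h => h) hx' w0 hw0D d hd
    have h2 : (2 : F) • (d • (pr B e1 e2 w0) - pr B e1 e2 w0) = (d • w0 - w0) - (d • (x • w0) - x • w0) := by
      have h3 : x • w0 = w0 - (2 : F) • pr B e1 e2 w0 := L.fr.xf' I w0
      rw [h3, smul_sub, smul_sub, smul_comm d (2 : F)]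
      abel
    have h3 : (2 : F)⁻¹ • ((2 : F) • (d • (pr B e1 e2 w0) - pr B e1 e2 w0)) ∈ C := by
      apply C.smul_mem
      rw [h2]
      exact C.sub_mem (hw0D d hd) h1
    rwa [smul_smul, inv_mul_cancel₀ I.two, one_smul] at h3
  have hpr0 : pr B e1 e2 w0 ≠ 0 := by
    intro h
    apply hw0
    have h1 : x • w0 = w0 := by rw [L.fr.xf' I w0, h, smul_zero, sub_zero]
    intro d hd
    have h2 := Cx _ (hw0D d hd)
    have : d • w0 = (d • w0 - w0) + w0 := by abel
    rw [this, smul_add, h2, h1]
  have hprx : x • pr B e1 e2 w0 = - pr B e1 e2 w0 := by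
    rw [pr, smul_sub, smul_comm x (B w0 e2) e1, smul_comm x (B w0 e1) e2, L.fr.xe1 I, L.fr.xe2 I, smul_neg, smul_neg]
    abel
  -- all of the plane
  have hEC : ∀ e : V, x • e = -e → ∀ d ∈ D, d • e - e ∈ C := by
    set f := pr B e1 e2 w0 with hf
    have main : ∀ s : H, (∀ w : V, x • w = w → s • w = w) → (∀ d ∈ D, s⁻¹ * d * s ∈ D) → x • (s • f) = -(s • f) →
        B f (s • f) ≠ 0 → ∀ e : V, x • e = -e → ∀ d ∈ D, d • e - e ∈ C := by
      intro s hs hsD hxs hne e he d hd
      have h1 := conjfix s hs hsD f hprC d hd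
      have h2 := L.fr.plane I hprx hxs he
      have h3 : B f (s • f) • (d • e - e) = B e (s • f) • (d • f - f) - B e f • (d • (s • f) - s • f) := by
        have h4 : d • (B f (s • f) • e) = d • (B e (s • f) • f - B e f • (s • f)) := by rw [h2]
        rw [smul_comm d, smul_sub, smul_comm d (B e (s • f)), smul_comm d (B e f)] at h4
        rw [smul_sub, h4, h2, smul_sub, smul_sub]; abel
      have h4 : (B f (s • f))⁻¹ • (B f (s • f) • (d • e - e)) ∈ C := by
        apply C.smul_mem
        rw [h3]
        exact C.sub_mem (C.smul_mem _ (hprC d hd)) (C.smul_mem _ h1)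
      rwa [smul_smul, inv_mul_cancel₀ hne, one_smul] at h4
    rcases L.fr.quat I hprx hpr0 with h | h
    · exact main i ifix hi' (L.fr.xie hprx) h
    · exact main j jfix hj' (L.fr.xje hprx) h
  have hInpr : ∀ y, InU F e1 e2 p1 p2 (pr B e1 e2 y) := by
    intro y
    exact InU.sub (InU.h1.smul _) (InU.h2.smul _)
  obtain ⟨d0, hd0, hd0x⟩ := hex
  obtain ⟨e0, he0, hde0⟩ : ∃ e0 : V, x • e0 = -e0 ∧ d0 • e0 ≠ e0 := by
    by_contra hcon
    push Not at hcon
    exact hd0x (L.fr.commute_of_fix I (hcon e1 (L.fr.xe1 I)) (hcon e2 (L.fr.xe2 I)))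
  -- the fixed part
  have D2 : ∀ d ∈ D, ∀ w, ∀ d' ∈ D,
      d' • ((d • w - w) - pr B e1 e2 (d • w - w)) = (d • w - w) - pr B e1 e2 (d • w - w) := by
    by_cases hp12 : B p1 p2 = 0
    · intro d hd w d' hd'
      obtain ⟨a, b, hab⟩ := L.inP I (InU.sub (L.kU d (hDK hd) w) (hInpr (d • w - w))) (L.fr.xsub I _)
      rw [hab]
      obtain ⟨c1, c2⟩ := L.fr.of_xfix I L.xp1
      obtain ⟨d1, d2⟩ := L.fr.of_xfix I L.xp2
      have f1 : d' • p1 = p1 := L.kfix d' (hDK hd') p1 c1 c2 (I.alt _) hp12
      have f2 : d' • p2 = p2 := L.kfix d' (hDK hd') p2 d1 d2 (by rw [I.neg, hp12, neg_zero]) (I.alt _)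
      rw [smul_add, smul_comm d' a, smul_comm d' b, f1, f2]
    · set v0 := d0 • e0 - e0 with hv0
      have hv0ne : v0 ≠ 0 := sub_ne_zero.2 hde0
      have hv0C : v0 ∈ C := hEC e0 he0 d0 hd0
      have hv0U : InU F e1 e2 p1 p2 v0 := L.kU d0 (hDK hd0) e0
      obtain ⟨c, k, hck⟩ := L.inP I hv0U (Cx _ hv0C)
      have par : ∀ u, InU F e1 e2 p1 p2 u → x • u = u → B u v0 = 0 → ∃ l : F, u = l • v0 := by
        intro u hu hxu huv
        obtain ⟨a, b, hab⟩ := L.inP I hu hxu
        have h1 : B u v0 = (a * k - b * c) * B p1 p2 := by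
          rw [hab, hck]
          simp only [map_add, map_smul, LinearMap.add_apply, LinearMap.smul_apply, smul_eq_mul, I.alt]
          rw [I.neg p2 p1]; ring
        rw [h1] at huv
        have h2 := (mul_eq_zero.1 huv).resolve_right hp12
        by_cases hc : c = 0
        · have hk : k ≠ 0 := by
            rintro rfl
            apply hv0ne; rw [hck, hc]; simp
          have ha : a = 0 := by
            have : a * k = 0 := by rw [hc] at h2; linear_combination h2
            exact (mul_eq_zero.1 this).resolve_right hk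
          refine ⟨b / k, ?_⟩
          rw [hab, hck, ha, hc, smul_add, smul_smul, smul_smul, div_mul_cancel₀ _ hk]; simp
        · refine ⟨a / c, ?_⟩
          rw [hab, hck, smul_add, smul_smul, smul_smul, div_mul_cancel₀ _ hc]
          congr 2
          field_simp
          linear_combination -h2
      have claimX : ∀ u ∈ C, InU F e1 e2 p1 p2 u → B u v0 = 0 := by
        intro u hu huU
        by_contra hne
        obtain ⟨a, b, hab⟩ := L.inP I huU (Cx _ hu)
        have h1 : B u v0 = (a * k - b * c) * B p1 p2 := by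
          rw [hab, hck]
          simp only [map_add, map_smul, LinearMap.add_apply, LinearMap.smul_apply, smul_eq_mul, I.alt]
          rw [I.neg p2 p1]; ring
        have hdet : a * k - b * c ≠ 0 := by
          intro h; apply hne; rw [h1, h, zero_mul]
        have q1 : (a * k - b * c) • p1 = k • u - b • v0 := by
          rw [hab, hck]
          simp only [smul_add, smul_smul, sub_smul]
          rw [mul_comm k a, mul_comm k b]
          abel
        have q2 : (a * k - b * c) • p2 = a • v0 - c • u := by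
          rw [hab, hck]
          simp only [smul_add, smul_smul, sub_smul]
          rw [mul_comm c a, mul_comm c b]
          abel
        have m1 : p1 ∈ C := by
          have : (a * k - b * c)⁻¹ • ((a * k - b * c) • p1) ∈ C := by
            apply C.smul_mem; rw [q1]
            exact C.sub_mem (C.smul_mem _ hu) (C.smul_mem _ hv0C)
          rwa [smul_smul, inv_mul_cancel₀ hdet, one_smul] at this
        have m2 : p2 ∈ C := by
          have : (a * k - b * c)⁻¹ • ((a * k - b * c) • p2) ∈ C := by
            apply C.smul_mem; rw [q2]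
            exact C.sub_mem (C.smul_mem _ hv0C) (C.smul_mem _ hu)
          rwa [smul_smul, inv_mul_cancel₀ hdet, one_smul] at this
        have h3 : ∀ q ∈ C, B v0 q = 0 := by
          intro q hq
          rw [hv0, map_sub, LinearMap.sub_apply, I.adj, ← map_sub]
          have h4 : d0⁻¹ • q - q ∈ C := C.sub_mem (CD _ (inv_mem hd0) q hq) hq
          rw [I.neg, L.fr.of_xneg I he0, L.fr.B_fix_pr I (Cx _ h4), neg_zero]
        apply hne
        rw [I.neg, hab, map_add, map_smul, map_smul, h3 p1 m1, h3 p2 m2]; simp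
      have fv0 : ∀ d ∈ D, d • v0 = v0 := by
        intro d hd
        have hdC := CD d hd v0 hv0C
        have hdU := L.pres (hDK hd) hv0U
        obtain ⟨l, hl⟩ := par _ hdU (Cx _ hdC) (claimX _ hdC hdU)
        obtain ⟨n, hn⟩ := hD ⟨d, hd⟩
        have hn' : d ^ p ^ n = 1 := congrArg Subtype.val hn
        have h1 : ∀ m : ℕ, d ^ m • v0 = l ^ m • v0 := by
          intro m
          induction m with
          | zero => simp
          | succ m ih => rw [pow_succ', mul_smul, ih, smul_comm d, hl, smul_smul, pow_succ]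
        have h2 := h1 (p ^ n)
        rw [hn', one_smul] at h2
        have h3 : l ^ p ^ n - 1 = 0 := by
          have : (l ^ p ^ n - 1) • v0 = 0 := by rw [sub_smul, ← h2, one_smul, sub_self]
          exact (smul_eq_zero.1 this).resolve_right hv0ne
        have h4 : (l - 1) ^ p ^ n = 0 := by rw [sub_pow_char_pow, one_pow, h3]
        have h5 : l - 1 = 0 := pow_eq_zero_iff (pow_ne_zero _ hp.out.ne_zero) |>.1 h4
        rw [hl, sub_eq_zero.1 h5, one_smul]
      intro d hd w d' hd'
      obtain ⟨l, hl⟩ := par _ (InU.sub (L.kU d (hDK hd) w) (hInpr (d • w - w))) (L.fr.xsub I _) (by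
        have h1 : B (d • w) v0 = B w v0 := by
          have := I.inv d w v0
          rwa [fv0 d hd] at this
        have h2 : B (d • w - w) = B (d • w) - B w := map_sub _ _ _
        have h3 : B ((d • w - w) - pr B e1 e2 (d • w - w)) = B (d • w - w) - B (pr B e1 e2 (d • w - w)) :=
          map_sub _ _ _
        rw [h3, LinearMap.sub_apply, h2, LinearMap.sub_apply, h1, L.fr.B_pr_fix I (Cx _ hv0C), sub_zero, sub_self])
      rw [hl, smul_comm d' l, fv0 d' hd']
  have D1 : ∀ d ∈ D, ∀ e : V, x • e = -e → x • (d • e - e) = d • e - e ∧ ∀ d' ∈ D, d' • (d • e - e) = d • e - e := by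
    intro d hd e he
    have h1 := Cx _ (hEC e he d hd)
    refine ⟨h1, fun d' hd' => ?_⟩
    have h2 := D2 d hd e d' hd'
    rwa [L.fr.pr_of_fix I h1, sub_zero] at h2
  -- additivity
  have φmul : ∀ d ∈ D, ∀ d' ∈ D, ∀ e : V, x • e = -e → (d * d') • e - e = (d • e - e) + (d' • e - e) := by
    intro d hd d' hd' e he
    have h1 := (D1 d' hd' e he).2 d hd
    have : (d * d') • e - e = d • (d' • e - e) + (d • e - e) := by rw [mul_smul, smul_sub]; abel
    rw [this, h1]; abel
  have φpow : ∀ d ∈ D, ∀ e : V, x • e = -e → ∀ k : ℕ, (d ^ k) • e - e = (k : F) • (d • e - e) := by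
    intro d hd e he k
    induction k with
    | zero => simp
    | succ k ih =>
      rw [pow_succ, φmul _ (pow_mem hd k) d hd e he, ih]
      push_cast
      rw [add_smul, one_smul]
  have φinv : ∀ d ∈ D, ∀ e : V, x • e = -e → d⁻¹ • e - e = -(d • e - e) := by
    intro d hd e he
    have h1 := φmul d hd d⁻¹ (inv_mem hd) e he
    rw [mul_inv_cancel, one_smul, sub_self] at h1
    exact (neg_eq_of_add_eq_zero_right h1.symm).symm
  have φconj : ∀ s : H, (∀ w : V, x • w = w → s • w = w) → ∀ d ∈ D, ∀ e : V, x • e = -e → x • (s • e) = -(s • e) →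
      (s⁻¹ * d * s) • e - e = d • (s • e) - s • e := by
    intro s hs d hd e _ hse
    have h1 := (D1 d hd (s • e) hse).1
    have h2 : s⁻¹ • (d • (s • e) - s • e) = d • (s • e) - s • e := by rw [inv_smul_eq_iff, hs _ h1]
    rw [← h2, smul_sub, inv_smul_smul, mul_smul, mul_smul]
  -- a rank one element
  obtain ⟨d, hd, n, hxn, hn0, hdn, m, hxm, hdm⟩ : ∃ d ∈ D, ∃ n : V, x • n = -n ∧ n ≠ 0 ∧ d • n = n ∧
      ∃ m : V, x • m = -m ∧ d • m ≠ m := by
    by_cases hA : ∃ n : V, x • n = -n ∧ n ≠ 0 ∧ d0 • n = n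
    · obtain ⟨n, h1, h2, h3⟩ := hA
      exact ⟨d0, hd0, n, h1, h2, h3, e0, he0, hde0⟩
    · push Not at hA
      have : Fintype F := Fintype.ofFinite F
      obtain ⟨a, b, hab⟩ := ZMod.sq_add_sq p (-1 : ZMod p)
      have hab' : (1 : F) + (a.val : F) ^ 2 + (b.val : F) ^ 2 = 0 := by
        have h1 : ((1 + a.val ^ 2 + b.val ^ 2 : ℕ) : F) = 0 := by
          rw [CharP.cast_eq_zero_iff F p, ← CharP.cast_eq_zero_iff (ZMod p) p]
          push_cast
          rw [ZMod.natCast_zmod_val, ZMod.natCast_zmod_val, add_assoc, hab]; ring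
        exact_mod_cast h1
      set α : F := (a.val : F) with hα
      set β : F := (b.val : F) with hβ
      set g := d0 * ((i⁻¹ * d0 * i) ^ a.val * (j⁻¹ * d0 * j) ^ b.val) with hg
      have hgD : g ∈ D := mul_mem hd0 (mul_mem (pow_mem (hi' d0 hd0) _) (pow_mem (hj' d0 hd0) _))
      have hgf : ∀ e : V, x • e = -e → g • e - e = d0 • (e + α • i • e + β • j • e) - (e + α • i • e + β • j • e) := by
        intro e he
        rw [hg, φmul d0 hd0 _ (mul_mem (pow_mem (hi' d0 hd0) _) (pow_mem (hj' d0 hd0) _)) e he,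
          φmul _ (pow_mem (hi' d0 hd0) _) _ (pow_mem (hj' d0 hd0) _) e he, φpow _ (hi' d0 hd0) e he,
          φpow _ (hj' d0 hd0) e he, φconj i ifix d0 hd0 e he (L.fr.xie he), φconj j jfix d0 hd0 e he (L.fr.xje he),
          smul_add, smul_add, smul_comm d0 α, smul_comm d0 β, smul_sub, smul_sub]
        abel
      have hxlin : ∀ (s t : F) (e : V), x • e = -e → x • (e + s • i • e + t • j • e) = -(e + s • i • e + t • j • e) := by
        intro s t e he
        rw [smul_add, smul_add, smul_comm x s, smul_comm x t, L.fr.xie he, L.fr.xje he, he, smul_neg, smul_neg]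
        abel
      obtain ⟨e, he, hne⟩ := L.fr.nz I α β
      obtain ⟨m, hm, hnm⟩ := L.fr.nz I (-α) (-β)
      have hnm' : m + α • i • m + β • j • m ≠ 0 := by
        intro h; apply hnm; rw [← h, neg_smul, neg_smul]; abel
      set n := e - α • i • e - β • j • e with hndef
      have hn' : n = e + (-α) • i • e + (-β) • j • e := by rw [hndef, neg_smul, neg_smul]; abel
      have hxn : x • n = -n := by rw [hn']; exact hxlin _ _ e he
      refine ⟨g, hgD, n, hxn, hne, ?_, m, hm, ?_⟩
      · have h1 := hgf n hxn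
        have h2 : n + α • i • n + β • j • n = 0 := by
          have e1 := L.fr.iie he
          have e2 := L.fr.jje he
          have e3 := L.fr.ije he
          have hin : i • n = i • e + α • e + β • j • i • e := by
            rw [hndef, smul_sub, smul_sub, smul_comm i α, smul_comm i β, e1, e3, smul_neg, smul_neg]; abel
          have hjn : j • n = j • e - α • j • i • e + β • e := by
            rw [hndef, smul_sub, smul_sub, smul_comm j α, smul_comm j β, e2, smul_neg]; abel
          rw [hin, hjn, hndef]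
          simp only [smul_add, smul_sub, smul_smul]
          have : (1 + α ^ 2 + β ^ 2) • e = 0 := by rw [hab', zero_smul]
          rw [add_smul, add_smul, one_smul, pow_two, pow_two] at this
          rw [← this, mul_comm β α]
          abel
        rw [h2, smul_zero, sub_zero] at h1
        exact sub_eq_zero.1 h1
      · intro h
        have h1 := hgf m hm
        rw [h, sub_self] at h1
        have h2 := hxlin α β m hm
        exact hA _ h2 hnm' (sub_eq_zero.1 h1.symm)
  have hBmn : B m n ≠ 0 := by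
    intro h
    obtain ⟨a, ha⟩ := L.fr.parallel I hxn hxm hn0 (by rw [I.neg, h, neg_zero])
    apply hdm
    rw [ha, smul_comm d a, hdn]
  set v := (B m n)⁻¹ • (d • m - m) with hv
  have hv0 : v ≠ 0 := by
    rw [hv]
    exact smul_ne_zero (inv_ne_zero hBmn) (sub_ne_zero.2 hdm)
  have hde : ∀ e : V, x • e = -e → d • e - e = B e n • v := by
    intro e he
    have h1 := L.fr.plane I hxm hxn he
    have h2 : B m n • (d • e - e) = B e n • (d • m - m) := by
      have h4 : d • (B m n • e) = d • (B e n • m - B e m • n) := by rw [h1]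
      rw [smul_comm d, smul_sub, smul_comm d (B e n), smul_comm d (B e m), hdn] at h4
      rw [smul_sub, h4, h1, smul_sub]; abel
    rw [hv, smul_comm (B e n), ← h2, smul_smul, inv_mul_cancel₀ hBmn, one_smul]
  have hxv : x • v = v := by rw [hv, smul_comm x, (D1 d hd m hxm).1]
  have hdv : ∀ d' ∈ D, d' • v = v := fun d' hd' => by rw [hv, smul_comm d', (D1 d hd m hxm).2 d' hd']
  have hπ : ∀ w, d • w - w - B w v • n = (d • w - w) - pr B e1 e2 (d • w - w) := by
    intro w
    congr 1
    have h1 : ∀ e : V, x • e = -e → B (d • w - w) e = B w v * B n e := by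
      intro e he
      rw [map_sub, LinearMap.sub_apply, I.adj, ← map_sub, φinv d hd e he, hde e he, map_neg, map_smul, smul_eq_mul,
        I.neg n e]
      ring
    rw [pr, h1 e1 (L.fr.xe1 I), h1 e2 (L.fr.xe2 I), mul_smul, mul_smul, ← smul_sub]
    congr 1
    exact L.fr.of_xneg I hxn
  have hBnv : B n v = 0 := by
    rw [L.fr.of_xneg I hxn, L.fr.B_pr_fix I hxv]
  obtain ⟨s, hsfix, hss, hxs, hBs⟩ : ∃ s : H, (∀ w : V, x • w = w → s • w = w) ∧ s * s = x ∧ x • (s • n) = -(s • n) ∧
      B n (s • n) ≠ 0 := by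
    rcases L.fr.quat I hxn hn0 with h | h
    · exact ⟨i, ifix, L.fr.ii, L.fr.xie hxn, h⟩
    · exact ⟨j, jfix, L.fr.jj, L.fr.xje hxn, h⟩
  have hπx : ∀ w, x • (d • w - w - B w v • n) = d • w - w - B w v • n := by
    intro w; rw [hπ]; exact L.fr.xsub I _
  have hπd : ∀ w, ∀ d' ∈ D, d' • (d • w - w - B w v • n) = d • w - w - B w v • n := by
    intro w d' hd'; rw [hπ]; exact D2 d hd w d' hd'
  have hBπ : ∀ w, B (d • w - w - B w v • n) v = 0 := by
    intro w
    set y := d • w - w - B w v • n with hy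
    rw [hv, map_smul, map_sub]
    have hy' : d • y = y := hπd w d hd
    have h1 : B y (d • m) = B y m := by
      have := I.inv d y m
      rwa [hy'] at this
    rw [h1, sub_self, smul_zero]
  refine ⟨d * (s * d * s⁻¹) * d⁻¹ * (s * d * s⁻¹)⁻¹, v, 2 * B (s • n) n, hv0, ?_, ?_⟩
  · refine mul_ne_zero I.two ?_
    rw [I.neg]
    exact neg_ne_zero.2 hBs
  · intro u
    refine I.comm_tv (π := fun w => d • w - w - B w v • n) ?_ hBnv hBπ ?_ ?_ (hsfix v hxv) ?_ ?_ u
    · intro w; abel
    · intro w
      rw [hπd w d hd, hBπ]; simp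
    · intro w
      exact hsfix _ (hπx w)
    · rw [inv_smul_eq_iff, smul_neg, ← mul_smul, hss, hxn, neg_neg]
    · rw [hde _ hxs]
      have : B (s • n) v = 0 := by
        rw [L.fr.of_xneg I hxs, L.fr.B_pr_fix I hxv]
      rw [this]; simp

end Cfsg.Agent.H95.SpT
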