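import Cfsg.Agent.H95.SpSyl

set_option autoImplicit false
set_option linter.unusedSectionVars false

/-!
Subgroups with small intersections with the fundamental subgroups: no transvections.
-/

namespace Cfsg.Agent.H95.SpT

universe u v w

open Matrix

variable {F : Type u} [Field F] {V : Type v} [AddCommGroup V] [Module F V] {B : LinearMap.BilinForm F V}
  {G : Type w} [Group G] [DistribMulAction G V] [SMulCommClass G F V] {n : ℕ}
  [FaithfulSMul G V] (I : Isom B G) (X : Frm B G n) {q1 q2 : SpecialLinearGroup (Fin 2) F} (hq : QP q1 q2)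
  {Q : Subgroup (SpecialLinearGroup (Fin 2) F)}

include I hq

/-- no transvections -/
theorem no_tv (hQ : IsPGroup 2 Q) (h1Q : q1 ∈ Q) (h2Q : q2 ∈ Q) {H : Subgroup G}
    (hQH : ∀ i, ∀ q ∈ Q, X.e (Pi.mulSingle i q) ∈ H)
    (hHQ : ∀ i (y : SpecialLinearGroup (Fin 2) F), X.e (Pi.mulSingle i y) ∈ H → y ∈ Q) (N : ℕ) :
    ∀ (r : G) (v : V) (c : F), r ∈ H → v ≠ 0 → c ≠ 0 → (∀ u, r • u = u + (c * B u v) • v) →
      {i | ¬ (B v (X.a i) = 0 ∧ B v (X.b i) = 0)}.ncard ≤ N → False := by
  induction N using Nat.strong_induction_on with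
  | _ N ih =>
    intro r v c hr hv hc hru hN
    obtain ⟨i, hi⟩ : ∃ i, ¬ (B v (X.a i) = 0 ∧ B v (X.b i) = 0) := by
      by_contra hcon
      push Not at hcon
      apply hv
      rw [X.span v]
      apply Finset.sum_eq_zero
      intro i _
      rw [(hcon i).1, (hcon i).2]; simp
    have R := X.fr I hq.h1 hq.h2 hq.h12 i
    set p := pr B (X.a i) (X.b i) v with hp
    set v' := v - p with hv'
    have hvp : v = p + v' := by rw [hv']; abel
    have tp : X.t i • p = -p := by
      rw [hp, pr, smul_sub, smul_comm _ (B v (X.b i)), smul_comm _ (B v (X.a i)), R.xe1 I, R.xe2 I, smul_neg, smul_neg]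
      abel
    have tv' : X.t i • v' = v' := R.xsub I v
    have pa : B p (X.a i) = B v (X.a i) := R.Bpr1 I v
    have pb : B p (X.b i) = B v (X.b i) := R.Bpr2 I v
    have hp0 : p ≠ 0 := by
      intro h
      apply hi
      rw [← pa, ← pb, h]; simp
    have hpv' : B p v' = 0 := R.B_pr_fix I tv'
    have hv'p : B v' p = 0 := by rw [I.neg, hpv', neg_zero]
    by_cases hv'0 : v' = 0
    · -- the centre is in a plane
      have hvpe : v = p := by rw [hvp, hv'0, add_zero]
      have hBl : ∀ l, l ≠ i → B (X.a l) v = 0 ∧ B (X.b l) v = 0 := by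
        intro l hl
        rw [hvpe, hp, pr]
        simp only [map_sub, map_smul, X.aa, X.bb, X.ab, X.ba I, if_neg hl]
        simp
      have hva : v = B v (X.b i) • X.a i + (-B v (X.a i)) • X.b i := by
        rw [neg_smul, ← sub_eq_add_neg]
        nth_rewrite 1 [hvpe]
        rw [hp]; rfl
      obtain ⟨y, σ, hσ, hry⟩ := X.full I (g := r) (π := id) Function.injective_id (by
        intro l
        by_cases hl : l = i
        · subst hl
          refine ⟨1 + c * B (X.a l) v * B v (X.b l), c * B (X.a l) v * -B v (X.a l), c * B (X.b l) v * B v (X.b l),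
            1 + c * B (X.b l) v * -B v (X.a l), ?_, ?_⟩
          · rw [hru]
            nth_rewrite 2 [hva]
            simp only [id, smul_add, smul_smul, add_smul, one_smul]
            abel
          · rw [hru]
            nth_rewrite 2 [hva]
            simp only [id, smul_add, smul_smul, add_smul, one_smul]
            abel
        · refine ⟨1, 0, 0, 1, ?_, ?_⟩
          · rw [hru, (hBl l hl).1]; simp
          · rw [hru, (hBl l hl).2]; simp)
      have hσ1 : σ = 1 := Equiv.ext hσ
      rw [hσ1, map_one, mul_one] at hry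
      have hre : r = X.e (Pi.mulSingle i (y i)) := by
        apply X.ext
        intro l
        by_cases hl : l = i
        · subst hl
          rw [X.ea, X.eb, Pi.mulSingle_eq_same, ← X.ea, ← X.eb, ← hry]
          exact ⟨rfl, rfl⟩
        · rw [X.ea, X.eb, Pi.mulSingle_eq_of_ne hl, hru, hru, (hBl l hl).1, (hBl l hl).2]
          simp
      have hyQ : y i ∈ Q := by
        apply hHQ i
        rw [← hre]; exact hr
      obtain ⟨m, hm⟩ := hQ ⟨y i, hyQ⟩
      have hm' : y i ^ 2 ^ m = 1 := congrArg Subtype.val hm
      have hrm : r ^ 2 ^ m = 1 := by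
        rw [hre, ← map_pow, ← Pi.mulSingle_pow, hm', Pi.mulSingle_one, map_one]
      have hrk : ∀ k : ℕ, ∀ u, r ^ k • u = u + ((k : F) * (c * B u v)) • v := by
        intro k
        induction k with
        | zero => intro u; simp
        | succ k ihk =>
          intro u
          rw [pow_succ, mul_smul, hru, ihk, map_add, map_smul, LinearMap.add_apply, LinearMap.smul_apply, I.alt,
            smul_zero, add_zero, add_assoc, ← add_smul]
          push_cast
          congr 2; ring
      have h3 : ∀ u, B u v = 0 := by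
        intro u
        have h4 := hrk (2 ^ m) u
        rw [hrm, one_smul] at h4
        have h5 : (((2 ^ m : ℕ) : F) * (c * B u v)) • v = 0 := by
          have : (((2 ^ m : ℕ) : F) * (c * B u v)) • v = (u + (((2 ^ m : ℕ) : F) * (c * B u v)) • v) - u := by abel
          rw [this, ← h4, sub_self]
        have h6 := (smul_eq_zero.1 h5).resolve_right hv
        have h7 : ((2 ^ m : ℕ) : F) ≠ 0 := by push_cast; exact pow_ne_zero _ I.two
        have h8 := (mul_eq_zero.1 h6).resolve_left h7
        exact (mul_eq_zero.1 h8).resolve_left hc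
      apply hi
      rw [I.neg v (X.a i), I.neg v (X.b i), h3, h3]
      simp
    · -- reduce the support
      set t := X.t i with ht
      have htH : t ∈ H := by
        have : t = X.e (Pi.mulSingle i q1) * X.e (Pi.mulSingle i q1) := R.ii.symm
        rw [this]; exact mul_mem (hQH i q1 h1Q) (hQH i q1 h1Q)
      have htinv : t⁻¹ = t := inv_eq_of_mul_eq_one_left R.xx
      have htv : t • v = -p + v' := by rw [hvp, smul_add, tp, tv']
      set d := r * (t * r * t⁻¹)⁻¹ with hd
      have hdH : d ∈ H := mul_mem hr (inv_mem (mul_mem (mul_mem htH hr) (inv_mem htH)))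
      have hrinv : ∀ u, r⁻¹ • u = u - (c * B u v) • v := by
        intro u
        rw [inv_smul_eq_iff, smul_sub, smul_comm r, hru, hru v, I.alt, mul_zero, zero_smul, add_zero]
        abel
      have hdu : ∀ u, d • u = u + B u v' • ((2 * c) • p) + (2 * c * B u p) • v' := by
        intro u
        have e1 : (t * r * t⁻¹)⁻¹ • u = u - (c * B u (t • v)) • (t • v) := by
          have : (t * r * t⁻¹)⁻¹ = t * r⁻¹ * t⁻¹ := by group
          rw [this, mul_smul, mul_smul, hrinv, smul_sub, smul_inv_smul, smul_comm t, I.adj, inv_inv]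
        have e2 : B (t • v) v = 0 := by
          rw [htv, hvp]
          simp only [map_add, map_neg, LinearMap.add_apply, LinearMap.neg_apply, I.alt, hpv', hv'p]
          simp
        have e6 : B (u - (c * B u (t • v)) • (t • v)) v = B u v := by
          rw [map_sub B, LinearMap.sub_apply, map_smul B, LinearMap.smul_apply, e2, smul_zero, sub_zero]
        rw [hd, mul_smul, e1, hru, e6, htv]
        have e3 : B u v = B u p + B u v' := by
          nth_rewrite 1 [hvp]
          rw [map_add]
        have e4 : B u (-p + v') = - B u p + B u v' := by rw [map_add, map_neg]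
        rw [e3, e4]
        nth_rewrite 1 [hvp]
        simp only [smul_add, smul_neg, smul_smul]
        have e5 : ∀ (x1 x2 y1 y2 z1 z2 : F), -x1 + y1 = z1 → -x2 + y2 = z2 → 
            u - (-(x1 • p) + x2 • v') + (y1 • p + y2 • v') = u + ((y1 + x1) • p) + (y2 - x2) • v' := by
          intro x1 x2 y1 y2 z1 z2 _ _
          rw [add_smul, sub_smul]; abel
        rw [e5 _ _ _ _ _ _ rfl rfl]
        congr 2
        · congr 1; ring
        · ring
      have hn0 : (2 * c) • p ≠ 0 := smul_ne_zero (mul_ne_zero I.two hc) hp0
      have hxn : t • ((2 * c) • p) = -((2 * c) • p) := by rw [smul_comm t, tp, smul_neg]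
      obtain ⟨s, hsH, hss, hsfix, hBs⟩ : ∃ s ∈ H, s * s = t ∧ (∀ w, B w (X.a i) = 0 → B w (X.b i) = 0 → s • w = w) ∧
          B ((2 * c) • p) (s • ((2 * c) • p)) ≠ 0 := by
        rcases R.quat I hxn hn0 with h | h
        · exact ⟨_, hQH i q1 h1Q, R.ii, R.fi, h⟩
        · exact ⟨_, hQH i q2 h2Q, R.jj, R.fj, h⟩
      have hsv' : s • v' = v' := by
        obtain ⟨h1, h2⟩ := R.of_xfix I tv'
        exact hsfix v' h1 h2
      have hkey := I.comm_tv (d := d) (s := s) (v := v') (n := (2 * c) • p) (π := fun w => (2 * c * B w p) • v') hdu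
        (by rw [map_smul, LinearMap.smul_apply, hpv', smul_zero])
        (by intro w; rw [map_smul, LinearMap.smul_apply, I.alt, smul_zero])
        (by intro w; rw [map_smul, LinearMap.smul_apply, hv'p, smul_zero, mul_zero, zero_smul])
        (by intro w; rw [smul_comm s, hsv'])
        hsv'
        (by rw [inv_smul_eq_iff, smul_neg, ← mul_smul, hss, hxn, neg_neg])
        (by rw [map_smul (B (s • (2 * c) • p)), smul_eq_mul])
      have hfin : {j | ¬ (B v' (X.a j) = 0 ∧ B v' (X.b j) = 0)} ⊂ {j | ¬ (B v (X.a j) = 0 ∧ B v (X.b j) = 0)} := by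
        rw [Set.ssubset_iff_of_subset]
        · refine ⟨i, hi, ?_⟩
          simp only [Set.mem_ofPred_eq, not_not]
          exact R.of_xfix I tv'
        · intro j hj
          simp only [Set.mem_ofPred_eq] at hj ⊢
          intro h
          apply hj
          by_cases hji : j = i
          · subst hji; exact R.of_xfix I tv'
          · have e1 : B p (X.a j) = 0 ∧ B p (X.b j) = 0 := by
              rw [hp, pr]
              simp only [map_sub, map_smul, LinearMap.sub_apply, LinearMap.smul_apply, X.aa, X.bb, X.ab, X.ba I,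
                if_neg (Ne.symm hji)]
              simp
            have e2 : B v' = B v - B p := by rw [hv', map_sub]
            rw [e2, LinearMap.sub_apply, LinearMap.sub_apply, h.1, h.2, e1.1, e1.2]
            simp
      have hcard := Set.ncard_lt_ncard hfin (Set.toFinite _)
      refine ih _ (lt_of_lt_of_le hcard hN) _ v' _ ?_ hv'0 ?_ hkey le_rfl
      · exact mul_mem (mul_mem (mul_mem hdH (mul_mem (mul_mem hsH hdH) (inv_mem hsH))) (inv_mem hdH))
          (inv_mem (mul_mem (mul_mem hsH hdH) (inv_mem hsH)))
      · refine mul_ne_zero I.two ?_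
        rw [I.neg]; exact neg_ne_zero.2 hBs

end Cfsg.Agent.H95.SpT
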