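import Cfsg.Agent.H95.SpPeel
import Cfsg.Agent.H95.ProdPro

set_option autoImplicit false
set_option linter.unusedSectionVars false

/-!
An involution of the wreath product moving the planes is not conjugate to a reflection.
-/

namespace Cfsg.Agent.H95.SpT

universe u v w

open Matrix

variable {F : Type u} [Field F] {V : Type v} [AddCommGroup V] [Module F V] {B : LinearMap.BilinForm F V}
  {G : Type w} [Group G] [DistribMulAction G V] [SMulCommClass G F V] {n : ℕ}
  [FaithfulSMul G V] (I : Isom B G) (X : Frm B G n) {q1 q2 : SpecialLinearGroup (Fin 2) F} (hq : QP q1 q2)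

/-- `2`-elements of the normaliser -/
lemma mem_of_two {Γ : Type w} [Group Γ] [Finite Γ] (Q : Sylow 2 Γ) {θ : Γ} {m : ℕ} (h1 : θ ^ 2 ^ m = 1)
    (h2 : ∀ q ∈ (Q : Subgroup Γ), θ * q * θ⁻¹ ∈ (Q : Subgroup Γ)) : θ ∈ (Q : Subgroup Γ) := by
  have h3 : IsPGroup 2 (Subgroup.zpowers θ) := by
    rintro ⟨y, t, rfl⟩
    refine ⟨m, Subtype.ext ?_⟩
    show (θ ^ t) ^ 2 ^ m = 1
    rw [← zpow_natCast, ← _root_.zpow_mul, mul_comm, _root_.zpow_mul, zpow_natCast, h1, _root_.one_zpow]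
  have h4 : θ ∈ Subgroup.normalizer ((Q : Subgroup Γ) : Set Γ) := by
    rw [Subgroup.mem_normalizer_iff]
    intro s
    refine ⟨h2 s, fun h => ?_⟩
    have := norm_inv h2 _ h
    have e1 : θ⁻¹ * (θ * s * θ⁻¹) * θ = s := by group
    rwa [e1] at this
  have h5 := h3.inf_normalizer_sylow Q
  have h6 : θ ∈ Subgroup.zpowers θ ⊓ Subgroup.normalizer ((Q : Subgroup Γ) : Set Γ) :=
    ⟨Subgroup.mem_zpowers _, h4⟩
  exact (h5.le h6).2

namespace Frm

lemma single_mul (i : Fin n) (p q : SpecialLinearGroup (Fin 2) F) :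
    X.e (Pi.mulSingle i p) * X.e (Pi.mulSingle i q) = X.e (Pi.mulSingle i (p * q)) := by
  rw [← map_mul, ← Pi.mulSingle_mul]

lemma single_inv (i : Fin n) (p : SpecialLinearGroup (Fin 2) F) :
    (X.e (Pi.mulSingle i p))⁻¹ = X.e (Pi.mulSingle i p⁻¹) := by
  rw [← map_inv, ← Pi.mulSingle_inv]

lemma conj_single (x : Fin n → SpecialLinearGroup (Fin 2) F) (τ : Equiv.Perm (Fin n)) (i : Fin n)
    (q : SpecialLinearGroup (Fin 2) F) :
    (X.e x * X.s τ) * X.e (Pi.mulSingle i q) * (X.e x * X.s τ)⁻¹ =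
      X.e (Pi.mulSingle (τ i) (x (τ i) * q * (x (τ i))⁻¹)) := by
  have h1 : (X.e x * X.s τ) * X.e (Pi.mulSingle i q) * (X.e x * X.s τ)⁻¹ =
      X.e x * (X.s τ * X.e (Pi.mulSingle i q) * (X.s τ)⁻¹) * (X.e x)⁻¹ := by group
  rw [h1, X.conj_s, ← map_inv, ← map_mul, ← map_mul]
  congr 1
  funext l
  by_cases hl : l = τ i
  · subst hl; simp
  · have h2 : τ⁻¹ l ≠ i := by
      intro h; apply hl; rw [← h]; simp
    rw [Pi.mul_apply, Pi.mul_apply, Pi.mulSingle_eq_of_ne h2, Pi.mulSingle_eq_of_ne hl]; simp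

lemma conj_single_e (x : Fin n → SpecialLinearGroup (Fin 2) F) (i : Fin n)
    (q : SpecialLinearGroup (Fin 2) F) :
    X.e x * X.e (Pi.mulSingle i q) * (X.e x)⁻¹ = X.e (Pi.mulSingle i (x i * q * (x i)⁻¹)) := by
  have := X.conj_single x 1 i q
  simpa using this

lemma single_comm {i j : Fin n} (hij : i ≠ j) (p q : SpecialLinearGroup (Fin 2) F) :
    X.e (Pi.mulSingle i p) * X.e (Pi.mulSingle j q) = X.e (Pi.mulSingle j q) * X.e (Pi.mulSingle i p) := by
  rw [← map_mul, ← map_mul]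
  congr 1
  exact (Pi.mulSingle_commute (f := fun _ : Fin n => SpecialLinearGroup (Fin 2) F) hij p q)

include I

lemma single_of_eq {i : Fin n} {y y' : Fin n → SpecialLinearGroup (Fin 2) F} (ha : X.e y • X.a i = X.e y' • X.a i)
    (hb : X.e y • X.b i = X.e y' • X.b i) : y i = y' i := by
  rw [X.ea, X.ea] at ha
  rw [X.eb, X.eb] at hb
  have e1 := congrArg (fun w => B w (X.b i)) ha
  have e2 := congrArg (fun w => B w (X.a i)) ha
  have e3 := congrArg (fun w => B w (X.b i)) hb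
  have e4 := congrArg (fun w => B w (X.a i)) hb
  simp only [X.ca I, X.cb I, if_true] at e1 e2 e3 e4
  apply Subtype.ext
  ext p q
  fin_cases p <;> fin_cases q
  · exact e1
  · exact e3
  · exact neg_injective e2
  · exact neg_injective e4

/-- an element fixing a plane pointwise -/
lemma comm_of_fix {κ : G} {i : Fin n} (ha : κ • X.a i = X.a i) (hb : κ • X.b i = X.b i)
    (q : SpecialLinearGroup (Fin 2) F) : κ * X.e (Pi.mulSingle i q) = X.e (Pi.mulSingle i q) * κ := by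
  have ha' : κ⁻¹ • X.a i = X.a i := by rw [inv_smul_eq_iff, ha]
  have hb' : κ⁻¹ • X.b i = X.b i := by rw [inv_smul_eq_iff, hb]
  apply FaithfulSMul.eq_of_smul_eq_smul (α := V)
  intro w
  set p := pr B (X.a i) (X.b i) w with hp
  have hκp : ∀ c d : F, κ • (c • X.a i + d • X.b i) = c • X.a i + d • X.b i := by
    intro c d
    rw [smul_add, smul_comm κ, smul_comm κ, ha, hb]
  have hEp : ∃ c d : F, X.e (Pi.mulSingle i q) • p = c • X.a i + d • X.b i := by
    rw [hp, pr, smul_sub, smul_comm _ (B w (X.b i)), smul_comm _ (B w (X.a i)), X.ea, X.eb]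
    refine ⟨B w (X.b i) * ((Pi.mulSingle i q : Fin n → SpecialLinearGroup (Fin 2) F) i : Matrix (Fin 2) (Fin 2) F) 0 0 -
      B w (X.a i) * ((Pi.mulSingle i q : Fin n → SpecialLinearGroup (Fin 2) F) i : Matrix (Fin 2) (Fin 2) F) 0 1,
      B w (X.b i) * ((Pi.mulSingle i q : Fin n → SpecialLinearGroup (Fin 2) F) i : Matrix (Fin 2) (Fin 2) F) 1 0 -
      B w (X.a i) * ((Pi.mulSingle i q : Fin n → SpecialLinearGroup (Fin 2) F) i : Matrix (Fin 2) (Fin 2) F) 1 1, ?_⟩
    rw [smul_add, smul_add, smul_smul, smul_smul, smul_smul, smul_smul, sub_smul, sub_smul]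
    abel
  have hp' : κ • p = p := by
    have : p = B w (X.b i) • X.a i + (-B w (X.a i)) • X.b i := by rw [hp, pr, neg_smul, sub_eq_add_neg]
    rw [this]; exact hκp _ _
  have h1 : B (w - p) (X.a i) = 0 := by
    rw [hp, pr]
    simp only [map_sub, map_smul, LinearMap.sub_apply, LinearMap.smul_apply, X.aa, X.ba I, if_true]
    simp
  have h2 : B (w - p) (X.b i) = 0 := by
    rw [hp, pr]
    simp only [map_sub, map_smul, LinearMap.sub_apply, LinearMap.smul_apply, X.ab, X.bb, if_true]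
    simp
  have h3 := X.fix_of_plane q h1 h2
  have h4 : X.e (Pi.mulSingle i q) • (κ • (w - p)) = κ • (w - p) := by
    apply X.fix_of_plane
    · rw [I.adj, ha', h1]
    · rw [I.adj, hb', h2]
  have hw : w = p + (w - p) := by abel
  obtain ⟨c, d, hcd⟩ := hEp
  rw [mul_smul, mul_smul, hw, smul_add, smul_add, h3, smul_add, smul_add, h4, hp', hcd, hκp]

/-- an element centralising a reflection -/
lemma exists_block {δ : G} {i : Fin n} (h1 : q1 * q1 = -1) (h2 : q2 * q2 = -1) (h12 : q1 * q2 = -1 * (q2 * q1))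
    (hδ : δ * X.t i = X.t i * δ) :
    ∃ θ : SpecialLinearGroup (Fin 2) F, (∀ w : V, X.t i • w = -w → X.e (Pi.mulSingle i θ) • w = δ • w) ∧
      (∀ q, δ * X.e (Pi.mulSingle i q) * δ⁻¹ = X.e (Pi.mulSingle i (θ * q * θ⁻¹))) ∧ ∀ m : ℕ, δ ^ m = 1 → θ ^ m = 1 := by
  have R := X.fr I h1 h2 h12 i
  have hneg : ∀ w : V, X.t i • w = -w → X.t i • (δ • w) = -(δ • w) := by
    intro w hw
    rw [← mul_smul, ← hδ, mul_smul, hw, smul_neg]
  have hta : X.t i • X.a i = - X.a i := by rw [X.ta, if_pos rfl]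
  have htb : X.t i • X.b i = - X.b i := by rw [X.tb, if_pos rfl]
  have ea := R.of_xneg I (hneg _ hta)
  have eb := R.of_xneg I (hneg _ htb)
  rw [pr] at ea eb
  have hdet : B (δ • X.a i) (X.b i) * (- B (δ • X.b i) (X.a i)) - B (δ • X.b i) (X.b i) * (-B (δ • X.a i) (X.a i)) = 1 := by
    have h3 := I.inv δ (X.a i) (X.b i)
    rw [X.ab, if_pos rfl] at h3
    have h4 : B (δ • X.a i) (δ • X.b i) = B (δ • X.a i) (B (δ • X.b i) (X.b i) • X.a i - B (δ • X.b i) (X.a i) • X.b i) :=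
      congrArg _ eb
    rw [h4, map_sub, LinearMap.map_smul (B (δ • X.a i)), LinearMap.map_smul (B (δ • X.a i)), smul_eq_mul, smul_eq_mul] at h3
    linear_combination h3
  obtain ⟨θ, hθ⟩ : ∃ θ : SpecialLinearGroup (Fin 2) F, (θ : Matrix (Fin 2) (Fin 2) F) =
      !![B (δ • X.a i) (X.b i), B (δ • X.b i) (X.b i); -B (δ • X.a i) (X.a i), -B (δ • X.b i) (X.a i)] :=
    ⟨⟨_, by rw [Matrix.det_fin_two_of]; exact hdet⟩, rfl⟩
  have fa : X.e (Pi.mulSingle i θ) • X.a i = δ • X.a i := by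
    rw [X.ea, Pi.mulSingle_eq_same, hθ, ea]
    simp only [Matrix.of_apply, Matrix.cons_val', Matrix.cons_val_zero, Matrix.cons_val_fin_one, Matrix.cons_val_one]
    rw [← ea, neg_smul, ← sub_eq_add_neg]
    exact ea.symm
  have fb : X.e (Pi.mulSingle i θ) • X.b i = δ • X.b i := by
    rw [X.eb, Pi.mulSingle_eq_same, hθ, eb]
    simp only [Matrix.of_apply, Matrix.cons_val', Matrix.cons_val_zero, Matrix.cons_val_fin_one, Matrix.cons_val_one]
    rw [← eb, neg_smul, ← sub_eq_add_neg]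
    exact eb.symm
  obtain ⟨κ, hκ⟩ : ∃ κ, κ = (X.e (Pi.mulSingle i θ))⁻¹ * δ := ⟨_, rfl⟩
  have hδκ : δ = X.e (Pi.mulSingle i θ) * κ := by rw [hκ]; group
  have ka : κ • X.a i = X.a i := by rw [hκ, mul_smul, inv_smul_eq_iff, fa]
  have kb : κ • X.b i = X.b i := by rw [hκ, mul_smul, inv_smul_eq_iff, fb]
  refine ⟨θ, ?_, ?_, ?_⟩
  · intro w hw
    rw [R.of_xneg I hw, pr, smul_sub, smul_sub, smul_comm _ (B w (X.b i)), smul_comm _ (B w (X.a i)),
      smul_comm _ (B w (X.b i)), smul_comm _ (B w (X.a i)), fa, fb]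
  · intro q
    have h3 := X.comm_of_fix I ka kb q
    have h4 : δ * X.e (Pi.mulSingle i q) * δ⁻¹ = X.e (Pi.mulSingle i θ) * (κ * X.e (Pi.mulSingle i q)) * κ⁻¹ *
        (X.e (Pi.mulSingle i θ))⁻¹ := by rw [hδκ]; group
    rw [h4, h3, ← X.single_mul, ← X.single_mul, ← X.single_inv]
    group
  · intro m hm
    have h3 : Commute (X.e (Pi.mulSingle i θ)) κ := (X.comm_of_fix I ka kb θ).symm
    rw [hδκ, h3.mul_pow] at hm
    have h4 : X.e (Pi.mulSingle i (θ ^ m)) = (κ ^ m)⁻¹ := by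
      rw [Pi.mulSingle_pow, map_pow]
      exact eq_inv_of_mul_eq_one_left hm
    have kpa : ∀ m : ℕ, κ ^ m • X.a i = X.a i := by
      intro m
      induction m with
      | zero => rw [pow_zero, one_smul]
      | succ m ih => rw [pow_succ, mul_smul, ka, ih]
    have kpb : ∀ m : ℕ, κ ^ m • X.b i = X.b i := by
      intro m
      induction m with
      | zero => rw [pow_zero, one_smul]
      | succ m ih => rw [pow_succ, mul_smul, kb, ih]
    have h5 := X.single_of_eq I (i := i) (y := Pi.mulSingle i (θ ^ m)) (y' := 1) (by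
      rw [h4, map_one, one_smul, inv_smul_eq_iff, kpa]) (by rw [h4, map_one, one_smul, inv_smul_eq_iff, kpb])
    rwa [Pi.mulSingle_eq_same] at h5

end Frm

end Cfsg.Agent.H95.SpT
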