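import Cfsg.Agent.H95.SpSwap

set_option autoImplicit false
set_option linter.unusedSectionVars false

/-!
An involution of the wreath product moving the planes is not conjugate to a reflection.
-/

namespace Cfsg.Agent.H95.SpT

universe u v w

open Matrix

variable {F : Type u} [Field F] [Finite F] {V : Type v} [AddCommGroup V] [Module F V] {B : LinearMap.BilinForm F V}
  {G : Type w} [Group G] [DistribMulAction G V] [SMulCommClass G F V] {n : ℕ}
  [FaithfulSMul G V] (I : Isom B G) (X : Frm B G n) {q1 q2 : SpecialLinearGroup (Fin 2) F} (hq : QP q1 q2)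
  {Q : Sylow 2 (SpecialLinearGroup (Fin 2) F)} {H : Subgroup G}

include I hq

/-- transport of an element of the fundamental subgroup -/
theorem exists_rho (hQH : ∀ i, ∀ q ∈ (Q : Subgroup _), X.e (Pi.mulSingle i q) ∈ H)
    (hHQ : ∀ i (y : SpecialLinearGroup (Fin 2) F), X.e (Pi.mulSingle i y) ∈ H → y ∈ (Q : Subgroup _))
    {x : Fin n → SpecialLinearGroup (Fin 2) F} {i j : Fin n} (hij : i ≠ j) {z h : G}
    (hz : z = X.e x * X.s (Equiv.swap i j)) (hzz : z * z = 1) (hxQ : ∀ l, x l ∈ (Q : Subgroup _)) (hh : h ∈ H)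
    (hzh : z = h * X.t i * h⁻¹) {q : SpecialLinearGroup (Fin 2) F} (hqQ : q ∈ (Q : Subgroup _)) :
    ∃ ρ ∈ H, (∀ w : V, X.t i • w = -w → ρ • (w - z • w) = X.e (Pi.mulSingle i q) • w - z • (X.e (Pi.mulSingle i q) • w)) ∧
      ∀ u : V, z • u = u → ρ • u = u := by
  have R := X.fr I hq.h1 hq.h2 hq.h12 i
  have hzinv : z⁻¹ = z := inv_eq_of_mul_eq_one_left hzz
  set E := X.e (Pi.mulSingle i q) with hE
  have hzE : z * E * z⁻¹ = X.e (Pi.mulSingle j (x j * q * (x j)⁻¹)) := by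
    rw [hz, hE, X.conj_single, Equiv.swap_apply_left]
  have hEH : E ∈ H := hQH i q hqQ
  have hzEH : z * E * z⁻¹ ∈ H := by
    rw [hzE]; exact hQH j _ (mul_mem (mul_mem (hxQ j) hqQ) (inv_mem (hxQ j)))
  have hcomm : E * (z * E * z⁻¹) = (z * E * z⁻¹) * E := by
    rw [hzE, hE]; exact X.single_comm hij _ _
  set D := E * (z * E * z⁻¹) with hD
  have hzD : z * D = D * z := by
    calc z * D = (z * E * z⁻¹) * (z * z) * E * z⁻¹ := by rw [hD]; group
      _ = (z * E * z⁻¹) * E * z := by rw [hzz, mul_one, hzinv]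
      _ = D * z := by rw [← hcomm]
  set δ := h⁻¹ * D * h with hδ
  have hδH : δ ∈ H := mul_mem (mul_mem (inv_mem hh) (mul_mem hEH hzEH)) hh
  have hti : X.t i = h⁻¹ * z * h := by rw [hzh]; group
  have hδt : δ * X.t i = X.t i * δ := by
    calc δ * X.t i = h⁻¹ * (D * z) * h := by rw [hδ, hti]; group
      _ = h⁻¹ * (z * D) * h := by rw [hzD]
      _ = X.t i * δ := by rw [hδ, hti]; group
  obtain ⟨θ, hθ1, hθ2, hθ3⟩ := X.exists_block I hq.h1 hq.h2 hq.h12 hδt
  have hθN : ∀ q' ∈ (Q : Subgroup _), θ * q' * θ⁻¹ ∈ (Q : Subgroup _) := by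
    intro q' hq'
    apply hHQ i
    rw [← hθ2]
    exact mul_mem (mul_mem hδH (hQH i q' hq')) (inv_mem hδH)
  obtain ⟨m, hm⟩ := Q.isPGroup' ⟨q, hqQ⟩
  have hm' : q ^ 2 ^ m = 1 := congrArg Subtype.val hm
  have hE2 : E ^ 2 ^ m = 1 := by rw [hE, ← map_pow, ← Pi.mulSingle_pow, hm', Pi.mulSingle_one, map_one]
  have hδ2 : δ ^ 2 ^ m = 1 := by
    have h1 : D ^ 2 ^ m = 1 := by
      have hc : Commute E (z * E * z⁻¹) := hcomm
      rw [hD, hc.mul_pow, hE2, one_mul, conj_pow, hE2]; group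
    have h2 : δ = h⁻¹ * D * (h⁻¹)⁻¹ := by rw [hδ]; group
    rw [h2, conj_pow, h1]; group
  have hθQ : θ ∈ (Q : Subgroup _) := mem_of_two Q (hθ3 _ hδ2) hθN
  refine ⟨h * X.e (Pi.mulSingle i θ) * h⁻¹, mul_mem (mul_mem hh (hQH i θ hθQ)) (inv_mem hh), ?_, ?_⟩
  · intro w hw
    have h1 : X.t i • (h⁻¹ • (w - z • w)) = -(h⁻¹ • (w - z • w)) := by
      have h2 : X.t i * h⁻¹ = h⁻¹ * z := by rw [hti]; group
      rw [← mul_smul, h2, mul_smul, smul_sub z, ← mul_smul z z, hzz, one_smul, ← smul_neg]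
      congr 1; abel
    have h2 : D • w = E • w := by
      rw [hD, mul_smul]
      congr 1
      rw [hzE]
      obtain ⟨c, d, hcd⟩ : ∃ c d : F, w = c • X.a i + d • X.b i := by
        refine ⟨B w (X.b i), - B w (X.a i), ?_⟩
        rw [neg_smul, ← sub_eq_add_neg]; exact R.of_xneg I hw
      apply X.fix_of_plane
      · rw [hcd, X.cb I, if_neg hij]
      · rw [hcd, X.ca I, if_neg hij]
    have h3 : D • (z • w) = z • (E • w) := by
      rw [← mul_smul, ← hzD, mul_smul, h2]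
    calc (h * X.e (Pi.mulSingle i θ) * h⁻¹) • (w - z • w)
        = h • X.e (Pi.mulSingle i θ) • (h⁻¹ • (w - z • w)) := by rw [mul_smul, mul_smul]
      _ = h • δ • (h⁻¹ • (w - z • w)) := by rw [hθ1 _ h1]
      _ = D • (w - z • w) := by
        rw [← mul_smul, ← mul_smul]
        congr 1
        rw [hδ]; group
      _ = _ := by rw [smul_sub, h2, h3]
  · intro u hu
    have h1 : X.t i • (h⁻¹ • u) = h⁻¹ • u := by
      have h2 : X.t i * h⁻¹ = h⁻¹ * z := by rw [hti]; group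
      rw [← mul_smul, h2, mul_smul, hu]
    obtain ⟨h3, h4⟩ := R.of_xfix I h1
    rw [mul_smul, mul_smul, X.fix_of_plane θ h3 h4, smul_inv_smul]

/-- the strange element -/
theorem exists_mu (hQH : ∀ i, ∀ q ∈ (Q : Subgroup _), X.e (Pi.mulSingle i q) ∈ H)
    (hHQ : ∀ i (y : SpecialLinearGroup (Fin 2) F), X.e (Pi.mulSingle i y) ∈ H → y ∈ (Q : Subgroup _))
    (h1Q : q1 ∈ (Q : Subgroup _)) (h2Q : q2 ∈ (Q : Subgroup _))
    {x : Fin n → SpecialLinearGroup (Fin 2) F} {i j : Fin n} (hij : i ≠ j) {z h : G}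
    (hz : z = X.e x * X.s (Equiv.swap i j)) (hzz : z * z = 1) (hxQ : ∀ l, x l ∈ (Q : Subgroup _))
    (hxl : ∀ l, l ≠ i → l ≠ j → x l = 1) (hh : h ∈ H) (hzh : z = h * X.t i * h⁻¹) :
    ∃ μ : Fin n → SpecialLinearGroup (Fin 2) F, X.e μ ∈ H ∧ (∀ l, l ≠ i → l ≠ j → μ l = 1) ∧
      (2 : F) • (μ i : Matrix (Fin 2) (Fin 2) F) = 1 + (q1 : Matrix (Fin 2) (Fin 2) F) + q2 + (q1 * q2 : Matrix (Fin 2) (Fin 2) F) ∧
      μ j = x j * (q1 * μ i * q1⁻¹) * (x j)⁻¹ := by
  have R := X.fr I hq.h1 hq.h2 hq.h12 i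
  have hzinv : z⁻¹ = z := inv_eq_of_mul_eq_one_left hzz
  obtain ⟨ρ1, hρ1H, ρ1a, ρ1b⟩ := exists_rho I X hq hQH hHQ hij hz hzz hxQ hh hzh h1Q
  obtain ⟨ρ2, hρ2H, ρ2a, ρ2b⟩ := exists_rho I X hq hQH hHQ hij hz hzz hxQ hh hzh h2Q
  set E1 := X.e (Pi.mulSingle i q1) with hE1
  set E2 := X.e (Pi.mulSingle i q2) with hE2
  obtain ⟨c, hc⟩ : ∃ c, c = z * (E1 * E2) * z⁻¹ := ⟨_, rfl⟩
  have hcj : c = X.e (Pi.mulSingle j (x j * (q1 * q2) * (x j)⁻¹)) := by
    rw [hc, hE1, hE2, X.single_mul, hz, X.conj_single, Equiv.swap_apply_left]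
  have hcH : c ∈ H := by
    rw [hcj]; exact hQH j _ (mul_mem (mul_mem (hxQ j) (mul_mem h1Q h2Q)) (inv_mem (hxQ j)))
  -- the plane
  have Pm : ∀ {w : V}, X.t i • w = -w → ∃ c d : F, w = c • X.a i + d • X.b i := by
    intro w hw
    refine ⟨B w (X.b i), - B w (X.a i), ?_⟩
    rw [neg_smul, ← sub_eq_add_neg]; exact R.of_xneg I hw
  have P1 : ∀ {w : V}, X.t i • w = -w → X.t i • (E1 • w) = -(E1 • w) := fun hw => R.xie hw
  have P2 : ∀ {w : V}, X.t i • w = -w → X.t i • (E2 • w) = -(E2 • w) := fun hw => R.xje hw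
  have S1 : ∀ {w : V}, X.t i • w = -w → E1 • E1 • w = -w := fun hw => R.iie hw
  have S2 : ∀ {w : V}, X.t i • w = -w → E2 • E2 • w = -w := fun hw => R.jje hw
  have S12 : ∀ {w : V}, X.t i • w = -w → E1 • E2 • w = -(E2 • E1 • w) := fun hw => R.ije hw
  have Pneg : ∀ {w : V}, X.t i • w = -w → X.t i • (-w) = -(-w) := fun hw => by rw [smul_neg, hw]
  have Padd : ∀ {w w' : V}, X.t i • w = -w → X.t i • w' = -w' → X.t i • (w + w') = -(w + w') := by
    intro w w' hw hw'; rw [smul_add, hw, hw']; abel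
  have Psub : ∀ {w w' : V}, X.t i • w = -w → X.t i • w' = -w' → X.t i • (w - w') = -(w - w') := by
    intro w w' hw hw'; rw [smul_sub, hw, hw']; abel
  have zz : ∀ w : V, z • z • w = w := fun w => by rw [← mul_smul, hzz, one_smul]
  -- the elements `ρ`
  have hρ : ∀ (ρ E : G), (∀ w : V, X.t i • w = -w → ρ • (w - z • w) = E • w - z • (E • w)) →
      (∀ u : V, z • u = u → ρ • u = u) → (∀ w : V, X.t i • w = -w → (2 : F) • (ρ • w) = w + E • w + z • (w - E • w)) ∧
      (∀ w : V, X.t i • w = -w → (2 : F) • (ρ • (z • w)) = w - E • w + z • (w + E • w)) := by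
    intro ρ E ha hb
    have h1 : ∀ w : V, ρ • (w + z • w) = w + z • w := by
      intro w
      apply hb
      rw [smul_add, zz]; abel
    constructor
    · intro w hw
      have h2 : (2 : F) • w = (w - z • w) + (w + z • w) := by rw [two_smul]; abel
      rw [← smul_comm ρ, h2, smul_add ρ, ha w hw, h1, smul_sub]; abel
    · intro w hw
      have h2 : (2 : F) • (z • w) = (w + z • w) - (w - z • w) := by rw [two_smul]; abel
      rw [← smul_comm ρ, h2, smul_sub ρ, ha w hw, h1, smul_add]; abel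
  obtain ⟨r1, r1'⟩ := hρ ρ1 E1 ρ1a ρ1b
  obtain ⟨r2, r2'⟩ := hρ ρ2 E2 ρ2a ρ2b
  -- the element `c`
  have cfix : ∀ w : V, X.t i • w = -w → c • w = w := by
    intro w hw
    obtain ⟨p, q, rfl⟩ := Pm hw
    rw [hcj]
    apply X.fix_of_plane
    · rw [X.cb I, if_neg hij]
    · rw [X.ca I, if_neg hij]
  have cz : ∀ w : V, c • (z • w) = z • (E1 • E2 • w) := by
    intro w
    rw [hc, mul_smul, mul_smul, hzinv, zz, mul_smul]
  have cfix' : ∀ w : V, X.t i • w = -w → c⁻¹ • w = w := by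
    intro w hw; rw [inv_smul_eq_iff, cfix w hw]
  obtain ⟨m, hm⟩ : ∃ m, m = ρ1 * c * ρ2 * c⁻¹ := ⟨_, rfl⟩
  have hmH : m ∈ H := by
    rw [hm]; exact mul_mem (mul_mem (mul_mem hρ1H hcH) hρ2H) (inv_mem hcH)
  have hm' : m = ρ1 * (c * ρ2 * c⁻¹) := by rw [hm]; group
  have hcan : ∀ u u' : V, (2 : F) • u = (2 : F) • u' → u = u' := by
    intro u u' h
    have h1 : (2 : F) • (u - u') = 0 := by rw [smul_sub, h, sub_self]
    exact sub_eq_zero.1 ((smul_eq_zero.1 h1).resolve_left I.two)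
  have ma : ∀ w : V, X.t i • w = -w → (2 : F) • (m • w) = w + E1 • w + E2 • w + E1 • E2 • w := by
    intro w hw
    have e1 : (2 : F) • ((c * ρ2 * c⁻¹) • w) = (w + E2 • w) + z • (E1 • E2 • w + E1 • w) := by
      rw [mul_smul, mul_smul, cfix' w hw, ← smul_comm c, r2 w hw, smul_add c, cfix _ (Padd hw (P2 hw)), cz,
        smul_sub E2, S2 hw, smul_sub E1, smul_neg]
      congr 2; abel
    apply hcan
    have e2 : (2 : F) • (m • w) = ρ1 • ((w + E2 • w) + z • (E1 • E2 • w + E1 • w)) := by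
      rw [← e1, smul_comm ρ1, hm', mul_smul]
    rw [e2, smul_add ρ1, smul_add (2 : F), r1 _ (Padd hw (P2 hw)), r1' _ (Padd (P1 (P2 hw)) (P1 hw))]
    simp only [smul_add, smul_sub, two_smul, S1 hw, S1 (P2 hw)]
    simp only [smul_neg]
    abel
  have mb : ∀ w : V, X.t i • w = -w → (2 : F) • (m • (z • w)) = z • (w + E1 • w - E2 • w - E1 • E2 • w) := by
    intro w hw
    obtain ⟨w', hw'⟩ : ∃ w', w' = E2 • E1 • w := ⟨_, rfl⟩
    have hw'n : X.t i • w' = - w' := by rw [hw']; exact P2 (P1 hw)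
    have hE12 : E1 • E2 • w' = w := by rw [hw', S2 (P1 hw), smul_neg, S1 hw, neg_neg]
    have hE2w' : E2 • w' = -(E1 • w) := by rw [hw', S2 (P1 hw)]
    have hw'' : w' = -(E1 • E2 • w) := by rw [hw', S12 hw, neg_neg]
    have e0 : c⁻¹ • (z • w) = z • w' := by rw [inv_smul_eq_iff, cz, hE12]
    have e1 : (2 : F) • ((c * ρ2 * c⁻¹) • (z • w)) = (w' - E2 • w') + z • (w - E2 • w) := by
      rw [mul_smul, mul_smul, e0, ← smul_comm c, r2' w' hw'n, smul_add c, cfix _ (Psub hw'n (P2 hw'n)), cz,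
        smul_add E2, smul_add E1, hE12, S2 hw'n, smul_neg]
      congr 2
      have : E1 • w' = E2 • w := by rw [hw'', smul_neg, S1 (P2 hw), neg_neg]
      rw [this]; abel
    apply hcan
    have e2 : (2 : F) • (m • (z • w)) = ρ1 • ((w' - E2 • w') + z • (w - E2 • w)) := by
      rw [← e1, smul_comm ρ1, hm', mul_smul]
    rw [e2, smul_add ρ1, smul_add (2 : F), r1 _ (Psub hw'n (P2 hw'n)), r1' _ (Psub hw (P2 hw))]
    rw [hE2w', hw'']
    simp only [smul_add, smul_sub, two_smul, smul_neg, S1 hw, S1 (P2 hw)]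
    abel
  have mother : ∀ u : V, z • u = u → c • u = u → m • u = u := by
    intro u hu hcu
    rw [hm, mul_smul, mul_smul, mul_smul, inv_smul_eq_iff.2 hcu.symm, ρ2b u hu, hcu, ρ1b u hu]
  have hta : X.t i • X.a i = - X.a i := by rw [X.ta, if_pos rfl]
  have htb : X.t i • X.b i = - X.b i := by rw [X.tb, if_pos rfl]
  have mneg : ∀ w : V, X.t i • w = -w → X.t i • (m • w) = -(m • w) := by
    intro w hw
    apply hcan
    rw [smul_neg, ← smul_comm (X.t i), ma w hw]
    exact Padd (Padd (Padd hw (P1 hw)) (P2 hw)) (P1 (P2 hw))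
  -- the plane `j`
  have zplane : ∀ w : V, X.t i • w = -w → ∃ p q : F, z • w = p • X.a j + q • X.b j := by
    intro w hw
    obtain ⟨p, q, rfl⟩ := Pm hw
    rw [hz, mul_smul, smul_add, smul_comm _ p, smul_comm _ q, X.sa, X.sb, Equiv.swap_apply_left, smul_add,
      smul_comm _ p, smul_comm _ q, X.ea, X.eb]
    refine ⟨p * (x j : Matrix (Fin 2) (Fin 2) F) 0 0 + q * (x j : Matrix (Fin 2) (Fin 2) F) 0 1,
      p * (x j : Matrix (Fin 2) (Fin 2) F) 1 0 + q * (x j : Matrix (Fin 2) (Fin 2) F) 1 1, ?_⟩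
    rw [smul_add, smul_add, smul_smul, smul_smul, smul_smul, smul_smul, add_smul, add_smul]; abel
  have zplane' : ∀ p q : F, ∃ w : V, X.t i • w = -w ∧ z • w = p • X.a j + q • X.b j := by
    intro p q
    refine ⟨z • (p • X.a j + q • X.b j), ?_, zz _⟩
    have h1 : z • (p • X.a j + q • X.b j) = (p * (x i : Matrix (Fin 2) (Fin 2) F) 0 0 + q * (x i : Matrix (Fin 2) (Fin 2) F) 0 1) • X.a i +
        (p * (x i : Matrix (Fin 2) (Fin 2) F) 1 0 + q * (x i : Matrix (Fin 2) (Fin 2) F) 1 1) • X.b i := by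
      rw [hz, mul_smul, smul_add, smul_comm _ p, smul_comm _ q, X.sa, X.sb, Equiv.swap_apply_right, smul_add,
        smul_comm _ p, smul_comm _ q, X.ea, X.eb]
      rw [smul_add, smul_add, smul_smul, smul_smul, smul_smul, smul_smul, add_smul, add_smul]; abel
    rw [h1, smul_add, smul_comm (X.t i), smul_comm (X.t i), hta, htb, smul_neg, smul_neg]; abel
  have mj : ∀ p q : F, ∃ p' q' : F, m • (p • X.a j + q • X.b j) = p' • X.a j + q' • X.b j := by
    intro p q
    obtain ⟨w, hw, hwz⟩ := zplane' p q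
    obtain ⟨p', q', h1⟩ := zplane _ (Psub (Psub (Padd hw (P1 hw)) (P2 hw)) (P1 (P2 hw)))
    refine ⟨2⁻¹ * p', 2⁻¹ * q', hcan _ _ ?_⟩
    rw [← hwz, mb w hw, h1, smul_add, smul_smul, smul_smul, ← mul_assoc, ← mul_assoc, mul_inv_cancel₀ I.two, one_mul,
      one_mul]
  have mi : ∀ p q : F, ∃ p' q' : F, m • (p • X.a i + q • X.b i) = p' • X.a i + q' • X.b i := by
    intro p q
    apply Pm
    apply mneg
    rw [smul_add, smul_comm (X.t i), smul_comm (X.t i), hta, htb, smul_neg, smul_neg]; abel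
  have ml : ∀ l, l ≠ i → l ≠ j → m • X.a l = X.a l ∧ m • X.b l = X.b l := by
    intro l hl1 hl2
    have h1 : Equiv.swap i j l = l := Equiv.swap_apply_of_ne_of_ne hl1 hl2
    constructor
    · apply mother
      · rw [hz, mul_smul, X.sa, h1, X.ea, hxl l hl1 hl2]; simp
      · rw [hcj]
        apply X.fix_of_plane
        · rw [X.aa]
        · rw [X.ab, if_neg hl2]
    · apply mother
      · rw [hz, mul_smul, X.sb, h1, X.eb, hxl l hl1 hl2]; simp
      · rw [hcj]
        apply X.fix_of_plane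
        · rw [X.ba I, if_neg hl2]
        · rw [X.bb]
  obtain ⟨μ, σ, hσ, hmμ⟩ := X.full I (g := m) (π := id) Function.injective_id (by
    intro l
    by_cases h1 : l = i
    · subst h1
      obtain ⟨p, q, h2⟩ := mi 1 0
      obtain ⟨r, t, h3⟩ := mi 0 1
      refine ⟨p, q, r, t, ?_, ?_⟩
      · rw [id, ← h2]; simp
      · rw [id, ← h3]; simp
    · by_cases h2 : l = j
      · subst h2
        obtain ⟨p, q, h2⟩ := mj 1 0
        obtain ⟨r, t, h3⟩ := mj 0 1
        refine ⟨p, q, r, t, ?_, ?_⟩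
        · rw [id, ← h2]; simp
        · rw [id, ← h3]; simp
      · obtain ⟨h3, h4⟩ := ml l h1 h2
        exact ⟨1, 0, 0, 1, by rw [id, h3]; simp, by rw [id, h4]; simp⟩)
  have hσ1 : σ = 1 := Equiv.ext hσ
  rw [hσ1, map_one, mul_one] at hmμ
  refine ⟨μ, by rw [← hmμ]; exact hmH, ?_, ?_, ?_⟩
  · intro l h1 h2
    obtain ⟨h3, h4⟩ := ml l h1 h2
    have := X.single_of_eq I (i := l) (y := μ) (y' := 1) (by rw [← hmμ, map_one, one_smul, h3])
      (by rw [← hmμ, map_one, one_smul, h4])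
    exact this
  · have h3 := ma _ hta
    have h4 := ma _ htb
    have hE12 : ∀ w : V, E1 • E2 • w = X.e (Pi.mulSingle i (q1 * q2)) • w := by
      intro w; rw [← mul_smul, hE1, hE2, X.single_mul]
    rw [hE12, hE1, hE2, hmμ] at h3 h4
    rw [X.ea, X.ea, X.ea, X.ea, Pi.mulSingle_eq_same, Pi.mulSingle_eq_same, Pi.mulSingle_eq_same] at h3
    rw [X.eb, X.eb, X.eb, X.eb, Pi.mulSingle_eq_same, Pi.mulSingle_eq_same, Pi.mulSingle_eq_same] at h4
    have e1 := congrArg (fun w => B w (X.b i)) h3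
    have e2 := congrArg (fun w => B w (X.a i)) h3
    have e3 := congrArg (fun w => B w (X.b i)) h4
    have e4 := congrArg (fun w => B w (X.a i)) h4
    simp only [map_add, map_smul, LinearMap.add_apply, LinearMap.smul_apply, X.aa, X.bb, X.ab, X.ba I, if_true,
      smul_eq_mul, mul_one, mul_zero, add_zero, zero_add, mul_neg] at e1 e2 e3 e4
    ext p q
    fin_cases p <;> fin_cases q
    · simp [Matrix.mul_apply] at e1 ⊢
      linear_combination e1
    · simp [Matrix.mul_apply] at e3 ⊢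
      linear_combination e3
    · simp [Matrix.mul_apply] at e2 ⊢
      linear_combination -e2
    · simp [Matrix.mul_apply] at e4 ⊢
      linear_combination -e4
  · have key : ∀ w : V, X.t i • w = -w → (z⁻¹ * m * z) • w = (E1 * m * E1⁻¹) • w := by
      intro w hw
      apply hcan
      have h1 : E1⁻¹ • w = -(E1 • w) := by rw [inv_smul_eq_iff, smul_neg, S1 hw, neg_neg]
      have h2 : (2 : F) • ((z⁻¹ * m * z) • w) = w + E1 • w - E2 • w - E1 • E2 • w := by
        rw [mul_smul, mul_smul, hzinv, ← smul_comm z, mb w hw, zz]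
      have h3 : (2 : F) • ((E1 * m * E1⁻¹) • w) = w + E1 • w - E2 • w - E1 • E2 • w := by
        rw [mul_smul, mul_smul, h1, ← smul_comm E1, ma _ (Pneg (P1 hw))]
        have h5 : E2 • E1 • w = -(E1 • E2 • w) := by rw [S12 hw, neg_neg]
        simp only [smul_add, smul_neg, S1 hw, h5, S1 (P2 hw)]
        abel
      rw [h2, h3]
    have h1 : z⁻¹ * m * z = X.e (fun l => (x (Equiv.swap i j l))⁻¹ * μ (Equiv.swap i j l) * x (Equiv.swap i j l)) := by
      have h2 : X.e x * X.s (Equiv.swap i j) * X.e (fun l => (x (Equiv.swap i j l))⁻¹ * μ (Equiv.swap i j l) *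
          x (Equiv.swap i j l)) = m * (X.e x * X.s (Equiv.swap i j)) := by
        rw [mul_assoc, X.s_e, ← mul_assoc, ← map_mul, hmμ, ← mul_assoc, ← map_mul]
        congr 2
        funext l
        simp only [Pi.mul_apply, Equiv.swap_inv, Equiv.swap_apply_self]
        group
      rw [← hz] at h2
      rw [mul_assoc, ← h2, inv_mul_cancel_left]
    have h2 : E1 * m * E1⁻¹ = X.e (Pi.mulSingle i q1 * μ * (Pi.mulSingle i q1)⁻¹) := by
      rw [map_mul, map_mul, map_inv, hmμ]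
    have h3 := X.single_of_eq I (i := i)
      (y := fun l => (x (Equiv.swap i j l))⁻¹ * μ (Equiv.swap i j l) * x (Equiv.swap i j l))
      (y' := Pi.mulSingle i q1 * μ * (Pi.mulSingle i q1)⁻¹)
      (by rw [← h1, ← h2]; exact key _ hta) (by rw [← h1, ← h2]; exact key _ htb)
    simp only [Equiv.swap_apply_left, Pi.mul_apply, Pi.inv_apply, Pi.mulSingle_eq_same] at h3
    rw [← h3]; group

end Cfsg.Agent.H95.SpT
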