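import Cfsg.Agent.H95.SpFrm
import Cfsg.Agent.H95.PermSyl
import Cfsg.Agent.H95.PSL2

set_option autoImplicit false
set_option linter.unusedSectionVars false

/-!
The Sylow `2`-subgroup `Q ≀ T` of the symplectic group and its normaliser.
-/

namespace Cfsg.Agent.H95.SpT

universe u v w

open Matrix

variable {F : Type u} [Field F] {V : Type v} [AddCommGroup V] [Module F V] {B : LinearMap.BilinForm F V}
  {G : Type w} [Group G] [DistribMulAction G V] [SMulCommClass G F V] {n : ℕ}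

/-- conjugation of a frame -/
lemma Fr.conj (I : Isom B G) {x i j : G} {e1 e2 : V} (R : Fr B x i j e1 e2) (g : G) :
    Fr B (g * x * g⁻¹) (g * i * g⁻¹) (g * j * g⁻¹) (g • e1) (g • e2) := by
  have hfix : ∀ s : G, (∀ w, B w e1 = 0 → B w e2 = 0 → s • w = w) →
      ∀ w, B w (g • e1) = 0 → B w (g • e2) = 0 → (g * s * g⁻¹) • w = w := by
    intro s hs w h1 h2
    have h3 := hs (g⁻¹ • w) (by rw [I.adj, inv_inv]; exact h1) (by rw [I.adj, inv_inv]; exact h2)
    rw [mul_smul, mul_smul, h3, smul_inv_smul]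
  refine ⟨by rw [I.inv]; exact R.e12, ?_, ?_, ?_, ?_, ?_, hfix i R.fi, hfix j R.fj⟩
  · intro w
    rw [mul_smul, mul_smul, R.xf, smul_sub, smul_inv_smul, smul_comm g (2 : F), smul_sub, I.adj, I.adj, inv_inv,
      smul_comm g (B w (g • e2)), smul_comm g (B w (g • e1))]
  · have : g * x * g⁻¹ * (g * x * g⁻¹) = g * (x * x) * g⁻¹ := by group
    rw [this, R.xx]; group
  · have : g * i * g⁻¹ * (g * i * g⁻¹) = g * (i * i) * g⁻¹ := by group
    rw [this, R.ii]
  · have : g * j * g⁻¹ * (g * j * g⁻¹) = g * (j * j) * g⁻¹ := by group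
    rw [this, R.jj]
  · have : g * i * g⁻¹ * (g * j * g⁻¹) = g * (i * j) * g⁻¹ := by group
    rw [this, R.ij]; group

/-- a quaternion pair in `SL₂` -/
structure QP (q1 q2 : SpecialLinearGroup (Fin 2) F) : Prop where
  h1 : q1 * q1 = -1
  h2 : q2 * q2 = -1
  h12 : q1 * q2 = -1 * (q2 * q1)

variable [FaithfulSMul G V] (I : Isom B G) (X : Frm B G n) {q1 q2 : SpecialLinearGroup (Fin 2) F} (hq : QP q1 q2)

namespace Frm

include I hq

/-- reflections of the form `e x * s τ` -/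
theorem refl_es {x : Fin n → SpecialLinearGroup (Fin 2) F} {τ : Equiv.Perm (Fin n)} {i' j' : G} {g1 g2 : V}
    (R' : Fr B (X.e x * X.s τ) i' j' g1 g2) : (∃ i, X.e x * X.s τ = X.t i) ∨
      ∃ i j, i ≠ j ∧ τ = Equiv.swap i j ∧ ∀ l, l ≠ i → l ≠ j → x l = 1 := by
  obtain ⟨z, hz⟩ : ∃ z, z = X.e x * X.s τ := ⟨_, rfl⟩
  rw [← hz] at R' ⊢
  have hzz : z * z = 1 := R'.xx
  have hprod : x * (fun i => x (τ⁻¹ i)) = 1 ∧ τ * τ = 1 := by
    apply X.es_inj I
    rw [← X.es_mul, ← hz, hzz]; simp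
  by_cases hτ : τ = 1
  · left
    have hx2 : ∀ i, x i * x i = 1 := by
      intro i
      have := congrFun hprod.1 i
      rw [hτ] at this
      simpa using this
    have hz1 : z ≠ 1 := by
      intro h
      have h1 := R'.xe1 I
      rw [h, one_smul] at h1
      have h2 : (2 : F) • g1 = 0 := by rw [two_smul]; nth_rewrite 1 [h1]; abel
      have h3 := (smul_eq_zero.1 h2).resolve_left I.two
      have h4 := R'.e12
      rw [h3] at h4; simp at h4
    obtain ⟨i, hi⟩ : ∃ i, x i ≠ 1 := by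
      by_contra hcon
      push Not at hcon
      apply hz1
      rw [hz, hτ, (funext hcon : x = 1)]; simp
    have hxi : x i = -1 := ((ca_sl I.two).inv _ (hx2 i)).resolve_left hi
    refine ⟨i, (X.fr I hq.h1 hq.h2 hq.h12 i).eq_of_neg I R' ?_ ?_⟩
    · rw [hz, hτ, map_one, mul_one, X.ea, hxi]; simp
    · rw [hz, hτ, map_one, mul_one, X.eb, hxi]; simp
  · right
    obtain ⟨i, hi⟩ : ∃ i, τ i ≠ i := by
      by_contra hcon
      push Not at hcon
      exact hτ (Equiv.ext hcon)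
    have za : ∀ l, z • X.a l = (x (τ l) : Matrix (Fin 2) (Fin 2) F) 0 0 • X.a (τ l) +
        (x (τ l) : Matrix (Fin 2) (Fin 2) F) 1 0 • X.b (τ l) := by
      intro l; rw [hz, mul_smul, X.sa, X.ea]
    have zb : ∀ l, z • X.b l = (x (τ l) : Matrix (Fin 2) (Fin 2) F) 0 1 • X.a (τ l) +
        (x (τ l) : Matrix (Fin 2) (Fin 2) F) 1 1 • X.b (τ l) := by
      intro l; rw [hz, mul_smul, X.sb, X.eb]
    have zneg : ∀ w : V, z • (w - z • w) = -(w - z • w) := by
      intro w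
      rw [smul_sub, ← mul_smul, hzz, one_smul]; abel
    have hB : B (X.a i - z • X.a i) (X.b i - z • X.b i) = 2 := by
      have h1 : B (z • X.a i) (z • X.b i) = 1 := by rw [I.inv, X.ab, if_pos rfl]
      have h2 : B (z • X.a i) (X.b i) = 0 := by rw [za, X.ca I, if_neg hi]
      have h3 : B (X.a i) (z • X.b i) = 0 := by rw [I.neg, zb, X.cb I, if_neg hi, neg_zero]
      have h4 : B (X.a i - z • X.a i) = B (X.a i) - B (z • X.a i) := map_sub _ _ _
      rw [h4, LinearMap.sub_apply, map_sub, map_sub, h1, h2, h3, X.ab, if_pos rfl]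
      norm_num
    -- coordinates of elements of the plane
    have key : ∀ l, l ≠ i → l ≠ τ i → ∀ w : V, z • w = -w → B w (X.a l) = 0 ∧ B w (X.b l) = 0 := by
      intro l hl1 hl2 w hw
      have hp := R'.plane I (zneg (X.a i)) (zneg (X.b i)) hw
      rw [hB] at hp
      have hαa : B (X.a i - z • X.a i) (X.a l) = 0 := by
        have h4 : B (X.a i - z • X.a i) = B (X.a i) - B (z • X.a i) := map_sub _ _ _
        rw [h4, LinearMap.sub_apply, X.aa, za, X.cb I, if_neg (Ne.symm hl2), sub_zero]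
      have hαb : B (X.a i - z • X.a i) (X.b l) = 0 := by
        have h4 : B (X.a i - z • X.a i) = B (X.a i) - B (z • X.a i) := map_sub _ _ _
        rw [h4, LinearMap.sub_apply, X.ab, if_neg (Ne.symm hl1), za, X.ca I, if_neg (Ne.symm hl2), sub_zero]
      have hβa : B (X.b i - z • X.b i) (X.a l) = 0 := by
        have h4 : B (X.b i - z • X.b i) = B (X.b i) - B (z • X.b i) := map_sub _ _ _
        rw [h4, LinearMap.sub_apply, X.ba I, if_neg (Ne.symm hl1), zb, X.cb I, if_neg (Ne.symm hl2), sub_zero]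
      have hβb : B (X.b i - z • X.b i) (X.b l) = 0 := by
        have h4 : B (X.b i - z • X.b i) = B (X.b i) - B (z • X.b i) := map_sub _ _ _
        rw [h4, LinearMap.sub_apply, X.bb, zb, X.ca I, if_neg (Ne.symm hl2), sub_zero]
      constructor
      · have h5 := congrArg (fun u => B u (X.a l)) hp
        simp only [map_sub, map_smul, LinearMap.sub_apply, LinearMap.smul_apply, smul_eq_mul] at h5 hαa hβa
        rw [hαa, hβa, mul_zero, mul_zero, sub_zero] at h5
        exact (mul_eq_zero.1 h5).resolve_left I.two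
      · have h5 := congrArg (fun u => B u (X.b l)) hp
        simp only [map_sub, map_smul, LinearMap.sub_apply, LinearMap.smul_apply, smul_eq_mul] at h5 hαb hβb
        rw [hαb, hβb, mul_zero, mul_zero, sub_zero] at h5
        exact (mul_eq_zero.1 h5).resolve_left I.two
    have hfix : ∀ l, l ≠ i → l ≠ τ i → τ l = l ∧ x l = 1 := by
      intro l hl1 hl2
      obtain ⟨h1, h2⟩ := key l hl1 hl2 _ (zneg (X.a l))
      obtain ⟨h3, h4⟩ := key l hl1 hl2 _ (zneg (X.b l))
      rw [za] at h1 h2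
      rw [zb] at h3 h4
      simp only [map_sub, LinearMap.sub_apply, X.ca I, X.cb I, X.aa, X.ab, X.bb, X.ba I, if_true] at h1 h2 h3 h4
      have hτl : τ l = l := by
        by_contra hne
        rw [if_neg hne] at h2
        simp at h2
      rw [if_pos hτl] at h1 h2 h3 h4
      rw [hτl] at h1 h2 h3 h4
      refine ⟨hτl, ?_⟩
      apply Subtype.ext
      ext p q
      fin_cases p <;> fin_cases q
      · show (x l : Matrix (Fin 2) (Fin 2) F) 0 0 = 1
        linear_combination -h2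
      · show (x l : Matrix (Fin 2) (Fin 2) F) 0 1 = 0
        linear_combination -h4
      · show (x l : Matrix (Fin 2) (Fin 2) F) 1 0 = 0
        linear_combination h1
      · show (x l : Matrix (Fin 2) (Fin 2) F) 1 1 = 1
        linear_combination h3
    refine ⟨i, τ i, Ne.symm hi, ?_, fun l h1 h2 => (hfix l h1 h2).2⟩
    ext l : 1
    by_cases h1 : l = i
    · rw [h1, Equiv.swap_apply_left]
    by_cases h2 : l = τ i
    · rw [h2, Equiv.swap_apply_right, ← Equiv.Perm.mul_apply, hprod.2, Equiv.Perm.one_apply]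
    · rw [Equiv.swap_apply_of_ne_of_ne h1 h2]
      exact (hfix l h1 h2).1

end Frm

/-- the wreath product -/
def SS (X : Frm B G n) (Q : Subgroup (SpecialLinearGroup (Fin 2) F)) (T : Subgroup (Equiv.Perm (Fin n))) :
    Subgroup G where
  carrier := {g | ∃ (v : Fin n → SpecialLinearGroup (Fin 2) F) (τ : Equiv.Perm (Fin n)), (∀ i, v i ∈ Q) ∧ τ ∈ T ∧
    g = X.e v * X.s τ}
  mul_mem' := by
    rintro g h ⟨v, τ, hv, hτ, rfl⟩ ⟨v', τ', hv', hτ', rfl⟩
    rw [X.es_mul]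
    exact ⟨_, _, fun i => mul_mem (hv i) (hv' _), mul_mem hτ hτ', rfl⟩
  one_mem' := ⟨1, 1, fun i => one_mem _, one_mem _, by simp⟩
  inv_mem' := by
    rintro g ⟨v, τ, hv, hτ, rfl⟩
    rw [X.es_inv]
    exact ⟨_, _, fun i => inv_mem (hv _), inv_mem hτ, rfl⟩

variable {Q : Subgroup (SpecialLinearGroup (Fin 2) F)} {T : Subgroup (Equiv.Perm (Fin n))}

omit I hq in
lemma e_mem_SS {v : Fin n → SpecialLinearGroup (Fin 2) F} (hv : ∀ i, v i ∈ Q) : X.e v ∈ SS X Q T :=
  ⟨v, 1, hv, one_mem _, by simp⟩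

omit I hq in
lemma s_mem_SS {τ : Equiv.Perm (Fin n)} (hτ : τ ∈ T) : X.s τ ∈ SS X Q T :=
  ⟨1, τ, fun i => one_mem _, hτ, by simp⟩

omit I hq in
lemma single_mem_SS {q : SpecialLinearGroup (Fin 2) F} (hq : q ∈ Q) (i : Fin n) :
    X.e (Pi.mulSingle i q) ∈ SS X Q T := by
  apply e_mem_SS
  intro j
  by_cases h : j = i
  · subst h; rwa [Pi.mulSingle_eq_same]
  · rw [Pi.mulSingle_eq_of_ne h]; exact one_mem _

include I in
lemma es_mem_SS {v : Fin n → SpecialLinearGroup (Fin 2) F} {τ : Equiv.Perm (Fin n)} :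
    X.e v * X.s τ ∈ SS X Q T ↔ (∀ i, v i ∈ Q) ∧ τ ∈ T := by
  constructor
  · rintro ⟨v', τ', hv', hτ', h⟩
    obtain ⟨rfl, rfl⟩ := X.es_inj I h
    exact ⟨hv', hτ'⟩
  · rintro ⟨hv, hτ⟩
    exact ⟨v, τ, hv, hτ, rfl⟩

include I in
lemma e_mem_SS' {v : Fin n → SpecialLinearGroup (Fin 2) F} : X.e v ∈ SS X Q T ↔ ∀ i, v i ∈ Q := by
  have := es_mem_SS I X (Q := Q) (T := T) (v := v) (τ := 1)
  rw [map_one, mul_one] at this
  rw [this]
  exact ⟨fun h => h.1, fun h => ⟨h, one_mem _⟩⟩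

include I in
/-- an element of `G` mapping reflections to reflections -/
lemma of_perm {g : G} {π : Fin n → Fin n} (hg : ∀ i, g * X.t i * g⁻¹ = X.t (π i)) (hq : QP q1 q2) :
    ∃ (v : Fin n → SpecialLinearGroup (Fin 2) F) (σ : Equiv.Perm (Fin n)), (∀ i, σ i = π i) ∧ g = X.e v * X.s σ := by
  have t_inj : ∀ i j, X.t i = X.t j → i = j := by
    intro i j h
    by_contra hne
    have h1 := X.ta i i
    rw [h, X.ta, if_pos rfl, if_neg (Ne.symm hne)] at h1
    have h2 : (2 : F) • X.a i = 0 := by rw [two_smul]; nth_rewrite 1 [h1]; abel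
    have h3 := (smul_eq_zero.1 h2).resolve_left I.two
    have h4 := X.ab i i
    rw [h3] at h4; simp at h4
  have hinj : Function.Injective π := by
    intro i j h
    apply t_inj
    have h1 := hg i
    rw [h, ← hg j] at h1
    exact mul_left_cancel (mul_right_cancel h1)
  apply X.full I hinj
  intro i
  have h1 : ∀ w : V, X.t i • w = -w → X.t (π i) • (g • w) = -(g • w) := by
    intro w hw
    rw [← hg, ← mul_smul]
    have : g * X.t i * g⁻¹ * g = g * X.t i := by group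
    rw [this, mul_smul, hw, smul_neg]
  have R := X.fr I hq.h1 hq.h2 hq.h12 (π i)
  refine ⟨B (g • X.a i) (X.b (π i)), -B (g • X.a i) (X.a (π i)), B (g • X.b i) (X.b (π i)),
    -B (g • X.b i) (X.a (π i)), ?_, ?_⟩
  · rw [neg_smul, ← sub_eq_add_neg]
    exact R.of_xneg I (h1 _ (by rw [X.ta, if_pos rfl]))
  · rw [neg_smul, ← sub_eq_add_neg]
    exact R.of_xneg I (h1 _ (by rw [X.tb, if_pos rfl]))

include I hq in
/-- **the normaliser** -/
theorem norm_SS [Finite F] (h1Q : q1 ∈ Q)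
    (hT : ∀ ν : Equiv.Perm (Fin n), (∀ τ ∈ T, ν * τ * ν⁻¹ ∈ T) → ν ∈ T) (hTt : ∀ i j : Fin n, ∃ τ ∈ T, τ i = j)
    (i0 : Fin n) {g : G} (hg : ∀ σ ∈ SS X Q T, g * σ * g⁻¹ ∈ SS X Q T) :
    ∃ c : SpecialLinearGroup (Fin 2) F, (∀ q ∈ Q, c * q * c⁻¹ ∈ Q) ∧ ∃ σ ∈ SS X Q T, g = X.e (fun _ => c) * σ := by
  have hπ : ∀ i, ∃ j, g * X.t i * g⁻¹ = X.t j := by
    intro i
    have hff : X.e (Pi.mulSingle i q1) * X.e (Pi.mulSingle i q1) = X.t i := by
      rw [← map_mul, ← Pi.mulSingle_mul, hq.h1]; rfl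
    obtain ⟨x, τ, hx, hτ, hxτ⟩ := hg _ (single_mem_SS X (T := T) h1Q i)
    have h1 : g * X.t i * g⁻¹ = X.e (x * fun i => x (τ⁻¹ i)) * X.s (τ * τ) := by
      rw [← X.es_mul, ← hxτ, ← hff]; group
    have R := (X.fr I hq.h1 hq.h2 hq.h12 i).conj I g
    rw [h1] at R ⊢
    rcases X.refl_es I hq R with h | ⟨k, l, hkl, h, -⟩
    · exact h
    · exfalso
      have h2 := congrArg Equiv.Perm.sign h
      rw [map_mul, Equiv.Perm.sign_swap hkl] at h2
      rcases Int.units_eq_one_or (Equiv.Perm.sign τ) with h3 | h3 <;> rw [h3] at h2 <;> exact absurd h2 (by decide)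
  choose π hπ using hπ
  obtain ⟨y, σ, hσπ, hgy⟩ := of_perm I X hπ hq
  have hmul : ∀ (v : Fin n → SpecialLinearGroup (Fin 2) F) (τ : Equiv.Perm (Fin n)),
      g * (X.e v * X.s τ) * g⁻¹ = X.e (y * (fun i => v (σ⁻¹ i)) * fun i => (y ((σ * τ⁻¹ * σ⁻¹) i))⁻¹) *
        X.s (σ * τ * σ⁻¹) := by
    intro v τ
    rw [hgy, X.es_mul, X.es_inv, X.es_mul]
    congr 2
  have hσT : σ ∈ T := by
    apply hT
    intro τ hτ
    have h1 := hg _ (s_mem_SS X (Q := Q) hτ)
    have h2 := hmul 1 τ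
    rw [map_one, one_mul] at h2
    rw [h2] at h1
    exact ((es_mem_SS I X).1 h1).2
  have hyN : ∀ i, ∀ q ∈ Q, y i * q * (y i)⁻¹ ∈ Q := by
    intro i q hqQ
    have h1 := hg _ (single_mem_SS X (T := T) hqQ (σ⁻¹ i))
    have h2 := hmul (Pi.mulSingle (σ⁻¹ i) q) 1
    rw [map_one, mul_one] at h2
    rw [h2] at h1
    have h3 := ((es_mem_SS I X).1 h1).1 i
    simpa using h3
  have hyQ : ∀ i j, y i * (y j)⁻¹ ∈ Q := by
    intro i j
    obtain ⟨τ, hτ, hτi⟩ := hTt (σ⁻¹ i) (σ⁻¹ j)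
    have h1 := hg _ (s_mem_SS X (Q := Q) (inv_mem hτ))
    have h2 := hmul 1 τ⁻¹
    rw [map_one, one_mul] at h2
    rw [h2] at h1
    have h3 := ((es_mem_SS I X).1 h1).1 i
    simp only [Pi.mul_apply, Pi.one_apply, mul_one, Equiv.Perm.mul_apply, inv_inv] at h3
    rw [hτi] at h3
    simpa using h3
  refine ⟨y i0, hyN i0, X.e (fun i => (y i0)⁻¹ * y i) * X.s σ, (es_mem_SS I X).2 ⟨fun i => ?_, hσT⟩, ?_⟩
  · have h1 := hyQ i i0
    have hinv : ∀ q ∈ Q, (y i0)⁻¹ * q * y i0 ∈ Q := norm_inv (hyN i0)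
    have h2 := hinv _ h1
    have e : (y i0)⁻¹ * (y i * (y i0)⁻¹) * y i0 = (y i0)⁻¹ * y i := by group
    rwa [e] at h2
  · rw [← mul_assoc, ← map_mul, hgy]
    congr 2
    funext i
    simp

end Cfsg.Agent.H95.SpT
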