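import Cfsg.Agent.H95.SpP2
import Cfsg.Agent.H62.Mazurov
import Cfsg.Agent.H4.Final
import Cfsg.Agent.H95.ProdPro

set_option autoImplicit false
set_option linter.unusedSectionVars false

/-!
Groups of isometries containing quaternion reflections: either these commute or there is a transvection.
-/

namespace Cfsg.Agent.H95.SpT

universe u v w

section grp

/-- the odd order elements of a central extension of an odd order group by a group of order two -/
theorem central_two {X : Type u} [Group X] [Finite X] (c : X) (hc : ∀ g, c * g = g * c) (hc2 : c * c = 1)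
    (hodd : Odd (Subgroup.zpowers c).index) : ∃ N : Subgroup X, Odd (Nat.card N) ∧ ∀ g, Odd (orderOf g) → g ∈ N := by
  by_cases h1 : c = 1
  · refine ⟨⊤, ?_, fun g _ => Subgroup.mem_top g⟩
    rw [h1, Subgroup.zpowers_one_eq_bot, Subgroup.index_bot] at hodd
    rwa [Subgroup.card_top]
  have hcard : Nat.card (Subgroup.zpowers c) = 2 := by
    rw [Nat.card_zpowers]
    exact orderOf_eq_prime (by rw [pow_two, hc2]) h1
  have hn : (Subgroup.zpowers c).Normal := ⟨by
    rintro _ ⟨k, rfl⟩ g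
    refine ⟨k, ?_⟩
    have : Commute (c ^ k) g := (show Commute c g from hc g).zpow_left k
    show c ^ k = g * c ^ k * g⁻¹
    rw [← this.eq, mul_inv_cancel_right]⟩
  obtain ⟨N, hN⟩ := Subgroup.exists_right_complement'_of_coprime (N := Subgroup.zpowers c) (by
    rw [hcard]; exact Nat.coprime_two_left.2 hodd)
  have hNc : Nat.card N = (Subgroup.zpowers c).index := by
    have h2 := hN.card_mul_card
    have h3 := (Subgroup.zpowers c).card_mul_index
    apply Nat.eq_of_mul_eq_mul_left (show 0 < Nat.card (Subgroup.zpowers c) from Nat.card_pos)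
    rw [h2, h3]
  have hNi : N.index = 2 := by
    have h2 := N.card_mul_index
    have h3 := (Subgroup.zpowers c).card_mul_index
    rw [hcard] at h3
    rw [hNc] at h2
    have hpos : 0 < (Subgroup.zpowers c).index := Nat.pos_of_ne_zero Subgroup.index_ne_zero_of_finite
    apply Nat.eq_of_mul_eq_mul_left hpos
    rw [h2, ← h3, mul_comm]
  refine ⟨N, by rw [hNc]; exact hodd, fun g hg => ?_⟩
  obtain ⟨m, hm⟩ := hg
  have h2 : g = (g ^ 2) ^ (m + 1) := by
    have h3 : g ^ (2 * m + 1) = 1 := by rw [← hm]; exact pow_orderOf_eq_one g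
    calc g = g * g ^ (2 * m + 1) := by rw [h3, mul_one]
      _ = g ^ (2 * (m + 1)) := by rw [← pow_succ']; congr 1
      _ = _ := by rw [pow_mul]
  rw [h2]
  exact pow_mem (Subgroup.sq_mem_of_index_two hNi g) _

/-- two involutions -/
theorem dihedral {X : Type u} [Group X] [Finite X] {x y : X} (hx : x * x = 1) (hy : y * y = 1) :
    ∃ (b a l : ℕ), b = 2 * l + 1 ∧ (x * y) ^ (2 ^ a * b) = 1 ∧
      x * ((x * y) ^ (-(l : ℤ)) * y * ((x * y) ^ (-(l : ℤ)))⁻¹) = (x * y) ^ b ∧
      y * ((x * y) ^ (-(l : ℤ)) * y * ((x * y) ^ (-(l : ℤ)))⁻¹) = (x * y) ^ (2 * l) := by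
  obtain ⟨a, b, hb, hab⟩ := Nat.exists_eq_two_pow_mul_odd (orderOf_pos (x * y)).ne'
  obtain ⟨l, hl⟩ := hb
  refine ⟨b, a, l, hl, by rw [← hab]; exact pow_orderOf_eq_one _, ?_, ?_⟩
  · set d := x * y with hd
    have hyx : y * x = d⁻¹ := by
      rw [hd, mul_inv_rev, inv_eq_of_mul_eq_one_left hx, inv_eq_of_mul_eq_one_left hy]
    have h1 : x * d * x⁻¹ = d⁻¹ := by
      have : x * d * x⁻¹ = (x * x) * (y * x⁻¹) := by rw [hd]; group
      rw [this, hx, one_mul, inv_eq_of_mul_eq_one_left hx, hyx]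
    have h2 : x * d ^ (-(l : ℤ)) * x⁻¹ = d ^ (l : ℤ) := by
      rw [← conj_zpow, h1, inv_zpow, zpow_neg, inv_inv]
    have h3 : x * (d ^ (-(l : ℤ)) * y * (d ^ (-(l : ℤ)))⁻¹) = (x * d ^ (-(l : ℤ)) * x⁻¹) * (x * y) * (d ^ (-(l : ℤ)))⁻¹ := by
      group
    rw [h3, h2, ← hd, ← zpow_neg, neg_neg, ← zpow_add_one, ← zpow_add, ← zpow_natCast]
    congr 1
    rw [hl]; push_cast; ring
  · set d := x * y with hd
    have hyx : y * x = d⁻¹ := by
      rw [hd, mul_inv_rev, inv_eq_of_mul_eq_one_left hx, inv_eq_of_mul_eq_one_left hy]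
    have h1 : y * d * y⁻¹ = d⁻¹ := by
      have : y * d * y⁻¹ = (y * x) * (y * y⁻¹) := by rw [hd]; group
      rw [this, mul_inv_cancel, mul_one, hyx]
    have h2 : y * d ^ (-(l : ℤ)) * y⁻¹ = d ^ (l : ℤ) := by
      rw [← conj_zpow, h1, inv_zpow, zpow_neg, inv_inv]
    have h3 : y * (d ^ (-(l : ℤ)) * y * (d ^ (-(l : ℤ)))⁻¹) = (y * d ^ (-(l : ℤ)) * y⁻¹) * (y * y) * (d ^ (-(l : ℤ)))⁻¹ := by
      group
    rw [h3, h2, hy, mul_one, ← zpow_neg, neg_neg, ← zpow_add, ← zpow_natCast]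
    congr 1
    push_cast; ring

end grp

variable {F : Type u} [Field F] {V : Type v} [AddCommGroup V] [Module F V] {B : LinearMap.BilinForm F V}
  {H : Type w} [Group H] [DistribMulAction H V] [SMulCommClass H F V]

namespace Fr

variable (I : Isom B H) {x i j : H} {e1 e2 : V} (R : Fr B x i j e1 e2)

include I R

/-- a commuting reflection which is `-1` on the plane -/
lemma eq_of_neg [FaithfulSMul H V] {y i' j' : H} {g1 g2 : V} (R' : Fr B y i' j' g1 g2) (h1 : y • e1 = -e1)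
    (h2 : y • e2 = -e2) : y = x := by
  apply FaithfulSMul.eq_of_smul_eq_smul (α := V)
  intro w
  rw [R'.xf' I w, R.xf' I w]
  congr 2
  have hpn : y • pr B g1 g2 w = - pr B g1 g2 w := by
    rw [pr, smul_sub, smul_comm y (B w g2) g1, smul_comm y (B w g1) g2, R'.xe1 I, R'.xe2 I, smul_neg, smul_neg]
    abel
  have h3 := R'.plane I h1 h2 hpn
  rw [R.e12, one_smul] at h3
  have h4 : ∀ e, y • e = -e → B (pr B g1 g2 w) e = B w e := by
    intro e he
    have h5 : B (w - pr B g1 g2 w) e = 0 := by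
      rw [R'.of_xneg I he]
      exact R'.B_fix_pr I (R'.xsub I w)
    have h6 : B (w - pr B g1 g2 w) = B w - B (pr B g1 g2 w) := map_sub _ _ _
    rw [h6, LinearMap.sub_apply, sub_eq_zero] at h5
    exact h5.symm
  rw [h3, h4 e1 h1, h4 e2 h2]; rfl

/-- commuting reflections are equal or orthogonal -/
lemma eq_or_fix [FaithfulSMul H V] {y i' j' : H} {g1 g2 : V} (R' : Fr B y i' j' g1 g2) (hxy : x * y = y * x) :
    y = x ∨ (y • e1 = e1 ∧ y • e2 = e2) := by
  have yy : ∀ w : V, y • y • w = w := fun w => by rw [← mul_smul, R'.xx, one_smul]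
  have hyinv : y⁻¹ = y := inv_eq_of_mul_eq_one_left R'.xx
  have hs : ∀ a b, B (y • a) b = B a (y • b) := fun a b => by rw [I.adj, hyinv]
  have h0 : ∀ a, B (y • a) a = 0 := by
    intro a
    have h1 := hs a a
    rw [I.neg a (y • a)] at h1
    have : (2 : F) * B (y • a) a = 0 := by linear_combination h1
    exact (mul_eq_zero.1 this).resolve_left I.two
  have hxe : ∀ e : V, x • e = -e → x • (y • e) = -(y • e) := by
    intro e he
    rw [← mul_smul, hxy, mul_smul, he, smul_neg]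
  obtain ⟨l, hl⟩ : ∃ l : F, l = B (y • e1) e2 := ⟨_, rfl⟩
  have t1 : y • e1 = l • e1 := by
    rw [R.of_xneg I (hxe e1 (R.xe1 I)), pr, h0, hl, zero_smul, sub_zero]
  have t2 : y • e2 = l • e2 := by
    rw [R.of_xneg I (hxe e2 (R.xe2 I)), pr, h0, zero_smul, zero_sub, I.neg, ← hs, ← hl, neg_smul, neg_neg]
  have hl2 : l * l = 1 := by
    have h1 := yy e1
    rw [t1, smul_comm y l, t1, smul_smul] at h1
    have h2 := congrArg (fun w => B w e2) h1
    simp only [map_smul, LinearMap.smul_apply, R.e12, smul_eq_mul, mul_one] at h2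
    exact h2
  rcases mul_self_eq_one_iff.1 hl2 with h | h
  · right
    rw [t1, t2, h, one_smul, one_smul]; exact ⟨rfl, rfl⟩
  · left
    apply R.eq_of_neg I R'
    · rw [t1, h, neg_one_smul]
    · rw [t2, h, neg_one_smul]

end Fr

/-- the product of two commuting reflections -/
lemma Loc.pairU [FaithfulSMul H V] (I : Isom B H) {K : Subgroup H} {x i j : H} {e1 e2 p1 p2 : V}
    (L : Loc B K x i j e1 e2 p1 p2) {y i' j' : H} {g1 g2 : V} (R' : Fr B y i' j' g1 g2) (hxy : x * y = y * x)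
    (hyK : y ∈ K) (hne : y ≠ x) : B p1 p2 ≠ 0 ∧ ∀ u, InU F e1 e2 p1 p2 u → (x * y) • u = -u := by
  obtain ⟨h1, h2⟩ := (L.fr.eq_or_fix I R' hxy).resolve_left hne
  obtain ⟨a1, a2⟩ := R'.of_xfix I h1
  obtain ⟨b1, b2⟩ := R'.of_xfix I h2
  have gU : ∀ g, y • g = -g → InU F e1 e2 p1 p2 g := by
    intro g hg
    have h3 : InU F e1 e2 p1 p2 (y • g - g) := L.kU y hyK g
    have h4 := h3.smul (-(2 : F)⁻¹)
    have h5 : (-(2 : F)⁻¹) • (y • g - g) = g := by
      have : y • g - g = (-2 : F) • g := by rw [hg, neg_smul, two_smul]; abel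
      rw [this, smul_smul]
      have : -(2 : F)⁻¹ * -2 = 1 := by
        rw [neg_mul_neg]; exact inv_mul_cancel₀ I.two
      rw [this, one_smul]
    rwa [h5] at h4
  have xg1 : x • g1 = g1 := by
    apply L.fr.xfix
    · rw [I.neg, a1, neg_zero]
    · rw [I.neg, b1, neg_zero]
  have xg2 : x • g2 = g2 := by
    apply L.fr.xfix
    · rw [I.neg, a2, neg_zero]
    · rw [I.neg, b2, neg_zero]
  obtain ⟨a, b, hab⟩ := L.inP I (gU g1 (R'.xe1 I)) xg1
  obtain ⟨c, k, hck⟩ := L.inP I (gU g2 (R'.xe2 I)) xg2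
  have hB : (a * k - b * c) * B p1 p2 = 1 := by
    rw [← R'.e12, hab, hck]
    simp only [map_add, map_smul, LinearMap.add_apply, LinearMap.smul_apply, smul_eq_mul, I.alt]
    rw [I.neg p2 p1]; ring
  have hp : B p1 p2 ≠ 0 := by rintro h; rw [h, mul_zero] at hB; exact zero_ne_one hB
  have hdet : a * k - b * c ≠ 0 := by rintro h; rw [h, zero_mul] at hB; exact zero_ne_one hB
  have q1 : (a * k - b * c) • p1 = k • g1 - b • g2 := by
    rw [hab, hck]
    simp only [smul_add, smul_smul, sub_smul]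
    rw [mul_comm k a, mul_comm k b]
    abel
  have q2 : (a * k - b * c) • p2 = a • g2 - c • g1 := by
    rw [hab, hck]
    simp only [smul_add, smul_smul, sub_smul]
    rw [mul_comm c a, mul_comm c b]
    abel
  have yp1 : y • p1 = -p1 := by
    have h3 : (a * k - b * c) • (y • p1) = (a * k - b * c) • (-p1) := by
      rw [smul_neg, ← smul_comm y, q1, smul_sub, smul_comm y k, smul_comm y b, R'.xe1 I, R'.xe2 I, smul_neg, smul_neg]
      abel
    exact smul_right_injective V hdet h3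
  have yp2 : y • p2 = -p2 := by
    have h3 : (a * k - b * c) • (y • p2) = (a * k - b * c) • (-p2) := by
      rw [smul_neg, ← smul_comm y, q2, smul_sub, smul_comm y a, smul_comm y c, R'.xe1 I, R'.xe2 I, smul_neg, smul_neg]
      abel
    exact smul_right_injective V hdet h3
  refine ⟨hp, ?_⟩
  rintro u ⟨a', b', c', k', rfl⟩
  have e : ∀ (g : H), g • (a' • e1 + b' • e2 + (c' • p1 + k' • p2)) =
      a' • g • e1 + b' • g • e2 + (c' • g • p1 + k' • g • p2) := by
    intro g
    rw [smul_add, smul_add, smul_add, smul_comm g a', smul_comm g b', smul_comm g c', smul_comm g k']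
  rw [mul_smul, e, h1, h2, yp1, yp2, smul_neg c' p1, smul_neg k' p2, smul_add, smul_add, smul_add,
    smul_neg x (c' • p1), smul_neg x (k' • p2), smul_comm x a', smul_comm x b', smul_comm x c', smul_comm x k',
    L.xp1, L.xp2, L.fr.xe1 I, L.fr.xe2 I, smul_neg, smul_neg]
  abel

/-- a class of reflections -/
structure Cl (B : LinearMap.BilinForm F V) (Z : H → Prop) : Prop where
  fr : ∀ x, Z x → ∃ (i j : H) (e1 e2 : V), Fr B x i j e1 e2
  conj : ∀ x, Z x → ∀ h : H, Z (h * x * h⁻¹)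
  comm : ∀ x y, Z x → Z y → ∀ k : ℕ, (x * y) ^ (2 ^ k) = 1 → x * y = y * x

variable [Finite H] [FaithfulSMul H V] (I : Isom B H) {Z : H → Prop} (hZ : Cl B Z)

include I hZ

/-- structure of products of two reflections -/
theorem Cl.prod {x y : H} (hx : Z x) (hy : Z y) : ∃ (b l : ℕ) (u : H), b = 2 * l + 1 ∧ u ∈ Subgroup.zpowers (x * y) ∧
    x * (u * y * u⁻¹) = (x * y) ^ b ∧ y * (u * y * u⁻¹) = (x * y) ^ (2 * l) ∧
    x * (u * y * u⁻¹) = (u * y * u⁻¹) * x ∧ (x * y) ^ (2 * b) = 1 := by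
  obtain ⟨i, j, e1, e2, R⟩ := hZ.fr x hx
  obtain ⟨i', j', f1, f2, R'⟩ := hZ.fr y hy
  obtain ⟨b, a, l, hb, h1, h2, h3⟩ := dihedral R.xx R'.xx
  have hc := hZ.comm x _ hx (hZ.conj y hy ((x * y) ^ (-(l : ℤ)))) a (by rw [h2, ← pow_mul, mul_comm, h1])
  refine ⟨b, l, _, hb, zpow_mem (Subgroup.mem_zpowers _) _, h2, h3, hc, ?_⟩
  rw [mul_comm 2 b, pow_mul, ← h2, pow_two]
  set y' := (x * y) ^ (-(l : ℤ)) * y * ((x * y) ^ (-(l : ℤ)))⁻¹ with hy'
  have hyy : y' * y' = 1 := by
    have : y' * y' = (x * y) ^ (-(l : ℤ)) * (y * y) * ((x * y) ^ (-(l : ℤ)))⁻¹ := by rw [hy']; group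
    rw [this, R'.xx]; group
  calc x * y' * (x * y') = x * (y' * x) * y' := by group
    _ = x * (x * y') * y' := by rw [hc]
    _ = (x * x) * (y' * y') := by group
    _ = 1 := by rw [R.xx, hyy, one_mul]

omit [Finite H] [FaithfulSMul H V] I hZ in
lemma odd_sq {X : Type w} [Group X] {d : X} (hd : Odd (orderOf d)) (h : d * d = 1) : d = 1 := by
  have h2 : orderOf d ∣ 2 := orderOf_dvd_of_pow_eq_one (by rw [pow_two, h])
  rcases (Nat.dvd_prime Nat.prime_two).1 h2 with h | h
  · exact orderOf_eq_one_iff.1 h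
  · rw [h] at hd; exact absurd hd (by decide)

omit [Finite H] [FaithfulSMul H V] hZ in
lemma frx1 {x i j : H} {e1 e2 : V} (R : Fr B x i j e1 e2) : x ≠ 1 := by
  intro h
  have h1 := R.xe1 I
  rw [h, one_smul] at h1
  have h2 : (2 : F) • e1 = 0 := by
    rw [two_smul]; nth_rewrite 1 [h1]; abel
  have h3 := (smul_eq_zero.1 h2).resolve_left I.two
  have h4 := R.e12
  rw [h3] at h4; simp at h4

/-- an odd order normal subgroup of a local subgroup -/
theorem Cl.exists_core {K : Subgroup H} {x i j : H} {e1 e2 p1 p2 : V} (L : Loc B K x i j e1 e2 p1 p2) {y : H}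
    (hx : Z x) (hy : Z y) (hyK : y ∈ K) (hodd : Odd (orderOf (x * y))) :
    ∃ N : Subgroup H, N ≤ K ∧ (∀ k ∈ K, ∀ n ∈ N, k * n * k⁻¹ ∈ N) ∧ Odd (Nat.card N) ∧ x * y ∈ N := by
  obtain ⟨i', j', f1, f2, R'⟩ := hZ.fr y hy
  have xx := L.fr.xx
  have yy := R'.xx
  have hxinv : x⁻¹ = x := inv_eq_of_mul_eq_one_left xx
  have hyinv : y⁻¹ = y := inv_eq_of_mul_eq_one_left yy
  have hxK := L.kx
  have x1 := frx1 I L.fr
  -- `y` is conjugate to `x`
  obtain ⟨u, hu, hux⟩ : ∃ u ∈ K, u * x * u⁻¹ = y := by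
    obtain ⟨m, hm⟩ := hodd
    refine ⟨(x * y) ^ m, pow_mem (mul_mem hxK hyK) m, ?_⟩
    set d := x * y with hd
    have h1 : x * d * x⁻¹ = d⁻¹ := by
      have : x * d * x⁻¹ = (x * x) * (y * x⁻¹) := by rw [hd]; group
      rw [this, xx, one_mul, hd, mul_inv_rev, hyinv]
    have h2 : x⁻¹ * d ^ m * x = (d ^ m)⁻¹ := by
      have : x⁻¹ * d ^ m * x = x * d ^ m * x⁻¹ := by rw [hxinv]
      rw [this, ← conj_pow, h1, inv_pow]
    have h3 : d ^ m * x * (d ^ m)⁻¹ = x * (x⁻¹ * d ^ m * x) * (d ^ m)⁻¹ := by group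
    rw [h3, h2]
    have h4 : d ^ (2 * m + 1) = 1 := by rw [← hm]; exact pow_orderOf_eq_one d
    have h5 : (d ^ m)⁻¹ * (d ^ m)⁻¹ = d := by
      rw [← mul_inv_rev, inv_eq_iff_mul_eq_one, ← pow_add, ← pow_succ, ← two_mul, h4]
    rw [mul_assoc, h5, hd, ← mul_assoc, xx, one_mul]
  set xK : K := ⟨x, hxK⟩ with hxKd
  by_cases hcase : ∀ k ∈ K, Odd (orderOf (x * (k * x * k⁻¹)))
  · have hO : H4.OddComm xK := by
      intro g
      rw [← Subgroup.orderOf_coe]
      have : ((xK * g * xK⁻¹ * g⁻¹ : K) : H) = x * (g * x * (g : H)⁻¹) := by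
        show x * g * x⁻¹ * (g : H)⁻¹ = _
        rw [hxinv]; group
      rw [this]
      exact hcase g g.2
    have h2 : orderOf xK = 2 := orderOf_eq_prime (by rw [pow_two]; exact Subtype.ext xx)
      (fun h => x1 (congrArg Subtype.val h))
    have h3 := H4.zstar h2 hO ⟨u, hu⟩
    refine ⟨(Cfsg.pPrimeCore 2 K).map K.subtype, ?_, ?_, ?_, ?_⟩
    · rintro _ ⟨n, -, rfl⟩; exact n.2
    · rintro k hk _ ⟨n, hn, rfl⟩
      exact ⟨⟨k, hk⟩ * n * ⟨k, hk⟩⁻¹, (inferInstance : (Cfsg.pPrimeCore 2 K).Normal).conj_mem n hn _, rfl⟩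
    · rw [Subgroup.card_map_of_injective K.subtype_injective]
      exact H4.odd_card_pPrimeCore_two
    · refine ⟨_, h3, ?_⟩
      show x * u * x⁻¹ * u⁻¹ = x * y
      rw [← hux, hxinv]; group
  · push Not at hcase
    obtain ⟨k0, hk0, hk0'⟩ := hcase
    obtain ⟨b0, l0, u0, hb0, hu0, h01, -, h03, h04⟩ := Cl.prod I hZ hx (hZ.conj x hx k0)
    set y2 := u0 * (k0 * x * k0⁻¹) * u0⁻¹ with hy2
    have hzp : ∀ k ∈ K, Subgroup.zpowers (x * (k * x * k⁻¹)) ≤ K := fun k hk => by
      rw [Subgroup.zpowers_le]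
      exact mul_mem hxK (mul_mem (mul_mem hk hxK) (inv_mem hk))
    have hu0K : u0 ∈ K := hzp k0 hk0 hu0
    have hy2K : y2 ∈ K := mul_mem (mul_mem hu0K (mul_mem (mul_mem hk0 hxK) (inv_mem hk0))) (inv_mem hu0K)
    have hy2Z : Z y2 := hZ.conj _ (hZ.conj x hx k0) u0
    have hy2x : y2 ≠ x := by
      intro h
      apply hk0'
      rw [h, xx] at h01
      exact odd_of_pow (n := b0) ⟨l0, hb0⟩ h01.symm
    obtain ⟨i2, j2, g1, g2, R2⟩ := hZ.fr y2 hy2Z
    obtain ⟨hp12, hcU⟩ := L.pairU I R2 h03 hy2K hy2x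
    set c := x * y2 with hc
    have hcK : c ∈ K := mul_mem hxK hy2K
    have hcc : c * c = 1 := by
      rw [mul_comm 2 b0, pow_mul, ← h01, pow_two] at h04
      exact h04
    have hcen : ∀ g ∈ K, c * g = g * c := by
      intro g hg
      apply L.eq_of_U I hp12 (mul_mem hcK hg) (mul_mem hg hcK)
      intro w hw
      rw [mul_smul c g, mul_smul g c, hcU _ (L.pres hg hw), hcU _ hw, smul_neg]
    have huniq : ∀ y3 ∈ K, Z y3 → x * y3 = y3 * x → y3 ≠ x → x * y3 = c := by
      intro y3 hy3 hz3 h3 hne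
      obtain ⟨i3, j3, g3, g4, R3⟩ := hZ.fr y3 hz3
      obtain ⟨-, h5⟩ := L.pairU I R3 h3 hy3 hne
      apply L.eq_of_U I hp12 (mul_mem hxK hy3) hcK
      intro w hw
      rw [h5 w hw, hcU w hw]
    set cK : K := ⟨c, hcK⟩ with hcKd
    have hcKc : ∀ g : K, cK * g = g * cK := fun g => Subtype.ext (hcen g g.2)
    have hcK2 : cK * cK = 1 := Subtype.ext hcc
    haveI hnorm : (Subgroup.zpowers cK).Normal := ⟨by
      rintro _ ⟨k, rfl⟩ g
      refine ⟨k, ?_⟩
      have : Commute (cK ^ k) g := (show Commute cK g from hcKc g).zpow_left k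
      show cK ^ k = g * cK ^ k * g⁻¹
      rw [← this.eq, mul_inv_cancel_right]⟩
    have hzc : ∀ g ∈ Subgroup.zpowers cK, g = 1 ∨ g = cK := by
      rintro _ ⟨k, rfl⟩
      rcases Int.even_or_odd k with ⟨m, hm⟩ | ⟨m, hm⟩
      · left
        show cK ^ k = 1
        rw [hm, ← two_mul, zpow_mul, zpow_ofNat, pow_two, hcK2, one_zpow]
      · right
        show cK ^ k = cK
        rw [hm, zpow_add, zpow_mul, zpow_ofNat, pow_two, hcK2, one_zpow, one_mul, zpow_one]
    set π := QuotientGroup.mk' (Subgroup.zpowers cK) with hπ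
    have hπc : π cK = 1 := (QuotientGroup.eq_one_iff _).2 (Subgroup.mem_zpowers cK)
    have hxc : x ≠ c := by
      intro h
      have h1 := hcU p1 InU.h3
      rw [← h, L.xp1] at h1
      have h2 : (2 : F) • p1 = 0 := by
        rw [two_smul]; nth_rewrite 1 [h1]; abel
      have h3 := (smul_eq_zero.1 h2).resolve_left I.two
      apply hp12; rw [h3]; simp
    have hO : H4.OddComm (π xK) := by
      intro q
      obtain ⟨g, rfl⟩ := QuotientGroup.mk'_surjective _ q
      obtain ⟨b, l, w, hb, hw, h1, -, h3, -⟩ := Cl.prod I hZ hx (hZ.conj x hx (g : H))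
      have hwK : w ∈ K := hzp g g.2 hw
      set y' := w * (g * x * (g : H)⁻¹) * w⁻¹ with hy'
      have hy'K : y' ∈ K := mul_mem (mul_mem hwK (mul_mem (mul_mem g.2 hxK) (inv_mem g.2))) (inv_mem hwK)
      have hy'Z : Z y' := hZ.conj _ (hZ.conj x hx g) w
      refine odd_of_pow (n := b) ⟨l, hb⟩ ?_
      rw [← map_mul, ← map_inv, ← map_mul, ← map_inv, ← map_mul, ← map_pow]
      have e : (xK * g * xK⁻¹ * g⁻¹) ^ b = ⟨x * y', mul_mem hxK hy'K⟩ := by
        apply Subtype.ext
        show (x * g * x⁻¹ * (g : H)⁻¹) ^ b = x * y'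
        rw [h1, hxinv]
        congr 1
        group
      rw [e]
      by_cases h5 : y' = x
      · have : (⟨x * y', mul_mem hxK hy'K⟩ : K) = 1 := Subtype.ext (by show x * y' = 1; rw [h5, xx])
        rw [this, map_one]
      · have : (⟨x * y', mul_mem hxK hy'K⟩ : K) = cK := Subtype.ext (huniq y' hy'K hy'Z h3 h5)
        rw [this, hπc]
    have h2 : orderOf (π xK) = 2 := by
      refine orderOf_eq_prime ?_ ?_
      · rw [pow_two, ← map_mul]
        have : xK * xK = 1 := Subtype.ext xx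
        rw [this, map_one]
      · intro h
        rcases hzc _ ((QuotientGroup.eq_one_iff _).1 h) with h | h
        · exact x1 (congrArg Subtype.val h)
        · exact hxc (congrArg Subtype.val h)
    have h3 := H4.zstar h2 hO (π ⟨u, hu⟩)
    set O := Cfsg.pPrimeCore 2 (K ⧸ Subgroup.zpowers cK) with hOdef
    set M : Subgroup K := O.comap π with hM
    have hMn : M.Normal := inferInstance
    have hcM : cK ∈ M := by
      show π cK ∈ O
      rw [hπc]; exact one_mem _
    have hxyM : (⟨x * y, mul_mem hxK hyK⟩ : K) ∈ M := by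
      show π _ ∈ O
      have : (⟨x * y, mul_mem hxK hyK⟩ : K) = xK * ⟨u, hu⟩ * xK⁻¹ * ⟨u, hu⟩⁻¹ := by
        apply Subtype.ext
        show x * y = x * u * x⁻¹ * u⁻¹
        rw [← hux, hxinv]; group
      rw [this, map_mul, map_mul, map_mul, map_inv, map_inv]
      exact h3
    have hzeq : Subgroup.zpowers (⟨cK, hcM⟩ : M) = (Subgroup.zpowers cK).subgroupOf M := by
      ext ⟨m, hm⟩
      rw [Subgroup.mem_subgroupOf, Subgroup.mem_zpowers_iff, Subgroup.mem_zpowers_iff]
      constructor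
      · rintro ⟨k, hk⟩
        exact ⟨k, congrArg Subtype.val hk⟩
      · rintro ⟨k, hk⟩
        exact ⟨k, Subtype.ext hk⟩
    obtain ⟨N0, hN0, hN0'⟩ := central_two (⟨cK, hcM⟩ : M) (fun g => Subtype.ext (hcKc g)) (Subtype.ext hcK2) (by
      rw [hzeq]
      have h5 : (Subgroup.zpowers cK) = (⊥ : Subgroup (K ⧸ Subgroup.zpowers cK)).comap π := by
        ext g
        rw [Subgroup.mem_comap, Subgroup.mem_bot]
        exact (QuotientGroup.eq_one_iff g).symm
      show Odd ((Subgroup.zpowers cK).relIndex M)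
      have h6 : (Subgroup.zpowers cK).relIndex M = Nat.card O := by
        nth_rewrite 1 [h5]
        rw [Subgroup.relIndex_comap, Subgroup.relIndex_bot_left, hM,
          Subgroup.map_comap_eq_self_of_surjective (QuotientGroup.mk'_surjective _)]
      rw [h6]
      exact H4.odd_card_pPrimeCore_two)
    have mem_iff : ∀ g : K, (∃ h : g ∈ M, (⟨g, h⟩ : M) ∈ N0) ↔ g ∈ M ∧ Odd (orderOf g) := by
      intro g
      constructor
      · rintro ⟨h, h'⟩
        refine ⟨h, ?_⟩
        have h5 : orderOf (⟨⟨g, h⟩, h'⟩ : N0) ∣ Nat.card N0 := orderOf_dvd_natCard _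
        rw [Subgroup.orderOf_mk, Subgroup.orderOf_mk] at h5
        exact Odd.of_dvd_nat hN0 h5
      · rintro ⟨h, h'⟩
        refine ⟨h, hN0' _ ?_⟩
        rw [Subgroup.orderOf_mk]; exact h'
    refine ⟨(N0.map M.subtype).map K.subtype, ?_, ?_, ?_, ?_⟩
    · rintro _ ⟨n, -, rfl⟩; exact n.2
    · rintro k hk _ ⟨_, ⟨n, hn, rfl⟩, rfl⟩
      have h5 := (mem_iff n.1).1 ⟨n.2, hn⟩
      obtain ⟨h6, h7⟩ := (mem_iff (⟨k, hk⟩ * n.1 * ⟨k, hk⟩⁻¹)).2 ⟨hMn.conj_mem _ h5.1 _, by
        have : orderOf (⟨k, hk⟩ * n.1 * (⟨k, hk⟩ : K)⁻¹) = orderOf n.1 := by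
          have := orderOf_injective (MulAut.conj (⟨k, hk⟩ : K)).toMonoidHom (MulAut.conj _).injective n.1
          simpa using this
        rw [this]; exact h5.2⟩
      exact ⟨_, ⟨_, h7, rfl⟩, rfl⟩
    · rw [Subgroup.card_map_of_injective K.subtype_injective, Subgroup.card_map_of_injective M.subtype_injective]
      exact hN0
    · obtain ⟨h6, h7⟩ := (mem_iff ⟨x * y, mul_mem hxK hyK⟩).2 ⟨hxyM, by rw [Subgroup.orderOf_mk]; exact hodd⟩
      exact ⟨_, ⟨_, h7, rfl⟩, rfl⟩

/-- two reflections with product of odd order are equal, unless there is a transvection -/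
theorem Cl.claimC [Finite V] [Finite F] (hnd : B.Nondegenerate)
    (hno : ¬ ∃ (r : H) (v : V) (c : F), v ≠ 0 ∧ c ≠ 0 ∧ ∀ u, r • u = u + (c * B u v) • v)
    {x y : H} (hx : Z x) (hy : Z y) (hodd : Odd (orderOf (x * y))) : x = y := by
  by_contra hxy
  obtain ⟨i, j, e1, e2, R⟩ := hZ.fr x hx
  obtain ⟨i', j', f1, f2, R'⟩ := hZ.fr y hy
  set p1 := f1 - pr B e1 e2 f1 with hp1
  set p2 := f2 - pr B e1 e2 f2 with hp2
  have hBf : ∀ w f, B w e1 = 0 → B w e2 = 0 → B w (f - pr B e1 e2 f) = 0 → B w f = 0 := by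
    intro w f h1 h2 h3
    rw [map_sub, pr, map_sub, map_smul, map_smul, h1, h2] at h3
    simpa using h3
  let K : Subgroup H :=
    { carrier := {k | ∀ w, B w e1 = 0 → B w e2 = 0 → B w p1 = 0 → B w p2 = 0 → k • w = w}
      mul_mem' := by
        intro a b ha hb w h1 h2 h3 h4
        rw [mul_smul, hb w h1 h2 h3 h4, ha w h1 h2 h3 h4]
      one_mem' := fun w _ _ _ _ => one_smul H w
      inv_mem' := by
        intro a ha w h1 h2 h3 h4
        rw [inv_smul_eq_iff, ha w h1 h2 h3 h4] }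
  have mK : ∀ k, k ∈ K ↔ ∀ w, B w e1 = 0 → B w e2 = 0 → B w p1 = 0 → B w p2 = 0 → k • w = w := fun k => Iff.rfl
  have hyK : y ∈ K := by
    intro w h1 h2 h3 h4
    exact R'.xfix (hBf w f1 h1 h2 h3) (hBf w f2 h1 h2 h4)
  have hfd : FiniteDimensional F V := inferInstance
  have L : Loc B K x i j e1 e2 p1 p2 :=
    { fr := R
      xp1 := R.xsub I f1
      xp2 := R.xsub I f2
      ki := fun w h1 h2 _ _ => R.fi w h1 h2
      kj := fun w h1 h2 _ _ => R.fj w h1 h2
      kfix := fun k hk => hk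
      kU := by
        intro k hk w
        set U : Submodule F V := Submodule.span F {e1, e2, p1, p2} with hU
        have hrefl : B.IsRefl := by
          intro a b h
          rw [I.neg, h, neg_zero]
        have h1 : k • w - w ∈ B.orthogonal (B.orthogonal U) := by
          rw [LinearMap.BilinForm.mem_orthogonal_iff]
          intro n hn
          rw [LinearMap.BilinForm.mem_orthogonal_iff] at hn
          have hn' : ∀ u ∈ U, B n u = 0 := fun u hu => by rw [I.neg, hn u hu, neg_zero]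
          have hkn : k • n = n := hk n (hn' _ (Submodule.subset_span (by simp)))
            (hn' _ (Submodule.subset_span (by simp))) (hn' _ (Submodule.subset_span (by simp)))
            (hn' _ (Submodule.subset_span (by simp)))
          show B n (k • w - w) = 0
          rw [map_sub, sub_eq_zero]
          have := I.inv k n w
          rwa [hkn] at this
        rw [LinearMap.BilinForm.orthogonal_orthogonal hnd hrefl, hU, Submodule.mem_span_insert] at h1
        obtain ⟨a, z1, hz1, e⟩ := h1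
        rw [Submodule.mem_span_insert] at hz1
        obtain ⟨b, z2, hz2, rfl⟩ := hz1
        rw [Submodule.mem_span_pair] at hz2
        obtain ⟨c, d, rfl⟩ := hz2
        exact ⟨a, b, c, d, by rw [e, add_assoc]⟩ }
  obtain ⟨N, hNK, hNn, hNo, hxyN⟩ := Cl.exists_core I hZ L hx hy hyK hodd
  have hxinv : x⁻¹ = x := inv_eq_of_mul_eq_one_left R.xx
  have hyinv : y⁻¹ = y := inv_eq_of_mul_eq_one_left R'.xx
  -- the quaternion group
  set A : Subgroup H := Subgroup.zpowers i ⊔ Subgroup.zpowers j with hA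
  have iA : i ∈ A := Subgroup.mem_sup_left (Subgroup.mem_zpowers i)
  have jA : j ∈ A := Subgroup.mem_sup_right (Subgroup.mem_zpowers j)
  have xA : x ∈ A := by rw [← R.ii]; exact mul_mem iA iA
  have hcyc : ∀ s : H, s * s = x → IsPGroup 2 (Subgroup.zpowers s) := by
    rintro s hs ⟨_, k, rfl⟩
    refine ⟨2, Subtype.ext ?_⟩
    show (s ^ k) ^ 2 ^ 2 = 1
    have h4 : s ^ (2 ^ 2) = 1 := by
      have : s ^ (2 ^ 2) = (s * s) * (s * s) := by
        have : (2 : ℕ) ^ 2 = 1 + 1 + (1 + 1) := by norm_num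
        rw [this]; simp only [pow_add, pow_one]
      rw [this, hs, R.xx]
    rw [← zpow_natCast, ← zpow_mul, mul_comm, zpow_mul, zpow_natCast, h4, one_zpow]
  have hA2 : IsPGroup 2 A := by
    apply IsPGroup.to_sup_of_normal_left' (hcyc i R.ii) (hcyc j R.jj)
    rw [Subgroup.zpowers_le, norm_iff]
    rintro _ ⟨k, rfl⟩
    refine ⟨-k, ?_⟩
    show i ^ (-k) = j * i ^ k * j⁻¹
    rw [← conj_zpow, zpow_neg, ← inv_zpow]
    congr 1
    have h1 : j * i = x⁻¹ * (i * j) := by rw [R.ij]; group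
    rw [h1]
    have h2 : x⁻¹ * (i * j) * j⁻¹ = x⁻¹ * i := by group
    rw [h2, ← R.ii]; group
  have hAK : A ≤ K := by
    rw [hA, sup_le_iff, Subgroup.zpowers_le, Subgroup.zpowers_le]
    exact ⟨L.ki, L.kj⟩
  have hAN : A ≤ Subgroup.normalizer (N : Set H) := fun a ha => norm_iff.2 (hNn a (hAK ha))
  obtain ⟨n, hn⟩ := IsPGroup.iff_card.1 hA2
  obtain ⟨p, hp, P, hP1, hP2⟩ := H62.exists_invariant_sylow_not_le (A := A) (K := N) (C := Subgroup.centralizer {x})
    hAN (by rw [hn]; exact Nat.Coprime.pow_left n (Nat.coprime_two_left.2 hNo))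
    (Or.inl (by haveI : Group.IsNilpotent A := hA2.isNilpotent; infer_instance)) (by
      intro hle
      have h1 := hle hxyN
      rw [Subgroup.mem_centralizer_singleton_iff] at h1
      apply hxy
      have h2 : (x * y) * (x * y) = 1 := by
        calc (x * y) * (x * y) = (x * y * x) * y := by group
          _ = (x * (x * y)) * y := by rw [h1]
          _ = (x * x) * (y * y) := by group
          _ = 1 := by rw [R.xx, R'.xx, one_mul]
      have h3 := odd_sq hodd h2
      rw [← hyinv]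
      exact eq_inv_of_mul_eq_one_left h3)
  haveI : Fact p.Prime := ⟨hp⟩
  set D : Subgroup H := (P : Subgroup N).map N.subtype with hD
  have hDN : D ≤ N := by rintro _ ⟨q, -, rfl⟩; exact q.2
  have hDp : IsPGroup p D := P.isPGroup'.map N.subtype
  obtain ⟨d, hdD, hdC⟩ := Set.not_subset.1 hP2
  have hdx : x * d ≠ d * x := by
    intro h
    apply hdC
    show d ∈ Subgroup.centralizer {x}
    rw [Subgroup.mem_centralizer_singleton_iff]
    exact h.symm
  have hp2' : p ≠ 2 := by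
    rintro rfl
    have h1 : Odd (orderOf d) := by
      have h2 : orderOf (⟨d, hDN hdD⟩ : N) ∣ Nat.card N := orderOf_dvd_natCard _
      rw [Subgroup.orderOf_mk] at h2
      exact Odd.of_dvd_nat hNo h2
    have h2 := eq_one_of_odd_of_two h1 hDp hdD
    apply hdx
    rw [h2]; simp
  have hinv : ∀ a ∈ A, ∀ q ∈ D, a * q * a⁻¹ ∈ D := fun a ha => norm_iff.1 (hP1 ha)
  obtain ⟨p0, hp0⟩ := CharP.exists F
  have hp0' : p0.Prime := (CharP.char_is_prime_or_zero F p0).resolve_right (CharP.char_ne_zero_of_finite F p0)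
  haveI : Fact p0.Prime := ⟨hp0'⟩
  by_cases hpp : p = p0
  · subst hpp
    exact hno (part2 I L (hDN.trans hNK) hDp (hinv i iA) (hinv j jA) ⟨d, hdD, hdx⟩)
  · refine part1 I L hp2' ?_ (D0 := D) ⟨hDN.trans hNK, hDp, hinv i iA, d⁻¹ * (x * d * x⁻¹),
      mul_mem (inv_mem hdD) (hinv x xA d hdD), ?_, ?_⟩
    · intro h
      rw [CharP.cast_eq_zero_iff F p0] at h
      exact hpp ((Nat.prime_dvd_prime_iff_eq hp0' hp).1 h).symm
    · intro h
      apply hdx
      have h1 : x * d * x⁻¹ = d := by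
        have := congrArg (d * ·) h
        simpa using this
      rw [mul_inv_eq_iff_eq_mul] at h1
      exact h1
    · have : x * (d⁻¹ * (x * d * x⁻¹)) * x⁻¹ = x * d⁻¹ * (x * d) * (x⁻¹ * x⁻¹) := by group
      rw [this]
      have hxx' : x⁻¹ * x⁻¹ = 1 := by rw [hxinv, R.xx]
      have e2 : (d⁻¹ * (x * d * x⁻¹))⁻¹ = x * d⁻¹ * (x⁻¹ * d) := by group
      rw [hxx', mul_one, e2, hxinv]

/-- **Main theorem**: the reflections commute, unless there is a transvection -/
theorem Cl.main [Finite V] [Finite F] (hnd : B.Nondegenerate)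
    (hno : ¬ ∃ (r : H) (v : V) (c : F), v ≠ 0 ∧ c ≠ 0 ∧ ∀ u, r • u = u + (c * B u v) • v)
    {x y : H} (hx : Z x) (hy : Z y) : x * y = y * x := by
  obtain ⟨b, l, u, hb, -, h1, h2, h3, h4⟩ := Cl.prod I hZ hx hy
  have h5 : Odd (orderOf (y * (u * y * u⁻¹))) := by
    refine odd_of_pow (n := b) ⟨l, hb⟩ ?_
    rw [h2, ← pow_mul]
    have : 2 * l * b = (2 * b) * l := by ring
    rw [this, pow_mul, h4, one_pow]
  have h6 := Cl.claimC I hZ hnd hno hy (hZ.conj y hy u) h5
  rw [← h6] at h3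
  exact h3

end Cfsg.Agent.H95.SpT
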