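import Mathlib

/-!
Sylvester-Schur theorem, part A: combinatorial bounds.
-/

set_option autoImplicit false

namespace Cfsg.Agent.H95.SylA

open Finset Nat

/-- a prime larger than `k` dividing one of the `k` numbers below `n` divides the binomial -/
theorem dvd_choose_of_mod {n k p : ℕ} (hp : p.Prime) (hkp : k < p) (hm : n % p < k) :
    p ∣ n.choose k := by
  have h1 : p ∣ n.descFactorial k := by
    rw [Nat.descFactorial_eq_prod_range]
    have h2 : n - n % p = p * (n / p) := by
      have := Nat.div_add_mod n p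
      omega
    have h3 : p ∣ n - n % p := ⟨_, h2⟩
    exact h3.trans (Finset.dvd_prod_of_mem (fun i => n - i) (Finset.mem_range.2 hm))
  rw [Nat.descFactorial_eq_factorial_mul_choose] at h1
  rcases hp.dvd_mul.1 h1 with h | h
  · have := (hp.dvd_factorial).1 h
    omega
  · exact h

/-- the bad situation -/
def Bad (n k : ℕ) : Prop := ∀ p : ℕ, p.Prime → p ∣ n.choose k → p ≤ k

theorem Bad.mod_ge {n k p : ℕ} (h : Bad n k) (hp : p.Prime) (hkp : k < p) :
    k ≤ n % p := by
  by_contra hc
  have := h p hp (dvd_choose_of_mod hp hkp (by omega))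
  omega

theorem Bad.fac_eq_zero {n k p : ℕ} (h : Bad n k) (hkp : k < p) :
    (n.choose k).factorization p = 0 := by
  by_cases hp : p.Prime
  · by_contra hc
    have : p ∣ n.choose k := by
      by_contra hd
      exact hc (Nat.factorization_eq_zero_of_not_dvd hd)
    have := h p hp this
    omega
  · exact Nat.factorization_eq_zero_of_not_prime _ hp

theorem Bad.prod_eq {n k : ℕ} (h : Bad n k) (hkn : k ≤ n) :
    ∏ p ∈ (Finset.range (k + 1)).filter Nat.Prime, p ^ (n.choose k).factorization p = n.choose k := by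
  refine Eq.trans ?_ (Nat.prod_pow_factorization_choose n k hkn)
  apply Finset.prod_subset
  · intro p hp
    simp only [Finset.mem_filter, Finset.mem_range] at hp ⊢
    omega
  · intro p hp hp'
    simp only [Finset.mem_filter, Finset.mem_range, not_and_or] at hp hp'
    rcases hp' with h1 | h1
    · rw [h.fac_eq_zero (by omega)]; simp
    · rw [Nat.factorization_eq_zero_of_not_prime _ h1]; simp

theorem card_filter_prime (m : ℕ) :
    ((Finset.range (m + 1)).filter Nat.Prime).card = Nat.primeCounting m := by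
  rw [Nat.primeCounting, Nat.primeCounting', Nat.count_eq_card_filter_range]

/-- (I) upper bound -/
theorem Bad.choose_le {n k : ℕ} (h : Bad n k) (hkn : k ≤ n) (hn : 0 < n) :
    n.choose k ≤ n ^ (Nat.primeCounting k) := by
  conv_lhs => rw [← h.prod_eq hkn]
  rw [← card_filter_prime, ← Finset.prod_const]
  exact Finset.prod_le_prod' fun p _ => Nat.pow_factorization_choose_le hn

/-- (I) lower bound -/
theorem pow_le_pow_mul_choose {n k : ℕ} (hkn : k ≤ n) : n ^ k ≤ k ^ k * n.choose k := by
  have h1 : n ^ k * k.factorial ≤ k ^ k * (k.factorial * n.choose k) := by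
    rw [← Nat.descFactorial_eq_factorial_mul_choose, ← Nat.descFactorial_self k,
      Nat.descFactorial_eq_prod_range, Nat.descFactorial_eq_prod_range]
    have e1 : n ^ k = ∏ _i ∈ Finset.range k, n := by simp
    have e2 : k ^ k = ∏ _i ∈ Finset.range k, k := by simp
    rw [e1, e2, ← Finset.prod_mul_distrib, ← Finset.prod_mul_distrib]
    apply Finset.prod_le_prod'
    intro i hi
    rw [Finset.mem_range] at hi
    obtain ⟨a, rfl⟩ : ∃ a, k = i + a := ⟨k - i, by omega⟩
    obtain ⟨b, rfl⟩ : ∃ b, n = i + a + b := ⟨n - (i + a), by omega⟩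
    have e3 : i + a - i = a := by omega
    have e4 : i + a + b - i = a + b := by omega
    rw [e3, e4]
    nlinarith [Nat.zero_le (i * b)]
  have h2 : k ^ k * (k.factorial * n.choose k) = (k ^ k * n.choose k) * k.factorial := by ring
  rw [h2] at h1
  exact Nat.le_of_mul_le_mul_right h1 (Nat.factorial_pos k)

/-- (I) -/
theorem Bad.pow_le {n k : ℕ} (h : Bad n k) (hkn : k ≤ n) (hn : 0 < n) :
    n ^ k ≤ k ^ k * n ^ (Nat.primeCounting k) :=
  (pow_le_pow_mul_choose hkn).trans (Nat.mul_le_mul_left _ (h.choose_le hkn hn))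

/-- (II) upper bound -/
theorem Bad.choose_le' {n k m : ℕ} (h : Bad n k) (hkn : 2 * k ≤ n) (hn : 8 ≤ n)
    (hm : ∀ p, p.Prime → p ≤ k → n < 3 * p ∨ p ≤ m) :
    n.choose k ≤ n ^ (Nat.primeCounting (Nat.sqrt n)) * 4 ^ m := by
  have hkn' : k ≤ n := by omega
  conv_lhs => rw [← h.prod_eq hkn']
  set S := (Finset.range (k + 1)).filter Nat.Prime with hS
  set f := (n.choose k).factorization with hf
  have h1 : ∏ p ∈ S, p ^ f p =
      (∏ p ∈ S.filter (fun p => p ≤ Nat.sqrt n), p ^ f p) *
        (∏ p ∈ S.filter (fun p => ¬ p ≤ Nat.sqrt n), p ^ f p) :=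
    (Finset.prod_filter_mul_prod_filter_not S _ _).symm
  rw [h1]
  apply Nat.mul_le_mul
  · calc (∏ p ∈ S.filter (fun p => p ≤ Nat.sqrt n), p ^ f p)
        ≤ ∏ _p ∈ S.filter (fun p => p ≤ Nat.sqrt n), n :=
          Finset.prod_le_prod' fun p _ => Nat.pow_factorization_choose_le (by omega)
      _ = n ^ (S.filter (fun p => p ≤ Nat.sqrt n)).card := by rw [Finset.prod_const]
      _ ≤ n ^ (Nat.primeCounting (Nat.sqrt n)) := by
          apply Nat.pow_le_pow_right (by omega)
          rw [← card_filter_prime]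
          apply Finset.card_le_card
          intro p hp
          simp only [hS, Finset.mem_filter, Finset.mem_range] at hp ⊢
          exact ⟨by omega, hp.1.2⟩
  · have h2 : ∏ p ∈ S.filter (fun p => ¬ p ≤ Nat.sqrt n), p ^ f p ≤
        ∏ p ∈ (S.filter (fun p => ¬ p ≤ Nat.sqrt n)).filter (fun p => p ≤ m), p := by
      rw [← Finset.prod_filter_mul_prod_filter_not (S.filter (fun p => ¬ p ≤ Nat.sqrt n))
        (fun p => p ≤ m) (fun p => p ^ f p)]
      have h3 : ∏ p ∈ (S.filter (fun p => ¬ p ≤ Nat.sqrt n)).filter (fun p => ¬ p ≤ m), p ^ f p = 1 := by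
        apply Finset.prod_eq_one
        intro p hp
        simp only [hS, Finset.mem_filter, Finset.mem_range] at hp
        obtain ⟨⟨⟨hpk, hpp⟩, hps⟩, hpm⟩ := hp
        rcases hm p hpp (by omega) with h4 | h4
        · have hp2 : p ≠ 2 := by
            rintro rfl
            omega
          have : f p = 0 := by
            rw [hf]
            exact Nat.factorization_choose_of_lt_three_mul hp2 (by omega) (by omega) h4
          rw [this]; simp
        · omega
      rw [h3, mul_one]
      apply Finset.prod_le_prod'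
      intro p hp
      simp only [hS, Finset.mem_filter, Finset.mem_range] at hp
      obtain ⟨⟨⟨hpk, hpp⟩, hps⟩, hpm⟩ := hp
      have h5 : f p ≤ 1 := by
        rw [hf]
        apply Nat.factorization_choose_le_one
        rw [pow_two]
        exact Nat.sqrt_lt.1 (by omega)
      calc p ^ f p ≤ p ^ 1 := Nat.pow_le_pow_right hpp.pos h5
        _ = p := pow_one p
    refine h2.trans ?_
    refine le_trans ?_ (primorial_le_four_pow m)
    rw [primorial]
    apply Finset.prod_le_prod_of_subset_of_one_le'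
    · intro p hp
      simp only [hS, Finset.mem_filter, Finset.mem_range] at hp ⊢
      exact ⟨by omega, hp.1.1.2⟩
    · intro p hp _
      simp only [Finset.mem_filter] at hp
      exact hp.2.pos

/-- (III) A -/
theorem lowA (k : ℕ) (hk : 0 < k) (d : ℕ) (hd : d ≤ k) :
    4 ^ k * 3 ^ d ≤ 2 * k * 2 ^ d * (2 * k + d).choose k := by
  induction d with
  | zero =>
    have := Nat.four_pow_le_two_mul_self_mul_centralBinom k hk
    simpa [Nat.centralBinom] using this
  | succ d ih =>
    have ih' := ih (by omega)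
    have h1 := Nat.choose_mul_succ_eq (2 * k + d) k
    have h2 : 2 * k + d + 1 - k = k + d + 1 := by omega
    rw [h2] at h1
    have e : 2 * k + (d + 1) = 2 * k + d + 1 := by ring
    rw [e]
    set A := (2 * k + d).choose k
    set B := (2 * k + d + 1).choose k
    have h3 : 3 * A ≤ 2 * B := by
      have h4 : 3 * (k + d + 1) ≤ 2 * (2 * k + d + 1) := by omega
      have h5 : (3 * A) * (k + d + 1) ≤ (2 * B) * (k + d + 1) := by
        calc (3 * A) * (k + d + 1) = A * (3 * (k + d + 1)) := by ring
          _ ≤ A * (2 * (2 * k + d + 1)) := Nat.mul_le_mul_left _ h4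
          _ = 2 * (A * (2 * k + d + 1)) := by ring
          _ = 2 * (B * (k + d + 1)) := by rw [h1]
          _ = (2 * B) * (k + d + 1) := by ring
      exact Nat.le_of_mul_le_mul_right h5 (by omega)
    calc 4 ^ k * 3 ^ (d + 1) = (4 ^ k * 3 ^ d) * 3 := by ring
      _ ≤ (2 * k * 2 ^ d * A) * 3 := Nat.mul_le_mul_right _ ih'
      _ = (2 * k * 2 ^ d) * (3 * A) := by ring
      _ ≤ (2 * k * 2 ^ d) * (2 * B) := Nat.mul_le_mul_left _ h3
      _ = 2 * k * 2 ^ (d + 1) * B := by ring

/-- (III) B -/
theorem lowB (n k : ℕ) (hk : 0 < k) (hn : 3 * k ≤ n) :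
    (2 * n) ^ k ≤ 2 * k * k ^ k * n.choose k := by
  have h0 : 6 ^ k ≤ 2 * k * (3 * k).choose k := by
    have := lowA k hk k le_rfl
    have e : 2 * k + k = 3 * k := by ring
    rw [e] at this
    have h1 : 6 ^ k * 2 ^ k ≤ (2 * k * (3 * k).choose k) * 2 ^ k := by
      calc 6 ^ k * 2 ^ k = 4 ^ k * 3 ^ k := by rw [← Nat.mul_pow, ← Nat.mul_pow]
        _ ≤ _ := this
        _ = _ := by ring
    exact Nat.le_of_mul_le_mul_right h1 (by positivity)
  have h1 : n ^ k * (3 * k).descFactorial k ≤ (3 * k) ^ k * n.descFactorial k := by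
    rw [Nat.descFactorial_eq_prod_range, Nat.descFactorial_eq_prod_range]
    have e1 : n ^ k = ∏ _i ∈ Finset.range k, n := by simp
    have e2 : (3 * k) ^ k = ∏ _i ∈ Finset.range k, (3 * k) := by simp
    rw [e1, e2, ← Finset.prod_mul_distrib, ← Finset.prod_mul_distrib]
    apply Finset.prod_le_prod'
    intro i hi
    rw [Finset.mem_range] at hi
    obtain ⟨b, rfl⟩ : ∃ b, n = 3 * k + b := ⟨n - 3 * k, by omega⟩
    obtain ⟨a, ha⟩ : ∃ a, 3 * k = i + a := ⟨3 * k - i, by omega⟩
    rw [ha]
    have e3 : i + a - i = a := by omega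
    have e4 : i + a + b - i = a + b := by omega
    rw [e3, e4]
    nlinarith [Nat.zero_le (i * b)]
  rw [Nat.descFactorial_eq_factorial_mul_choose, Nat.descFactorial_eq_factorial_mul_choose] at h1
  have h2 : n ^ k * (3 * k).choose k ≤ (3 * k) ^ k * n.choose k := by
    have : (n ^ k * (3 * k).choose k) * k.factorial ≤ ((3 * k) ^ k * n.choose k) * k.factorial := by
      calc _ = n ^ k * (k.factorial * (3 * k).choose k) := by ring
        _ ≤ _ := h1
        _ = _ := by ring
    exact Nat.le_of_mul_le_mul_right this (Nat.factorial_pos k)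
  have h3 : (2 * n) ^ k * 3 ^ k ≤ (2 * k * k ^ k * n.choose k) * 3 ^ k := by
    calc (2 * n) ^ k * 3 ^ k = n ^ k * 6 ^ k := by
          rw [← Nat.mul_pow, ← Nat.mul_pow]; congr 1; ring
      _ ≤ n ^ k * (2 * k * (3 * k).choose k) := Nat.mul_le_mul_left _ h0
      _ = 2 * k * (n ^ k * (3 * k).choose k) := by ring
      _ ≤ 2 * k * ((3 * k) ^ k * n.choose k) := Nat.mul_le_mul_left _ h2
      _ = _ := by rw [Nat.mul_pow]; ring
  exact Nat.le_of_mul_le_mul_right h3 (by positivity)

end Cfsg.Agent.H95.SylA
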