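import Cfsg.Agent.H95.SylB

/-!
Sylvester-Schur theorem, part C: large cases.
-/

set_option autoImplicit false

namespace Cfsg.Agent.H95.SylC

open Finset Nat SylA SylB

theorem log_le_aux {t : ℝ} (ht : 0 < t) : Real.log t ≤ t / 16 - 1 + 4 * Real.log 2 := by
  have h1 : Real.log t = Real.log (t / 16) + Real.log 16 := by
    rw [← Real.log_mul (by positivity) (by norm_num)]
    congr 1; ring
  have h2 : Real.log 16 = 4 * Real.log 2 := by
    have : (16 : ℝ) = 2 ^ 4 := by norm_num
    rw [this, Real.log_pow]; norm_num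
  have h3 := Real.log_le_sub_one_of_pos (show (0 : ℝ) < t / 16 by positivity)
  linarith

theorem l2lo : (0.6931 : ℝ) < Real.log 2 := by
  have := Real.log_two_gt_d9; linarith

theorem l2hi : Real.log 2 < (0.6932 : ℝ) := by
  have := Real.log_two_lt_d9; linarith

theorem l3hi : 5 * Real.log 3 ≤ 8 * Real.log 2 := by
  have h1 : Real.log ((3 : ℝ) ^ 5) ≤ Real.log ((2 : ℝ) ^ 8) :=
    Real.log_le_log (by norm_num) (by norm_num)
  rw [Real.log_pow, Real.log_pow] at h1
  norm_num at h1
  linarith

theorem l3lo : 19 * Real.log 2 ≤ 12 * Real.log 3 := by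
  have h1 : Real.log ((2 : ℝ) ^ 19) ≤ Real.log ((3 : ℝ) ^ 12) :=
    Real.log_le_log (by norm_num) (by norm_num)
  rw [Real.log_pow, Real.log_pow] at h1
  norm_num at h1
  linarith

/-- numerical core: `c t² ≤ log (2 t²) + (s/2) t (lb + 2 log t)` is impossible -/
theorem core {t c s lb : ℝ} (ht : 20 ≤ t) (hs : 0 ≤ s) 
    (h20 : (t / 8 + 4.2388) + (s / 2) * t * (lb + t / 8 + 3.5456) < c * t ^ 2)
    (h : c * t ^ 2 ≤ Real.log 2 + 2 * Real.log t + (s / 2) * t * (lb + 2 * Real.log t)) : False := by
  have h1 := log_le_aux (show 0 < t by linarith)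
  have h2 := l2hi
  have h3 : 2 * Real.log t ≤ t / 8 + 3.5456 := by linarith
  have h4 : (s / 2) * t * (lb + 2 * Real.log t) ≤ (s / 2) * t * (lb + t / 8 + 3.5456) := by
    apply mul_le_mul_of_nonneg_left
    · linarith
    · positivity
  linarith

theorem Bad.logB {n k : ℕ} (hb : Bad n k) (hk : 400 ≤ k) (hn : 3 * k ≤ n) :
    (k : ℝ) * (Real.log n - Real.log k - Real.log 2) ≤
      Real.log (2 * k) + (Real.sqrt n / 2) * Real.log n := by
  have h1 := lowB n k (by omega) hn
  have h2 := hb.choose_le' (m := k) (by omega) (by omega) (fun p _ h => Or.inr h)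
  have h3 : (2 * n) ^ k ≤ 2 * k * k ^ k * (n ^ (Nat.primeCounting (Nat.sqrt n)) * 4 ^ k) :=
    h1.trans (Nat.mul_le_mul_left _ h2)
  have hk0 : (0 : ℝ) < k := by exact_mod_cast (by omega : 0 < k)
  have hn0 : (0 : ℝ) < n := by exact_mod_cast (by omega : 0 < n)
  have h4 : ((2 * n : ℝ)) ^ k ≤ 2 * k * (k : ℝ) ^ k * ((n : ℝ) ^ (Nat.primeCounting (Nat.sqrt n)) * 4 ^ k) := by
    exact_mod_cast h3
  have h5 := Real.log_le_log (by positivity) h4
  rw [Real.log_pow, Real.log_mul (by norm_num) hn0.ne', Real.log_mul (by positivity) (by positivity),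
    Real.log_mul (by positivity) (by positivity), Real.log_mul (by positivity) (by positivity),
    Real.log_mul (by positivity) (by positivity),
    Real.log_pow, Real.log_pow, Real.log_pow] at h5
  rw [Real.log_mul (by positivity) (by positivity)]
  have e4 : Real.log 4 = 2 * Real.log 2 := by
    have : (4 : ℝ) = 2 ^ 2 := by norm_num
    rw [this, Real.log_pow]; norm_num
  rw [e4] at h5
  have h6 : (Nat.primeCounting (Nat.sqrt n) : ℝ) ≤ Real.sqrt n / 2 := by
    have a1 := pi_half (s := Nat.sqrt n) (by
      rw [Nat.le_sqrt]; omega)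
    have a2 : (2 * Nat.primeCounting (Nat.sqrt n) : ℝ) ≤ (Nat.sqrt n : ℝ) := by exact_mod_cast a1
    have a3 := Real.nat_sqrt_le_real_sqrt (a := n)
    linarith
  have h7 : 0 ≤ Real.log n := Real.log_nonneg (by exact_mod_cast (by omega : 1 ≤ n))
  have h8 := mul_le_mul_of_nonneg_right h6 h7
  linarith

theorem Bad.logA {n k : ℕ} (hb : Bad n k) (hk : 400 ≤ k) (hn : 2 * k ≤ n) (hn3 : n ≤ 3 * k) :
    (k : ℝ) * (Real.log 3 - Real.log 2) ≤
      Real.log (2 * k) + (Real.sqrt n / 2) * Real.log n := by
  obtain ⟨d, rfl⟩ : ∃ d, n = 2 * k + d := ⟨n - 2 * k, by omega⟩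
  have h1 := lowA k (by omega) d (by omega)
  have h2 := hb.choose_le' (m := (2 * k + d) / 3) (by omega) (by omega) (fun p _ h => by omega)
  set n := 2 * k + d with hnd
  have h3 : 4 ^ k * 3 ^ d ≤ 2 * k * 2 ^ d * (n ^ (Nat.primeCounting (Nat.sqrt n)) * 4 ^ (n / 3)) :=
    h1.trans (Nat.mul_le_mul_left _ h2)
  have hk0 : (0 : ℝ) < k := by exact_mod_cast (by omega : 0 < k)
  have hn0 : (0 : ℝ) < n := by exact_mod_cast (by omega : 0 < n)
  have h4 : ((4 : ℝ)) ^ k * 3 ^ d ≤ 2 * k * (2 : ℝ) ^ d * ((n : ℝ) ^ (Nat.primeCounting (Nat.sqrt n)) * 4 ^ (n / 3)) := by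
    exact_mod_cast h3
  have h5 := Real.log_le_log (by positivity) h4
  rw [Real.log_mul (by positivity) (by positivity), Real.log_pow, Real.log_pow,
    Real.log_mul (by positivity) (by positivity),
    Real.log_mul (by positivity) (by positivity), Real.log_mul (by positivity) (by positivity),
    Real.log_mul (by positivity) (by positivity),
    Real.log_pow, Real.log_pow, Real.log_pow] at h5
  rw [Real.log_mul (by positivity) (by positivity)]
  have e4 : Real.log 4 = 2 * Real.log 2 := by
    have : (4 : ℝ) = 2 ^ 2 := by norm_num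
    rw [this, Real.log_pow]; norm_num
  rw [e4] at h5
  have h6 : (Nat.primeCounting (Nat.sqrt n) : ℝ) ≤ Real.sqrt n / 2 := by
    have a1 := pi_half (s := Nat.sqrt n) (by
      rw [Nat.le_sqrt]; omega)
    have a2 : (2 * Nat.primeCounting (Nat.sqrt n) : ℝ) ≤ (Nat.sqrt n : ℝ) := by exact_mod_cast a1
    have a3 := Real.nat_sqrt_le_real_sqrt (a := n)
    linarith
  have h7 : 0 ≤ Real.log n := Real.log_nonneg (by exact_mod_cast (by omega : 1 ≤ n))
  have h8 := mul_le_mul_of_nonneg_right h6 h7
  have h9 : ((n / 3 : ℕ) : ℝ) ≤ (2 * k + d) / 3 := by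
    have b1 : 3 * (n / 3) ≤ n := Nat.mul_div_le n 3
    have b2 : (3 * (n / 3 : ℕ) : ℝ) ≤ ((2 * k + d : ℕ) : ℝ) := by exact_mod_cast b1
    push_cast at b2
    linarith
  have h10 := l2lo
  have h11 := l3hi
  have h12 := mul_le_mul_of_nonneg_right h9 (show (0 : ℝ) ≤ 2 * Real.log 2 by linarith)
  have hd0 : (0 : ℝ) ≤ d := by positivity
  have hdk : (d : ℝ) ≤ k := by exact_mod_cast (by omega : d ≤ k)
  have h13 : 0 ≤ ((k : ℝ) - d) * ((5 / 3) * Real.log 2 - Real.log 3) := by
    apply mul_nonneg
    · linarith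
    · linarith
  nlinarith

theorem large {n k : ℕ} (hk : 400 ≤ k) (hn : 2 * k ≤ n) : ¬ Bad n k := by
  intro hb
  have hsq := sq_le_cube (by omega) hn hb
  have hk0 : (0 : ℝ) < k := by exact_mod_cast (by omega : 0 < k)
  have hn0 : (0 : ℝ) < n := by exact_mod_cast (by omega : 0 < n)
  obtain ⟨t, ht⟩ : ∃ t : ℝ, t = Real.sqrt k := ⟨_, rfl⟩
  have htk : t ^ 2 = k := by rw [ht]; exact Real.sq_sqrt hk0.le
  have ht20 : 20 ≤ t := by
    rw [ht]
    apply Real.le_sqrt_of_sq_le
    norm_num
    exact_mod_cast hk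
  have ht0 : 0 < t := by linarith
  have hlk : Real.log k = 2 * Real.log t := by
    rw [← htk, Real.log_pow]; norm_num
  have hl2k : Real.log (2 * k) = Real.log 2 + 2 * Real.log t := by
    rw [Real.log_mul (by norm_num) hk0.ne', hlk]
  have l2a := l2lo
  have l2b := l2hi
  have l3a := l3lo
  have l3b := l3hi
  have e4 : Real.log 4 = 2 * Real.log 2 := by
    have : (4 : ℝ) = 2 ^ 2 := by norm_num
    rw [this, Real.log_pow]; norm_num
  have e8 : Real.log 8 = 3 * Real.log 2 := by
    have : (8 : ℝ) = 2 ^ 3 := by norm_num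
    rw [this, Real.log_pow]; norm_num
  have e16 : Real.log 16 = 4 * Real.log 2 := by
    have : (16 : ℝ) = 2 ^ 4 := by norm_num
    rw [this, Real.log_pow]; norm_num
  -- general bound for the right hand side
  have rhs : ∀ (b : ℕ) (s : ℝ), 0 < b → (b : ℝ) ≤ s ^ 2 → 0 ≤ s → n ≤ b * k →
      (Real.sqrt n / 2) * Real.log n ≤ (s / 2) * t * (Real.log b + 2 * Real.log t) := by
    intro b s hb0 hs hs0 hnb
    have hb0' : (0 : ℝ) < b := by exact_mod_cast hb0
    have hnb' : (n : ℝ) ≤ b * k := by exact_mod_cast hnb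
    have g1 : Real.sqrt n ≤ s * t := by
      apply Real.sqrt_le_iff.2
      refine ⟨by positivity, ?_⟩
      rw [mul_pow, htk]
      exact hnb'.trans (mul_le_mul_of_nonneg_right hs hk0.le)
    have g2 : Real.log n ≤ Real.log b + 2 * Real.log t := by
      rw [← hlk, ← Real.log_mul hb0'.ne' hk0.ne']
      exact Real.log_le_log hn0 hnb'
    have g3 : 0 ≤ Real.log n := Real.log_nonneg (by exact_mod_cast (by omega : 1 ≤ n))
    calc (Real.sqrt n / 2) * Real.log n ≤ (s * t / 2) * Real.log n := by
          apply mul_le_mul_of_nonneg_right _ g3; linarith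
      _ ≤ (s * t / 2) * (Real.log b + 2 * Real.log t) := by
          apply mul_le_mul_of_nonneg_left g2; positivity
      _ = _ := by ring
  -- lower bound for the left hand side in case B
  have lhs : ∀ (a : ℕ), 0 < a → a * k ≤ n → 
      (k : ℝ) * (Real.log a - Real.log 2) ≤ (k : ℝ) * (Real.log n - Real.log k - Real.log 2) := by
    intro a ha hak
    have ha' : (0 : ℝ) < a := by exact_mod_cast ha
    apply mul_le_mul_of_nonneg_left _ hk0.le
    have : Real.log a + Real.log k ≤ Real.log n := by
      rw [← Real.log_mul ha'.ne' hk0.ne']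
      exact Real.log_le_log (by positivity) (by exact_mod_cast hak)
    linarith
  rcases le_or_gt n (3 * k) with c1 | c1
  · -- case A
    have h1 := Bad.logA hb hk hn c1
    have h2 := rhs 3 1.7321 (by norm_num) (by norm_num) (by norm_num) c1
    refine core (t := t) (c := 0.4043) (s := 1.7321) (lb := 1.1092) ht20 (by norm_num)
      (by nlinarith) ?_
    have h3 : (0.4043 : ℝ) * t ^ 2 ≤ k * (Real.log 3 - Real.log 2) := by
      rw [htk, mul_comm]
      apply mul_le_mul_of_nonneg_left _ hk0.le
      linarith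
    have h4 : (1.7321 / 2) * t * (Real.log (3 : ℕ) + 2 * Real.log t) ≤
        (1.7321 / 2) * t * (1.1092 + 2 * Real.log t) := by
      apply mul_le_mul_of_nonneg_left _ (by positivity)
      push_cast
      linarith
    linarith
  · have h1 := Bad.logB hb hk c1.le
    rcases le_or_gt n (4 * k) with c2 | c2
    · have h2 := rhs 4 2 (by norm_num) (by norm_num) (by norm_num) c2
      have h0 := lhs 3 (by norm_num) c1.le
      refine core (t := t) (c := 0.4043) (s := 2) (lb := 1.3864) ht20 (by norm_num)
        (by nlinarith) ?_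
      have h3 : (0.4043 : ℝ) * t ^ 2 ≤ k * (Real.log (3 : ℕ) - Real.log 2) := by
        rw [htk, mul_comm]
        apply mul_le_mul_of_nonneg_left _ hk0.le
        push_cast
        linarith
      have h4 : ((2 : ℝ) / 2) * t * (Real.log (4 : ℕ) + 2 * Real.log t) ≤
          ((2 : ℝ) / 2) * t * (1.3864 + 2 * Real.log t) := by
        apply mul_le_mul_of_nonneg_left _ (by positivity)
        push_cast
        linarith
      simp only [Nat.cast_ofNat] at h0 h2 h3 h4
      linarith
    · rcases le_or_gt n (8 * k) with c3 | c3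
      · have h2 := rhs 8 2.8285 (by norm_num) (by norm_num) (by norm_num) c3
        have h0 := lhs 4 (by norm_num) c2.le
        refine core (t := t) (c := 0.6931) (s := 2.8285) (lb := 2.0796) ht20 (by norm_num)
          (by nlinarith) ?_
        have h3 : (0.6931 : ℝ) * t ^ 2 ≤ k * (Real.log (4 : ℕ) - Real.log 2) := by
          rw [htk, mul_comm]
          apply mul_le_mul_of_nonneg_left _ hk0.le
          push_cast
          linarith
        have h4 : ((2.8285 : ℝ) / 2) * t * (Real.log (8 : ℕ) + 2 * Real.log t) ≤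
            ((2.8285 : ℝ) / 2) * t * (2.0796 + 2 * Real.log t) := by
          apply mul_le_mul_of_nonneg_left _ (by positivity)
          push_cast
          linarith
        simp only [Nat.cast_ofNat] at h0 h2 h3 h4
        linarith
      · rcases le_or_gt n (16 * k) with c4 | c4
        · have h2 := rhs 16 4 (by norm_num) (by norm_num) (by norm_num) c4
          have h0 := lhs 8 (by norm_num) c3.le
          refine core (t := t) (c := 1.3862) (s := 4) (lb := 2.7728) ht20 (by norm_num)
            (by nlinarith) ?_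
          have h3 : (1.3862 : ℝ) * t ^ 2 ≤ k * (Real.log (8 : ℕ) - Real.log 2) := by
            rw [htk, mul_comm]
            apply mul_le_mul_of_nonneg_left _ hk0.le
            push_cast
            linarith
          have h4 : ((4 : ℝ) / 2) * t * (Real.log (16 : ℕ) + 2 * Real.log t) ≤
              ((4 : ℝ) / 2) * t * (2.7728 + 2 * Real.log t) := by
            apply mul_le_mul_of_nonneg_left _ (by positivity)
            push_cast
            linarith
          simp only [Nat.cast_ofNat] at h0 h2 h3 h4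
          linarith
        · have h0 := lhs 16 (by norm_num) c4.le
          obtain ⟨v, hv⟩ : ∃ v : ℝ, v = Real.sqrt (Real.sqrt t) := ⟨_, rfl⟩
          have hv0 : 0 < v := by rw [hv]; positivity
          have hvt : v ^ 4 = t := by
            rw [show v ^ 4 = (v ^ 2) ^ 2 by ring, hv, Real.sq_sqrt (by positivity),
              Real.sq_sqrt ht0.le]
          have hvk : v ^ 8 = k := by rw [show v ^ 8 = (v ^ 4) ^ 2 by ring, hvt, htk]
          have hv2 : 2 ≤ v := by
            by_contra hc
            have : v ^ 4 < 2 ^ 4 := pow_lt_pow_left₀ (not_le.1 hc) hv0.le (by norm_num)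
            rw [hvt] at this
            norm_num at this
            linarith
          have hsq' : (n : ℝ) ^ 2 ≤ (k : ℝ) ^ 3 := by exact_mod_cast hsq
          have hnv : (n : ℝ) ≤ v ^ 12 := by
            rw [← hvk] at hsq'
            have : (n : ℝ) ^ 2 ≤ (v ^ 12) ^ 2 := by
              calc (n : ℝ) ^ 2 ≤ (v ^ 8) ^ 3 := hsq'
                _ = _ := by ring
            exact (pow_le_pow_iff_left₀ hn0.le (by positivity) (by norm_num)).1 this
          have g1 : Real.sqrt n ≤ v ^ 6 := by
            apply Real.sqrt_le_iff.2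
            refine ⟨by positivity, hnv.trans (le_of_eq (by ring))⟩
          have g2 : Real.log n ≤ 12 * (v - 1) := by
            have a1 := Real.log_le_log hn0 hnv
            rw [Real.log_pow] at a1
            have a2 := Real.log_le_sub_one_of_pos hv0
            push_cast at a1
            linarith
          have g3 : 0 ≤ Real.log n := Real.log_nonneg (by exact_mod_cast (by omega : 1 ≤ n))
          have g4 : (Real.sqrt n / 2) * Real.log n ≤ 6 * v ^ 6 * (v - 1) := by
            calc (Real.sqrt n / 2) * Real.log n ≤ (v ^ 6 / 2) * Real.log n := by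
                  apply mul_le_mul_of_nonneg_right _ g3; linarith
              _ ≤ (v ^ 6 / 2) * (12 * (v - 1)) := by
                  apply mul_le_mul_of_nonneg_left g2; positivity
              _ = _ := by ring
          have g5 : Real.log t ≤ 4 * (v - 1) := by
            rw [← hvt, Real.log_pow]
            have a2 := Real.log_le_sub_one_of_pos hv0
            push_cast
            linarith
          have h3 : (2.0793 : ℝ) * v ^ 8 ≤ k * (Real.log (16 : ℕ) - Real.log 2) := by
            rw [hvk, mul_comm]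
            apply mul_le_mul_of_nonneg_left _ hk0.le
            push_cast
            linarith
          simp only [Nat.cast_ofNat] at h0 h3
          have h5 : 2.0793 * v ^ 8 ≤ 0.6932 + 8 * (v - 1) + 6 * v ^ 6 * (v - 1) := by linarith
          have h6 : 1.6 ≤ 2.0793 * v ^ 2 - 6 * v + 6 := by nlinarith [sq_nonneg (v - 1.4427)]
          have h7 : 1.6 * v ^ 6 ≤ 2.0793 * v ^ 8 - 6 * v ^ 7 + 6 * v ^ 6 := by
            have : v ^ 6 * 1.6 ≤ v ^ 6 * (2.0793 * v ^ 2 - 6 * v + 6) :=
              mul_le_mul_of_nonneg_left h6 (by positivity)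
            nlinarith
          have h8 : 32 * v ≤ v ^ 6 := by
            have : (2 : ℝ) ^ 5 ≤ v ^ 5 := pow_le_pow_left₀ (by norm_num) hv2 5
            nlinarith
          nlinarith

/-- The theorem of Sylvester and Schur. -/
theorem sylvester_schur {n k : ℕ} (hk : 1 ≤ k) (hn : 2 * k ≤ n) :
    ∃ p : ℕ, p.Prime ∧ k < p ∧ p ∣ n.choose k := by
  by_contra hc
  have hb : Bad n k := by
    intro p hp hd
    by_contra h
    exact hc ⟨p, hp, by omega, hd⟩
  by_cases h : k < 400
  · exact small hk h hn hb
  · exact large (by omega) hn hb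

end Cfsg.Agent.H95.SylC
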